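import Mathlib
import Cfsg.Prelude.Def_Classical
import Cfsg.Prelude.Def_CaseTheorems
import Cfsg.Agent.Lib.KM.A

/-!
Simple groups of order `p 3^a 2^b`: interfaces (see `blueprint/K3P/README.md`).
-/

set_option autoImplicit false
set_option linter.unusedVariables false

namespace K3P

open Cfsg Subgroup H71KM
open scoped commutatorElement

/-- the conclusion of the theorem. -/
def Concl (G : Type*) [Group G] : Prop :=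
  Nonempty (G ≃* alternatingGroup (Fin 5)) ∨ Nonempty (G ≃* alternatingGroup (Fin 6)) ∨
  (∃ (F : Type) (_ : Field F) (_ : Fintype F), Fintype.card F = 3 ∧ Nonempty (G ≃* Cfsg.PSp 2 F)) ∨
  (∃ (F : Type) (_ : Field F) (_ : Fintype F),
    (Fintype.card F = 7 ∨ Fintype.card F = 8 ∨ Fintype.card F = 17) ∧
      Nonempty (G ≃* Matrix.ProjectiveSpecialLinearGroup (Fin 2) F)) ∨
  (∃ (F : Type) (_ : Field F) (_ : Fintype F), Fintype.card F = 9 ∧ Nonempty (G ≃* Cfsg.PSU 3 F 3)) ∨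
  (∃ (F : Type) (_ : Field F) (_ : Fintype F), Fintype.card F = 3 ∧
    Nonempty (G ≃* Matrix.ProjectiveSpecialLinearGroup (Fin 3) F))

/-- `G ≅ L₂(q)`. -/
def L2 (q : ℕ) (G : Type*) [Group G] : Prop :=
  ∃ (F : Type) (_ : Field F) (_ : Fintype F), Fintype.card F = q ∧
    Nonempty (G ≃* Matrix.ProjectiveSpecialLinearGroup (Fin 2) F)

/-- centralizer of an element. -/
abbrev Ce {G : Type*} [Group G] (g : G) : Subgroup G := centralizer ({g} : Set G)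

/-- the basic hypothesis. -/
structure B0 (G : Type*) [Group G] (p : ℕ) : Prop where
  simple : IsSimpleGroup G
  nab : ¬ IsMulCommutative G
  prime : p.Prime
  five : 5 ≤ p
  ord : ∃ a b : ℕ, Nat.card G = p * 3 ^ a * 2 ^ b
  sc : ∀ x : G, orderOf x = p → Ce x = zpowers x

/-- characteristic 2 type, 2-rank at least 3. -/
structure B2 (G : Type*) [Group G] (p : ℕ) : Prop extends B0 G p where
  c2 : IsCharacteristicTwoType G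
  r2 : ¬ PRankLE 2 2 G

/-- `O₂(C(y)) = 1` for all nontrivial 3-elements `y`. -/
def C3 (G : Type*) [Group G] : Prop :=
  ∀ y : G, y ≠ 1 → (∃ k : ℕ, y ^ 3 ^ k = 1) → ∀ X : Subgroup G, IsPGroup 2 X → X ≤ Ce y → Ce y ≤ 𝐍(X) → X = ⊥

/-- an elementary abelian group of order 9 normalizes a nontrivial 2-group. -/
def N9 (G : Type*) [Group G] : Prop :=
  ∃ T E : Subgroup G, IsPGroup 2 T ∧ T ≠ ⊥ ∧ E ≤ 𝐍(T) ∧ EA 3 E ∧ Nat.card E = 9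

/-- centralizers of elements of order 3 have 2-rank at most 1. -/
def R1 (G : Type*) [Group G] : Prop :=
  ∀ y s t : G, orderOf y = 3 → s * s = 1 → t * t = 1 → s * t = t * s → s * y = y * s → t * y = y * t →
    s = 1 ∨ t = 1 ∨ s = t

variable {G : Type*} [Group G]

/-- `D = O₂(C(B))`, and the shape of `C(B)/D` in the thin case. -/
structure Loc (B D : Subgroup G) : Prop where
  pg : IsPGroup 2 D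
  le : D ≤ 𝐂(B)
  norm : 𝐂(B) ≤ 𝐍(D)
  sc : 𝐂(B) ⊓ 𝐂(D) ≤ D
  idx : ∀ E : Subgroup G, IsPGroup 2 E → E ≤ 𝐂(B) → Nat.card E ≤ 2 * Nat.card ↥(E ⊓ D)
  t1 : ∀ E : Subgroup G, IsPGroup 2 E → E ≤ 𝐂(B) → ∀ y ∈ 𝐂(B), orderOf y = 3 → y ∈ 𝐍(E) → E ≤ D

/-- the thin case. -/
structure Th (G : Type*) [Group G] (p : ℕ) : Prop extends B2 G p where
  n9 : ¬ N9 G
  r1 : R1 G
  loc : ∀ B : Subgroup G, IsPGroup 2 B → B ≠ ⊥ → ∃ D, Loc B D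

/-- `N(Q)` is a maximal 2-local subgroup with `O₂ = Q`. -/
structure MQ (Q : Subgroup G) : Prop where
  pg : IsPGroup 2 Q
  ne : Q ≠ ⊥
  cq : 𝐂(Q) ≤ Q
  o2 : ∀ N : Subgroup G, IsPGroup 2 N → N ≤ 𝐍(Q) → 𝐍(Q) ≤ 𝐍(N) → N ≤ Q
  max : ∀ N : Subgroup G, IsPGroup 2 N → N ≠ ⊥ → 𝐍(Q) ≤ 𝐍(N) → 𝐍(N) ≤ 𝐍(Q)

/-- `K/Q = F*(N(Q)/Q)`. -/
structure Sec (Q K : Subgroup G) : Prop extends MQ Q where
  le : Q ≤ K
  kle : K ≤ 𝐍(Q)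
  nk : 𝐍(Q) ≤ 𝐍(K)
  cent : ∀ g ∈ 𝐍(Q), (∀ k ∈ K, ⁅g, k⁆ ∈ Q) → g ∈ Q

/-- `K/Q ≅ L`. -/
def Quo (Q K : Subgroup G) (L : Type*) [Group L] : Prop :=
  ∃ f : K →* L, Function.Surjective f ∧ ∀ k : K, f k = 1 ↔ (k : G) ∈ Q

/-- elements of order 3 of `N(Q)` are fixed point free on `Q`. -/
def Fpf (Q : Subgroup G) : Prop :=
  ∀ y ∈ 𝐍(Q), orderOf y = 3 → ∀ v ∈ Q, y * v = v * y → v = 1

/-- the shape of `N(Q)/Q` when `K/Q ≅ SL₂(q)`, `q = 4, 8`; `S` is a Sylow 2-subgroup of `K`. -/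
structure TH (Q S : Subgroup G) (h : G) (q : ℕ) : Prop where
  q48 : q = 4 ∨ q = 8
  le : Q ≤ S
  nS : S ≤ 𝐍(Q)
  cardS : Nat.card S = q * Nat.card Q
  sq : ∀ s ∈ S, s * s ∈ Q
  hQ : h ∈ 𝐍(Q)
  hS : h ∈ 𝐍(S)
  ho : orderOf h = q - 1
  hf : ∀ s ∈ S, ⁅h, s⁆ ∈ Q → s ∈ Q
  rank : ∀ E : Subgroup G, E ≤ 𝐍(Q) → (∀ e ∈ E, e * e ∈ Q) → Nat.card E ≤ q * Nat.card ↥(E ⊓ Q)
  ord : Nat.card ↥𝐍(Q) = Nat.card Q * (q * (q ^ 2 - 1)) ∨ (q = 4 ∧ Nat.card ↥𝐍(Q) = Nat.card Q * 120)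

/-- type N: `Q` is a sum of natural modules. -/
structure TN (Q S : Subgroup G) (h : G) (q n : ℕ) : Prop extends MQ Q, TH Q S h q where
  ea : EA 2 Q
  cardQ : Nat.card Q = n ^ 2
  nq : n = q ∨ 2 * q < n
  fpf : Fpf Q
  free : ∀ u ∈ 𝐍(Q), u ∉ Q → u * u ∈ Q → Nat.card ↥(Q ⊓ Ce u) = n

/-- type N with one natural module; `Z = C_Q(S)`. -/
structure NS (Q S Z : Subgroup G) (h : G) (q : ℕ) : Prop extends TN Q S h q q where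
  defZ : Z = Q ⊓ 𝐂(S)
  cardZ : Nat.card Z = q
  cu : ∀ u ∈ S, u ∉ Q → Q ⊓ Ce u = Z
  comm : ∀ u ∈ S, u ∉ Q → ∀ z ∈ Z, ∃ v ∈ Q, ⁅v, u⁆ = z
  sqZ : ∀ s ∈ S, s * s ∈ Z
  hfS : ∀ s ∈ S, h * s = s * h → s = 1
  tr : ∀ v ∈ Q, v ≠ 1 → ∀ w ∈ Q, w ≠ 1 → ∃ g ∈ 𝐍(Q), g * v * g⁻¹ = w
  cz : 𝐍(Q) ⊓ 𝐂(Z) = S
  big : ∀ E : Subgroup G, EA 2 E → E ≤ S → Nat.card E ≤ q ^ 2
  two : ∀ E : Subgroup G, EA 2 E → E ≤ S → Nat.card E = q ^ 2 → E ≠ Q →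
    E ⊓ Q = Z ∧ E ⊔ Q = S ∧ (∀ s ∈ S, s * s = 1 → s ∈ Q ∨ s ∈ E) ∧
      ∀ E' : Subgroup G, EA 2 E' → E' ≤ S → Nat.card E' = q ^ 2 → E' = Q ∨ E' = E

/-- vectors and matrices over the field with two elements. -/
abbrev V3 : Type := Fin 3 → ZMod 2
abbrev M3 : Type := Matrix (Fin 3) (Fin 3) (ZMod 2)

/-- type C: `N(Q)/Q = GL₃(2)` acting on `V = Ω₁Z(Q)`, the range of `ψ`. -/
structure TC (Q : Subgroup G) (ψ : V3 → G) : Prop extends MQ Q where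
  add : ∀ a b, ψ (a + b) = ψ a * ψ b
  inj : ∀ a, ψ a = 1 → a = 0
  mem : ∀ v, (v ∈ Q ∧ v ∈ 𝐂(Q) ∧ v * v = 1) ↔ ∃ a, ψ a = v
  cv : ∀ g, (∀ a, g * ψ a = ψ a * g) ↔ g ∈ Q
  nv : ∀ g, (∀ a, ∃ b, g * ψ a * g⁻¹ = ψ b) → g ∈ 𝐍(Q)
  act : ∀ m : M3, m.det = 1 → ∃ g ∈ 𝐍(Q), ∀ a, g * ψ a * g⁻¹ = ψ (m.mulVec a)
  act' : ∀ g ∈ 𝐍(Q), ∃ m : M3, m.det = 1 ∧ ∀ a, g * ψ a * g⁻¹ = ψ (m.mulVec a)
  ord : Nat.card ↥𝐍(Q) = Nat.card Q * 168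
  simp : ∀ N : Subgroup G, Q ≤ N → N ≤ 𝐍(Q) → 𝐍(Q) ≤ 𝐍(N) → N = Q ∨ N = 𝐍(Q)
  cube : ∀ A : Subgroup G, A ≤ Q → 𝐍(Q) ≤ 𝐍(A) → ∀ y ∈ 𝐍(Q), orderOf y = 3 →
    Nat.card A = Nat.card ↥(A ⊓ Ce y) ^ 3

/-- the centre of `Q`. -/
abbrev ZQ (Q : Subgroup G) : Subgroup G := Q ⊓ 𝐂(Q)

/-- `X/Z(Q) = Ω₁Z(Q/Z(Q))`. -/
def IsX (Q X : Subgroup G) : Prop :=
  ∀ w, w ∈ X ↔ (w ∈ Q ∧ w * w ∈ ZQ Q ∧ ∀ v ∈ Q, ⁅w, v⁆ ∈ ZQ Q)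

/-- a coset `w Z(Q) ≠ Z(Q)` fixed by an element of order 3 has its stabilizer inside a vector stabilizer. -/
def SP (Q X : Subgroup G) (ψ : V3 → G) : Prop :=
  ∀ w ∈ X, w ∉ ZQ Q → ∀ y ∈ 𝐍(Q), orderOf y = 3 → ⁅y, w⁆ ∈ ZQ Q →
    ∃ a, a ≠ 0 ∧ ∀ g ∈ 𝐍(Q), ⁅g, w⁆ ∈ ZQ Q → g * ψ a = ψ a * g

/-- an additive equivariant lift `a ↦ c a Z(Q)` of `V` into `X/Z(Q)`. -/
structure Lift (Q X : Subgroup G) (ψ c : V3 → G) : Prop where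
  mem : ∀ a, c a ∈ X
  ne : ∃ a, c a ∉ ZQ Q
  add : ∀ a b, c (a + b) * (c a * c b)⁻¹ ∈ ZQ Q
  eqv : ∀ g ∈ 𝐍(Q), ∀ m : M3, (∀ a, g * ψ a * g⁻¹ = ψ (m.mulVec a)) →
    ∀ a, g * c a * g⁻¹ * (c (m.mulVec a))⁻¹ ∈ ZQ Q

/-- some 2-local subgroup is not solvable. -/
def NS2 (G : Type*) [Group G] : Prop := ∃ N : Subgroup G, IsTwoLocal N ∧ ¬ Group.IsSolvable N

end K3P
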