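import Mathlib
import Cfsg.Agent.Lib.K3P.Defs
import Cfsg.Agent.Lib.GL.Basic
import Cfsg.Agent.S0494
import Cfsg.Agent.S0497

/-! K3P package AR1, see `blueprint/K3P/README.md`. -/

set_option autoImplicit false
set_option linter.unusedSectionVars false
set_option linter.unusedVariables false

namespace K3P

open Cfsg Subgroup H71KM
open scoped commutatorElement

universe u

variable {G : Type u} [Group G] [Finite G] {p : ℕ} {Q K S Z X : Subgroup G} {h : G} {ψ : V3 → G}

namespace AR1_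

theorem l2 {a k : ℕ} (h : 3 ^ a + 1 = 2 ^ k) : 3 ^ a = 1 ∨ 3 ^ a = 3 := by
  have m : ∀ a, 3 ^ a % 8 = 1 ∨ 3 ^ a % 8 = 3 := fun a => by
    induction a with
    | zero => simp
    | succ a ih => rw [pow_succ]; omega
  have := m a
  rcases k with _ | _ | _ | k
  · omega
  · omega
  · omega
  · rw [pow_succ, pow_succ, pow_succ] at h; omega

theorem l1 {a k : ℕ} (h : 2 ^ k + 1 = 3 ^ a) : 2 ^ k = 2 ∨ 2 ^ k = 8 := by
  have m : ∀ a, 9 ^ a % 4 = 1 := fun a => by
    induction a with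
    | zero => simp
    | succ a ih => rw [pow_succ]; omega
  obtain ⟨j, rfl | rfl⟩ := Nat.even_or_odd' a
  · have hp : 1 ≤ 3 ^ j := Nat.one_le_pow _ _ (by norm_num)
    obtain ⟨x, hx⟩ := Nat.exists_eq_add_of_le' hp
    have e : 2 ^ k = (3 ^ j + 1) * x := by
      rw [pow_mul', hx] at h; rw [hx]; nlinarith
    obtain ⟨i, -, hi⟩ := (Nat.dvd_prime_pow Nat.prime_two).1 (Dvd.intro _ e.symm)
    have := Nat.two_pow_pos k
    rcases l2 hi with q | q
    · rw [q] at hx e; omega
    · rw [q] at hx e; omega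
  · have := m j
    rw [pow_succ, pow_mul, show 3 ^ 2 = 9 from rfl] at h
    rcases k with _ | _ | k
    · omega
    · exact Or.inl rfl
    · rw [pow_succ, pow_succ] at h; omega

theorem cons {n : ℕ} (h : ∃ i j, n = 2 ^ i * 3 ^ j) (h' : ∃ i j, n + 1 = 2 ^ i * 3 ^ j) :
    n = 1 ∨ n = 2 ∨ n = 3 ∨ n = 8 := by
  obtain ⟨i, j, e⟩ := h
  obtain ⟨k, l, e'⟩ := h'
  have h2 : i = 0 ∨ k = 0 := by
    rcases i with _ | i
    · exact Or.inl rfl
    rcases k with _ | k
    · exact Or.inr rfl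
    rw [pow_succ, mul_right_comm] at e e'; omega
  have h3 : j = 0 ∨ l = 0 := by
    rcases j with _ | j
    · exact Or.inl rfl
    rcases l with _ | l
    · exact Or.inr rfl
    rw [pow_succ, ← mul_assoc] at e e'; omega
  have pos : 0 < n := by rw [e]; positivity
  rcases h2 with rfl | rfl <;> rcases h3 with rfl | rfl <;>
    simp only [pow_zero, mul_one, one_mul] at e e'
  · omega
  · rcases l2 (e ▸ e') with q | q <;> omega
  · rcases l1 (e ▸ e') with q | q <;> omega
  · omega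

theorem sm {p a c n : ℕ} (hp : p.Prime) (h : n ∣ p * 3 ^ a * 2 ^ c) (k : ¬ p ∣ n) : ∃ i j, n = 2 ^ i * 3 ^ j := by
  rw [mul_assoc] at h
  obtain ⟨x, y, hx, hy, rfl⟩ := (Nat.dvd_mul).1
    (((Nat.Prime.coprime_iff_not_dvd hp).2 k).symm.dvd_of_dvd_mul_left h)
  obtain ⟨j, -, rfl⟩ := (Nat.dvd_prime_pow Nat.prime_three).1 hx
  obtain ⟨i, -, rfl⟩ := (Nat.dvd_prime_pow Nat.prime_two).1 hy
  exact ⟨i, j, mul_comm _ _⟩

theorem main {p a c n : ℕ} (hp : p.Prime) (h5 : 5 ≤ p) (h : n * (n + 1) * (n + 2) = p * 3 ^ a * 2 ^ c) :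
    n = 3 ∨ n = 4 ∨ n = 6 ∨ n = 7 ∨ n = 8 ∨ n = 16 := by
  have d0 : n ∣ p * 3 ^ a * 2 ^ c := h ▸ (dvd_mul_right _ _).mul_right _
  have d1 : n + 1 ∣ p * 3 ^ a * 2 ^ c := h ▸ (dvd_mul_left _ _).mul_right _
  have d2 : n + 2 ∣ p * 3 ^ a * 2 ^ c := h ▸ dvd_mul_left _ _
  have no : ∀ m d, p ∣ m → p ∣ m + d → 0 < d → d < 5 → False := fun m d a b c e =>
    absurd (Nat.le_of_dvd c ((Nat.dvd_add_right a).1 b)) (by omega)
  have hd : p ∣ n * (n + 1) * (n + 2) := h ▸ (dvd_mul_right _ _).mul_right _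
  rcases (Nat.Prime.dvd_mul hp).1 hd with k | k
  · rcases (Nat.Prime.dvd_mul hp).1 k with k | k
    · have := Nat.le_of_dvd (Nat.pos_of_dvd_of_pos d0 (by have := hp.pos; positivity)) k
      have := cons (sm hp d1 fun b => no n 1 k b (by omega) (by omega))
        (sm hp d2 fun b => no n 2 k b (by omega) (by omega))
      omega
    · have s0 := sm hp d0 fun b => no n 1 b k (by omega) (by omega)
      have s2 := sm hp d2 fun b => no (n + 1) 1 k b (by omega) (by omega)
      have := Nat.le_of_dvd (Nat.succ_pos n) k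
      obtain ⟨m, rfl | rfl⟩ := Nat.even_or_odd' n
      · have hm : 0 < m := by omega
        have := cons (n := m) (sm hp ((Dvd.intro_left 2 rfl).trans d0) fun b =>
            no (2 * m) 1 (b.mul_left 2) k (by omega) (by omega))
          (sm hp ((Dvd.intro_left 2 (by ring)).trans d2) fun b =>
            no (2 * m + 1) 1 k (by rw [show 2 * m + 1 + 1 = 2 * (m + 1) by ring]; exact b.mul_left 2)
              (by omega) (by omega))
        omega
      · obtain ⟨i, j, e⟩ := s0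
        obtain ⟨i', j', e'⟩ := s2
        rcases i with _ | i
        · rcases i' with _ | i'
          · rcases j with _ | j
            · omega
            · rcases j' with _ | j'
              · omega
              · rw [pow_succ] at e e'; omega
          · rw [pow_succ, mul_right_comm] at e'; omega
        · rw [pow_succ, mul_right_comm] at e; omega
  · have := Nat.le_of_dvd (Nat.succ_pos _) k
    have := cons (sm hp d0 fun b => no n 2 b k (by omega) (by omega))
      (sm hp d1 fun b => no (n + 1) 1 b k (by omega) (by omega))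
    omega

end AR1_

theorem concl_l2 (B : B0 G p) {q : ℕ} (hL : L2 q G) : Concl G := by
  obtain ⟨F, _, _, hq, ⟨e⟩⟩ := hL
  have := B.simple
  obtain ⟨a, b, ho⟩ := B.ord
  have hc := H10.card_PSL_two (F := F)
  rw [← Nat.card_congr e.toEquiv, Nat.card_eq_fintype_card (α := F), hq] at hc
  obtain ⟨n, rfl⟩ : ∃ n, q = n + 1 := ⟨q - 1, by have := Fintype.card_pos (α := F); omega⟩
  rw [Nat.add_sub_cancel] at hc
  obtain ⟨i, -, hi⟩ := (Nat.dvd_prime_pow Nat.prime_two).1 (show Nat.gcd 2 n ∣ 2 ^ 1 from Nat.gcd_dvd_left 2 n)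
  have k := AR1_.main (a := a) (c := i + b) (n := n) B.prime B.five (by rw [mul_comm n, ← hc, hi, ho]; ring)
  rcases k with rfl | rfl | rfl | rfl | rfl | rfl
  · exact Or.inl (Cfsg.Agent.S0494.result (by norm_num at hc; omega))
  · exact Or.inl (Cfsg.Agent.S0494.result (by norm_num at hc; omega))
  · exact Or.inr (Or.inr (Or.inr (Or.inl ⟨F, _, _, Or.inl hq, ⟨e⟩⟩)))
  · exact Or.inr (Or.inr (Or.inr (Or.inl ⟨F, _, _, Or.inr (Or.inl hq), ⟨e⟩⟩)))
  · exact Or.inr (Or.inl (Cfsg.Agent.S0497.result (by norm_num at hc; omega)))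
  · exact Or.inr (Or.inr (Or.inr (Or.inl ⟨F, _, _, Or.inr (Or.inr hq), ⟨e⟩⟩)))


end K3P
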