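import Mathlib
import Cfsg.Agent.Lib.K3P.Defs
import Cfsg.Agent.S0144

/-! K3P package AR2, see `blueprint/K3P/README.md`. -/

set_option autoImplicit false
set_option linter.unusedSectionVars false
set_option linter.unusedVariables false

namespace K3P

open Cfsg Subgroup H71KM
open scoped commutatorElement

universe u

namespace AR2h

theorem cop {r a b : ℕ} (hr : r.Prime) (h5 : 5 ≤ r) : Nat.Coprime r (3 ^ a * 2 ^ b) := by
  refine Nat.Coprime.mul_right (Nat.Coprime.pow_right _ ?_) (Nat.Coprime.pow_right _ ?_)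
  · exact (Nat.coprime_primes hr Nat.prime_three).2 (by omega)
  · exact (Nat.coprime_primes hr Nat.prime_two).2 (by omega)

theorem eqp {p r a b : ℕ} (hp : p.Prime) (hr : r.Prime) (h5 : 5 ≤ r) (h : r ∣ p * (3 ^ a * 2 ^ b)) : r = p :=
  (Nat.prime_dvd_prime_iff_eq hr hp).1 ((cop hr h5).dvd_of_dvd_mul_right h)

theorem nsq {p r a b : ℕ} (hp : p.Prime) (hr : r.Prime) (h5 : 5 ≤ r) (h : r * r ∣ p * (3 ^ a * 2 ^ b)) :
    False := by
  obtain rfl := eqp hp hr h5 (Dvd.dvd.trans (Dvd.intro _ rfl) h)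
  have h1 : r ∣ 3 ^ a * 2 ^ b := Nat.dvd_of_mul_dvd_mul_left hr.pos h
  exact (Nat.Prime.coprime_iff_not_dvd hr).1 (cop hr h5) h1

theorem fac {x : ℕ} (h1 : 1 < x) (h2 : x % 2 = 1) (h3 : x % 3 ≠ 0) : ∃ r, r.Prime ∧ 5 ≤ r ∧ r ∣ x := by
  obtain ⟨r, hr, hd⟩ := Nat.exists_prime_and_dvd h1.ne'
  refine ⟨r, hr, ?_, hd⟩
  by_contra hlt
  have := hr.two_le
  have : r = 2 ∨ r = 3 ∨ r = 4 := by omega
  rcases this with rfl | rfl | rfl
  · omega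
  · omega
  · omega

theorem two {p a b x y : ℕ} (hp : p.Prime) (x1 : 1 < x) (x2 : x % 2 = 1) (x3 : x % 3 ≠ 0)
    (y1 : 1 < y) (y2 : y % 2 = 1) (y3 : y % 3 ≠ 0) (h : x * y ∣ p * (3 ^ a * 2 ^ b)) : False := by
  obtain ⟨r, hr, r5, hrx⟩ := fac x1 x2 x3
  obtain ⟨s, hs, s5, hsy⟩ := fac y1 y2 y3
  have e1 := eqp hp hr r5 ((hrx.mul_right y).trans h)
  have e2 := eqp hp hs s5 ((hsy.mul_left x).trans h)
  rw [e2, ← e1] at hsy
  exact nsq hp hr r5 ((mul_dvd_mul hrx hsy).trans h)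

theorem norm {p a b d : ℕ} (hd : d = 1 ∨ d = 3) : ∃ a', d * (p * 3 ^ a * 2 ^ b) = p * (3 ^ a' * 2 ^ b) := by
  rcases hd with rfl | rfl
  · exact ⟨a, by ring⟩
  · exact ⟨a + 1, by ring⟩

theorem shape {n : ℕ} (hn : 2 ≤ n) : ∃ t, 1 ≤ t ∧ (2 ^ n = 6 * t + 2 ∨ 2 ^ n + 2 = 6 * t) := by
  have h1 : 2 ^ 2 ∣ 2 ^ n := pow_dvd_pow _ hn
  have h2 : 0 < 2 ^ n := by positivity
  have h3 : ¬ 3 ∣ 2 ^ n := fun h => by
    have := Nat.prime_three.dvd_of_dvd_pow h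
    omega
  generalize 2 ^ n = q at *
  by_cases h : q % 3 = 2
  · exact ⟨q / 6, by omega, by omega⟩
  · exact ⟨q / 6 + 1, by omega, by omega⟩

end AR2h

open AR2h

variable {G : Type u} [Group G] [Finite G] {p : ℕ} {Q K S Z X : Subgroup G} {h : G} {ψ : V3 → G}

theorem nt_l3 {p a b n d : ℕ} (hp : p.Prime) (h5 : 5 ≤ p) (hn : 2 ≤ n) (hd : d = 1 ∨ d = 3)
    (e : (2 ^ n) ^ 3 * ((2 ^ n) ^ 2 - 1) * ((2 ^ n) ^ 3 - 1) = d * (p * 3 ^ a * 2 ^ b)) : False := by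
  obtain ⟨a', e'⟩ := AR2h.norm (p := p) (a := a) (b := b) hd
  rw [e'] at e
  obtain ⟨t, t1, ht | ht⟩ := shape hn
  · rw [ht, show (6 * t + 2) ^ 2 - 1 = (6 * t + 1) * (6 * t + 3) from Nat.sub_eq_of_eq_add (by ring),
      show (6 * t + 2) ^ 3 - 1 = (6 * t + 1) * (36 * t ^ 2 + 30 * t + 7) from
        Nat.sub_eq_of_eq_add (by ring)] at e
    refine two (x := 6 * t + 1) (y := 6 * t + 1) hp (by omega) (by omega) (by omega) (by omega) (by omega)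
      (by omega) ⟨(6 * t + 2) ^ 3 * (6 * t + 3) * (36 * t ^ 2 + 30 * t + 7), by rw [← e]; ring⟩
  · obtain ⟨s, rfl⟩ : ∃ s, t = s + 1 := ⟨t - 1, by omega⟩
    rw [show 2 ^ n = 6 * s + 4 by omega,
      show (6 * s + 4) ^ 2 - 1 = (6 * s + 3) * (6 * s + 5) from Nat.sub_eq_of_eq_add (by ring),
      show (6 * s + 4) ^ 3 - 1 = (6 * s + 3) * 3 * (6 * (2 * s ^ 2 + 3 * s + 1) + 1) from
        Nat.sub_eq_of_eq_add (by ring)] at e
    refine two (x := 6 * s + 5) (y := 6 * (2 * s ^ 2 + 3 * s + 1) + 1) hp (by omega) (by omega) (by omega)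
      (by omega) (by omega) (by omega) ⟨(6 * s + 4) ^ 3 * (6 * s + 3) * (6 * s + 3) * 3, by rw [← e]; ring⟩

theorem nt_u3 {p a b n d : ℕ} (hp : p.Prime) (h5 : 5 ≤ p) (hn : 2 ≤ n) (hd : d = 1 ∨ d = 3)
    (e : (2 ^ n) ^ 3 * ((2 ^ n) ^ 2 - 1) * ((2 ^ n) ^ 3 + 1) = d * (p * 3 ^ a * 2 ^ b)) : False := by
  obtain ⟨a', e'⟩ := AR2h.norm (p := p) (a := a) (b := b) hd
  rw [e'] at e
  obtain ⟨t, t1, ht | ht⟩ := shape hn
  · rw [ht, show (6 * t + 2) ^ 2 - 1 = (6 * t + 1) * (6 * t + 3) from Nat.sub_eq_of_eq_add (by ring)] at e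
    refine two (x := 6 * t + 1) (y := 6 * (2 * t ^ 2 + t) + 1) hp (by omega) (by omega) (by omega)
      (by omega) (by omega) (by omega) ⟨(6 * t + 2) ^ 3 * (6 * t + 3) * (6 * t + 3) * 3, by rw [← e]; ring⟩
  · obtain ⟨s, rfl⟩ : ∃ s, t = s + 1 := ⟨t - 1, by omega⟩
    rw [show 2 ^ n = 6 * s + 4 by omega,
      show (6 * s + 4) ^ 2 - 1 = (6 * s + 3) * (6 * s + 5) from Nat.sub_eq_of_eq_add (by ring)] at e
    refine two (x := 6 * s + 5) (y := 6 * s + 5) hp (by omega) (by omega) (by omega) (by omega) (by omega)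
      (by omega) ⟨(6 * s + 4) ^ 3 * (6 * s + 3) * (36 * s ^ 2 + 42 * s + 13), by rw [← e]; ring⟩

theorem nt_sz {p a b m : ℕ} (hp : p.Prime) (h5 : 5 ≤ p) (hm : 1 ≤ m)
    (e : (2 ^ (2 * m + 1)) ^ 2 * ((2 ^ (2 * m + 1)) ^ 2 + 1) * (2 ^ (2 * m + 1) - 1) = p * 3 ^ a * 2 ^ b) : False := by
  rw [mul_assoc p] at e
  have h3 : 2 ^ (2 * m + 1) % 3 = 2 := by
    rw [pow_succ, pow_mul, Nat.mul_mod, Nat.pow_mod]
    simp
  obtain ⟨t, t1, ht | ht⟩ := shape (n := 2 * m + 1) (by omega)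
  · rw [ht, show 6 * t + 2 - 1 = 6 * t + 1 by omega] at e
    refine two (x := 6 * t + 1) (y := 6 * (6 * t ^ 2 + 4 * t) + 5) hp (by omega) (by omega) (by omega)
      (by omega) (by omega) (by omega) ⟨(6 * t + 2) ^ 2, by rw [← e]; ring⟩
  · omega

theorem B0.eq_p (B : B0 G p) {r : ℕ} (hr : r.Prime) (h5 : 5 ≤ r) (hd : r ∣ Nat.card G) : r = p := by
  obtain ⟨a, b, e⟩ := B.ord
  rw [e, mul_assoc] at hd
  exact eqp B.prime hr h5 hd

theorem B0.not_sq (B : B0 G p) {r : ℕ} (hr : r.Prime) (h5 : 5 ≤ r) : ¬ r ^ 2 ∣ Nat.card G := by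
  obtain ⟨a, b, e⟩ := B.ord
  rw [e, mul_assoc, sq]
  exact nsq B.prime hr h5

theorem B0.solv_ce (B : B0 G p) {g : G} (h1 : g ≠ 1) (hg : ¬ p ∣ orderOf g) : Group.IsSolvable (Ce g) := by
  have := Fact.mk B.prime
  have np : ¬ p ∣ Nat.card (Ce g) := by
    intro hd
    obtain ⟨x, hx⟩ := exists_prime_orderOf_dvd_card' p hd
    have ox : orderOf (x : G) = p := by rw [Subgroup.orderOf_coe, hx]
    have m : g ∈ Ce (x : G) := by
      rw [mem_centralizer_singleton_iff]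
      exact (mem_centralizer_singleton_iff.1 x.2).symm
    rw [B.sc _ ox] at m
    have := orderOf_dvd_of_mem_zpowers m
    rw [ox] at this
    rcases (Nat.dvd_prime B.prime).1 this with e | e
    · exact h1 (orderOf_eq_one_iff.1 e)
    · exact hg (e ▸ dvd_rfl)
  obtain ⟨a, b, e⟩ := B.ord
  have hd := card_subgroup_dvd_card (Ce g)
  rw [e, mul_assoc] at hd
  have hd' := ((Nat.Prime.coprime_iff_not_dvd B.prime).2 np).symm.dvd_of_dvd_mul_left hd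
  obtain ⟨u, v, hu, hv, huv⟩ := (Nat.dvd_mul).1 hd'
  obtain ⟨i, -, rfl⟩ := (Nat.dvd_prime_pow Nat.prime_three).1 hu
  obtain ⟨j, -, rfl⟩ := (Nat.dvd_prime_pow Nat.prime_two).1 hv
  exact Cfsg.Agent.S0144.result 3 2 i j Nat.prime_three Nat.prime_two huv.symm


end K3P
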