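import Mathlib
import Cfsg.Agent.Lib.K3P.Defs

/-! K3P package CA0, see `blueprint/K3P/README.md`. -/

set_option autoImplicit false
set_option linter.unusedSectionVars false
set_option linter.unusedVariables false

namespace K3P

open Cfsg Subgroup H71KM
open scoped commutatorElement

universe u

variable {G : Type u} [Group G] [Finite G] {p : ℕ} {Q K S Z X : Subgroup G} {h : G} {ψ : V3 → G}

namespace CA0_

theorem cjQ {g v : G} (hg : g ∈ 𝐍(Q)) (hv : v ∈ Q) : g * v * g⁻¹ ∈ Q := (mem_normalizer_iff.1 hg v).1 hv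

theorem cjZ {g z : G} (hg : g ∈ 𝐍(Q)) (hz : z ∈ ZQ Q) : g * z * g⁻¹ ∈ ZQ Q := by
  refine ⟨cjQ hg hz.1, ?_⟩
  intro v hv
  have e : (g⁻¹ * v * g⁻¹⁻¹) * z = z * (g⁻¹ * v * g⁻¹⁻¹) := hz.2 _ (cjQ (inv_mem hg) hv)
  calc v * (g * z * g⁻¹) = g * ((g⁻¹ * v * g⁻¹⁻¹) * z) * g⁻¹ := by group
    _ = g * z * g⁻¹ * v := by rw [e]; group

/-- the preimage of `Ω₁Z(Q/Z(Q))` -/
def XX (Q : Subgroup G) : Subgroup G where
  carrier := {w | w ∈ Q ∧ w * w ∈ ZQ Q ∧ ∀ v ∈ Q, ⁅w, v⁆ ∈ ZQ Q}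
  one_mem' := ⟨one_mem _, by simp, fun v _ => by simp⟩
  mul_mem' := by
    rintro a b ⟨a1, a2, a3⟩ ⟨b1, b2, b3⟩
    refine ⟨mul_mem a1 b1, ?_, fun v hv => ?_⟩
    · have : a * b * (a * b) = a * a * (a⁻¹ * ⁅a, b⁆⁻¹ * a⁻¹⁻¹) * (b * b) := by
        simp only [commutatorElement_def]; group
      rw [this]
      exact mul_mem (mul_mem a2 (cjZ (le_normalizer (inv_mem a1)) (inv_mem (a3 b b1)))) b2
    · have : ⁅a * b, v⁆ = a * ⁅b, v⁆ * a⁻¹ * ⁅a, v⁆ := by
        simp only [commutatorElement_def]; group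
      rw [this]
      exact mul_mem (cjZ (le_normalizer a1) (b3 v hv)) (a3 v hv)
  inv_mem' := by
    rintro a ⟨a1, a2, a3⟩
    refine ⟨inv_mem a1, ?_, fun v hv => ?_⟩
    · have : a⁻¹ * a⁻¹ = (a * a)⁻¹ := by group
      rw [this]
      exact inv_mem a2
    · have : ⁅a⁻¹, v⁆ = a⁻¹ * ⁅a, v⁆⁻¹ * a⁻¹⁻¹ := by
        simp only [commutatorElement_def]; group
      rw [this]
      exact cjZ (le_normalizer (inv_mem a1)) (inv_mem (a3 v hv))

theorem cjX {g w : G} (hg : g ∈ 𝐍(Q)) (hw : w ∈ XX Q) : g * w * g⁻¹ ∈ XX Q := by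
  obtain ⟨a1, a2, a3⟩ := hw
  refine ⟨cjQ hg a1, ?_, fun v hv => ?_⟩
  · have : g * w * g⁻¹ * (g * w * g⁻¹) = g * (w * w) * g⁻¹ := by group
    rw [this]
    exact cjZ hg a2
  · have : ⁅g * w * g⁻¹, v⁆ = g * ⁅w, g⁻¹ * v * g⁻¹⁻¹⁆ * g⁻¹ := by
      simp only [commutatorElement_def]; group
    rw [this]
    exact cjZ hg (a3 _ (cjQ (inv_mem hg) hv))

theorem mem_cen {x : Q} : x ∈ center Q ↔ (x : G) ∈ ZQ Q := by
  rw [mem_center_iff]
  exact ⟨fun e => ⟨x.2, fun v hv => congrArg Subtype.val (e ⟨v, hv⟩)⟩, fun e v => Subtype.ext (e.2 v v.2)⟩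

theorem ex_inv {P : Type*} [Group P] [Finite P] (hP : IsPGroup 2 P) [Nontrivial P] :
    ∃ x : P, x ≠ 1 ∧ x * x = 1 := by
  rcases hP.card_eq_or_dvd with e | e
  · exact absurd e (Finite.one_lt_card (α := P)).ne'
  · obtain ⟨x, hx⟩ := exists_prime_orderOf_dvd_card' (G := P) 2 e
    refine ⟨x, fun e => by simp [e] at hx, ?_⟩
    rw [← pow_two, ← hx, pow_orderOf_eq_one]

theorem card_zp {w : G} {n : ℕ} (hn : 0 < n) (e : w ^ n = 1) : Nat.card (zpowers w) ≤ n := by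
  rw [Nat.card_zpowers]
  exact Nat.le_of_dvd hn (orderOf_dvd_of_pow_eq_one e)

end CA0_

open CA0_

theorem exists_X (hQ : IsPGroup 2 Q) : ∃ X : Subgroup G, IsX Q X ∧ ZQ Q ≤ X ∧ 𝐍(Q) ≤ 𝐍(X) ∧
    (¬ Q ≤ 𝐂(Q) → ¬ X ≤ ZQ Q) := by
  refine ⟨XX Q, fun w => Iff.rfl, fun z hz => ⟨hz.1, mul_mem hz hz, fun v hv => ?_⟩, fun g hg => ?_, fun hn hX => ?_⟩
  · rw [commutatorElement_eq_one_iff_mul_comm.2 (hz.2 v hv).symm]
    exact one_mem _
  · refine mem_normalizer_iff.2 fun w => ⟨cjX hg, fun hw => ?_⟩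
    have := cjX (inv_mem hg) hw
    rwa [show g⁻¹ * (g * w * g⁻¹) * g⁻¹⁻¹ = w by group] at this
  · have hP : IsPGroup 2 (Q ⧸ center Q) := hQ.to_quotient _
    haveI : Nontrivial (Q ⧸ center Q) := by
      rw [QuotientGroup.nontrivial_iff]
      intro e
      refine hn fun v hv => ?_
      have : (⟨v, hv⟩ : Q) ∈ center Q := e ▸ mem_top _
      exact (mem_cen.1 this).2
    haveI := hP.center_nontrivial
    obtain ⟨⟨x, hx⟩, x1, xx⟩ := ex_inv (hP.to_subgroup (center _))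
    obtain ⟨w, rfl⟩ := QuotientGroup.mk_surjective x
    refine x1 (Subtype.ext ((QuotientGroup.eq_one_iff _).2 (mem_cen.2 (hX ⟨w.2, ?_, fun v hv => ?_⟩))))
    · exact mem_cen.1 ((QuotientGroup.eq_one_iff (w * w)).1 (congrArg Subtype.val xx))
    · refine mem_cen.1 ((QuotientGroup.eq_one_iff ⁅w, (⟨v, hv⟩ : Q)⁆).1 ?_)
      have := map_commutatorElement (QuotientGroup.mk' (center Q)) w ⟨v, hv⟩
      exact this.trans (commutatorElement_eq_one_iff_mul_comm.2 (mem_center_iff.1 hx _).symm)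

theorem card_le_four (D C : Subgroup G) (hD : IsPGroup 2 D) (hle : C ≤ D) (hc : C ≤ 𝐂(D))
    (h1 : ∀ s ∈ D, ∀ t ∈ D, s * s = 1 → t * t = 1 → s * t = t * s → s = 1 ∨ t = 1 ∨ s = t)
    (hsq : ∀ w ∈ D, w * w ∈ C) : Nat.card D ≤ 4 * Nat.card C := by
  have cD : ∀ c ∈ C, ∀ w ∈ D, w * c = c * w := fun c hcC w hw => hc hcC w hw
  by_cases hb : C = ⊥
  · have sq : ∀ w ∈ D, w * w = 1 := fun w hw => mem_bot.1 (hb ▸ hsq w hw)
    have : ∃ s ∈ D, D ≤ zpowers s := by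
      by_cases e : D = ⊥
      · exact ⟨1, one_mem _, e ▸ bot_le⟩
      · obtain ⟨⟨s, hs⟩, s1⟩ := ne_bot_iff_exists_ne_one.1 e
        refine ⟨s, hs, fun t ht => ?_⟩
        have cm : s * t = t * s := by
          have a := sq _ (mul_mem hs ht)
          calc s * t = (s * t)⁻¹ := eq_inv_of_mul_eq_one_left a
            _ = t * s := by
              rw [mul_inv_rev, inv_eq_of_mul_eq_one_right (sq s hs), inv_eq_of_mul_eq_one_right (sq t ht)]
        rcases h1 s hs t ht (sq s hs) (sq t ht) cm with e | e | e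
        · exact absurd (Subtype.ext e) s1
        · exact e ▸ one_mem _
        · exact e ▸ mem_zpowers _
    obtain ⟨s, hs, hl⟩ := this
    have a := card_le_of_le hl
    have b := card_zp (w := s) two_pos (by rw [pow_two, sq s hs])
    have c : 0 < Nat.card C := Nat.card_pos
    omega
  haveI : Nontrivial C := (nontrivial_iff_ne_bot C).2 hb
  obtain ⟨⟨z, zC⟩, z1, zz⟩ := ex_inv (hD.to_le hle)
  replace z1 : z ≠ 1 := fun e => z1 (Subtype.ext e)
  replace zz : z * z = 1 := congrArg Subtype.val zz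
  have inv : ∀ t ∈ D, t * t = 1 → t ∈ zpowers z := fun t ht tt => by
    rcases h1 t ht z (hle zC) tt zz (cD z zC t ht) with e | e | e
    · exact e ▸ one_mem _
    · exact absurd e z1
    · exact e ▸ mem_zpowers _
  have inv' : ∀ t ∈ D, t * t = 1 → t = 1 ∨ t = z := fun t ht tt => by
    rcases h1 t ht z (hle zC) tt zz (cD z zC t ht) with e | e | e
    · exact Or.inl e
    · exact absurd e z1
    · exact Or.inr e
  have cmC : ∀ a ∈ D, ∀ b ∈ D, ⁅a, b⁆ ∈ C := fun a ha b hb => by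
    have : ⁅a, b⁆ = (a * b * (a * b)) * ((b⁻¹ * a⁻¹ * b) * (b⁻¹ * a⁻¹ * b)) * (b⁻¹ * b⁻¹) := by
      simp only [commutatorElement_def]; group
    rw [this]
    exact mul_mem (mul_mem (hsq _ (mul_mem ha hb)) (hsq _ (mul_mem (mul_mem (inv_mem hb) (inv_mem ha)) hb)))
      (hsq _ (inv_mem hb))
  have cmul : ∀ a ∈ D, ∀ b ∈ D, ∀ v ∈ D, ⁅a * b, v⁆ = ⁅a, v⁆ * ⁅b, v⁆ := fun a ha b hb v hv => by
    have : ⁅a * b, v⁆ = a * ⁅b, v⁆ * a⁻¹ * ⁅a, v⁆ := by
      simp only [commutatorElement_def]; group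
    rw [this, cD _ (cmC b hb v hv) a ha, mul_inv_cancel_right]
    exact cD _ (cmC a ha v hv) _ (hle (cmC b hb v hv))
  have csq : ∀ a ∈ D, ∀ v ∈ D, ⁅a, v⁆ * ⁅a, v⁆ = 1 := fun a ha v hv => by
    rw [← cmul a ha a ha v hv]
    exact commutatorElement_eq_one_iff_mul_comm.2 (cD _ (hsq a ha) v hv).symm
  have sqm : ∀ a ∈ D, ∀ b ∈ D, a * b * (a * b) = a * a * (b * b) * ⁅a⁻¹, b⁆ := fun a ha b hb => by
    have : a * b * (a * b) = a * a * (⁅a⁻¹, b⁆ * (b * b)) := by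
      simp only [commutatorElement_def]; group
    rw [this, ← cD _ (cmC _ (inv_mem ha) b hb) _ (mul_mem hb hb), mul_assoc (a * a)]
  have sqC : ∀ a ∈ C, ∀ b ∈ C, a * b * (a * b) = a * a * (b * b) := fun a ha b hb => by
    calc a * b * (a * b) = a * (b * a) * b := by group
      _ = a * a * (b * b) := by rw [cD a ha b (hle hb)]; group
  have fm : ∀ a ∈ D, ∀ b ∈ D, a * b * (a * b) * (a * b * (a * b)) = a * a * (a * a) * (b * b * (b * b)) :=
    fun a ha b hb => by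
      rw [sqm a ha b hb, sqC _ (mul_mem (hsq a ha) (hsq b hb)) _ (cmC _ (inv_mem ha) b hb),
        csq _ (inv_mem ha) b hb, mul_one, sqC _ (hsq a ha) _ (hsq b hb)]
  obtain ⟨w0, w0D, w4, hw0⟩ : ∃ w0 ∈ D, w0 ^ 4 = 1 ∧
      ∀ w ∈ D, w * w * (w * w) = 1 → w * w0 = w0 * w → w ∈ zpowers w0 := by
    by_cases e : ∃ w0 ∈ D, w0 * w0 = z
    · obtain ⟨w0, w0D, e⟩ := e
      have zw : zpowers z ≤ zpowers w0 := zpowers_le.2 (e ▸ mul_mem (mem_zpowers _) (mem_zpowers _))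
      refine ⟨w0, w0D, ?_, fun w hw w4 cw => ?_⟩
      · calc w0 ^ 4 = w0 * w0 * (w0 * w0) := by simp [pow_succ, mul_assoc]
          _ = 1 := by rw [e, zz]
      · rcases inv' _ (mul_mem hw hw) w4 with f | f
        · exact zw (inv w hw f)
        · have : w * w0 * (w * w0) = 1 := by
            calc w * w0 * (w * w0) = w * (w0 * w) * w0 := by group
              _ = w * w * (w0 * w0) := by rw [← cw]; group
              _ = 1 := by rw [f, e, zz]
          have := zw (inv _ (mul_mem hw w0D) this)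
          simpa using mul_mem this (inv_mem (mem_zpowers w0))
    · refine ⟨z, hle zC, ?_, fun w hw w4 _ => ?_⟩
      · calc z ^ 4 = z * z * (z * z) := by simp [pow_succ, mul_assoc]
          _ = 1 := by rw [zz, mul_one]
      · rcases inv' _ (mul_mem hw hw) w4 with f | f
        · exact inv w hw f
        · exact absurd ⟨w, hw, f⟩ e
  let σ : C →* G := MonoidHom.mk' (fun c => (c : G) * c) fun a b => sqC _ a.2 _ b.2
  let φ : D →* G × G := MonoidHom.mk' (fun w => ((w : G) * w * (w * w), ⁅(w : G), w0⁆)) fun a b =>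
    Prod.ext (fm _ a.2 _ b.2) (cmul _ a.2 _ b.2 _ w0D)
  have k1 : Nat.card φ.ker ≤ 4 := by
    refine le_trans ?_ (card_zp (by norm_num) w4)
    rw [← card_map_of_injective (f := D.subtype) Subtype.val_injective]
    refine card_le_of_le ?_
    rintro _ ⟨w, hw, rfl⟩
    exact hw0 _ w.2 (congrArg Prod.fst (MonoidHom.mem_ker.1 hw))
      (commutatorElement_eq_one_iff_mul_comm.1 (congrArg Prod.snd (MonoidHom.mem_ker.1 hw)))
  have k2 : Nat.card φ.range ≤ Nat.card σ.range * 2 := by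
    have : φ.range ≤ σ.range.prod (zpowers z) := by
      rintro _ ⟨w, rfl⟩
      exact ⟨⟨⟨_, hsq _ w.2⟩, rfl⟩, inv _ (hle (cmC _ w.2 _ w0D)) (csq _ w.2 _ w0D)⟩
    refine (card_le_of_le this).trans ?_
    rw [Nat.card_congr (prodEquiv _ _).toEquiv, Nat.card_prod]
    exact Nat.mul_le_mul_left _ (card_zp two_pos (by rw [pow_two, zz]))
  have k3 : 2 ≤ Nat.card σ.ker := by
    haveI : Nontrivial σ.ker := ⟨⟨⟨⟨z, zC⟩, zz⟩, 1, fun e => z1 (congrArg (fun x : σ.ker => ((x : C) : G)) e)⟩⟩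
    exact Finite.one_lt_card
  have e1 := φ.ker.card_mul_index
  have e2 := σ.ker.card_mul_index
  rw [index_ker] at e1 e2
  calc Nat.card D = Nat.card φ.ker * Nat.card φ.range := e1.symm
    _ ≤ 4 * (Nat.card σ.range * Nat.card σ.ker) :=
      Nat.mul_le_mul k1 (k2.trans (Nat.mul_le_mul_left _ k3))
    _ = 4 * Nat.card C := by rw [← e2, mul_comm (Nat.card σ.range)]


end K3P
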