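import Mathlib
import Cfsg.Agent.Lib.K3P.Defs

/-! K3P package CA2, see `blueprint/K3P/README.md`. -/

set_option autoImplicit false
set_option linter.unusedSectionVars false
set_option linter.unusedVariables false

namespace K3P

open Cfsg Subgroup H71KM
open scoped commutatorElement

universe u

variable {G : Type u} [Group G] [Finite G] {p : ℕ} {Q K S Z X : Subgroup G} {h : G} {ψ : V3 → G}

namespace CA2_

theorem zc {z v : G} (hz : z ∈ ZQ Q) (hv : v ∈ Q) : Commute v z := mem_centralizer_iff.1 hz.2 v hv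

theorem zcj {g z : G} (hg : g ∈ 𝐍(Q)) (hz : z ∈ ZQ Q) : g * z * g⁻¹ ∈ ZQ Q :=
  ⟨(mem_normalizer_iff.1 hg z).1 hz.1, mem_centralizer_iff.2 fun v hv => by
    have e := (zc hz ((mem_normalizer_iff''.1 hg v).1 hv)).eq
    calc v * (g * z * g⁻¹) = g * (g⁻¹ * v * g * z) * g⁻¹ := by group
      _ = _ := by rw [e]; group⟩

/-- the elements of the centre killed by `n` -/
def Om (Q : Subgroup G) (n : ℕ) : Subgroup G where
  carrier := {z | z ∈ ZQ Q ∧ z ^ n = 1}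
  one_mem' := ⟨one_mem _, one_pow _⟩
  mul_mem' := fun {a b} ha hb => ⟨mul_mem ha.1 hb.1, by
    rw [(zc hb.1 ha.1.1).mul_pow, ha.2, hb.2, one_mul]⟩
  inv_mem' := fun {a} ha => ⟨inv_mem ha.1, by rw [inv_pow, ha.2, inv_one]⟩

theorem norm_of {A : Subgroup G} (k : ∀ g ∈ 𝐍(Q), ∀ a ∈ A, g * a * g⁻¹ ∈ A) : 𝐍(Q) ≤ 𝐍(A) := fun g hg =>
  mem_normalizer_iff.2 fun a => ⟨k g hg a, fun m => by
    have := k g⁻¹ (inv_mem hg) _ m
    rwa [show g⁻¹ * (g * a * g⁻¹) * g⁻¹⁻¹ = a by group] at this⟩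

theorem mem_zp (r : R1 G) {y d : G} (hy : orderOf y = 3) (dy : Commute d y) {k : ℕ}
    (d1 : d ^ 2 ^ k ≠ 1) (d2 : d ^ 2 ^ (k + 1) = 1) (j : ℕ) : ∀ m, j + m = k + 1 → ∀ x, Commute x d →
      Commute x y → x ^ 2 ^ j = 1 → x ∈ zpowers (d ^ 2 ^ m) := by
  induction j with
  | zero => intro m _ x _ _ e; rw [pow_zero, pow_one] at e; rw [e]; exact one_mem _
  | succ j ih =>
    intro m hm x xd xy e
    obtain ⟨i, hi⟩ := mem_zpowers_iff.1 (ih (m + 1) (by omega) (x ^ 2) (xd.pow_left _) (xy.pow_left _)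
      (by rw [← pow_mul, ← pow_succ', e]))
    have c : Commute x ((d ^ 2 ^ m) ^ i)⁻¹ := ((xd.pow_right _).zpow_right _).inv_right
    have u2 : x * ((d ^ 2 ^ m) ^ i)⁻¹ * (x * ((d ^ 2 ^ m) ^ i)⁻¹) = 1 := by
      rw [← sq, c.mul_pow, ← hi, pow_succ, pow_mul, inv_pow, ← zpow_natCast _ 2, ← zpow_natCast _ 2,
        ← zpow_mul, ← zpow_mul, mul_comm i, mul_inv_cancel]
    have mi : (d ^ 2 ^ m) ^ i ∈ zpowers (d ^ 2 ^ m) := zpow_mem (mem_zpowers _) _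
    rcases r y _ (d ^ 2 ^ k) hy u2 (by rw [← sq, ← pow_mul, ← pow_succ, d2])
      ((xd.mul_left (((Commute.refl d).pow_left _).zpow_left _).inv_left).pow_right _).eq
      (xy.mul_left ((dy.pow_left _).zpow_left _).inv_left).eq (dy.pow_left _).eq with a | a | a
    · rw [mul_inv_eq_one.1 a]; exact mi
    · exact absurd a d1
    · rw [mul_inv_eq_iff_eq_mul.1 a, show k = m + j by omega, pow_add, pow_mul]
      exact mul_mem (pow_mem (mem_zpowers _) _) mi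

end CA2_

open CA2_ in
theorem sp_of (T : Th G p) (C : TC Q ψ) (hX : IsX Q X) : SP Q X ψ := by
  classical
  intro w hw wZ y hy y3 yw
  obtain ⟨wQ, w2, -⟩ := (hX w).1 hw
  have ex : ∃ n : ℕ, ∀ z ∈ ZQ Q, z ^ 2 ^ n = 1 := by
    obtain ⟨n, hn⟩ := C.pg.exists_card_eq
    refine ⟨n, fun z hz => ?_⟩
    have := pow_card_eq_one' (G := Q) (x := ⟨z, hz.1⟩)
    rw [hn] at this
    exact congrArg Subtype.val this
  obtain ⟨k, hk⟩ : ∃ k, Nat.find ex = k + 1 := Nat.exists_eq_succ_of_ne_zero fun e => by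
    have := Nat.find_spec ex
    rw [e, pow_zero] at this
    obtain ⟨m1, m2, -⟩ := (C.mem (ψ 1)).2 ⟨1, rfl⟩
    have := C.inj 1 ((pow_one _).symm.trans (this _ ⟨m1, m2⟩))
    exact absurd this (by decide)
  have all : ∀ z ∈ ZQ Q, z ^ 2 ^ (k + 1) = 1 := hk ▸ Nat.find_spec ex
  have nall : ¬ ∀ z ∈ ZQ Q, z ^ 2 ^ k = 1 := Nat.find_min ex (by omega)
  obtain ⟨d, dZ, dy, d1⟩ : ∃ d ∈ ZQ Q, Commute d y ∧ d ^ 2 ^ k ≠ 1 := by
    by_contra! hn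
    have c1 := C.cube (ZQ Q) inf_le_left (norm_of fun g hg a ha => zcj hg ha) y hy y3
    have c2 := C.cube (Om Q (2 ^ k)) (fun a ha => ha.1.1) (norm_of fun g hg a ha =>
      ⟨zcj hg ha.1, by rw [conj_pow, ha.2]; group⟩) y hy y3
    have e : Om Q (2 ^ k) ⊓ Ce y = ZQ Q ⊓ Ce y :=
      le_antisymm (fun a ha => ⟨ha.1.1, ha.2⟩) fun a ha => ⟨⟨ha.1, hn a ha.1 (mc.1 ha.2)⟩, ha.2⟩
    rw [e, ← c1] at c2
    have : Om Q (2 ^ k) = ZQ Q := eq_of_le_of_card_ge (fun a ha => ha.1) c2.ge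
    exact nall fun z hz => (this ▸ hz : z ∈ Om Q (2 ^ k)).2
  have cw : ∀ g ∈ 𝐍(Q), ⁅g, w⁆ ∈ ZQ Q → ∀ z ∈ ZQ Q, ∃ z' ∈ ZQ Q, g * (z * w) * g⁻¹ = z' * w :=
    fun g hg c z hz => ⟨_, mul_mem (zcj hg hz) c, by rw [commutatorElement_def]; group⟩
  have pw : ∀ z ∈ ZQ Q, (z * w) ^ 2 ^ (k + 1) = w ^ 2 ^ (k + 1) := fun z hz => by
    rw [(zc hz wQ).symm.mul_pow, all z hz, one_mul]
  obtain ⟨z0, h0, c0⟩ : ∃ z0 ∈ ZQ Q, Commute (z0 * w) y := by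
    obtain ⟨z1, h1, e1⟩ := cw y hy yw 1 (one_mem _)
    obtain ⟨z2, h2, e2⟩ := cw y hy yw z1 h1
    rw [one_mul] at e1
    have y1 : y ^ 3 = 1 := y3 ▸ pow_orderOf_eq_one y
    have e3 : y * (z2 * w) * y⁻¹ = w := by
      rw [← e2, ← e1, show y * (y * (y * w * y⁻¹) * y⁻¹) * y⁻¹ = y ^ 3 * w * (y ^ 3)⁻¹ by
        rw [pow_three]; group, y1]
      group
    have a1 := zc h1 wQ
    have a2 := zc h2 wQ
    have e4 : z1 * z2 * (w * w) * w = w * (z1 * w) * (z2 * w) := by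
      rw [← mul_assoc w z1, a1.eq, mul_assoc (z1 * w), ← mul_assoc w z2, a2.eq, mul_assoc z1 w,
        ← mul_assoc w (z2 * w), ← mul_assoc w z2, a2.eq]
      group
    have e5 : z1 * w * (z2 * w) * w = w * (z1 * w) * (z2 * w) := by
      rw [← e4, mul_assoc z1 w, ← mul_assoc w z2, a2.eq]
      group
    refine ⟨z1 * z2 * (w * w), mul_mem (mul_mem h1 h2) w2, (mul_inv_eq_iff_eq_mul.1 ?_).symm⟩
    rw [e4, ← conj_mul, ← conj_mul, e1, e2, e3, e5]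
  have s1 : w ^ 2 ^ (k + 1) ≠ 1 := fun e => by
    have m := CA2_.mem_zp T.r1 y3 dy d1 (all d dZ) (k + 1) 0 rfl (z0 * w) (zc dZ (mul_mem h0.1 wQ)) c0
      ((pw z0 h0).trans e)
    rw [pow_zero, pow_one] at m
    exact wZ ((mul_mem_cancel_left h0).1 (zpowers_le.2 dZ m))
  have sZ : w ^ 2 ^ (k + 1) ∈ ZQ Q := by
    rw [pow_succ', pow_mul, sq]
    exact pow_mem w2 _
  obtain ⟨a, ha⟩ := (C.mem (w ^ 2 ^ (k + 1))).1 ⟨sZ.1, sZ.2, by
    rw [← (Commute.refl w).mul_pow]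
    exact all _ w2⟩
  refine ⟨a, fun e => s1 ?_, fun g hg c => ?_⟩
  · have := C.add 0 0
    rw [add_zero] at this
    rw [← ha, e]
    exact (mul_eq_left.1 this.symm)
  · obtain ⟨z, hz, e⟩ := cw g hg c 1 (one_mem _)
    rw [one_mul] at e
    rw [ha, ← mul_inv_eq_iff_eq_mul, ← conj_pow, e, pw z hz]

end K3P
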