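import Mathlib
import Cfsg.Agent.Lib.K3P.Defs
import Cfsg.Agent.Lib.K3P.CA0
import Cfsg.Agent.Lib.A7S.Gen

/-! K3P package CA3, see `blueprint/K3P/README.md`. -/

set_option autoImplicit false
set_option linter.unusedSectionVars false
set_option linter.unusedVariables false

namespace K3P

open Cfsg Subgroup H71KM
open scoped commutatorElement

universe u

variable {G : Type u} [Group G] [Finite G] {p : ℕ} {Q K S Z X : Subgroup G} {h : G} {ψ : V3 → G}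

namespace CA3_

set_option maxRecDepth 100000 in
theorem c56 : (Finset.univ.filter fun m : M3 => m * m * m = 1 ∧ m ≠ 1).card = 56 := by decide +kernel

theorem tr : ∀ a b : V3, a ≠ 0 → b ≠ 0 → a = b ∨ ∃ m : M3, m.mulVec a = b ∧ m * m * m = 1 := by decide +kernel

theorem det1 {m : M3} (h : m * m * m = 1) : m.det = 1 := by
  have := congrArg Matrix.det h
  rw [Matrix.det_mul, Matrix.det_mul, Matrix.det_one] at this
  revert this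
  generalize m.det = d
  revert d
  decide

theorem cj {A : Subgroup G} {g a : G} (hg : g ∈ 𝐍(A)) (ha : a ∈ A) : g * a * g⁻¹ ∈ A :=
  (mem_normalizer_iff.1 hg a).1 ha

theorem stab {A Z : Subgroup G} (hA : A ≤ 𝐍(Z)) (x : G) : ∃ W : Subgroup G, ∀ g, g ∈ W ↔ g ∈ A ∧ ⁅g, x⁆ ∈ Z := by
  refine ⟨⟨⟨⟨{g | g ∈ A ∧ ⁅g, x⁆ ∈ Z}, ?_⟩, one_mem _, by simp⟩, ?_⟩, fun _ => Iff.rfl⟩
  · rintro a b ⟨ha, ha'⟩ ⟨hb, hb'⟩
    refine ⟨mul_mem ha hb, ?_⟩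
    rw [show ⁅a * b, x⁆ = a * ⁅b, x⁆ * a⁻¹ * ⁅a, x⁆ by simp only [commutatorElement_def]; group]
    exact mul_mem (cj (hA ha) hb') ha'
  · rintro a ⟨ha, ha'⟩
    refine ⟨inv_mem ha, ?_⟩
    rw [show ⁅a⁻¹, x⁆ = a⁻¹ * ⁅a, x⁆⁻¹ * a⁻¹⁻¹ by simp only [commutatorElement_def]; group]
    exact cj (hA (inv_mem ha)) (inv_mem ha')

theorem three {A B : Subgroup G} {y : G} (hy : y ∈ B) (hy' : y ∉ A) (h3 : y ^ 3 = 1) : 3 ≤ A.relIndex B := by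
  by_contra k
  have h0 : A.relIndex B ≠ 0 := index_ne_zero_of_finite
  rcases (by omega : A.relIndex B = 1 ∨ A.relIndex B = 2) with k | k
  · exact hy' (relIndex_eq_one.1 k hy)
  · have := mul_self_mem_of_index_two k (⟨y, hy⟩ * ⟨y, hy⟩ : B)
    rw [mem_subgroupOf] at this
    refine hy' ?_
    have e : y * y * (y * y) = y := by
      calc _ = y ^ 3 * y := by simp only [pow_three', mul_assoc]
        _ = y := by rw [h3, one_mul]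
    exact e ▸ this

theorem card_rel {A B : Subgroup G} (h : A ≤ B) : Nat.card B = A.relIndex B * Nat.card A := by
  rw [← card_mul_index (A.subgroupOf B), Nat.card_congr (subgroupOfEquivOfLe h).toEquiv, mul_comm]; rfl

theorem card_diff [Fintype G] {A Z : Subgroup G} (h : Z ≤ A) (s : Finset G) (hs : ∀ w, w ∈ s ↔ w ∈ A ∧ w ∉ Z) :
    s.card + Nat.card Z = Nat.card A := by
  classical
  have e : ∀ B : Subgroup G, Nat.card B = (Finset.univ.filter fun w => w ∈ B).card := fun B =>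
    Nat.subtype_card _ (by simp)
  rw [e, e, ← Finset.card_union_of_disjoint]
  · congr 1; ext w
    simp only [Finset.mem_union, hs, Finset.mem_filter, Finset.mem_univ, true_and]
    exact ⟨fun k => k.elim And.left (@h w), fun k => (em (w ∈ Z)).elim .inr fun k' => .inl ⟨k, k'⟩⟩
  · exact Finset.disjoint_left.2 fun w a b => ((hs w).1 a).2 (by simpa using b)

theorem nZ : 𝐍(Q) ≤ 𝐍(ZQ Q) := fun g hg => mem_normalizer_fintype fun z hz => ⟨cj hg hz.1, fun v hv => by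
  have := hz.2 _ (cj (inv_mem hg) hv)
  calc v * (g * z * g⁻¹) = g * (g⁻¹ * v * g⁻¹⁻¹ * z) * g⁻¹ := by group
    _ = _ := by rw [this]; group⟩

/-- `g` induces the matrix `m` -/
def Ind (ψ : V3 → G) (g : G) (m : M3) : Prop := ∀ a, g * ψ a * g⁻¹ = ψ (m.mulVec a)

theorem inj (C : TC Q ψ) : Function.Injective ψ := fun a b e => by
  have h0 : ψ 0 = 1 := by simpa using C.add 0 0
  have : a + b = 0 := C.inj _ (by rw [C.add, e, ← C.add, CharTwo.add_self_eq_zero, h0])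
  rw [← add_zero a, ← CharTwo.add_self_eq_zero b, ← add_assoc, this, zero_add]

theorem Ind.uniq (C : TC Q ψ) {g : G} {m m' : M3} (h : Ind ψ g m) (h' : Ind ψ g m') : m = m' :=
  Matrix.toLin'.injective (LinearMap.ext fun a => inj C ((h a).symm.trans (h' a)))

theorem Ind.mul {g g' : G} {m m' : M3} (h : Ind ψ g m) (h' : Ind ψ g' m') : Ind ψ (g * g') (m * m') := fun a => by
  rw [← Matrix.mulVec_mulVec, ← h, ← h']; group

theorem ind_one : Ind ψ 1 1 := fun a => by simp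

theorem Ind.pow {g : G} {m : M3} (h : Ind ψ g m) (n : ℕ) : Ind ψ (g ^ n) (m ^ n) := by
  induction n with
  | zero => simpa using ind_one
  | succ n ih => rw [pow_succ, pow_succ]; exact ih.mul h

theorem ind_Q (C : TC Q ψ) {g : G} : Ind ψ g 1 ↔ g ∈ Q := by
  rw [← C.cv]
  refine forall_congr' fun a => ?_
  rw [Matrix.one_mulVec, mul_inv_eq_iff_eq_mul]

theorem lift (C : TC Q ψ) {m : M3} (h : m * m * m = 1) (h1 : m ≠ 1) : ∃ y ∈ 𝐍(Q), orderOf y = 3 ∧ Ind ψ y m := by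
  obtain ⟨g, hg, e⟩ := C.act m (det1 h)
  have e : Ind ψ g m := e
  have h3 : m ^ 3 = 1 := by rw [← h, pow_three']
  have hq : g ^ 3 ∈ Q := (ind_Q C).1 (h3 ▸ e.pow 3)
  obtain ⟨k, hk⟩ := C.pg ⟨_, hq⟩
  have hk : (g ^ 3) ^ 2 ^ k = 1 := congrArg Subtype.val hk
  have h4 : ∀ j : ℕ, m ^ 4 ^ j = m := fun j => by
    induction j with
    | zero => simp
    | succ j ih => rw [pow_succ, pow_mul, ih, pow_succ, h3, one_mul]
  have e' : Ind ψ (g ^ 4 ^ k) m := h4 k ▸ e.pow (4 ^ k)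
  refine ⟨_, pow_mem hg _, orderOf_eq_prime ?_ fun k1 => h1 (e'.uniq C (k1 ▸ ind_one)), e'⟩
  rw [← pow_mul, mul_comm, pow_mul, show 4 ^ k = 2 ^ k * 2 ^ k from mul_pow 2 2 k, pow_mul, hk, one_pow]

/-- the stabilizer of a vector has index at least 7 -/
theorem idx24 (C : TC Q ψ) {a : V3} (ha : a ≠ 0) : Q.relIndex (𝐍(Q) ⊓ Ce (ψ a)) ≤ 24 := by
  have e := H25.A7.card_orbit (ψ a) 𝐍(Q)
  have hq : Q ≤ 𝐍(Q) ⊓ Ce (ψ a) := fun g hg => ⟨le_normalizer hg, mc.2 ((C.cv g).2 hg a)⟩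
  have h7 : 7 ≤ Set.ncard {s | ∃ n ∈ 𝐍(Q), n * ψ a * n⁻¹ = s} := by
    have : (ψ '' ((Finset.univ.filter fun b : V3 => b ≠ 0 : Finset V3) : Set V3)).ncard = 7 := by
      rw [Set.ncard_image_of_injective _ (inj C), Set.ncard_coe_finset]; decide
    rw [← this]
    refine Set.ncard_le_ncard ?_ (Set.toFinite _)
    rintro _ ⟨b, hb, rfl⟩
    rcases tr a b ha (by simpa using hb) with rfl | ⟨m, rfl, hm⟩
    · exact ⟨1, one_mem _, by simp⟩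
    · obtain ⟨g, hg, k⟩ := C.act m (det1 hm)
      exact ⟨g, hg, k a⟩
  rw [C.ord, card_rel hq] at e
  have hp : 0 < Nat.card Q := Nat.card_pos
  have : 7 * Q.relIndex (𝐍(Q) ⊓ Ce (ψ a)) * Nat.card Q ≤ 168 * Nat.card Q := by
    rw [mul_comm 168, e, mul_assoc]; exact Nat.mul_le_mul_right _ h7
  have := Nat.le_of_mul_le_mul_right this hp
  omega

theorem ratio (T : Th G p) (C : TC Q ψ) (hX : IsX Q X) (h1 : ZQ Q ≤ X) (h2 : 𝐍(Q) ≤ 𝐍(X)) {y : G} (hy : y ∈ 𝐍(Q))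
    (h3 : orderOf y = 3) : ∃ r, r ≤ 4 ∧ (ZQ Q).relIndex X = r ^ 3 ∧
      ∀ F : Subgroup G, (∀ w, w ∈ F ↔ w ∈ X ∧ ⁅w, y⁆ ∈ ZQ Q) → r * Nat.card (ZQ Q) ≤ Nat.card F := by
  have XQ : X ≤ Q := fun w hw => ((hX w).1 hw).1
  have le : ZQ Q ⊓ Ce y ≤ X ⊓ Ce y := inf_le_inf_right _ h1
  have c4 := card_le_four (X ⊓ Ce y) (ZQ Q ⊓ Ce y) (C.pg.to_le (inf_le_left.trans XQ)) le
    (fun z hz v hv => hz.1.2 v (XQ hv.1))
    (fun s hs t ht a b c => T.r1 y s t h3 a b c (mc.1 hs.2) (mc.1 ht.2))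
    fun w hw => ⟨((hX w).1 hw.1).2.1, mul_mem hw.2 hw.2⟩
  have e := card_rel le
  have eX := C.cube X XQ h2 y hy h3
  have eZ := C.cube (ZQ Q) inf_le_left nZ y hy h3
  have hp : 0 < Nat.card (ZQ Q ⊓ Ce y : Subgroup G) := Nat.card_pos
  refine ⟨(ZQ Q ⊓ Ce y).relIndex (X ⊓ Ce y), ?_, ?_, fun F hF => ?_⟩
  · rw [e] at c4; exact Nat.le_of_mul_le_mul_right c4 hp
  · rw [card_rel h1, e, mul_pow, ← eZ] at eX
    exact Nat.eq_of_mul_eq_mul_right Nat.card_pos eX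
  · have zF : ZQ Q ≤ F := fun z hz => (hF z).2 ⟨h1 hz, by
      rw [show ⁅z, y⁆ = z * (y * z * y⁻¹)⁻¹ by simp only [commutatorElement_def]; group]
      exact mul_mem hz (inv_mem (cj (nZ hy) hz))⟩
    have dF : X ⊓ Ce y ≤ F := fun w hw => (hF w).2 ⟨hw.1, by
      rw [commutatorElement_eq_one_iff_mul_comm.2 (mc.1 hw.2)]; exact one_mem _⟩
    rw [card_rel zF]
    refine Nat.mul_le_mul_right _ ?_
    rw [show ZQ Q ⊓ Ce y = ZQ Q ⊓ (X ⊓ Ce y) by rw [← inf_assoc, inf_eq_left.2 h1], inf_relIndex_right]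
    exact relIndex_le_of_le_right dF index_ne_zero_of_finite

theorem two (T : Th G p) (C : TC Q ψ) (hX : IsX Q X) (h1 : ZQ Q ≤ X) (h2 : 𝐍(Q) ≤ 𝐍(X)) (h3 : ¬ X ≤ ZQ Q) :
    ∃ w ∈ X, w ∉ ZQ Q ∧ ∃ y1 ∈ 𝐍(Q), ∃ y2 ∈ 𝐍(Q), ∃ m1 m2 : M3, orderOf y1 = 3 ∧ orderOf y2 = 3 ∧
      Ind ψ y1 m1 ∧ Ind ψ y2 m2 ∧ ⁅y1, w⁆ ∈ ZQ Q ∧ ⁅y2, w⁆ ∈ ZQ Q ∧ m1 * m1 * m1 = 1 ∧ m1 ≠ 1 ∧ m2 ≠ 1 ∧
      m2 ≠ m1 ∧ m2 ≠ m1 * m1 := by
  classical
  have := Fintype.ofFinite G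
  have XQ : X ≤ Q := fun w hw => ((hX w).1 hw).1
  by_contra k
  let I : Finset M3 := Finset.univ.filter fun m : M3 => m * m * m = 1 ∧ m ≠ 1
  let t : Finset G := Finset.univ.filter fun w => w ∈ X ∧ w ∉ ZQ Q
  let R : M3 → G → Prop := fun m w => ∃ y ∈ 𝐍(Q), orderOf y = 3 ∧ Ind ψ y m ∧ ⁅y, w⁆ ∈ ZQ Q
  have hI : ∀ m ∈ I, m * m * m = 1 ∧ m ≠ 1 := fun m hm => (Finset.mem_filter.1 hm).2
  have cI : I.card = 56 := by convert c56
  obtain ⟨m0, hm0⟩ : I.Nonempty := Finset.card_pos.1 (by omega)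
  obtain ⟨y0, hy0, o0, -⟩ := lift C (hI _ hm0).1 (hI _ hm0).2
  obtain ⟨r, r4, er, -⟩ := ratio T C hX h1 h2 hy0 o0
  have ct := card_diff h1 t (by simp [t])
  rw [card_rel h1, er] at ct
  have key := Finset.card_mul_le_card_mul R (s := I) (t := t) (m := (r - 1) * Nat.card (ZQ Q)) (n := 2)
    (fun m hm => by
      obtain ⟨y, hy, o, e⟩ := lift C (hI _ hm).1 (hI _ hm).2
      obtain ⟨r', -, er', hF⟩ := ratio T C hX h1 h2 hy o
      obtain rfl : r' = r := Nat.pow_left_injective (by norm_num : 3 ≠ 0) (er'.symm.trans er)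
      obtain ⟨F, mF⟩ := stab (XQ.trans (le_normalizer.trans nZ)) y
      have zF : ZQ Q ≤ F := fun z hz => (mF z).2 ⟨h1 hz, by
        rw [show ⁅z, y⁆ = z * (y * z * y⁻¹)⁻¹ by simp only [commutatorElement_def]; group]
        exact mul_mem hz (inv_mem (cj (nZ hy) hz))⟩
      have c1 := card_diff zF (Finset.univ.filter fun w => w ∈ F ∧ w ∉ ZQ Q) (by simp)
      have c2 := hF F mF
      refine le_trans (b := (Finset.univ.filter fun w => w ∈ F ∧ w ∉ ZQ Q).card) ?_ (Finset.card_le_card fun w hw => ?_)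
      · rw [Nat.sub_mul]; omega
      · obtain ⟨-, a, b⟩ := Finset.mem_filter.1 hw
        refine (Finset.mem_bipartiteAbove _).2 ⟨Finset.mem_filter.2 ⟨Finset.mem_univ _, ((mF w).1 a).1, b⟩, y, hy, o, e, ?_⟩
        rw [← commutatorElement_inv]; exact inv_mem ((mF w).1 a).2)
    (fun w hw => by
      by_contra k2
      obtain ⟨-, wX, wZ⟩ := Finset.mem_filter.1 hw
      obtain ⟨m1, m2, m3, a1, a2, a3, n12, n13, n23⟩ := Finset.two_lt_card_iff.1 (not_le.1 k2)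
      obtain ⟨i1, y1, b1, o1, e1, c1⟩ := (Finset.mem_bipartiteBelow _).1 a1
      obtain ⟨i2, y2, b2, o2, e2, c2⟩ := (Finset.mem_bipartiteBelow _).1 a2
      obtain ⟨i3, y3, b3, o3, e3, c3⟩ := (Finset.mem_bipartiteBelow _).1 a3
      by_cases k3 : m2 = m1 * m1
      · exact k ⟨w, wX, wZ, y1, b1, y3, b3, m1, m3, o1, o3, e1, e3, c1, c3, (hI _ i1).1, (hI _ i1).2, (hI _ i3).2,
          n13.symm, fun k4 => n23 (k3.trans k4.symm)⟩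
      · exact k ⟨w, wX, wZ, y1, b1, y2, b2, m1, m2, o1, o2, e1, e2, c1, c2, (hI _ i1).1, (hI _ i1).2, (hI _ i2).2,
          n12.symm, k3⟩)
  rw [cI] at key
  have hp : 0 < Nat.card (ZQ Q) := Nat.card_pos
  have r0 : (ZQ Q).relIndex X ≠ 0 := index_ne_zero_of_finite
  have r1 : (ZQ Q).relIndex X ≠ 1 := fun e => h3 (relIndex_eq_one.1 e)
  rw [er] at r0 r1
  interval_cases r <;> omega

end CA3_

open CA3_ in
theorem exists_fixed (T : Th G p) (C : TC Q ψ) (hX : IsX Q X) (h1 : ZQ Q ≤ X) (h2 : 𝐍(Q) ≤ 𝐍(X))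
    (h3 : ¬ X ≤ ZQ Q) (hS : SP Q X ψ) :
    ∃ w ∈ X, w ∉ ZQ Q ∧ ∃ a, a ≠ 0 ∧ ∀ g ∈ 𝐍(Q), g * ψ a = ψ a * g → ⁅g, w⁆ ∈ ZQ Q := by
  obtain ⟨w, wX, wZ, y1, b1, y2, b2, m1, m2, o1, o2, e1, e2, c1, c2, h13, n1, n2, n21, n22⟩ := two T C hX h1 h2 h3
  obtain ⟨a, ha, hP⟩ := hS w wX wZ y1 b1 o1 c1
  obtain ⟨W, mW⟩ := stab (nZ (Q := Q)) w
  have WP : W ≤ 𝐍(Q) ⊓ Ce (ψ a) := fun g hg => ⟨((mW g).1 hg).1, mc.2 (hP g ((mW g).1 hg).1 ((mW g).1 hg).2)⟩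
  have QW : Q ≤ W := fun v hv => (mW v).2 ⟨le_normalizer hv, by
    rw [← commutatorElement_inv]; exact inv_mem (((hX w).1 wX).2.2 v hv)⟩
  have m3 : m1 ^ 3 = 1 := by rw [← h13, pow_three']
  let K : Subgroup G := ⟨⟨⟨{g | ∃ k : ℕ, Ind ψ g (m1 ^ k)}, fun ⟨i, hi⟩ ⟨j, hj⟩ => ⟨i + j, pow_add m1 i j ▸ hi.mul hj⟩⟩,
    ⟨0, by simpa using ind_one⟩⟩, fun {g} ⟨i, hi⟩ => ⟨i * (orderOf g - 1), by
      have := hi.pow (orderOf g - 1)
      rwa [← pow_mul, show g ^ (orderOf g - 1) = g⁻¹ from eq_inv_of_mul_eq_one_left (by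
        rw [← pow_succ, Nat.sub_add_cancel (orderOf_pos g), pow_orderOf_eq_one])] at this⟩⟩
  have QK : Q ≤ W ⊓ K := fun v hv => ⟨QW hv, 0, by simpa using (ind_Q C).2 hv⟩
  have i1 : 3 ≤ Q.relIndex (W ⊓ K) := three (y := y1) ⟨(mW _).2 ⟨b1, c1⟩, 1, by simpa using e1⟩
    (fun k => n1 (e1.uniq C ((ind_Q C).2 k))) (o1 ▸ pow_orderOf_eq_one y1)
  have i2 : 3 ≤ (W ⊓ K).relIndex W := three (y := y2) ((mW _).2 ⟨b2, c2⟩) (fun ⟨_, k, hk⟩ => by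
    have e := e2.uniq C hk
    rw [← Nat.div_add_mod k 3, pow_add, pow_mul, m3, one_pow, one_mul] at e
    rcases (by omega : k % 3 = 0 ∨ k % 3 = 1 ∨ k % 3 = 2) with k | k | k <;> rw [k] at e
    exacts [n2 (by simpa using e), n21 (by simpa using e), n22 (by rw [e, sq])]) (o2 ▸ pow_orderOf_eq_one y2)
  have i3 := idx24 C ha
  rw [← relIndex_mul_relIndex Q W _ QW WP, ← relIndex_mul_relIndex Q (W ⊓ K) W QK inf_le_left] at i3
  have i4 : W.relIndex (𝐍(Q) ⊓ Ce (ψ a)) ≤ 2 := by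
    by_contra k
    have := Nat.mul_le_mul (Nat.mul_le_mul i1 i2) (not_le.1 k)
    omega
  by_cases hW : 𝐍(Q) ⊓ Ce (ψ a) ≤ W
  · exact ⟨w, wX, wZ, a, ha, fun g hg e => ((mW g).1 (hW ⟨hg, mc.2 e⟩)).2⟩
  have i5 : W.relIndex (𝐍(Q) ⊓ Ce (ψ a)) = 2 := by
    have r0 : W.relIndex (𝐍(Q) ⊓ Ce (ψ a)) ≠ 0 := index_ne_zero_of_finite
    have r1 : W.relIndex (𝐍(Q) ⊓ Ce (ψ a)) ≠ 1 := fun e => hW (relIndex_eq_one.1 e)
    omega
  have ix : ∀ {g g' : G}, g ∈ 𝐍(Q) ⊓ Ce (ψ a) → g' ∈ 𝐍(Q) ⊓ Ce (ψ a) → (g * g' ∈ W ↔ (g ∈ W ↔ g' ∈ W)) :=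
    fun {g g'} hg hg' => mul_mem_iff_of_index_two i5 (a := ⟨g, hg⟩) (b := ⟨g', hg'⟩)
  obtain ⟨s, hs, sW⟩ := SetLike.not_le_iff_exists.1 hW
  have sW' : s⁻¹ ∉ W := fun k => sW (inv_mem_iff.1 k)
  have uX : s * w * s⁻¹ ∈ X := cj (h2 hs.1) wX
  have wN : ∀ {v}, v ∈ X → v ∈ 𝐍(ZQ Q) := fun hv => nZ (le_normalizer ((hX _).1 hv).1)
  refine ⟨w * (s * w * s⁻¹), mul_mem wX uX, fun k => sW ((mW s).2 ⟨hs.1, ?_⟩), a, ha, fun g hg e => ?_⟩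
  · rw [show ⁅s, w⁆ = w⁻¹ * (w * (s * w * s⁻¹)) * w⁻¹⁻¹ * (w * w)⁻¹ by simp only [commutatorElement_def]; group]
    exact mul_mem (cj (wN (inv_mem wX)) k) (inv_mem ((hX w).1 wX).2.1)
  have gP : g ∈ 𝐍(Q) ⊓ Ce (ψ a) := ⟨hg, mc.2 e⟩
  by_cases gW : g ∈ W
  · have k : s⁻¹ * g * s ∈ W := (ix (mul_mem (inv_mem hs) gP) hs).2
      (iff_of_false (fun k => sW' (((ix (inv_mem hs) gP).1 k).2 gW)) sW)
    rw [show ⁅g, w * (s * w * s⁻¹)⁆ = ⁅g, w⁆ * (w * (s * ⁅s⁻¹ * g * s, w⁆ * s⁻¹) * w⁻¹) by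
      simp only [commutatorElement_def]; group]
    exact mul_mem ((mW g).1 gW).2 (cj (wN wX) (cj (nZ hs.1) ((mW _).1 k).2))
  · have k1 : s⁻¹ * g ∈ W := (ix (inv_mem hs) gP).2 (iff_of_false sW' gW)
    have k2 : g * s ∈ W := (ix gP hs).2 (iff_of_false gW sW)
    rw [show ⁅g, w * (s * w * s⁻¹)⁆ = s * ⁅s⁻¹ * g, w⁆ * s⁻¹ * (s * w * s⁻¹ * ⁅g * s, w⁆ * (s * w * s⁻¹)⁻¹) *
      ⁅s * w * s⁻¹, w⁆ by simp only [commutatorElement_def]; group]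
    exact mul_mem (mul_mem (cj (nZ hs.1) ((mW _).1 k1).2) (cj (wN uX) ((mW _).1 k2).2))
      (((hX _).1 uX).2.2 w ((hX w).1 wX).1)


end K3P
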