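import Mathlib
import Cfsg.Agent.Lib.K3P.Defs

/-! K3P package CA4, see `blueprint/K3P/README.md`. -/

set_option autoImplicit false
set_option linter.unusedSectionVars false
set_option linter.unusedVariables false

namespace K3P

open Cfsg Subgroup H71KM
open scoped commutatorElement

universe u

variable {G : Type u} [Group G] [Finite G] {p : ℕ} {Q K S Z X : Subgroup G} {h : G} {ψ : V3 → G}

namespace CA4_

set_option synthInstance.maxSize 100000 in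
set_option synthInstance.maxHeartbeats 400000 in
theorem key0 : ∀ b b' a : V3, b ≠ 0 → b' ≠ 0 → b ≠ b' → a ≠ 0 → ∃ r s t : V3,
    (r 0 * b 0 + r 1 * b 1 + r 2 * b 2 = b' 0 ∧ r 0 * b' 0 + r 1 * b' 1 + r 2 * b' 2 = b 0 + b' 0) ∧
    (s 0 * b 0 + s 1 * b 1 + s 2 * b 2 = b' 1 ∧ s 0 * b' 0 + s 1 * b' 1 + s 2 * b' 2 = b 1 + b' 1) ∧
    (t 0 * b 0 + t 1 * b 1 + t 2 * b 2 = b' 2 ∧ t 0 * b' 0 + t 1 * b' 1 + t 2 * b' 2 = b 2 + b' 2) ∧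
    (Matrix.of ![r, s, t]).mulVec a ≠ a ∧ (Matrix.of ![r, s, t]).det = 1 ∧
    ∀ v : V3, (Matrix.of ![r, s, t]).mulVec ((Matrix.of ![r, s, t]).mulVec ((Matrix.of ![r, s, t]).mulVec v)) = v := by
  decide +kernel

theorem key (b b' a : V3) (h1 : b ≠ 0) (h2 : b' ≠ 0) (h3 : b ≠ b') (h4 : a ≠ 0) : ∃ m : M3, m.mulVec b = b' ∧
    m.mulVec b' = b + b' ∧ m.mulVec a ≠ a ∧ m.det = 1 ∧ ∀ v, m.mulVec (m.mulVec (m.mulVec v)) = v := by
  obtain ⟨r, s, t, ⟨e1, e2⟩, ⟨e3, e4⟩, ⟨e5, e6⟩, h⟩ := key0 b b' a h1 h2 h3 h4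
  refine ⟨Matrix.of ![r, s, t], ?_, ?_, h⟩
  · funext i
    fin_cases i <;> simp [Matrix.mulVec, dotProduct, Fin.sum_univ_three, e1, e3, e5]
  · funext i
    fin_cases i <;> simp [Matrix.mulVec, dotProduct, Fin.sum_univ_three, e2, e4, e6]

theorem two (b : V3) : b + b = 0 := by
  funext i
  simp only [Pi.add_apply, Pi.zero_apply]
  exact CharTwo.add_self_eq_zero _

theorem zconj {g z : G} (hg : g ∈ 𝐍(Q)) (hz : z ∈ ZQ Q) : g * z * g⁻¹ ∈ ZQ Q := by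
  refine ⟨(mem_normalizer_iff.1 hg z).1 hz.1, fun q hq => ?_⟩
  have h1 : g⁻¹ * q * g⁻¹⁻¹ ∈ Q := (mem_normalizer_iff.1 (inv_mem hg) q).1 hq
  have h2 := hz.2 _ h1
  calc q * (g * z * g⁻¹) = g * (g⁻¹ * q * g⁻¹⁻¹ * z) * g⁻¹ := by group
    _ = g * (z * (g⁻¹ * q * g⁻¹⁻¹)) * g⁻¹ := by rw [h2]
    _ = g * z * g⁻¹ * q := by group

theorem psi0 (C : TC Q ψ) : ψ 0 = 1 := by
  have h := C.add 0 0
  rw [add_zero] at h
  exact mul_eq_left.1 h.symm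

theorem psi_inj (C : TC Q ψ) {a b : V3} (h : ψ a = ψ b) : a = b := by
  have h1 : ψ (a + b) = 1 := by rw [C.add, h, ← C.add, two, psi0 C]
  have h2 := C.inj _ h1
  calc a = a + (b + b) := by rw [two, add_zero]
    _ = b := by rw [← add_assoc, h2, zero_add]

theorem trans (C : TC Q ψ) {a b : V3} (ha : a ≠ 0) (hb : b ≠ 0) : ∃ g ∈ 𝐍(Q), g * ψ a * g⁻¹ = ψ b := by
  by_cases e : a = b
  · exact ⟨1, one_mem _, by simp [e]⟩
  · obtain ⟨m, h1, -, -, h2, -⟩ := key a b a ha hb e ha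
    obtain ⟨g, hg, h3⟩ := C.act m h2
    exact ⟨g, hg, by rw [h3, h1]⟩

theorem comm_pow {g d : G} (hg : g ∈ 𝐍(Q)) (h : ⁅g, d⁆ ∈ ZQ Q) (n : ℕ) : ⁅g ^ n, d⁆ ∈ ZQ Q := by
  induction n with
  | zero => simpa using one_mem _
  | succ n ih =>
    have e : ⁅g ^ (n + 1), d⁆ = g * ⁅g ^ n, d⁆ * g⁻¹ * ⁅g, d⁆ := by
      simp only [commutatorElement_def, pow_succ']
      group
    rw [e]
    exact mul_mem (zconj hg ih) h

/-- an element with cube in `Q` and outside `Q` has a power of order three. -/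
theorem exists_three (hQ : IsPGroup 2 Q) {g : G} (h3 : g ^ 3 ∈ Q) (hg : g ∉ Q) : ∃ n : ℕ, orderOf (g ^ n) = 3 := by
  obtain ⟨k, hk⟩ := hQ ⟨_, h3⟩
  have hk' : (g ^ 3) ^ 2 ^ k = 1 := by simpa using congrArg Subtype.val hk
  haveI : Fact (Nat.Prime 3) := ⟨Nat.prime_three⟩
  refine ⟨2 ^ k, orderOf_eq_prime ?_ fun h1 => hg ?_⟩
  · rw [← pow_mul, mul_comm, pow_mul, hk']
  · have hc : Nat.Coprime (2 ^ k) 3 := Nat.Coprime.pow_left k (by norm_num)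
    have h4 : g ^ 2 ^ k ∈ Q := h1 ▸ one_mem Q
    have h5 : g ^ ((2 ^ k : ℕ) : ℤ) ∈ Q := by rwa [zpow_natCast]
    have h6 : g ^ ((3 : ℕ) : ℤ) ∈ Q := by rwa [zpow_natCast]
    have h7 := Nat.gcd_eq_gcd_ab (2 ^ k) 3
    rw [hc.gcd_eq_one] at h7
    have h8 : g = (g ^ ((2 ^ k : ℕ) : ℤ)) ^ Nat.gcdA (2 ^ k) 3 * (g ^ ((3 : ℕ) : ℤ)) ^ Nat.gcdB (2 ^ k) 3 := by
      rw [← zpow_mul, ← zpow_mul, ← zpow_add, ← h7]
      simp
    rw [h8]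
    exact mul_mem (zpow_mem h5 _) (zpow_mem h6 _)

/-- a cyclic permutation of three factors modulo the centre. -/
theorem cyc {g x y z : G} (hx : x ∈ Q) (hy : y ∈ Q) (hz : z ∈ Q) (hc : ∀ v ∈ Q, ⁅x, v⁆ ∈ ZQ Q)
    (e1 : g * x * g⁻¹ * y⁻¹ ∈ ZQ Q) (e2 : g * y * g⁻¹ * z⁻¹ ∈ ZQ Q) (e3 : g * z * g⁻¹ * x⁻¹ ∈ ZQ Q) :
    ⁅g, x * y * z⁆ ∈ ZQ Q := by
  have hN : ∀ v ∈ Q, v ∈ 𝐍(Q) := fun v hv => le_normalizer hv
  have e : ⁅g, x * y * z⁆ = (g * x * g⁻¹ * y⁻¹) * (y * (g * y * g⁻¹ * z⁻¹) * y⁻¹) *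
      ((y * z) * (g * z * g⁻¹ * x⁻¹) * (y * z)⁻¹) * ⁅x, y * z⁆⁻¹ := by
    simp only [commutatorElement_def]
    group
  rw [e]
  exact mul_mem (mul_mem (mul_mem e1 (zconj (hN y hy) e2)) (zconj (hN _ (mul_mem hy hz)) e3))
    (inv_mem (hc _ (mul_mem hy hz)))

end CA4_

open CA4_

theorem exists_lift (C : TC Q ψ) (hX : IsX Q X) (h1 : ZQ Q ≤ X) (h2 : 𝐍(Q) ≤ 𝐍(X)) (hS : SP Q X ψ)
    {w : G} (hw : w ∈ X) (hw' : w ∉ ZQ Q) {a : V3} (ha : a ≠ 0)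
    (hf : ∀ g ∈ 𝐍(Q), g * ψ a = ψ a * g → ⁅g, w⁆ ∈ ZQ Q) : ∃ c, Lift Q X ψ c := by
  classical
  have hch : ∀ b : V3, ∃ g ∈ 𝐍(Q), b ≠ 0 → g * ψ a * g⁻¹ = ψ b := fun b => by
    by_cases hb : b = 0
    · exact ⟨1, one_mem _, fun h => absurd hb h⟩
    · obtain ⟨g, hg, e⟩ := trans C ha hb
      exact ⟨g, hg, fun _ => e⟩
  choose γ hγ hγ' using hch
  obtain ⟨c, c0, c1⟩ : ∃ c : V3 → G, c 0 = 1 ∧ ∀ b, b ≠ 0 → c b = γ b * w * (γ b)⁻¹ :=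
    ⟨fun b => if b = 0 then 1 else γ b * w * (γ b)⁻¹, by simp, fun b hb => by simp [hb]⟩
  have cX : ∀ b, c b ∈ X := fun b => by
    by_cases hb : b = 0
    · rw [hb, c0]
      exact one_mem _
    · rw [c1 b hb]
      exact (mem_normalizer_iff.1 (h2 (hγ b)) w).1 hw
  have E : ∀ g ∈ 𝐍(Q), ∀ b b' : V3, g * ψ b * g⁻¹ = ψ b' → g * c b * g⁻¹ * (c b')⁻¹ ∈ ZQ Q := by
    intro g hg b b' e
    by_cases hb : b = 0
    · have hb' : b' = 0 := C.inj _ (by rw [← e, hb, psi0 C]; group)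
      rw [hb, hb', c0]
      simpa using one_mem _
    · have hb' : b' ≠ 0 := fun h0 => hb (C.inj _ (by
        rw [h0, psi0 C] at e
        calc ψ b = g⁻¹ * (g * ψ b * g⁻¹) * g := by group
          _ = 1 := by rw [e]; group))
      have hk : (γ b')⁻¹ * g * γ b ∈ 𝐍(Q) := mul_mem (mul_mem (inv_mem (hγ b')) hg) (hγ b)
      have e1 : (γ b')⁻¹ * g * γ b * ψ a = ψ a * ((γ b')⁻¹ * g * γ b) := by
        calc (γ b')⁻¹ * g * γ b * ψ a = (γ b')⁻¹ * (g * (γ b * ψ a * (γ b)⁻¹) * g⁻¹) * g * γ b := by group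
          _ = (γ b')⁻¹ * (γ b' * ψ a * (γ b')⁻¹) * g * γ b := by rw [hγ' b hb, e, hγ' b' hb']
          _ = _ := by group
      have e2 := zconj (hγ b') (hf _ hk e1)
      rw [c1 b hb, c1 b' hb']
      convert e2 using 1
      simp only [commutatorElement_def]
      group
  refine ⟨c, cX, ⟨a, fun h0 => hw' ?_⟩, fun b b' => ?_, fun g hg m hm b => E g hg _ _ (hm b)⟩
  · rw [c1 a ha] at h0
    have h3 := zconj (inv_mem (hγ a)) h0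
    convert h3 using 1
    group
  by_cases hb : b = 0
  · rw [hb, zero_add, c0]
    simpa using one_mem _
  by_cases hb' : b' = 0
  · rw [hb', add_zero, c0]
    simpa using one_mem _
  by_cases hbb : b = b'
  · rw [hbb, two, c0, one_mul]
    exact inv_mem ((hX _).1 (cX b')).2.1
  have cQ : ∀ v, c v ∈ Q := fun v => ((hX _).1 (cX v)).1
  have F : ∀ g ∈ 𝐍(Q), ∀ m : M3, (∀ v, g * ψ v * g⁻¹ = ψ (m.mulVec v)) → m.mulVec b = b' → m.mulVec b' = b + b' →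
      ⁅g, c b * c b' * c (b + b')⁆ ∈ ZQ Q := by
    intro g hg m hm e1 e2
    refine cyc (cQ _) (cQ _) (cQ _) ((hX _).1 (cX b)).2.2 (E g hg _ _ ?_) (E g hg _ _ ?_) (E g hg _ _ ?_)
    · rw [hm, e1]
    · rw [hm, e2]
    · rw [hm, Matrix.mulVec_add, e1, e2, add_comm b b', ← add_assoc, two, zero_add]
  have hd : c b * c b' * c (b + b') ∈ ZQ Q := by
    by_contra hd
    obtain ⟨m, m1, m2, -, m4, m5⟩ := key b b' b hb hb' hbb hb
    obtain ⟨g, hg, e⟩ := C.act m m4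
    have g3 : g ^ 3 ∈ Q := (C.cv _).1 fun v => by
      have e3 : g * (g * (g * ψ v * g⁻¹) * g⁻¹) * g⁻¹ = ψ v := by rw [e, e, e, m5]
      calc g ^ 3 * ψ v = g * (g * (g * ψ v * g⁻¹) * g⁻¹) * g⁻¹ * g ^ 3 := by
            simp only [pow_three, mul_assoc, inv_mul_cancel_left, inv_mul_cancel, mul_one]
        _ = _ := by rw [e3]
    have gQ : g ∉ Q := fun h0 => hbb (psi_inj C (by
      rw [← m1, ← e, (C.cv g).2 h0 b]
      group))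
    obtain ⟨n, hn⟩ := exists_three C.pg g3 gQ
    obtain ⟨a', ha', h3⟩ := hS _ (mul_mem (mul_mem (cX b) (cX b')) (cX (b + b'))) hd (g ^ n) (pow_mem hg n) hn
      (comm_pow hg (F g hg m e m1 m2) n)
    obtain ⟨m', n1, n2, n3, n4, -⟩ := key b b' a' hb hb' hbb ha'
    obtain ⟨g', hg', e'⟩ := C.act m' n4
    refine n3 (psi_inj C ?_)
    rw [← e', h3 g' hg' (F g' hg' m' e' n1 n2)]
    group
  have h4 := mul_mem ((hX _).1 (cX (b + b'))).2.1 (inv_mem hd)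
  convert h4 using 1
  group


end K3P
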