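import Mathlib
import Cfsg.Agent.Lib.K3P.Defs
import Cfsg.Agent.Lib.K3P.AR2

/-! K3P package CA5, see `blueprint/K3P/README.md`. -/

set_option autoImplicit false
set_option linter.unusedSectionVars false
set_option linter.unusedVariables false

namespace K3P

open Cfsg Subgroup H71KM
open scoped commutatorElement

universe u

variable {G : Type u} [Group G] [Finite G] {p : ℕ} {Q K S Z X : Subgroup G} {h : G} {ψ : V3 → G}

namespace CA5_

/-- nine matrices of order seven spanning all matrices -/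
def L7 : List M3 :=
  [!![0, 0, 1; 0, 1, 1; 1, 1, 0], !![0, 0, 1; 0, 1, 1; 1, 1, 1], !![0, 0, 1; 1, 0, 0; 0, 1, 1],
    !![0, 0, 1; 1, 0, 0; 1, 1, 0], !![0, 0, 1; 1, 0, 1; 0, 1, 0], !![0, 0, 1; 1, 1, 0; 0, 1, 0],
    !![0, 1, 0; 0, 0, 1; 1, 0, 1], !![0, 1, 0; 0, 0, 1; 1, 1, 0], !![1, 0, 1; 0, 0, 1; 1, 1, 0]]

theorem L7_ord : ∀ m ∈ L7, m.det = 1 ∧ m ^ 7 = 1 ∧ m ≠ 1 := by decide +kernel

theorem L7_span : ∀ a b c d e f g h i : ZMod 2,
    (∀ m ∈ L7, ((!![a, b, c; d, e, f; g, h, i] : M3) * m).trace = 0) → (!![a, b, c; d, e, f; g, h, i] : M3) = 0 := by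
  decide +kernel

theorem span7 (M : M3) (hM : M ≠ 0) : ∃ m : M3, m.det = 1 ∧ m ^ 7 = 1 ∧ m ≠ 1 ∧ (M * m).trace ≠ 0 := by
  by_contra hc
  push Not at hc
  apply hM
  rw [Matrix.eta_fin_three M]
  apply L7_span
  intro m hm
  rw [← Matrix.eta_fin_three M]
  obtain ⟨h1, h2, h3⟩ := L7_ord m hm
  exact hc m h1 h2 h3

theorem cL {w w' v : G} (h : w * ⁅w', v⁆ = ⁅w', v⁆ * w) : ⁅w * w', v⁆ = ⁅w', v⁆ * ⁅w, v⁆ := by
  have : ⁅w * w', v⁆ = w * ⁅w', v⁆ * w⁻¹ * ⁅w, v⁆ := by simp only [commutatorElement_def]; group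
  rw [this, h]; group

theorem cR {w v v' : G} (h : v * ⁅w, v'⁆ = ⁅w, v'⁆ * v) : ⁅w, v * v'⁆ = ⁅w, v⁆ * ⁅w, v'⁆ := by
  have : ⁅w, v * v'⁆ = ⁅w, v⁆ * (v * ⁅w, v'⁆ * v⁻¹) := by simp only [commutatorElement_def]; group
  rw [this, h]; group

theorem zc {z v : G} (hz : z ∈ ZQ Q) (hv : v ∈ Q) : v * z = z * v := mem_centralizer_iff.1 hz.2 v hv

theorem cZ {z w v : G} (hz : z ∈ ZQ Q) (hv : v ∈ Q) (hw : ⁅w, v⁆ ∈ Q) : ⁅z * w, v⁆ = ⁅w, v⁆ := by
  rw [cL (zc hz hw).symm, commutatorElement_eq_one_iff_mul_comm.2 (zc hz hv).symm, mul_one]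

theorem ψinj (C : TC Q ψ) {a b : V3} (e : ψ a = ψ b) : a = b := by
  have h0 : ψ 0 = 1 := by
    have := C.add 0 0
    rw [add_zero] at this
    exact left_eq_mul.1 this
  have hb : b + b = 0 := by ext i; simp [CharTwo.add_self_eq_zero]
  have : ψ (a + b) = 1 := by rw [C.add, e, ← C.add, hb, h0]
  have h2 := C.inj _ this
  calc a = a + (b + b) := by rw [hb, add_zero]
    _ = b := by rw [← add_assoc, h2, zero_add]

theorem exists_M (C : TC Q ψ) (hX : IsX Q X) {c : V3 → G} (hc : Lift Q X ψ c) (v : G) :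
    ∃ M : M3, v ∈ Q → ∀ a, ψ (M.mulVec a) = ⁅c a, v⁆ := by
  by_cases hv : v ∈ Q
  swap
  · exact ⟨0, fun h => absurd h hv⟩
  have hm := fun a => (hX _).1 (hc.mem a)
  have h1 : ∀ a, ∃ b, ψ b = ⁅c a, v⁆ := fun a => by
    obtain ⟨q, s, k⟩ := hm a
    refine (C.mem _).1 ⟨(k v hv).1, (k v hv).2, ?_⟩
    rw [← cL (zc (k v hv) q), commutatorElement_eq_one_iff_mul_comm]
    exact (zc s hv).symm
  choose β hβ using h1
  have hadd : ∀ a b, β (a + b) = β a + β b := fun a b => by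
    apply ψinj C
    have e : c (a + b) = c (a + b) * (c a * c b)⁻¹ * (c a * c b) := by group
    have k1 := cL (zc ((hm b).2.2 v hv) (hm a).1)
    rw [hβ, e, cZ (hc.add a b) hv, k1, add_comm, C.add, hβ, hβ]
    rw [k1]
    exact Q.mul_mem ((hm b).2.2 v hv).1 ((hm a).2.2 v hv).1
  let f : V3 →ₗ[ZMod 2] V3 := (AddMonoidHom.mk' β hadd).toZModLinearMap 2
  refine ⟨LinearMap.toMatrix' f, fun _ a => ?_⟩
  rw [← Matrix.toLin'_apply, Matrix.toLin'_toMatrix', ← hβ]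
  rfl

theorem mext {M N : M3} (h : ∀ a, M.mulVec a = N.mulVec a) : M = N := by
  exact Matrix.toLin'.injective (LinearMap.ext fun a => by rw [Matrix.toLin'_apply, Matrix.toLin'_apply, h])

theorem act_pow {g : G} {m : M3} (hg : ∀ a, g * ψ a * g⁻¹ = ψ (m.mulVec a)) (n : ℕ) (a : V3) :
    g ^ n * ψ a * (g ^ n)⁻¹ = ψ ((m ^ n).mulVec a) := by
  induction n with
  | zero => simp
  | succ n ih =>
    rw [pow_succ' m, ← Matrix.mulVec_mulVec, ← hg, ← ih, pow_succ' g]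
    group

end CA5_

open CA5_ in
theorem not_lift (B : B0 G p) (C : TC Q ψ) (hX : IsX Q X) {c : V3 → G} (hc : Lift Q X ψ c) : False := by
  choose M hM using exists_M C hX hc
  have hm := fun a => (hX _).1 (hc.mem a)
  have Madd : ∀ v ∈ Q, ∀ w ∈ Q, M (v * w) = M v + M w := fun v hv w hw => mext fun a => ψinj C (by
    rw [Matrix.add_mulVec, C.add, hM _ (Q.mul_mem hv hw), hM _ hv, hM _ hw, cR (zc ((hm a).2.2 w hw) hv)])
  obtain ⟨a0, ha0⟩ := hc.ne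
  obtain ⟨v0, hv0, hne⟩ : ∃ v ∈ Q, M v ≠ 0 := by
    by_contra hcon
    push Not at hcon
    refine ha0 ⟨(hm a0).1, mem_centralizer_iff.2 fun v hv => ?_⟩
    have e := hM v hv a0
    have h0 : ψ 0 = 1 := by
      have := C.add 0 0
      rw [add_zero] at this
      exact left_eq_mul.1 this
    rw [hcon v hv, Matrix.zero_mulVec, h0] at e
    exact (commutatorElement_eq_one_iff_mul_comm.1 e.symm).symm
  obtain ⟨m, hd, h7, hm1, htr⟩ := span7 _ hne
  obtain ⟨g, hgN, hg⟩ := C.act m hd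
  have hgQ : ∀ v ∈ Q, g * v * g⁻¹ ∈ Q := fun v hv => (mem_normalizer_iff.1 hgN v).1 hv
  have Meq : ∀ v ∈ Q, M (g * v * g⁻¹) * m = m * M v := fun v hv => mext fun a => ψinj C (by
    have e : g * c a * g⁻¹ = g * c a * g⁻¹ * (c (m.mulVec a))⁻¹ * c (m.mulVec a) := by group
    rw [← Matrix.mulVec_mulVec, ← Matrix.mulVec_mulVec, hM _ (hgQ v hv), ← hg, hM _ hv,
      ← cZ (hc.eqv g hgN m hg a) (hgQ v hv) ((hm _).2.2 _ (hgQ v hv)).1, ← e]
    simp only [commutatorElement_def]; group)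
  have inv1 : ∀ v ∈ Q, (M (g * v * g⁻¹) * m).trace = (M v * m).trace := fun v hv => by
    rw [Meq v hv, Matrix.trace_mul_comm]
  have invn : ∀ n : ℕ, ∀ v ∈ Q, g ^ n * v * (g ^ n)⁻¹ ∈ Q ∧ (M (g ^ n * v * (g ^ n)⁻¹) * m).trace = (M v * m).trace := by
    intro n v hv
    induction n with
    | zero => simpa using hv
    | succ n ih =>
      have e : g ^ (n + 1) * v * (g ^ (n + 1))⁻¹ = g * (g ^ n * v * (g ^ n)⁻¹) * g⁻¹ := by group
      rw [e]
      exact ⟨hgQ _ ih.1, (inv1 _ ih.1).trans ih.2⟩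
  have hg7 : g ^ 7 ∈ Q := (C.cv _).1 fun a => by
    have := act_pow hg 7 a
    rw [h7, Matrix.one_mulVec] at this
    exact mul_inv_eq_iff_eq_mul.1 this
  have hgn : g ∉ Q := fun hq => hm1 (mext fun a => ψinj C (by
    rw [← hg, (C.cv g).2 hq a, Matrix.one_mulVec]; group))
  obtain ⟨k, hk⟩ := C.pg ⟨_, hg7⟩
  have hk' : (g ^ 7) ^ 2 ^ k = 1 := by simpa using congrArg Subtype.val hk
  set x := g ^ 2 ^ k with hx
  have hx7 : x ^ 7 = 1 := by rw [hx, ← pow_mul, mul_comm, pow_mul, hk']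
  have hx1 : x ≠ 1 := fun e => by
    apply hgn
    have hdv : orderOf g ∣ 2 ^ k := orderOf_dvd_of_pow_eq_one e
    have hco : Nat.gcd 7 (orderOf g) = 1 :=
      Nat.Coprime.coprime_dvd_right hdv (Nat.Coprime.pow_right k (by norm_num))
    exact zpowers_le.2 hg7 (mem_zpowers_pow_iff.2 hco)
  haveI : Fact (Nat.Prime 7) := ⟨by norm_num⟩
  have hox : orderOf x = 7 := orderOf_eq_prime hx7 hx1
  have hp : 7 = p := B.eq_p (by norm_num) (by norm_num) (hox ▸ orderOf_dvd_natCard x)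
  have hce := B.sc x (hox.trans hp)
  have fpf : ∀ v ∈ Q, v * x = x * v → v = 1 := fun v hv e => by
    have h1 : v ∈ Ce x := mem_centralizer_singleton_iff.2 e
    rw [hce] at h1
    have h2 : orderOf v ∣ 7 := hox ▸ orderOf_dvd_of_mem_zpowers h1
    obtain ⟨j, hj⟩ := C.pg ⟨v, hv⟩
    have hj' : v ^ 2 ^ j = 1 := by simpa using congrArg Subtype.val hj
    have h3 : orderOf v ∣ 2 ^ j := orderOf_dvd_of_pow_eq_one hj'
    have h4 : Nat.Coprime 7 (2 ^ j) := Nat.Coprime.pow_right j (by norm_num)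
    exact orderOf_eq_one_iff.1 (Nat.eq_one_of_dvd_coprimes h4 h2 h3)
  let F : Q → Q := fun w => ⟨(w : G)⁻¹ * (x * w * x⁻¹), Q.mul_mem (Q.inv_mem w.2) (invn _ _ w.2).1⟩
  have hF : Function.Injective F := fun w u e => by
    have e' : (w : G)⁻¹ * (x * w * x⁻¹) = (u : G)⁻¹ * (x * u * x⁻¹) := congrArg Subtype.val e
    have := fpf (u * (w : G)⁻¹) (Q.mul_mem u.2 (Q.inv_mem w.2)) (by
      calc (u : G) * (w : G)⁻¹ * x = u * ((w : G)⁻¹ * (x * w * x⁻¹)) * x * (w : G)⁻¹ := by group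
        _ = _ := by rw [e']; group)
    exact (Subtype.ext (mul_inv_eq_one.1 this)).symm
  obtain ⟨w, hw⟩ := Finite.injective_iff_surjective.1 hF ⟨v0, hv0⟩
  have hw' : (w : G) * v0 = x * w * x⁻¹ := by
    have : (w : G)⁻¹ * (x * w * x⁻¹) = v0 := congrArg Subtype.val hw
    rw [← this]; group
  have e := (invn (2 ^ k) _ w.2).2
  rw [← hx, ← hw', Madd _ w.2 _ hv0, Matrix.add_mul, Matrix.trace_add] at e
  exact htr (add_eq_left.1 e)


end K3P
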