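import Mathlib
import Cfsg.Agent.Lib.K3P.Defs
import Cfsg.Agent.Lib.K3P.AR2

/-! K3P package CB, see `blueprint/K3P/README.md`. -/

set_option autoImplicit false
set_option linter.unusedSectionVars false
set_option linter.unusedVariables false

namespace K3P

open Cfsg Subgroup H71KM
open scoped commutatorElement

universe u

variable {G : Type u} [Group G] [Finite G] {p : ℕ} {Q K S Z X : Subgroup G} {h : G} {ψ : V3 → G}

namespace CB_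

open Matrix

/-- the first basis vector -/
def e0 : V3 := ![1, 0, 0]
/-- a matrix of order three fixing it -/
def mm : M3 := !![1, 0, 0; 0, 0, 1; 0, 1, 1]
/-- a matrix with a prescribed first column -/
def tm (a : V3) : M3 :=
  if a 0 = 1 then !![a 0, 0, 0; a 1, 1, 0; a 2, 0, 1]
  else if a 1 = 1 then !![a 0, 1, 0; a 1, 0, 0; a 2, 0, 1] else !![a 0, 1, 0; a 1, 0, 1; a 2, 0, 0]

theorem t1 : ∀ a : V3, a ≠ 0 → (tm a).det = 1 ∧ (tm a).mulVec e0 = a := by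
  simp only [det_fin_three]; decide +kernel
theorem t2 : mm.det = 1 ∧ mm.mulVec e0 = e0 ∧ mm ^ 3 = 1 ∧ mm ≠ 1 ∧ e0 ≠ 0 := by
  simp only [det_fin_three]; decide +kernel
theorem t3 : ∀ n : M3, n.mulVec e0 = e0 → n.det = 1 →
    (∀ b, n.mulVec b = b ∨ n.mulVec b = b + e0) ∨ (n ^ 3 = 1 ∧ n ≠ 1) ∨
      ((n * (mm * n * mm ^ 2)) ^ 3 = 1 ∧ n * (mm * n * mm ^ 2) ≠ 1) := by
  simp only [det_fin_three]; decide +kernel
theorem t4 : ∀ a : V3, a + a = 0 := by decide +kernel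

/-- `g` acts as the matrix `n` -/
def A (ψ : V3 → G) (g : G) (n : M3) : Prop := ∀ b, g * ψ b * g⁻¹ = ψ (n.mulVec b)

theorem A.mul {g g' : G} {n n' : M3} (h : A ψ g n) (h' : A ψ g' n') : A ψ (g * g') (n * n') := fun b => by
  rw [← mulVec_mulVec, ← h, ← h']; group

theorem A.one : A ψ 1 1 := fun b => by simp

theorem A.pow {g : G} {n : M3} (h : A ψ g n) (k : ℕ) : A ψ (g ^ k) (n ^ k) := by
  induction k with
  | zero => rw [pow_zero, pow_zero]; exact A.one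
  | succ k ih => rw [pow_succ, pow_succ]; exact ih.mul h

theorem z0 (C : TC Q ψ) : ψ 0 = 1 := by
  have := C.add 0 0
  rw [add_zero] at this
  exact left_eq_mul.1 this

theorem sq (C : TC Q ψ) (a : V3) : ψ a * ψ a = 1 := by rw [← C.add, t4, z0 C]

theorem inv (C : TC Q ψ) (a : V3) : (ψ a)⁻¹ = ψ a := inv_eq_of_mul_eq_one_right (sq C a)

theorem inj (C : TC Q ψ) {a b : V3} (h : ψ a = ψ b) : a = b := by
  have := C.inj (a + b) (by rw [C.add, h, sq C])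
  rw [← add_zero a, ← t4 b, ← add_assoc, this, zero_add]

theorem mQ (C : TC Q ψ) (a : V3) : ψ a ∈ Q := ((C.mem _).2 ⟨a, rfl⟩).1

theorem A.uniq (C : TC Q ψ) {g : G} {n n' : M3} (h : A ψ g n) (h' : A ψ g n') : n = n' :=
  toLin'.injective (LinearMap.ext fun b => inj C ((h b).symm.trans (h' b)))

theorem A.memQ (C : TC Q ψ) {g : G} (h : A ψ g 1) : g ∈ Q :=
  (C.cv g).1 fun a => mul_inv_eq_iff_eq_mul.1 (by rw [h, one_mulVec])

theorem two {D : Subgroup G} (hD : IsPGroup 2 D) {d : G} (hd : d ∈ D) : ∃ k, d ^ 2 ^ k = 1 :=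
  (hD ⟨d, hd⟩).imp fun _ h => congrArg Subtype.val h

theorem A.no3 (C : TC Q ψ) {D : Subgroup G} (hD : IsPGroup 2 D) {d : G} (hd : d ∈ D) {n : M3} (h : A ψ d n)
    (h3 : n ^ 3 = 1) : n = 1 := by
  obtain ⟨k, hk⟩ := two hD hd
  have e := h.pow (2 ^ k)
  rw [hk] at e
  have := pow_gcd_eq_one.2 ⟨h3, e.uniq C A.one⟩
  rwa [Nat.Coprime.gcd_eq_one (Nat.Coprime.pow_right k (by norm_num)), pow_one] at this

theorem exy (C : TC Q ψ) : ∃ y ∈ 𝐍(Q), orderOf y = 3 ∧ A ψ y mm := by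
  obtain ⟨g, hg, a⟩ := C.act mm t2.1
  have a : A ψ g mm := a
  have a3 := a.pow 3
  rw [t2.2.2.1] at a3
  obtain ⟨k, hk⟩ := two C.pg (a3.memQ C)
  have e : mm ^ 4 ^ k = mm := by
    rw [pow_eq_pow_mod _ t2.2.2.1, Nat.pow_mod]; simp
  have b := a.pow (4 ^ k)
  rw [e] at b
  haveI : Fact (Nat.Prime 3) := ⟨by norm_num⟩
  refine ⟨_, pow_mem hg _, orderOf_eq_prime ?_ fun h => t2.2.2.2.1 (b.uniq C (h ▸ A.one)), b⟩
  rw [← pow_mul, show (4 : ℕ) ^ k * 3 = 3 * 2 ^ k * 2 ^ k by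
    rw [show (4 : ℕ) = 2 * 2 from rfl, mul_pow]; ring, pow_mul, pow_mul, hk, one_pow]

theorem cjV (C : TC Q ψ) {g : G} (hg : g ∈ 𝐍(Q)) (b : V3) : ∃ b', g * ψ b * g⁻¹ = ψ b' :=
  (C.act' g hg).elim fun _ h => ⟨_, h.2 b⟩

theorem fixv (C : TC Q ψ) {g : G} (h : ∀ b, g * ψ b * g⁻¹ = ψ b ∨ g * ψ b * g⁻¹ = ψ b * ψ e0) :
    g * ψ e0 * g⁻¹ = ψ e0 := by
  refine (h e0).resolve_right fun e => t2.2.2.2.2 (C.inj _ ?_)
  rwa [sq C, conj_eq_one_iff] at e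

/-- the transvections with centre `e0` -/
def Q1 (C : TC Q ψ) : Subgroup G where
  carrier := {g | g ∈ 𝐍(Q) ∧ ∀ b, g * ψ b * g⁻¹ = ψ b ∨ g * ψ b * g⁻¹ = ψ b * ψ e0}
  one_mem' := ⟨one_mem _, fun b => .inl (by simp)⟩
  mul_mem' := by
    rintro g k ⟨hg, h⟩ ⟨hk, h'⟩
    refine ⟨mul_mem hg hk, fun b => ?_⟩
    have e : g * k * ψ b * (g * k)⁻¹ = g * (k * ψ b * k⁻¹) * g⁻¹ := by group
    rw [e]
    rcases h' b with r | r <;> rw [r]
    · exact h b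
    · rw [← conj_mul, fixv C h]
      rcases h b with r | r <;> rw [r]
      · exact .inr rfl
      · exact .inl (by rw [mul_assoc, sq C, mul_one])
  inv_mem' := by
    rintro g ⟨hg, h⟩
    refine ⟨inv_mem hg, fun b => ?_⟩
    rcases h b with r | r
    · exact .inl (by nth_rw 1 [← r]; group)
    · refine .inr ?_
      have : g * (ψ b * ψ e0) * g⁻¹ = ψ b := by rw [← conj_mul, fixv C h, r, mul_assoc, sq C, mul_one]
      nth_rw 1 [← this]; group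

theorem Q1_pg (C : TC Q ψ) : IsPGroup 2 (Q1 C) := by
  rintro ⟨g, hg, h⟩
  have : g ^ 2 ∈ Q := (C.cv _).1 fun b => mul_inv_eq_iff_eq_mul.1 (by
    have e : g ^ 2 * ψ b * (g ^ 2)⁻¹ = g * (g * ψ b * g⁻¹) * g⁻¹ := by rw [pow_two]; group
    rcases h b with r | r
    · rw [e, r, r]
    · rw [e, r, ← conj_mul, fixv C h, r, mul_assoc, sq C, mul_one])
  obtain ⟨k, hk⟩ := two C.pg this
  exact ⟨k + 1, Subtype.ext (show g ^ 2 ^ (k + 1) = 1 by rw [← hk, ← pow_mul, pow_succ'])⟩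

theorem le_Q1 (C : TC Q ψ) : Q ≤ Q1 C := fun q hq =>
  ⟨le_normalizer hq, fun b => .inl (mul_inv_eq_iff_eq_mul.2 ((C.cv q).2 hq b))⟩

theorem Q1_norm (C : TC Q ψ) {k : G} (hk : k ∈ 𝐍(Q)) (hv : k * ψ e0 * k⁻¹ = ψ e0) : k ∈ 𝐍(Q1 C) := by
  refine mem_normalizer_fintype ?_
  rintro g ⟨hg, h⟩
  refine ⟨mul_mem (mul_mem hk hg) (inv_mem hk), fun b => ?_⟩
  obtain ⟨b', e⟩ := cjV C (inv_mem hk) b
  have e1 : ψ b = k * ψ b' * k⁻¹ := by rw [← e]; group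
  have e2 : k * g * k⁻¹ * ψ b * (k * g * k⁻¹)⁻¹ = k * (g * ψ b' * g⁻¹) * k⁻¹ := by rw [e1]; group
  rw [e2]
  rcases h b' with r | r <;> rw [r]
  · exact .inl e1.symm
  · exact .inr (by rw [← conj_mul, hv, e1])

/-- the elements acting trivially on `Q / V` -/
def NV (C : TC Q ψ) : Subgroup G where
  carrier := {k | k ∈ 𝐍(Q) ∧ ∀ q ∈ Q, ∃ c, k * q * k⁻¹ = ψ c * q}
  one_mem' := ⟨one_mem _, fun q _ => ⟨0, by simp [z0 C]⟩⟩
  mul_mem' := by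
    rintro g k ⟨hg, h⟩ ⟨hk, h'⟩
    refine ⟨mul_mem hg hk, fun q hq => ?_⟩
    obtain ⟨c, e⟩ := h q hq
    obtain ⟨c', e'⟩ := h' q hq
    obtain ⟨c'', e''⟩ := cjV C hg c'
    refine ⟨c'' + c, ?_⟩
    rw [C.add, mul_assoc (ψ c''), ← e, ← e'', conj_mul, ← e']; group
  inv_mem' := by
    rintro g ⟨hg, h⟩
    refine ⟨inv_mem hg, fun q hq => ?_⟩
    obtain ⟨c, e⟩ := h _ ((mem_normalizer_iff.1 (inv_mem hg) q).1 hq)
    refine ⟨c, ?_⟩
    rw [← inv C c, eq_inv_mul_iff_mul_eq, ← e]; group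

theorem no7 (T : Th G p) (C : TC Q ψ) (hV : ∃ w ∈ Q, ∀ a, ψ a ≠ w) : NV C ≠ 𝐍(Q) := by
  classical
  intro hN
  obtain ⟨w, hw, hw'⟩ := hV
  haveI : Fact (Nat.Prime 7) := ⟨by norm_num⟩
  have d7 : 7 ∣ Nat.card ↥𝐍(Q) := by rw [C.ord]; exact Dvd.dvd.mul_left (by norm_num) _
  obtain ⟨⟨x, hx⟩, o⟩ := exists_prime_orderOf_dvd_card' 7 d7
  rw [← Subgroup.orderOf_coe] at o
  have p7 : 7 = p := T.toB0.eq_p (by norm_num) (by norm_num) (d7.trans (card_subgroup_dvd_card _))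
  obtain ⟨c, hc⟩ := (hN.ge hx).2 w hw
  obtain ⟨n, -, hn⟩ := C.act' x hx
  let f : Function.End V3 := fun b => n.mulVec b + c
  have f1 : ∀ b, x * (ψ b * w) * x⁻¹ = ψ (f b) * w := fun b => by
    rw [← conj_mul, hn, hc, ← mul_assoc, ← C.add]
  have fk : ∀ (k : ℕ) b, x ^ k * (ψ b * w) * (x ^ k)⁻¹ = ψ ((f ^ k) b) * w := fun k => by
    induction k with
    | zero => intro b; rw [pow_zero, pow_zero, one_mul, inv_one, mul_one]; rfl
    | succ k ih =>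
      intro b
      have e : x ^ (k + 1) * (ψ b * w) * (x ^ (k + 1))⁻¹ = x ^ k * (x * (ψ b * w) * x⁻¹) * (x ^ k)⁻¹ := by
        rw [pow_succ]; group
      rw [e, f1, ih, pow_succ]; rfl
  have x7 : x ^ 7 = 1 := o ▸ pow_orderOf_eq_one x
  have m := Equiv.Perm.card_fixedPoints_modEq (f := f) (p := 7) (n := 1) (funext fun b => by
    have := fk 7 b
    rw [x7, one_mul, inv_one, mul_one, mul_left_inj] at this
    exact (inj C this).symm)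
  have c8 : Fintype.card V3 = 8 := by simp
  obtain ⟨⟨b, hb⟩⟩ : Nonempty (Function.fixedPoints f) := Fintype.card_pos_iff.1 (Nat.pos_of_ne_zero fun z => by
    rw [z, c8] at m
    exact absurd m (by decide))
  have cm : ψ b * w ∈ Ce x := mc_symm (mc_of_conj (by rw [f1, show f b = b from hb]))
  rw [T.sc x (p7 ▸ o)] at cm
  obtain ⟨k, hk⟩ := two C.pg (mul_mem (mQ C b) hw)
  have h7 : (ψ b * w) ^ 7 = 1 := orderOf_dvd_iff_pow_eq_one.1 (o ▸ orderOf_dvd_of_mem_zpowers cm)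
  have := pow_gcd_eq_one.2 ⟨h7, hk⟩
  rw [Nat.Coprime.gcd_eq_one (Nat.Coprime.pow_right k (by norm_num)), pow_one] at this
  exact hw' b (by rw [← inv C b]; exact inv_eq_of_mul_eq_one_right this)

theorem key (T : Th G p) (C : TC Q ψ) (hab : Q ≤ 𝐂(Q)) (hV : ∃ w ∈ Q, ∀ a, ψ a ≠ w) {g : G}
    (hv : g * ψ e0 * g⁻¹ = ψ e0) (hg : g ∈ 𝐍(Q1 C)) : g ∈ 𝐍(Q) := by
  by_contra hn
  obtain ⟨b, hb⟩ : ∃ b, g * ψ b * g⁻¹ ∉ Q := by
    by_contra h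
    push Not at h
    refine hn (C.nv g fun b => ((C.mem _).1 ⟨h b, hab (h b), ?_⟩).imp fun _ e => e.symm)
    rw [conj_mul, sq C, mul_one, mul_inv_cancel]
  have u1 : g * ψ b * g⁻¹ ∈ Q1 C := (mem_normalizer_iff.1 hg _).1 (le_Q1 C (mQ C b))
  have uN : g * ψ b * g⁻¹ ∈ NV C := by
    refine ⟨u1.1, fun q hq => ?_⟩
    have q1 : g⁻¹ * q⁻¹ * g⁻¹⁻¹ ∈ Q1 C := (mem_normalizer_iff.1 (inv_mem hg) _).1 (le_Q1 C (inv_mem hq))
    have cq : q * ψ e0 = ψ e0 * q := (C.cv q).2 hq e0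
    have e : g * ψ b * g⁻¹ * q * (g * ψ b * g⁻¹)⁻¹ = q *
        (g * (g⁻¹ * q⁻¹ * g⁻¹⁻¹ * ψ b * (g⁻¹ * q⁻¹ * g⁻¹⁻¹)⁻¹) * g⁻¹) * (g * ψ b * g⁻¹)⁻¹ := by group
    rw [e]
    rcases q1.2 b with r | r <;> rw [r]
    · exact ⟨0, by rw [z0 C]; group⟩
    · refine ⟨e0, ?_⟩
      rw [← C.add, add_comm, C.add, ← conj_mul, hv, ← cq]; group
  have hN := C.simp (NV C) (fun q hq => ⟨le_normalizer hq, fun q' hq' => ⟨0, by
    rw [z0 C, one_mul, mul_inv_eq_iff_eq_mul]; exact (mem_centralizer_iff.1 (hab hq) q' hq').symm⟩⟩)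
    (fun _ h => h.1) fun k hk => mem_normalizer_fintype (by
      rintro x ⟨hx, h⟩
      refine ⟨mul_mem (mul_mem hk hx) (inv_mem hk), fun q hq => ?_⟩
      obtain ⟨c, e⟩ := h _ ((mem_normalizer_iff.1 (inv_mem hk) q).1 hq)
      obtain ⟨c', e'⟩ := cjV C hk c
      refine ⟨c', ?_⟩
      rw [← e']
      calc k * x * k⁻¹ * q * (k * x * k⁻¹)⁻¹ = k * (x * (k⁻¹ * q * k⁻¹⁻¹) * x⁻¹) * k⁻¹ := by group
        _ = _ := by rw [e]; group)
  rcases hN with h | h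
  · exact hb (h ▸ uN)
  · exact no7 T C hV h

theorem main (T : Th G p) (C : TC Q ψ) (hab : Q ≤ 𝐂(Q)) (hV : ∃ w ∈ Q, ∀ a, ψ a ≠ w) : Ce (ψ e0) ≤ 𝐍(Q) := by
  have v1 : ψ e0 ≠ 1 := fun h => t2.2.2.2.2 (C.inj _ h)
  obtain ⟨D, L⟩ := T.loc (zpowers (ψ e0)) (isPGroup_zp (sq C e0)) (zpowers_ne_bot.2 v1)
  have cz : ∀ g, g ∈ 𝐂(zpowers (ψ e0)) ↔ g * ψ e0 * g⁻¹ = ψ e0 := fun g => by
    rw [zpowers_eq_closure, centralizer_closure]
    exact ⟨conj_of_mc, mc_of_conj⟩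
  obtain ⟨y, yH, y3, ya⟩ := exy C
  have yv : y * ψ e0 * y⁻¹ = ψ e0 := by rw [ya, t2.2.1]
  have h1 : Q1 C ≤ D :=
    L.t1 _ (Q1_pg C) (fun g hg => (cz g).2 (fixv C hg.2)) y ((cz y).2 yv) y3 (Q1_norm C yH yv)
  have h2 : ∀ d ∈ D, d ∈ 𝐍(Q) → d ∈ Q1 C := fun d hd dH => by
    obtain ⟨n, n1, a⟩ := C.act' d dH
    have a : A ψ d n := a
    have dv := (cz d).1 (L.le hd)
    rcases t3 n (inj C ((a e0).symm.trans dv)) n1 with h | h | h
    · refine ⟨dH, fun b => ?_⟩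
      rw [a, ← C.add]
      exact (h b).imp (congrArg ψ) (congrArg ψ)
    · exact absurd (a.no3 C L.pg hd h.1) h.2
    · have yi : y⁻¹ = y ^ 2 := inv_eq_of_mul_eq_one_right (by
        rw [← pow_succ']; exact orderOf_dvd_iff_pow_eq_one.1 y3.dvd)
      have m := (mem_normalizer_iff.1 (L.norm ((cz y).2 yv)) d).1 hd
      rw [yi] at m
      exact absurd ((a.mul ((ya.mul a).mul (ya.pow 2))).no3 C L.pg (mul_mem hd m) h.1) h.2
  have h3 : D ≤ Q1 C := H2.le_of_normalizer_inf_le L.pg.isNilpotent h1 fun d hd =>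
    h2 d hd.1 (key T C hab hV ((cz d).1 (L.le hd.1)) hd.2)
  intro g hg
  have := L.norm ((cz g).2 (conj_of_mc hg))
  rw [le_antisymm h3 h1] at this
  exact key T C hab hV (conj_of_mc hg) this

end CB_

theorem tc_cent (T : Th G p) (C : TC Q ψ) (hab : Q ≤ 𝐂(Q)) (hV : ∃ w ∈ Q, ∀ a, ψ a ≠ w) (a : V3)
    (ha : a ≠ 0) : Ce (ψ a) ≤ 𝐍(Q) := by
  obtain ⟨g, hg, h⟩ := C.act _ (CB_.t1 a ha).1
  have e := h CB_.e0
  rw [(CB_.t1 a ha).2] at e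
  intro x hx
  have : g⁻¹ * x * g ∈ 𝐍(Q) := CB_.main T C hab hV (mc_of_conj (by
    have := conj_of_mc hx
    rw [← e] at this
    calc g⁻¹ * x * g * ψ CB_.e0 * (g⁻¹ * x * g)⁻¹ = g⁻¹ * (x * (g * ψ CB_.e0 * g⁻¹) * x⁻¹) * g := by group
      _ = _ := by rw [this]; group))
  have := mul_mem (mul_mem hg this) (inv_mem hg)
  rwa [show g * (g⁻¹ * x * g) * g⁻¹ = x by group] at this


end K3P
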