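import Mathlib
import Cfsg.Agent.Lib.K3P.Defs
import Cfsg.Prelude.Def_Blocks
import Cfsg.Agent.Lib.Char.Ortho
import Cfsg.Agent.Lib.Block.Alg
import Cfsg.Agent.S0165

/-! K3P package CH1, see `blueprint/K3P/README.md`. -/

set_option autoImplicit false
set_option linter.unusedSectionVars false
set_option linter.unusedVariables false

namespace K3P

open Cfsg Subgroup H71KM
open scoped commutatorElement

universe u

variable {G : Type u} [Group G] [Finite G] {p : ℕ} {Q K S Z X : Subgroup G} {h : G} {ψ : V3 → G}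

namespace CH1_

/-- A linear character of a nonabelian simple group is trivial. -/
theorem eq_one_of_deg (hs : IsSimpleGroup G) (hn : ¬ IsMulCommutative G) (χ : IrrCharacter G)
    (h1 : charDegree (χ : G → ℂ) = 1) : (χ : G → ℂ) = fun _ => 1 := by
  have h2 : (χ : G → ℂ) 1 = 1 := by rw [H33.irr_one_eq_charDegree, h1, Nat.cast_one]
  obtain ⟨lam, e⟩ := H6.exists_hom_of_char_one_eq_one (H6.irr_isCharacter χ.2) h2
  rcases hs.eq_bot_or_eq_top_of_normal lam.ker inferInstance with h | h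
  · refine absurd ⟨⟨fun a b => ?_⟩⟩ hn
    apply (MonoidHom.ker_eq_bot_iff lam).mp h
    rw [map_mul, map_mul, mul_comm]
  · rw [e]
    funext g
    have : g ∈ lam.ker := h ▸ mem_top g
    rw [MonoidHom.mem_ker.mp this, Units.val_one]

theorem not_sq_dvd (B : B0 G p) : ¬ p ^ (1 + 1) ∣ Nat.card G := by
  obtain ⟨a, b, h⟩ := B.ord
  have hp := B.prime
  have h5 := B.five
  rw [h, mul_assoc, pow_succ, pow_one]
  intro hd
  have h1 : p ∣ 3 ^ a * 2 ^ b := Nat.dvd_of_mul_dvd_mul_left hp.pos hd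
  rcases (Nat.Prime.dvd_mul hp).mp h1 with h2 | h2
  · have := Nat.le_of_dvd (by norm_num) (hp.dvd_of_dvd_pow h2)
    omega
  · have := Nat.le_of_dvd (by norm_num) (hp.dvd_of_dvd_pow h2)
    omega

theorem vanish (B : B0 G p) (χ : IrrCharacter G) (hd : p ∣ charDegree (χ : G → ℂ)) {x : G}
    (hx : orderOf x = p) : (χ : G → ℂ) x = 0 := by
  obtain ⟨χ, n, ρ, hρ, rfl⟩ := χ
  obtain ⟨a, b, h⟩ := B.ord
  refine Cfsg.Agent.S0165.result ρ p 1 B.prime ?_ (not_sq_dvd B) ?_ x (hx ▸ dvd_rfl)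
  · rw [pow_one, h, mul_assoc]
    exact dvd_mul_right _ _
  · simpa [charDegree] using hd

theorem key (B : B0 G p) {q : ℕ} (hq : q.Prime) :
    ∃ χ : IrrCharacter G, charDegree (χ : G → ℂ) ≠ 1 ∧ ¬ p ∣ charDegree (χ : G → ℂ) ∧
      ¬ q ∣ charDegree (χ : G → ℂ) := by
  classical
  have : Fact p.Prime := ⟨B.prime⟩
  obtain ⟨x, hx⟩ : ∃ x : G, orderOf x = p := by
    obtain ⟨a, b, h⟩ := B.ord
    exact exists_prime_orderOf_dvd_card' p (by rw [h, mul_assoc]; exact dvd_mul_right _ _)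
  have hc : ¬ IsConj x 1 := fun h => by
    rw [isConj_one_left] at h
    rw [h, orderOf_one] at hx
    exact B.prime.one_lt.ne hx
  have h0 := H6.column_orthogonality_not_isConj hc
  by_contra hne
  push Not at hne
  let τ : IrrCharacter G := ⟨_, H6.isIrrCharacter_hom (1 : G →* ℂˣ)⟩
  have hτ : (τ : G → ℂ) = fun _ => 1 := by
    funext g
    simp [τ]
  have hf : ∀ χ : IrrCharacter G, χ ≠ τ → ∃ f : ℂ, IsIntegral ℤ f ∧
      (χ : G → ℂ) x * (starRingEnd ℂ) ((χ : G → ℂ) 1) = q * f := by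
    intro χ hχ
    have h1 : charDegree (χ : G → ℂ) ≠ 1 := fun h =>
      hχ (Subtype.ext ((eq_one_of_deg B.simple B.nab χ h).trans hτ.symm))
    by_cases h2 : p ∣ charDegree (χ : G → ℂ)
    · exact ⟨0, isIntegral_zero, by rw [vanish B χ h2 hx, zero_mul, mul_zero]⟩
    obtain ⟨m, hm⟩ := hne χ h1 h2
    refine ⟨(χ : G → ℂ) x * m, (H33.irr_isIntegral χ x).mul ?_, ?_⟩
    · exact_mod_cast isIntegral_algebraMap (R := ℤ) (A := ℂ) (x := (m : ℤ))
    · rw [H33.irr_one_eq_charDegree, hm, map_natCast]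
      push_cast
      ring
  choose! f hf1 hf2 using hf
  rw [← Finset.add_sum_erase _ _ (Finset.mem_univ τ),
    Finset.sum_congr rfl fun χ hχ => hf2 χ (Finset.ne_of_mem_erase hχ), ← Finset.mul_sum, hτ] at h0
  have h3 : IsIntegral ℤ (∑ χ ∈ Finset.univ.erase τ, f χ) :=
    IsIntegral.sum _ fun χ hχ => hf1 χ (Finset.ne_of_mem_erase hχ)
  have h4 : (((1 : ℕ) : ℂ) / (q : ℕ)) = -∑ χ ∈ Finset.univ.erase τ, f χ := by
    rw [div_eq_iff (by exact_mod_cast hq.ne_zero)]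
    simp only [map_one, mul_one] at h0
    push_cast
    linear_combination h0
  exact hq.one_lt.ne' (Nat.dvd_one.1 (H8.dvd_of_isIntegral_div hq.pos (h4 ▸ h3.neg)))

theorem pow_of (B : B0 G p) {q r a b : ℕ} (hq : q.Prime) (hr : r.Prime)
    (h : Nat.card G = p * q ^ a * r ^ b) :
    ∃ (χ : IrrCharacter G) (i : ℕ), 0 < i ∧ (χ : G → ℂ) 1 = (r : ℂ) ^ i := by
  obtain ⟨χ, h1, h2, h3⟩ := key B hq
  have hd := H33.charDegree_dvd_card χ
  rw [h] at hd
  have hc : Nat.Coprime (charDegree (χ : G → ℂ)) (p * q ^ a) :=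
    Nat.Coprime.mul_right ((Nat.Prime.coprime_iff_not_dvd B.prime).mpr h2).symm
      (Nat.Coprime.pow_right _ ((Nat.Prime.coprime_iff_not_dvd hq).mpr h3).symm)
  obtain ⟨i, -, hi⟩ := (Nat.dvd_prime_pow hr).mp (hc.dvd_of_dvd_mul_left hd)
  refine ⟨χ, i, Nat.pos_of_ne_zero ?_, ?_⟩
  · rintro rfl
    exact h1 (by rw [hi, pow_zero])
  · rw [H33.irr_one_eq_charDegree, hi, Nat.cast_pow]

end CH1_

theorem exists_chars (B : B0 G p) :
    (∃ (χ : IrrCharacter G) (i : ℕ), 0 < i ∧ (χ : G → ℂ) 1 = (2 : ℂ) ^ i) ∧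
      ∃ (χ : IrrCharacter G) (j : ℕ), 0 < j ∧ (χ : G → ℂ) 1 = (3 : ℂ) ^ j := by
  obtain ⟨a, b, h⟩ := B.ord
  constructor
  · exact_mod_cast CH1_.pow_of B Nat.prime_three Nat.prime_two h
  · exact_mod_cast CH1_.pow_of B Nat.prime_two Nat.prime_three (h.trans (mul_right_comm _ _ _))


end K3P
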