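import Mathlib
import Cfsg.Agent.Lib.K3P.Defs
import Cfsg.Prelude.Def_Blocks
import Cfsg.Agent.S0915
import Cfsg.Agent.S0923
import Cfsg.Agent.S0936
import Cfsg.Agent.Lib.Block.Reg
import Cfsg.Agent.Lib.FGS.PLength

/-! K3P package CH2, see `blueprint/K3P/README.md`. -/

set_option autoImplicit false
set_option linter.unusedSectionVars false
set_option linter.unusedVariables false

namespace K3P

open Cfsg Subgroup H71KM
open scoped commutatorElement

universe u

variable {G : Type u} [Group G] [Finite G] {p : ℕ} {Q K S Z X : Subgroup G} {h : G} {ψ : V3 → G}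

theorem vanish_of_not_prin (r : ℕ) [Fact r.Prime] (M : Ideal AlgInt) (hM : IsPModular r M) (u : G)
    (hu : ∃ k : ℕ, orderOf u = r ^ k) (hs : Group.IsSolvable (Ce u)) (hO : pPrimeCore r (Ce u) = ⊥)
    (χ : IrrCharacter G) (hχ : χ ∉ principalBlock M G) (y : G) (hy : y ∈ Ce u) (hr : ¬ r ∣ orderOf y) :
    (χ : G → ℂ) (u * y) = 0 := by
  classical
  have : M.IsMaximal := hM.2.1
  let _ := Fintype.ofFinite (Ce u)
  have hnot : ¬ IsInducedBlock M (Ce u) (principalBlock M (Ce u)) (blockOf M (χ : G → ℂ)) := fun hi => by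
    have h0 := (Cfsg.Agent.S0936.result r M hM (Ce u) _ ⟨_, hi⟩).2 rfl
    exact hχ (H84.induced_unique hi h0 ▸ H84.mem_blockOf_self χ)
  have h1 := Cfsg.Agent.S0923.result r M hM u hu _ (H84.isPBlock_blockOf χ) χ (H84.mem_blockOf_self χ) _
    H84.isPBlock_principal hnot ⟨y, hy⟩ (by rwa [← Subgroup.orderOf_coe])
  have hcl : IsClassFunction (Ce u) (fun c : Ce u => (χ : G → ℂ) (u * (c : G))) := by
    intro c d
    have hd : Commute u (d : G) := (mem_centralizer_singleton_iff.1 d.2).symm
    simp only [Subgroup.coe_mul, Subgroup.coe_inv]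
    rw [← H84.irr_class χ (u * c) d]
    congr 1
    rw [← mul_assoc, ← mul_assoc, hd.eq]
    simp only [mul_assoc]
  rwa [H84.blockPart_eq_self (B := principalBlock M (Ce u)) hcl fun ψ hψ => absurd (Cfsg.Agent.S0915.result r M hM
    (H76.isPSolvable_of_isSolvable (G := Ce u)) hO (H84.irrOne (Ce u)) ψ) hψ] at h1


end K3P
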