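import Mathlib
import Cfsg.Agent.Lib.K3P.Defs
import Cfsg.Prelude.Def_Blocks
import Cfsg.Agent.S0962

/-! K3P package CH3, see `blueprint/K3P/README.md`. -/

set_option autoImplicit false
set_option linter.unusedSectionVars false
set_option linter.unusedVariables false

namespace K3P

open Cfsg Subgroup H71KM
open scoped commutatorElement

universe u

variable {G : Type u} [Group G] [Finite G] {p : ℕ} {Q K S Z X : Subgroup G} {h : G} {ψ : V3 → G}

theorem prin_of_deg (r : ℕ) [Fact r.Prime] (M : Ideal AlgInt) (hM : IsPModular r M)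
    (hg : ∀ g : G, ¬ r ∣ orderOf g → ¬ r ∣ (Ce g).index → g = 1)
    (χ : IrrCharacter G) (hχ : ¬ r ∣ charDegree (χ : G → ℂ)) : χ ∈ principalBlock M G := by
  have : M.IsMaximal := hM.2.1
  have h := Cfsg.Agent.S0962.result (G := G) r M hM ((Nat.card G).factorization r)
  have h1 : Nat.card {C : ConjClasses G // ∃ g : G, ConjClasses.mk g = C ∧ IsPRegular r g ∧
      (Nat.card G).factorization r ≤ (Nat.card (centralizer ({g} : Set G))).factorization r} ≤ 1 := by
    refine Finite.card_le_one_iff_subsingleton.2 ⟨?_⟩
    have k : ∀ g : G, IsPRegular r g →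
        (Nat.card G).factorization r ≤ (Nat.card (centralizer ({g} : Set G))).factorization r → g = 1 :=
      fun g h1 h2 => hg g h1 fun hd => by
        have e := (Ce g).card_mul_index
        have i0 : (Ce g).index ≠ 0 := (Ce g).index_ne_zero_of_finite
        have c0 : Nat.card (Ce g) ≠ 0 := Nat.card_pos.ne'
        rw [← e, Nat.factorization_mul c0 i0, Finsupp.add_apply] at h2
        have := (Nat.Prime.factorization_pos_of_dvd (Fact.out : r.Prime) i0 hd)
        have h3 : (Nat.card (Ce g)).factorization r = (Nat.card (centralizer ({g} : Set G))).factorization r := rfl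
        omega
    rintro ⟨_, g, rfl, a1, a2⟩ ⟨_, g', rfl, b1, b2⟩
    obtain rfl := k g a1 a2
    obtain rfl := k g' b1 b2
    rfl
  have : Finite {B : Set (IrrCharacter G) // IsPBlock M B ∧ (Nat.card G).factorization r ≤ blockDefect r B} :=
    inferInstance
  have s := Finite.card_le_one_iff_subsingleton.1 (h.trans h1)
  have e := congrArg Subtype.val (s.elim
    ⟨blockOf M (χ : G → ℂ), H33.isPBlock_blockOf χ, ((H33.blockDefect_eq_card_iff (H33.isPBlock_blockOf χ)).2
      ⟨χ, H33.mem_blockOf_self χ, hχ⟩).ge⟩
    ⟨principalBlock M G, H33.isPBlock_principalBlock, (H33.blockDefect_principalBlock (M := M)).ge⟩)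
  exact (show blockOf M (χ : G → ℂ) = principalBlock M G from e) ▸ H33.mem_blockOf_self χ


end K3P
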