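import Mathlib
import Cfsg.Agent.Lib.K3P.Defs
import Cfsg.Prelude.Def_Blocks
import Cfsg.Agent.S0142

/-! K3P package CH4, see `blueprint/K3P/README.md`. -/

set_option autoImplicit false
set_option linter.unusedSectionVars false
set_option linter.unusedVariables false

namespace K3P

open Cfsg Subgroup H71KM
open scoped commutatorElement

universe u

variable {G : Type u} [Group G] [Finite G] {p : ℕ} {Q K S Z X : Subgroup G} {h : G} {ψ : V3 → G}

namespace CH4_

theorem even_of_zero {V : Type*} [AddCommGroup V] [Module ℂ V] [FiniteDimensional ℂ V]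
    (A : Module.End ℂ V) (h : A * A = 1) (h0 : LinearMap.trace ℂ V A = 0) : 2 ∣ Module.finrank ℂ V := by
  have hi : IsIdempotentElem ((2 : ℂ)⁻¹ • (1 + A)) := by
    rw [IsIdempotentElem, smul_mul_smul_comm, add_mul, mul_add, mul_add, h, one_mul, one_mul, mul_one,
      add_comm A 1, ← two_smul ℂ (1 + A), smul_smul]
    norm_num
  have := ((LinearMap.isProj_range_iff_isIdempotentElem _).2 hi).trace
  rw [map_smul, map_add, h0, add_zero, LinearMap.trace_one, smul_eq_mul] at this
  refine ⟨Module.finrank ℂ (LinearMap.range ((2 : ℂ)⁻¹ • (1 + A))), ?_⟩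
  have e : (Module.finrank ℂ V : ℂ) = 2 * Module.finrank ℂ (LinearMap.range ((2 : ℂ)⁻¹ • (1 + A))) := by
    rw [← this]; ring
  exact_mod_cast e

theorem not_scalar (B : B0 G p) {V : Type*} [AddCommGroup V] [Module ℂ V] [FiniteDimensional ℂ V]
    (ρ : Representation ℂ G V) [ρ.IsIrreducible] (hn : 1 < Module.finrank ℂ V) {u : G} {ω : ℂ}
    (h : ρ u = ω • (1 : Module.End ℂ V)) : u = 1 := by
  haveI := B.simple
  haveI := Fintype.ofFinite G
  rcases (MonoidHom.normal_ker ρ).eq_bot_or_eq_top with e | e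
  · have inj : Function.Injective ρ := fun a b k => by
      have : a * b⁻¹ ∈ MonoidHom.ker ρ := by
        rw [MonoidHom.mem_ker, map_mul, k, ← map_mul, mul_inv_cancel, map_one]
      rwa [e, mem_bot, mul_inv_eq_one] at this
    have c : u ∈ center G := mem_center_iff.2 fun g => inj (by
      rw [map_mul, map_mul, h, mul_smul_comm, smul_mul_assoc, mul_one, one_mul])
    rcases (inferInstance : (center G).Normal).eq_bot_or_eq_top with k | k
    · rwa [k, mem_bot] at c
    · exact absurd ⟨⟨fun a b => (mem_center_iff.1 (k ▸ mem_top b) a)⟩⟩ B.nab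
  · have k : ∀ g, ρ.character g = Module.finrank ℂ V := fun g => by
      have : ρ g = 1 := MonoidHom.mem_ker.1 (e ▸ mem_top g)
      rw [Representation.character, this, LinearMap.trace_one]
    have s := H8.sum_norm_character_sq ρ
    simp only [k, Complex.norm_natCast, Finset.sum_const, Finset.card_univ, nsmul_eq_mul,
      ← Nat.card_eq_fintype_card] at s
    have p0 : (0 : ℝ) < Nat.card G := by exact_mod_cast Nat.card_pos
    have n1 : (1 : ℝ) < Module.finrank ℂ V := by exact_mod_cast hn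
    nlinarith [mul_pos p0 (show (0 : ℝ) < (Module.finrank ℂ V : ℝ) ^ 2 - 1 by nlinarith)]

end CH4_

theorem full_defect (B : B0 G p) (χ : IrrCharacter G) {j : ℕ} (hj : 0 < j) (hχ : (χ : G → ℂ) 1 = (3 : ℂ) ^ j)
    (g : G) (h1 : ¬ 3 ∣ orderOf g) (h2 : ¬ 3 ∣ (Ce g).index) : g = 1 := by
  by_contra g1
  obtain ⟨χ, n, ρ, hρ, rfl⟩ := χ
  have hn : Module.finrank ℂ (Fin n → ℂ) = 3 ^ j := by
    have : (Module.finrank ℂ (Fin n → ℂ) : ℂ) = (3 : ℂ) ^ j := (Representation.char_one ρ).symm.trans hχ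
    exact_mod_cast this
  have o0 := (orderOf_pos g).ne'
  obtain ⟨r, hr, hd⟩ := Nat.exists_prime_and_dvd (orderOf_eq_one_iff.not.2 g1)
  have ho := orderOf_pow_orderOf_div o0 hd
  generalize hu : g ^ (orderOf g / r) = u at ho
  have le : Ce g ≤ Ce u := fun x hx => mem_centralizer_singleton_iff.2
    (hu ▸ (Commute.pow_right (mem_centralizer_singleton_iff.1 hx) _).eq)
  have h3 : ¬ 3 ∣ (Ce u).index := fun k => h2 (k.trans (index_dvd_of_le le))
  have u1 : u ≠ 1 := fun e => hr.ne_one (by rw [← ho, e, orderOf_one])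
  obtain ⟨a, b, hab⟩ := B.ord
  have hG : r ∣ p * 3 ^ a * 2 ^ b := hab ▸ hd.trans (orderOf_dvd_natCard g)
  rcases (Nat.Prime.dvd_mul hr).1 hG with k | k
  · rcases (Nat.Prime.dvd_mul hr).1 k with k | k
    · obtain rfl := (Nat.prime_dvd_prime_iff_eq hr B.prime).1 k
      have d : 3 ∣ Nat.card G := (hn ▸ dvd_pow_self 3 hj.ne' : 3 ∣ Module.finrank ℂ (Fin n → ℂ)).trans
        (H8.finrank_dvd_card ρ)
      rw [← (Ce u).card_mul_index] at d
      refine h3 (((Nat.Prime.dvd_mul Nat.prime_three).1 d).resolve_left fun k => ?_)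
      rw [B.sc u ho, Nat.card_zpowers, ho] at k
      have := (Nat.prime_dvd_prime_iff_eq Nat.prime_three hr).1 k
      have := B.five
      omega
    · exact h1 ((Nat.prime_dvd_prime_iff_eq hr Nat.prime_three).1 (hr.dvd_of_dvd_pow k) ▸ hd)
  · obtain rfl := (Nat.prime_dvd_prime_iff_eq hr Nat.prime_two).1 (hr.dvd_of_dvd_pow k)
    rcases Cfsg.Agent.S0142.result ρ u (hn ▸ Nat.Coprime.pow_left j
      ((Nat.Prime.coprime_iff_not_dvd Nat.prime_three).2 h3)) with e | e
    · have := CH4_.even_of_zero (ρ u) (by rw [← map_mul, ← pow_two, ← ho, pow_orderOf_eq_one, map_one]) e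
      rw [hn] at this
      exact absurd (Nat.prime_two.dvd_of_dvd_pow this) (by decide)
    · obtain ⟨ω, hω⟩ := H8.scalar_of_norm_character_eq ρ u e
      exact u1 (CH4_.not_scalar B ρ (hn ▸ Nat.one_lt_pow hj.ne' (by decide)) hω)


end K3P
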