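import Mathlib
import Cfsg.Agent.Lib.K3P.Defs
import Cfsg.Agent.Lib.K3P.AR2
import Cfsg.Agent.Lib.K3P.CH1
import Cfsg.Agent.Lib.K3P.CH2
import Cfsg.Agent.Lib.K3P.CH3
import Cfsg.Agent.Lib.K3P.CH4
import Cfsg.Agent.Lib.Block.Apps
import Cfsg.Agent.S0910
import Cfsg.Agent.S0942

/-! K3P package CH5, see `blueprint/K3P/README.md`. -/

set_option autoImplicit false
set_option linter.unusedSectionVars false
set_option linter.unusedVariables false

namespace K3P

open Cfsg Subgroup H71KM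
open scoped commutatorElement

universe u

variable {G : Type u} [Group G] [Finite G] {p : ℕ} {Q K S Z X : Subgroup G} {h : G} {ψ : V3 → G}

namespace CH5_

theorem core_bot {L : Type*} [Group L] [Finite L] {r : ℕ} [Fact r.Prime]
    (h : centralizer (pCore r L : Set L) ≤ pCore r L) : pPrimeCore r L = ⊥ := by
  refine sSup_eq_bot.2 ?_
  rintro N ⟨hN, hc⟩
  have hO : (pCore r L).Normal := by
    rw [← H70.pCoreOf_top, ← normalizer_eq_top_iff, eq_top_iff]
    exact H70.le_normalizer_pCoreOf r ⊤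
  have hd : Disjoint N (pCore r L) := disjoint_def.2 fun {x} hx hx' =>
    H70.eq_one_of_mem_isPGroup (H70.isPGroup_pCore r L) hx'
      (Nat.Coprime.coprime_dvd_left (orderOf_dvd_natCard N hx) hc)
  refine hd.eq_bot_of_le fun x hx => h fun y hy => ?_
  exact (commute_of_normal_of_disjoint N _ hN hO hd x y hx hy).symm.eq

theorem ne_zero {r : ℕ} [hr : Fact r.Prime] (χ : IrrCharacter G) {d : ℕ} (hd : (χ : G → ℂ) 1 = d) (hn : ¬ r ∣ d)
    {y : G} {k : ℕ} (hy : y ^ r ^ k = 1) : (χ : G → ℂ) y ≠ 0 := fun h0 => by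
  obtain ⟨M, hM⟩ := H33.exists_isPModular r
  haveI := H33.isMaximal_of hM
  have hk : r ^ k ≠ 0 := (pow_pos hr.out.pos k).ne'
  obtain ⟨n, ω, h1, hω, hs⟩ := H6.char_pow_eq_sum (H6.irr_isCharacter χ.2) hk hy
  have e := hs 1
  simp only [pow_one] at e
  have e2 : H33.red M ((χ : G → ℂ) y) = n := by
    rw [e, H33.red_sum _ fun i _ => H33.mem_O_of_pow_eq_one M hk (hω i)]
    simp [H33.red_eq_one_of_pow_prime_pow hM (hω _)]
  have e3 : d = n := by exact_mod_cast hd.symm.trans h1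
  refine H33.red_natCast_ne_zero hM hn ?_
  rw [H33.red_natCast, e3, ← e2, h0, H33.red_zero]

end CH5_

theorem c3_of (B : B2 G p) : C3 G := by
  intro y y1 ⟨k, hk⟩ X hX hle hn
  by_contra X1
  haveI : Fact (Nat.Prime 3) := ⟨Nat.prime_three⟩
  haveI := B.simple
  obtain ⟨⟨χ, i, hi, hχ⟩, θ, j, hj, hθ⟩ := exists_chars B.toB0
  obtain ⟨M2, hM2⟩ := H33.exists_isPModular 2
  obtain ⟨M3, hM3⟩ := H33.exists_isPModular 3
  have hna : ∃ a b : G, a * b ≠ b * a := by
    by_contra hc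
    push Not at hc
    exact B.nab ⟨⟨hc⟩⟩
  have hd : (χ : G → ℂ) 1 = ((2 ^ i : ℕ) : ℂ) := by rw [hχ]; push_cast; rfl
  have n3 : ¬ 3 ∣ 2 ^ i := fun k => absurd (Nat.prime_three.dvd_of_dvd_pow k) (by decide)
  have np : χ ∉ principalBlock M2 G := fun k => by
    have e := Cfsg.Agent.S0910.result 2 M2 hM2 hna χ k i (by rw [hχ]; rfl)
    rw [e] at hd
    have hd' : (1 : ℂ) = ((2 ^ i : ℕ) : ℂ) := hd
    have : 1 = 2 ^ i := by exact_mod_cast hd'
    exact absurd (Nat.one_lt_two_pow hi.ne') (by omega)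
  have p3 : χ ∈ principalBlock M3 G := prin_of_deg 3 M3 hM3 (full_defect B.toB0 θ hj hθ) χ (by
    rw [charDegree, hd, Complex.natCast_re, Nat.floor_natCast]; exact n3)
  obtain ⟨v, hv, ho⟩ : ∃ v ∈ X, orderOf v = 2 := by
    obtain ⟨n, hn0, e⟩ := hX.nontrivial_iff_card.1 ((nontrivial_iff_ne_bot X).2 X1)
    obtain ⟨v, hv⟩ := exists_prime_orderOf_dvd_card' (G := X) 2 (e ▸ dvd_pow_self 2 hn0.ne')
    exact ⟨v, v.2, by rw [Subgroup.orderOf_coe, hv]⟩
  have v1 : v ≠ 1 := fun e => by simp [e] at ho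
  have v2 : v ^ 2 ^ 1 = 1 := by rw [pow_one, ← ho, pow_orderOf_eq_one]
  obtain ⟨m, -, hm⟩ := (Nat.dvd_prime_pow Nat.prime_three).1 (orderOf_dvd_of_pow_eq_one hk)
  have c : v * y = y * v := mc.1 (hle hv)
  have hc : v ∈ centralizerPPrimeCore 3 y := by
    refine ⟨⟨v, hle hv⟩, ?_, rfl⟩
    have hN : (X.subgroupOf (Ce y)).Normal := (normal_subgroupOf_iff_le_normalizer hle).2 hn
    obtain ⟨n, e⟩ := (hX.comap_subtype (K := Ce y)).exists_card_eq
    refine le_sSup (s := {N : Subgroup (Ce y) | N.Normal ∧ (Nat.card N).Coprime 3}) ⟨hN, ?_⟩ hv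
    change (Nat.card (X.comap (Ce y).subtype)).Coprime 3
    rw [e]
    exact Nat.Coprime.pow_left n (by decide)
  have e1 := Cfsg.Agent.S0942.result 3 M3 hM3 y ⟨m, hm⟩ v hc χ p3
  have hO : pPrimeCore 2 (Ce v) = ⊥ := by
    have h1 : H70.CharP 2 𝐍(zpowers v) := H70.charP_iff.2
      (B.c2.2 _ (H70.isPGroup_zpowers v2) (by simpa using v1))
    have h2 := h1.inf_centralizer_singleton v2 (le_normalizer (mem_zpowers v))
    rw [inf_eq_right.2 (by rw [← H70.centralizer_zpowers]; exact centralizer_le_normalizer _)] at h2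
    exact CH5_.core_bot (H70.charP_iff.1 h2)
  have e2 := vanish_of_not_prin 2 M2 hM2 v ⟨1, by rw [ho, pow_one]⟩
    (B.toB0.solv_ce v1 (by rw [ho]; exact fun k => absurd (Nat.le_of_dvd two_pos k) (by have := B.five; omega)))
    hO χ np y (mc.2 c.symm) (by rw [hm]; exact fun k => absurd (Nat.prime_two.dvd_of_dvd_pow k) (by decide))
  rw [c, e1] at e2
  exact CH5_.ne_zero χ hd n3 hk e2


end K3P
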