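import Mathlib
import Cfsg.Agent.Lib.K3P.Defs
import Cfsg.Agent.Lib.K3P.AR2
import Cfsg.Agent.Lib.LocStruct.Conj

/-! K3P package CS2, see `blueprint/K3P/README.md`. -/

set_option autoImplicit false
set_option linter.unusedSectionVars false
set_option linter.unusedVariables false

namespace K3P

open Cfsg Subgroup H71KM
open scoped commutatorElement

universe u

variable {G : Type u} [Group G] [Finite G] {p : ℕ} {Q K S Z X : Subgroup G} {h : G} {ψ : V3 → G}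

namespace CS2_

theorem coords {V : Subgroup G} (hV : EA 2 V) (h8 : Nat.card V = 8) :
    ∃ ψ : V3 → G, (∀ a b, ψ (a + b) = ψ a * ψ b) ∧ Function.Injective ψ ∧ ∀ v, v ∈ V ↔ ∃ a, ψ a = v := by
  letI : CommGroup V := { (inferInstance : Group V) with mul_comm := fun a b => Subtype.ext (hV.le_cent b.2 a a.2) }
  letI : Module (ZMod 2) (Additive V) := AddCommGroup.zmodModule fun x => by
    change Additive.ofMul (x.toMul ^ 2) = 0
    exact congrArg Additive.ofMul (Subtype.ext (hV.2 _ x.toMul.2))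
  have h1 := Module.natCard_eq_pow_finrank (K := ZMod 2) (V := Additive V)
  rw [show Nat.card (Additive V) = 8 from h8, Nat.card_zmod] at h1
  have h3 : Module.finrank (ZMod 2) (Additive V) = 3 :=
    (Nat.pow_right_injective (le_refl 2) (show 2 ^ 3 = 2 ^ _ from h1)).symm
  let e : V3 ≃ₗ[ZMod 2] Additive V := LinearEquiv.ofFinrankEq _ _ (by simp [h3])
  refine ⟨fun a => ((e a).toMul : G), fun a b => by simp only [map_add]; rfl,
    fun a b h => e.injective (Additive.toMul.injective (Subtype.ext h)), fun v => ⟨fun hv => ?_, ?_⟩⟩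
  · exact ⟨e.symm (Additive.ofMul ⟨v, hv⟩), by simp⟩
  · rintro ⟨a, rfl⟩
    exact (e a).toMul.2

theorem mat {V : Subgroup G} (add : ∀ a b, ψ (a + b) = ψ a * ψ b) (inj : Function.Injective ψ)
    (mem : ∀ v, v ∈ V ↔ ∃ a, ψ a = v) {g : G} (hg : g ∈ 𝐍(V)) :
    ∃ m : M3, ∀ a, g * ψ a * g⁻¹ = ψ (m.mulVec a) := by
  choose f hf using fun a => (mem _).1 ((mem_normalizer_iff.1 hg _).1 ((mem _).2 ⟨a, rfl⟩))
  let φ : V3 →+ V3 := AddMonoidHom.mk' f fun a b => inj (by rw [add, hf, hf, hf, add, conj_mul])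
  refine ⟨LinearMap.toMatrix' (φ.toZModLinearMap 2), fun a => ?_⟩
  rw [LinearMap.toMatrix'_mulVec]
  exact (hf a).symm

theorem simpK (C : Sec Q K) {L : Type*} [Group L] [IsSimpleGroup L] (hq : Quo Q K L) {N : Subgroup G} (h1 : Q ≤ N)
    (h2 : N ≤ K) (h3 : K ≤ 𝐍(N)) : N = Q ∨ N = K := by
  obtain ⟨f, sf, kf⟩ := hq
  have hn : (N.subgroupOf K).Normal := normal_subgroupOf_of_le_normalizer h3
  refine ((hn.map f sf).eq_bot_or_eq_top).imp (fun e => le_antisymm (fun x hx => ?_) h1)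
    fun e => le_antisymm h2 fun k hk => ?_
  · exact (kf ⟨x, h2 hx⟩).1 (mem_bot.1 (e ▸ mem_map_of_mem f (show (⟨x, h2 hx⟩ : K) ∈ N.subgroupOf K from hx)))
  · obtain ⟨n, hn, en⟩ : f ⟨k, hk⟩ ∈ (N.subgroupOf K).map f := e ▸ mem_top _
    have := h1 ((kf (n⁻¹ * ⟨k, hk⟩)).1 (by rw [map_mul, map_inv, en, inv_mul_cancel]))
    exact (mul_mem_cancel_left (inv_mem (show (n : G) ∈ N from hn))).1 this

theorem cardK (C : Sec Q K) {L : Type*} [Group L] (hq : Quo Q K L) : Nat.card K = Nat.card Q * Nat.card L := by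
  obtain ⟨f, sf, kf⟩ := hq
  have e : f.ker = Q.subgroupOf K := Subgroup.ext kf
  rw [← f.ker.card_mul_index, index_ker, MonoidHom.range_eq_top.2 sf, card_top, e,
    Nat.card_congr (subgroupOfEquivOfLe C.le).toEquiv]

theorem exV (Q : Subgroup G) : ∃ V : Subgroup G, ∀ v, v ∈ V ↔ v ∈ Q ∧ v ∈ 𝐂(Q) ∧ v * v = 1 :=
  ⟨{ carrier := {v | v ∈ Q ∧ v ∈ 𝐂(Q) ∧ v * v = 1}
     mul_mem' := fun {a b} ha hb => ⟨mul_mem ha.1 hb.1, mul_mem ha.2.1 hb.2.1, by
       rw [mul_assoc, ← mul_assoc b, ← hb.2.1 a ha.1, mul_assoc, hb.2.2, mul_one, ha.2.2]⟩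
     one_mem' := ⟨one_mem _, one_mem _, mul_one 1⟩
     inv_mem' := fun {a} ha => ⟨inv_mem ha.1, inv_mem ha.2.1, by rw [← mul_inv_rev, ha.2.2, inv_one]⟩ },
    fun _ => Iff.rfl⟩

end CS2_

open CS2_ in
theorem tc_of (T : Th G p) (C : Sec Q K) {L : Type*} [Group L] [Finite L] [IsSimpleGroup L] (hq : Quo Q K L)
    (hL : Nat.card L = 168)
    (hc : ∀ A : Subgroup G, A ≤ Q → K ≤ 𝐍(A) → ∀ y ∈ K, orderOf y = 3 → Nat.card A = Nat.card ↥(A ⊓ Ce y) ^ 3) :
    ∃ ψ : V3 → G, TC Q ψ := by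
  have : Fact (Nat.Prime 2) := ⟨Nat.prime_two⟩
  have : Fact (Nat.Prime 3) := ⟨Nat.prime_three⟩
  obtain ⟨V, hV⟩ := exV Q
  have VQ : V ≤ Q := fun v hv => ((hV v).1 hv).1
  have QV : Q ≤ 𝐂(V) := le_centralizer_iff.1 fun v hv => ((hV v).1 hv).2.1
  have ea : EA 2 V := ⟨comm_iff.2 (VQ.trans QV), fun v hv => (pow_two v).trans ((hV v).1 hv).2.2⟩
  have HV : 𝐍(Q) ≤ 𝐍(V) := fun g hg => mem_normalizer_fintype fun v hv => by
    obtain ⟨h1, h2, h3⟩ := (hV v).1 hv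
    exact (hV _).2 ⟨(mem_normalizer_iff.1 hg v).1 h1,
      (mem_normalizer_iff.1 (H69.normalizer_le_normalizer_centralizer Q hg) v).1 h2, by rw [conj_mul, h3]; simp⟩
  have V1 : V ≠ ⊥ := by
    have : Nontrivial Q := (nontrivial_iff_ne_bot Q).2 C.ne
    have := C.pg.center_nontrivial
    obtain ⟨n, hn, e⟩ := (C.pg.to_subgroup (center Q)).nontrivial_iff_card.1 inferInstance
    obtain ⟨z, hz⟩ := exists_prime_orderOf_dvd_card' (G := center Q) 2 (e ▸ dvd_pow_self 2 hn.ne')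
    intro k
    have : (z.1 : G) ∈ V := (hV _).2 ⟨z.1.2, fun y hy => congrArg Subtype.val (mem_center_iff.1 z.2 ⟨y, hy⟩),
      congrArg (fun x => x.1.1) ((pow_two z).symm.trans (hz ▸ pow_orderOf_eq_one z))⟩
    rw [k, mem_bot] at this
    rw [show z = 1 from Subtype.ext (Subtype.ext this), orderOf_one] at hz
    omega
  have VH : 𝐍(V) ≤ 𝐍(Q) := C.max V ea.isPGroup V1 HV
  have cK := cardK C hq
  rw [hL] at cK
  obtain ⟨y, hy⟩ := exists_prime_orderOf_dvd_card' (G := K) 3 (cK ▸ Dvd.dvd.mul_left (by norm_num) _)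
  rw [← Subgroup.orderOf_coe] at hy
  have c1 := hc V VQ (C.kle.trans HV) y y.2 hy
  have c2 : Nat.card ↥(V ⊓ Ce (y : G)) = 2 := by
    have n1 : V ⊓ Ce (y : G) ≠ ⊥ := fun e => V1 (card_eq_one.1 (by rw [c1, e, card_bot]; rfl))
    obtain ⟨⟨s, hs⟩, s1⟩ := ne_bot_iff_exists_ne_one.1 n1
    have s1 : s ≠ 1 := fun e => s1 (Subtype.ext e)
    have s2 := ((hV s).1 hs.1).2.2
    have : V ⊓ Ce (y : G) = zpowers s := le_antisymm (fun t ht => (mem_zp s2).2 (by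
      rcases T.r1 y t s hy ((hV t).1 ht.1).2.2 s2 (ea.le_cent hs.1 t ht.1) (mc.1 ht.2) (mc.1 hs.2) with e | e | e
      exacts [.inl e, (s1 e).elim, .inr e])) (zpowers_le.2 hs)
    rw [this, Nat.card_zpowers, orderOf_eq_prime ((pow_two s).trans s2) s1]
  rw [c2] at c1
  obtain ⟨ψ, add, inj, mem⟩ := coords ea c1
  have ψ0 : ψ 0 = 1 := mul_left_cancel (a := ψ 0) (by rw [← add, add_zero, mul_one])
  have CK : 𝐂(V) ⊓ K = Q := (simpK C hq (le_inf QV C.le) inf_le_right fun k hk => mem_normalizer_iff.2 fun x =>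
    and_congr (mem_normalizer_iff.1 (H69.normalizer_le_normalizer_centralizer V (HV (C.kle hk))) x)
      (mem_normalizer_iff.1 (le_normalizer hk) x)).resolve_right fun e => by
    rw [inf_eq_left.2 fun v hv => mc_symm (mc_of_mem (e.ge y.2).1 hv), c1] at c2
    omega
  have CV : 𝐂(V) ≤ Q := fun g hg => by
    have gH := VH (centralizer_le_normalizer _ hg)
    refine C.cent g gH fun k hk => CK.le ⟨?_, ?_⟩
    · rw [commutatorElement_def, mul_assoc, mul_assoc, ← mul_assoc k]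
      exact mul_mem hg ((mem_normalizer_iff.1 (H69.normalizer_le_normalizer_centralizer V (HV (C.kle hk))) _).1 (inv_mem hg))
    · exact K.mul_mem ((mem_normalizer_iff.1 (C.nk gH) k).1 hk) (K.inv_mem hk)
  have cv : ∀ g, (∀ a, g * ψ a = ψ a * g) ↔ g ∈ Q := fun g =>
    ⟨fun h => CV fun v hv => by obtain ⟨a, rfl⟩ := (mem v).1 hv; exact (h a).symm,
      fun h a => (QV h _ ((mem _).2 ⟨a, rfl⟩)).symm⟩
  choose μ hμ using fun g : 𝐍(Q) => mat add inj mem (HV g.2)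
  have uq : ∀ {m m' : M3}, (∀ a, ψ (m.mulVec a) = ψ (m'.mulVec a)) → m = m' := fun h =>
    Matrix.toLin'.injective (LinearMap.ext fun a => inj (h a))
  let ρ0 : 𝐍(Q) →* M3 := ⟨⟨μ, uq fun a => by rw [← hμ]; simp⟩, fun g k => uq fun a => by
    rw [← hμ, ← Matrix.mulVec_mulVec, ← hμ, ← hμ, coe_mul]; group⟩
  let ρ : 𝐍(Q) →* GL (Fin 3) (ZMod 2) := ρ0.toHomUnits
  have hρ : ∀ g, (ρ g).1 = μ g := fun g => rfl
  have kρ : ρ.ker = Q.subgroupOf 𝐍(Q) := by
    ext g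
    rw [MonoidHom.mem_ker, mem_subgroupOf, ← cv, Units.ext_iff, hρ]
    refine ⟨fun e a => mul_inv_eq_iff_eq_mul.1 (by rw [hμ, e]; simp), fun h => uq fun a => ?_⟩
    rw [← hμ, h]; simp
  have cG : Nat.card (GL (Fin 3) (ZMod 2)) = 168 := by
    rw [Matrix.card_GL_field]; simp [Fin.prod_univ_three]
  have cH : Nat.card 𝐍(Q) = Nat.card Q * Nat.card ρ.range := by
    rw [← ρ.ker.card_mul_index, index_ker, kρ, Nat.card_congr (subgroupOfEquivOfLe le_normalizer).toEquiv]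
  have r1 : Nat.card ρ.range ≤ 168 := cG ▸ card_le_card_group _
  have r2 : 168 ≤ Nat.card ρ.range :=
    Nat.le_of_mul_le_mul_left (by rw [← cH, ← cK]; exact card_le_of_le C.kle) (Nat.card_pos (α := Q))
  have r3 := le_antisymm r1 r2
  have HK : K = 𝐍(Q) := eq_of_le_of_card_ge C.kle (by rw [cH, cK, r3])
  have rt : ρ.range = ⊤ := (card_eq_iff_eq_top _).1 (r3.trans cG.symm)
  refine ⟨ψ, C.toMQ, add, fun a e => inj (e.trans ψ0.symm), fun v => (hV v).symm.trans (mem v), cv,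
    fun g h => VH (mem_normalizer_fintype fun v hv => ?_), fun m hm => ?_, fun g hg => ⟨μ ⟨g, hg⟩, ?_, hμ ⟨g, hg⟩⟩,
    HK ▸ cK, fun N h1 h2 h3 => HK ▸ simpK C hq h1 (HK ▸ h2) (HK ▸ h3), fun A h1 h2 y hy => hc A h1 (HK ▸ h2) y (HK ▸ hy)⟩
  · obtain ⟨a, rfl⟩ := (mem v).1 hv
    obtain ⟨b, e⟩ := h a
    exact (mem _).2 ⟨b, e.symm⟩
  · obtain ⟨g, e⟩ : Matrix.GeneralLinearGroup.mkOfDetNeZero m (by rw [hm]; exact one_ne_zero) ∈ ρ.range := rt ▸ mem_top _
    exact ⟨g, g.2, fun a => by rw [hμ, ← hρ, e]; rfl⟩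
  · have := (ρ ⟨g, hg⟩).det_ne_zero
    rw [hρ] at this
    generalize (μ ⟨g, hg⟩).det = d at this
    revert d
    decide


end K3P
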