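import Mathlib
import Cfsg.Agent.Lib.K3P.Defs
import Cfsg.Agent.S1232
import Cfsg.Agent.Lib.A6C.SR

/-! K3P package E8, see `blueprint/K3P/README.md`. -/

set_option autoImplicit false
set_option linter.unusedSectionVars false
set_option linter.unusedVariables false

namespace K3P

open Cfsg Subgroup H71KM
open scoped commutatorElement

universe u

variable {G : Type u} [Group G] [Finite G] {p : ℕ} {Q K S Z X : Subgroup G} {h : G} {ψ : V3 → G}

theorem sr4_of_e8 (E : Subgroup G) (hE : EA 2 E) (h8 : Nat.card E = 8) (hC : 𝐂(E) ≤ E) :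
    SectionalPRankLE 2 4 G := by
  have hP : IsPGroup 2 E := IsPGroup.of_card (n := 3) h8
  obtain ⟨P, hle⟩ := hP.exists_le_sylow
  exact H80.A6C.SR.sr8a (H69.isSylowIn_top P) hle (fun a ha => by rw [← sq]; exact hE.2 a ha) h8
    fun x _ hx => hC hx

theorem sr4_of_tc (C : TC Q ψ) (hV : ∀ w ∈ Q, ∃ a, ψ a = w) : SectionalPRankLE 2 4 G := by
  have hm : ∀ a, ψ a ∈ Q ∧ ψ a ∈ 𝐂(Q) ∧ ψ a * ψ a = 1 := fun a => (C.mem _).2 ⟨a, rfl⟩
  refine sr4_of_e8 Q ⟨comm_iff.2 fun w hw => ?_, fun w hw => ?_⟩ ?_ C.cq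
  · obtain ⟨a, rfl⟩ := hV w hw
    exact (hm a).2.1
  · obtain ⟨a, rfl⟩ := hV w hw
    rw [sq]; exact (hm a).2.2
  · have hb : Function.Bijective fun a : V3 => (⟨ψ a, (hm a).1⟩ : Q) := by
      refine ⟨fun a b e => ?_, fun w => ?_⟩
      · have e' : ψ a = ψ b := congrArg Subtype.val e
        have := C.inj (a + b) (by rw [C.add, e', (hm b).2.2])
        have h2 : b + b = 0 := (by decide : ∀ c : V3, c + c = 0) b
        exact add_right_cancel (this.trans h2.symm)
      · obtain ⟨a, ha⟩ := hV w w.2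
        exact ⟨a, Subtype.ext ha⟩
    rw [← Nat.card_eq_of_bijective _ hb]
    simp


end K3P
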