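import Mathlib
import Cfsg.Agent.Lib.K3P.Defs
import Cfsg.Agent.Lib.PGroup.Frattini

/-! K3P package FPF, see `blueprint/K3P/README.md`. -/

set_option autoImplicit false
set_option linter.unusedSectionVars false
set_option linter.unusedVariables false

namespace K3P

open Cfsg Subgroup H71KM
open scoped commutatorElement

universe u

variable {G : Type u} [Group G] [Finite G] {p : ℕ} {Q K S Z X : Subgroup G} {h : G} {ψ : V3 → G}

namespace FPF_

theorem dvd0 {G Ω : Type*} [Group G] [MulAction G Ω] (C : Subgroup G) (A : Set Ω) (h1 : ∀ c ∈ C, ∀ x ∈ A, c • x ∈ A)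
    (h2 : ∀ c ∈ C, ∀ x ∈ A, c • x = x → c = 1) : Nat.card C ∣ A.ncard := by
  let B : SubMulAction C Ω := ⟨A, fun c _ hx => h1 c c.2 _ hx⟩
  have := Nat.card_congr (MulAction.selfEquivOrbitsQuotientProd (G := C) (X := B) fun x =>
    (eq_bot_iff_forall _).2 fun c hc => Subtype.ext (h2 c c.2 x x.2 (congrArg Subtype.val hc)))
  rw [Nat.card_prod] at this
  exact Dvd.intro_left _ this.symm

theorem dvd1 (C : Subgroup G) (A : Set G) (h1 : ∀ c ∈ C, ∀ x ∈ A, c * x * c⁻¹ ∈ A)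
    (h2 : ∀ c ∈ C, ∀ x ∈ A, c * x * c⁻¹ = x → c = 1) : Nat.card C ∣ A.ncard :=
  @dvd0 G G _ (MulAction.compHom G (MulAut.conj : G →* MulAut G)) C A h1 h2

/-- an invariant subgroup in which `y` centralises exactly one nontrivial element -/
theorem exists_sub (r1 : R1 G) (H : Subgroup G) {y : G} (y3 : orderOf y = 3) (n : ℕ) : ∀ A : Subgroup G,
    Nat.card A = n → IsPGroup 2 A → (∀ g ∈ H, ∀ a ∈ A, g * a * g⁻¹ ∈ A) → (∃ v ∈ A, v ≠ 1 ∧ y * v = v * y) →
    ∃ A : Subgroup G, IsPGroup 2 A ∧ (∀ g ∈ H, ∀ a ∈ A, g * a * g⁻¹ ∈ A) ∧ ∃ v ∈ A, v ≠ 1 ∧ y * v = v * y ∧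
      ∀ u ∈ A, y * u = u * y → u = 1 ∨ u = v := by
  induction n using Nat.strong_induction_on with
  | _ n ih =>
    rintro A rfl hA inv ⟨v, hv, v1, c⟩
    let B : Subgroup G := closure {s | ∃ a ∈ A, s = a * a}
    have BF : B ≤ (frattini A).map A.subtype := (closure_le _).2 (by
      rintro _ ⟨a, ha, rfl⟩
      rw [← sq]; exact H5.pow_mem_map_frattini hA ha)
    have BA : B ≤ A := BF.trans (map_subtype_le _)
    by_cases hB : ∃ v ∈ B, v ≠ 1 ∧ y * v = v * y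
    · refine ih _ (lt_of_le_of_ne (card_le_of_le BA) fun e => ?_) B rfl (hA.to_le BA) (fun g hg b hb => ?_) hB
      · have : Nontrivial A := ⟨⟨⟨v, hv⟩, 1, fun e => v1 (congrArg Subtype.val e)⟩⟩
        refine H5.frattini_ne_top (G := A) (top_le_iff.1 fun a _ => ?_)
        obtain ⟨b, hb, e⟩ := BF ((eq_of_le_of_card_ge BA e.ge).ge a.2)
        exact Subtype.ext (p := (· ∈ A)) e ▸ hb
      · induction hb using closure_induction with
        | mem s hs =>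
          obtain ⟨a, ha, rfl⟩ := hs
          exact subset_closure ⟨_, inv g hg a ha, by group⟩
        | one => simp
        | mul a b _ _ h1 h2 => convert mul_mem h1 h2 using 1; group
        | inv a _ h1 => convert inv_mem h1 using 1; group
    · push Not at hB
      have sq : ∀ u ∈ A, y * u = u * y → u * u = 1 := fun u hu e => by_contra fun q =>
        hB _ (subset_closure ⟨u, hu, rfl⟩) q (by rw [← mul_assoc, e, mul_assoc, e, mul_assoc])
      refine ⟨A, hA, inv, v, hv, v1, c, fun u hu e => ?_⟩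
      have cm : u * v = v * u := by
        have := sq _ (mul_mem hu hv) (by rw [← mul_assoc, e, mul_assoc, c, mul_assoc])
        rw [← inv_eq_of_mul_eq_one_right this, mul_inv_rev, inv_eq_of_mul_eq_one_right (sq u hu e),
          inv_eq_of_mul_eq_one_right (sq v hv c)]
      exact (r1 y u v y3 (sq u hu e) (sq v hv c) cm e.symm c.symm).imp_right fun q => q.resolve_left v1

theorem arith {m p : ℕ} (h1 : p ∣ 2 ^ m - 1) (h3 : 3 ∣ 2 ^ m - 2) (h2 : 2 ≤ 2 ^ m)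
    (hc : p = 5 ∨ p = 17 ∨ (p = 7 ∧ 9 ∣ 2 ^ m - 2)) : False := by
  have key : 2 ^ m % 5355 = 2 ^ (m % 24) % 5355 := by
    conv_lhs => rw [← Nat.div_add_mod m 24, pow_add, pow_mul, Nat.mul_mod, Nat.pow_mod]
    norm_num
  have : m % 24 < 24 := Nat.mod_lt _ (by norm_num)
  generalize 2 ^ m = N at *
  generalize m % 24 = r at *
  interval_cases r <;> norm_num at key <;> rcases hc with rfl | rfl | ⟨rfl, h⟩ <;> omega

end FPF_

open FPF_ in
theorem fpf_of (T : Th G p) (hQ : IsPGroup 2 Q) (hp : p ∣ Nat.card ↥𝐍(Q))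
    (hc : p = 5 ∨ p = 17 ∨ (p = 7 ∧ 9 ∣ Nat.card ↥𝐍(Q))) : Fpf Q := by
  intro y hy y3 v hv c
  by_contra v1
  obtain ⟨A, hA, inv, v', hv', v1', c', uq⟩ := exists_sub T.r1 𝐍(Q) y3 _ Q rfl hQ
    (fun g hg a ha => (mem_normalizer_iff.1 hg a).1 ha) ⟨v, hv, v1, c⟩
  obtain ⟨m, hm⟩ := IsPGroup.iff_card.1 hA
  have : Fact p.Prime := ⟨T.prime⟩
  have : Fact (Nat.Prime 3) := ⟨Nat.prime_three⟩
  have cA : (A : Set G).ncard = 2 ^ m := by rw [← hm]; rfl
  have c1 : ((A : Set G) \ {1}).ncard = 2 ^ m - 1 := by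
    rw [Set.ncard_sdiff_singleton_of_mem (one_mem A), cA]
  have sub : ({1, v'} : Set G) ⊆ A := by rintro _ (rfl | rfl); exacts [one_mem A, hv']
  have c2 : ((A : Set G) \ {1, v'}).ncard = 2 ^ m - 2 := by
    rw [Set.ncard_sdiff sub, cA, Set.ncard_pair v1'.symm]
  have two : 2 ≤ 2 ^ m := by rw [← cA, ← Set.ncard_pair v1'.symm]; exact Set.ncard_le_ncard sub
  have mem : ∀ u, u ∈ (A : Set G) \ {1, v'} ↔ u ∈ A ∧ y * u ≠ u * y := fun u =>
    ⟨fun h => ⟨h.1, fun e => h.2 (uq u h.1 e)⟩, fun h => ⟨h.1, by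
      rintro (rfl | rfl)
      exacts [h.2 (by simp), h.2 c']⟩⟩
  have fr : ∀ C : Subgroup G, C ≤ 𝐍(Q) → (∀ k ∈ C, k * y = y * k) → (∀ k ∈ C, k ≠ 1 → ∃ n : ℕ, k ^ n = y) →
      Nat.card C ∣ 2 ^ m - 2 := by
    intro C h1 h2 h3
    rw [← c2]
    refine dvd1 C _ (fun k hk u hu => ?_) fun k hk u hu e => by_contra fun q => ?_
    · rw [mem] at hu ⊢
      refine ⟨inv k (h1 hk) u hu.1, fun e => hu.2 ?_⟩
      calc y * u = k⁻¹ * (y * (k * u * k⁻¹)) * k := by
            rw [← mul_assoc y, ← mul_assoc y, ← h2 k hk]; group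
        _ = u * (k⁻¹ * (y * k)) := by rw [e]; group
        _ = u * y := by rw [← h2 k hk]; group
    · obtain ⟨n, rfl⟩ := h3 k hk q
      exact ((mem u).1 hu).2 (Commute.pow_left (mul_inv_eq_iff_eq_mul.1 e) n)
  have pw : ∀ w : G, (∀ i < orderOf w, 0 < i → ∃ n : ℕ, (w ^ i) ^ n = y) → ∀ k ∈ zpowers w, k ≠ 1 →
      ∃ n : ℕ, k ^ n = y := by
    intro w hw k hk k1
    obtain ⟨i, rfl⟩ := mem_powers_iff_mem_zpowers.2 hk
    simp only at k1 ⊢
    rw [← pow_mod_orderOf] at k1 ⊢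
    exact hw _ (Nat.mod_lt _ (orderOf_pos w)) (Nat.pos_of_ne_zero fun e => k1 (by rw [e, pow_zero]))
  have y33 : y ^ 3 = 1 := y3 ▸ pow_orderOf_eq_one y
  refine arith (m := m) (p := p) ?_ ?_ two (hc.imp_right (Or.imp_right (And.imp_right fun h9 => ?_)))
  · obtain ⟨x, hx⟩ := exists_prime_orderOf_dvd_card' (G := 𝐍(Q)) p hp
    rw [← orderOf_coe] at hx
    rw [← c1, ← hx, ← Nat.card_zpowers]
    refine dvd1 _ _ (fun k hk u hu => ⟨inv k (zpowers_le.2 x.2 hk) u hu.1, by simpa using hu.2⟩)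
      fun k hk u hu e => by_contra fun q => hu.2 ?_
    have ok : orderOf k = p := (T.prime.eq_one_or_self_of_dvd _ (hx ▸ orderOf_dvd_of_mem_zpowers hk)).resolve_left
      fun e => q (orderOf_eq_one_iff.1 e)
    have m1 : u ∈ zpowers k := T.sc k ok ▸ mc.2 (mul_inv_eq_iff_eq_mul.1 e).symm
    have d1 : orderOf u ∣ p := ok ▸ orderOf_dvd_of_mem_zpowers m1
    have d2 : orderOf u ∣ 2 ^ m := hm ▸ Subgroup.orderOf_dvd_natCard A hu.1
    have cp : Nat.Coprime p (2 ^ m) := Nat.Coprime.pow_right _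
      ((Nat.coprime_primes T.prime Nat.prime_two).2 (by have := T.five; omega))
    exact orderOf_eq_one_iff.1 (Nat.eq_one_of_dvd_coprimes cp d1 d2)
  · rw [← y3, ← Nat.card_zpowers]
    refine fr _ (zpowers_le.2 hy) (fun k hk => ?_) (pw y fun i h1 h2 => ?_)
    · obtain ⟨i, rfl⟩ := hk
      exact (Commute.zpow_self y i)
    · rw [y3] at h1
      interval_cases i
      · exact ⟨1, by simp⟩
      · exact ⟨2, by rw [← pow_mul, show 2 * 2 = 3 + 1 from rfl, pow_succ, y33, one_mul]⟩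
  · obtain ⟨K, cK, le⟩ := Sylow.exists_subgroup_card_pow_succ (G := 𝐍(Q)) (p := 3) (n := 1) h9
      (H := zpowers ⟨y, hy⟩) (by rw [Nat.card_zpowers, ← orderOf_coe, y3, pow_one])
    have ab := IsPGroup.isMulCommutative_of_card_eq_prime_sq cK
    have cE : Nat.card (K.map (𝐍(Q)).subtype) = 9 := (card_map_of_injective (𝐍(Q)).subtype_injective).trans cK
    have yE : y ∈ K.map (𝐍(Q)).subtype := ⟨_, le (mem_zpowers _), rfl⟩
    have EN : K.map (𝐍(Q)).subtype ≤ 𝐍(Q) := map_subtype_le _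
    have abE : IsMulCommutative (K.map (𝐍(Q)).subtype) := inferInstance
    generalize K.map (𝐍(Q)).subtype = E at cE yE EN abE
    have : ¬ ∀ b ∈ E, b ^ 3 = 1 := fun q => T.n9 ⟨Q, E, hQ, fun e => v1 (mem_bot.1 (e ▸ hv)), EN, ⟨abE, q⟩, cE⟩
    push Not at this
    obtain ⟨w, hw, w3⟩ := this
    have w9 : w ^ 9 = 1 := orderOf_dvd_iff_pow_eq_one.1 (cE ▸ Subgroup.orderOf_dvd_natCard E hw)
    have ow : orderOf w = 9 := orderOf_eq_prime_pow (p := 3) (n := 1) w3 w9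
    have eE : zpowers w = E := eq_of_le_of_card_ge (zpowers_le.2 hw) (by rw [cE, Nat.card_zpowers, ow])
    rw [← cE]
    refine fr E EN (fun k hk => congrArg Subtype.val (abE.1.1 ⟨k, hk⟩ ⟨y, yE⟩)) (eE ▸ pw w fun i h1 h2 => ?_)
    obtain ⟨j, rfl⟩ := mem_powers_iff_mem_zpowers.2 (eE ▸ yE : y ∈ zpowers w)
    simp only at y33 ⊢
    rw [← pow_mul, ← orderOf_dvd_iff_pow_eq_one, ow] at y33
    simp only [← pow_mul, pow_eq_pow_iff_modEq, ow, Nat.ModEq]
    rw [ow] at h1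
    obtain ⟨l, rfl⟩ : ∃ l, j = 3 * l := ⟨j / 3, by omega⟩
    interval_cases i
    exacts [⟨3 * l, by omega⟩, ⟨6 * l, by omega⟩, ⟨l, by omega⟩, ⟨3 * l, by omega⟩, ⟨6 * l, by omega⟩,
      ⟨2 * l, by omega⟩, ⟨3 * l, by omega⟩, ⟨6 * l, by omega⟩]

end K3P
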