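import Mathlib
import Cfsg.Agent.Lib.K3P.Defs
import Cfsg.Agent.Lib.K3P.AR2
import Cfsg.Agent.S0199

/-! K3P package FREE, see `blueprint/K3P/README.md`. -/

set_option autoImplicit false
set_option linter.unusedSectionVars false
set_option linter.unusedVariables false

namespace K3P

open Cfsg Subgroup H71KM
open scoped commutatorElement

universe u

variable {G : Type u} [Group G] [Finite G] {p : ℕ} {Q K S Z X : Subgroup G} {h : G} {ψ : V3 → G}

namespace FREE_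

theorem pg_zpowers {x : G} {k : ℕ} (hx : x ^ 2 ^ k = 1) : IsPGroup 2 (zpowers x) := by
  rw [IsPGroup.iff_card, Nat.card_zpowers]
  exact (Nat.dvd_prime_pow Nat.prime_two).1 (orderOf_dvd_of_pow_eq_one hx) |>.imp fun _ h => h.2

/-- an element of `N(Q)` which is not a 2-element is fixed point free on `Q`. -/
theorem fpf_of (B : B0 G p) (hQ : IsPGroup 2 Q) (hf : Fpf Q) {t : G} (ht : t ∈ 𝐍(Q))
    (h2 : ¬ ∃ k : ℕ, t ^ 2 ^ k = 1) {v : G} (hv : v ∈ Q) (hc : t * v = v * t) : v = 1 := by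
  obtain ⟨k, m, hm, hk⟩ := Nat.exists_eq_two_pow_mul_odd (orderOf_pos t).ne'
  have m1 : m ≠ 1 := fun e => h2 ⟨k, by rw [← pow_orderOf_eq_one t, hk, e, mul_one]⟩
  obtain ⟨r, hr, hrm⟩ := Nat.exists_prime_and_dvd m1
  have r2 : r ≠ 2 := fun e => (Nat.not_even_iff_odd.2 hm) (even_iff_two_dvd.2 (e ▸ hrm))
  have hd : r ∣ orderOf t := hk ▸ hrm.mul_left _
  have ho : orderOf (t ^ (orderOf t / r)) = r := orderOf_pow_orderOf_div (orderOf_pos t).ne' hd
  have hc' : t ^ (orderOf t / r) * v = v * t ^ (orderOf t / r) := (Commute.pow_left hc _).eq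
  by_cases r3 : r = 3
  · exact hf _ (pow_mem ht _) (ho.trans r3) v hv hc'
  · have r5 : 5 ≤ r := by
      have := hr.two_le
      by_contra h5
      have : r = 4 := by omega
      exact absurd (this ▸ hr) (by norm_num)
    have rp : r = p := B.eq_p hr r5 (hd.trans (orderOf_dvd_natCard t))
    have hz : v ∈ zpowers (t ^ (orderOf t / r)) := B.sc _ (ho.trans rp) ▸ mc.2 hc'.symm
    have d1 : orderOf v ∣ r := ho ▸ orderOf_dvd_of_mem_zpowers hz
    obtain ⟨j, hj⟩ := H70.isPGroup_iff_mem.1 hQ v hv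
    have d2 : orderOf v ∣ 2 ^ j := orderOf_dvd_of_pow_eq_one hj
    have cop : Nat.Coprime r (2 ^ j) := ((Nat.coprime_primes hr Nat.prime_two).2 r2).pow_right _
    exact orderOf_eq_one_iff.1 (Nat.eq_one_of_dvd_coprimes cop d1 d2)

/-- two elements of `N(Q)` with squares in `Q` whose product is a 2-element generate a 2-group. -/
theorem dih (hQ : IsPGroup 2 Q) {u w : G} (hu : u ∈ 𝐍(Q)) (hw : w ∈ 𝐍(Q)) (u2 : u * u ∈ Q) (w2 : w * w ∈ Q)
    {k : ℕ} (hk : (u * w) ^ 2 ^ k = 1) : IsPGroup 2 (zpowers u ⊔ zpowers w : Subgroup G) := by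
  have hD : IsPGroup 2 (Q ⊔ zpowers (u * w) : Subgroup G) :=
    hQ.to_sup_of_normal_left' (pg_zpowers hk) (zpowers_le.2 (mul_mem hu hw))
  obtain ⟨j, hj⟩ := H70.isPGroup_iff_mem.1 hQ _ u2
  have hp : IsPGroup 2 (zpowers u) := pg_zpowers (k := j + 1) (by rw [pow_succ', pow_mul, pow_two, hj])
  have hn : u ∈ 𝐍((Q ⊔ zpowers (u * w) : Subgroup G)) := by
    refine mem_normalizer_fintype fun n hn => ?_
    have : Q ⊔ zpowers (u * w) ≤ (Q ⊔ zpowers (u * w)).comap (MulAut.conj u).toMonoidHom := by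
      refine sup_le (fun v hv => mem_sup_left ((mem_normalizer_iff.1 hu v).1 hv)) (zpowers_le.2 ?_)
      have e : (MulAut.conj u).toMonoidHom (u * w) = (u * u) * (w * w) * (u * w)⁻¹ := by
        simp only [MulEquiv.toMonoidHom_eq_coe, MonoidHom.coe_coe, MulAut.conj_apply]; group
      rw [mem_comap, e]
      exact mul_mem (mem_sup_left (mul_mem u2 w2)) (mem_sup_right (inv_mem (mem_zpowers _)))
    exact this hn
  refine (hD.to_sup_of_normal_left' hp (zpowers_le.2 hn)).to_le (sup_le le_sup_right (zpowers_le.2 ?_))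
  have e : w = u⁻¹ * (u * w) := by group
  rw [e]
  exact mul_mem (mem_sup_right (inv_mem (mem_zpowers u)))
    (mem_sup_left (mem_sup_right (by rw [← e]; exact mem_zpowers _)))

theorem exists_conj (M : MQ Q) {u : G} (hu : u ∈ 𝐍(Q)) (h1 : u ∉ Q) (h2 : u * u ∈ Q) :
    ∃ g ∈ 𝐍(Q), ¬ ∃ k : ℕ, (u * (g * u * g⁻¹)) ^ 2 ^ k = 1 := by
  by_contra hh
  push Not at hh
  obtain ⟨j, hj⟩ := H70.isPGroup_iff_mem.1 M.pg _ h2
  have hp : IsPGroup 2 (zpowers u) := pg_zpowers (k := j + 1) (by rw [pow_succ', pow_mul, pow_two, hj])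
  obtain ⟨N, nN, pN, hN⟩ := Cfsg.Agent.S0199.result (p := 2) (zpowers (⟨u, hu⟩ : 𝐍(Q)))
    (IsPGroup.to_le hp.comap_subtype (zpowers_le.2 (mem_zpowers u))) fun t => by
      obtain ⟨k, hk⟩ := hh t t.2
      have w2 : (t * u * (t : G)⁻¹) * (t * u * (t : G)⁻¹) ∈ Q := by
        have e : (t * u * (t : G)⁻¹) * (t * u * (t : G)⁻¹) = t * (u * u) * (t : G)⁻¹ := by group
        rw [e]; exact (mem_normalizer_iff.1 t.2 _).1 h2
      have := dih M.pg hu (mul_mem (mul_mem t.2 hu) (inv_mem t.2)) h2 w2 hk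
      refine IsPGroup.to_le this.comap_subtype (sup_le (zpowers_le.2 (mem_sup_left (mem_zpowers u))) ?_)
      rw [MonoidHom.map_zpowers]
      exact zpowers_le.2 (mem_sup_right (mem_zpowers _))
  refine h1 (M.o2 (N.map (𝐍(Q)).subtype) (pN.map _) (map_subtype_le N) (fun t ht => ?_) ⟨_, hN (mem_zpowers _), rfl⟩)
  refine mem_normalizer_fintype ?_
  rintro _ ⟨n, hn, rfl⟩
  exact ⟨_, nN.conj_mem n hn ⟨t, ht⟩, rfl⟩

theorem card_conj {u g : G} (hg : g ∈ 𝐍(Q)) : Nat.card ↥(Q ⊓ Ce (g * u * g⁻¹)) = Nat.card ↥(Q ⊓ Ce u) := by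
  have e : Q ⊓ Ce (g * u * g⁻¹) = (Q ⊓ Ce u).map (MulAut.conj g).toMonoidHom := by
    ext v
    constructor
    · rintro ⟨hv, hc⟩
      refine ⟨g⁻¹ * v * g, ⟨by simpa using (mem_normalizer_iff.1 (inv_mem hg) v).1 hv, mc.2 ?_⟩, by simp [mul_assoc]⟩
      have := mc.1 hc
      calc g⁻¹ * v * g * u = g⁻¹ * (v * (g * u * g⁻¹)) * g := by group
        _ = g⁻¹ * ((g * u * g⁻¹) * v) * g := by rw [this]
        _ = u * (g⁻¹ * v * g) := by group
    · rintro ⟨v, ⟨hv, hc⟩, rfl⟩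
      refine ⟨(mem_normalizer_iff.1 hg v).1 hv, mc.2 ?_⟩
      have := mc.1 hc
      calc (g * v * g⁻¹) * (g * u * g⁻¹) = g * (v * u) * g⁻¹ := by group
        _ = g * (u * v) * g⁻¹ := by rw [this]
        _ = (g * u * g⁻¹) * (g * v * g⁻¹) := by group
  rw [e]
  exact card_map_of_injective (MulAut.conj g).injective

theorem mul_le {A C : Subgroup G} (hA : A ≤ Q) (hC : C ≤ Q) (h : ∀ v ∈ A, v ∈ C → v = 1) :
    Nat.card A * Nat.card C ≤ Nat.card Q := by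
  rw [← Nat.card_prod]
  refine Nat.card_le_card_of_injective (fun x : A × C => (⟨x.1 * x.2, mul_mem (hA x.1.2) (hC x.2.2)⟩ : Q)) ?_
  rintro ⟨a, c⟩ ⟨a', c'⟩ e
  have e1 : (a : G) * c = a' * c' := congrArg Subtype.val e
  have e2 : (a' : G)⁻¹ * a = c' * (c : G)⁻¹ := by
    calc (a' : G)⁻¹ * a = (a' : G)⁻¹ * (a * c) * (c : G)⁻¹ := by group
      _ = c' * (c : G)⁻¹ := by rw [e1]; group
  have e3 := h _ (mul_mem (inv_mem a'.2) a.2) (e2 ▸ mul_mem c'.2 (inv_mem c.2))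
  have e4 : (a : G) = a' := (inv_mul_eq_one.1 e3).symm
  have e5 : (c : G) = c' := mul_left_cancel (e4 ▸ e1)
  exact Prod.ext (Subtype.ext e4) (Subtype.ext e5)

theorem le_sq (hE : EA 2 Q) {u : G} (hu : u ∈ 𝐍(Q)) (h2 : u * u ∈ Q) :
    Nat.card Q ≤ Nat.card ↥(Q ⊓ Ce u) ^ 2 := by
  have cm : ∀ a ∈ Q, ∀ b ∈ Q, a * b = b * a := fun a ha b hb => (hE.le_cent hb a ha)
  have cj : ∀ v ∈ Q, u * v * u⁻¹ ∈ Q := fun v hv => (mem_normalizer_iff.1 hu v).1 hv
  let f : Q →* ↥(Q ⊓ Ce u) := MonoidHom.mk' (fun v => ⟨v * (u * v * u⁻¹), mul_mem v.2 (cj v v.2), mc_symm (mc_of_conj (by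
      calc u * (v * (u * v * u⁻¹)) * u⁻¹ = (u * v * u⁻¹) * ((u * u) * v) * (u * u)⁻¹ := by group
        _ = (u * v * u⁻¹) * (v * (u * u)) * (u * u)⁻¹ := by rw [cm _ h2 _ v.2]
        _ = (u * v * u⁻¹) * v := by group
        _ = v * (u * v * u⁻¹) := cm _ (cj v v.2) _ v.2))⟩) fun a b => Subtype.ext (by
      calc ((a : G) * b) * (u * (a * b) * u⁻¹) = a * (b * (u * a * u⁻¹)) * (u * b * u⁻¹) := by group
        _ = a * ((u * a * u⁻¹) * b) * (u * b * u⁻¹) := by rw [cm _ b.2 _ (cj a a.2)]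
        _ = (a * (u * a * u⁻¹)) * (b * (u * b * u⁻¹)) := by group)
  have k1 : Nat.card f.ker ≤ Nat.card ↥(Q ⊓ Ce u) := by
    refine Nat.card_le_card_of_injective (fun x : f.ker => (⟨x.1.1, x.1.2, mc_symm (mc_of_conj ?_)⟩ : ↥(Q ⊓ Ce u))) ?_
    · have e : (x.1.1 : G) * (u * x.1.1 * u⁻¹) = 1 := congrArg Subtype.val (MonoidHom.mem_ker.1 x.2)
      have e2 : (x.1.1 : G) * x.1.1 = 1 := by rw [← pow_two]; exact hE.2 _ x.1.2
      exact mul_left_cancel (e.trans e2.symm)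
    · intro x y e
      have e1 : (x.1.1 : G) = y.1.1 := congrArg (fun z : ↥(Q ⊓ Ce u) => (z : G)) e
      exact Subtype.ext (Subtype.ext e1)
  have k2 : Nat.card f.range ≤ Nat.card ↥(Q ⊓ Ce u) := Nat.card_le_card_of_injective _ Subtype.val_injective
  have k3 : Nat.card f.ker * Nat.card f.range = Nat.card Q := by
    rw [← index_ker]; exact f.ker.card_mul_index
  rw [← k3, pow_two]
  exact Nat.mul_le_mul k1 k2

end FREE_

theorem free_of (B : B0 G p) (M : MQ Q) (hE : EA 2 Q) (hf : Fpf Q) (u : G) (hu : u ∈ 𝐍(Q)) (h1 : u ∉ Q)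
    (h2 : u * u ∈ Q) : Nat.card ↥(Q ⊓ Ce u) ^ 2 = Nat.card Q := by
  refine le_antisymm ?_ (FREE_.le_sq hE hu h2)
  obtain ⟨g, hg, hk⟩ := FREE_.exists_conj M hu h1 h2
  have := FREE_.mul_le (Q := Q) (A := Q ⊓ Ce u) (C := Q ⊓ Ce (g * u * g⁻¹)) inf_le_left inf_le_left fun v hv hw =>
    FREE_.fpf_of B M.pg hf (mul_mem hu (mul_mem (mul_mem hg hu) (inv_mem hg))) hk hv.1 (by
      rw [mul_assoc, ← mc.1 hw.2, ← mul_assoc, ← mc.1 hv.2, mul_assoc])
  rwa [FREE_.card_conj hg, ← pow_two] at this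


end K3P
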