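import Mathlib
import Cfsg.Agent.Lib.K3P.Defs
import Cfsg.Agent.Lib.GL.Basic

/-! K3P package L17, see `blueprint/K3P/README.md`. -/

set_option autoImplicit false
set_option linter.unusedSectionVars false
set_option linter.unusedVariables false

namespace K3P

open Cfsg Subgroup H71KM
open scoped commutatorElement

universe u

variable {G : Type u} [Group G] [Finite G] {p : ℕ} {Q K S Z X : Subgroup G} {h : G} {ψ : V3 → G}

namespace L17_

/-- central involutions of `Q`, and `1` -/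
def Om (Q : Subgroup G) (v : G) : Prop := v ∈ Q ∧ (∀ q ∈ Q, q * v = v * q) ∧ v * v = 1

theorem cm (a b v : G) : MulAut.conj (a * b) v = MulAut.conj a (MulAut.conj b v) := by
  rw [map_mul, MulAut.mul_apply]

theorem Om.mul {v w : G} (hv : Om Q v) (hw : Om Q w) : Om Q (v * w) :=
  ⟨mul_mem hv.1 hw.1, fun q hq => by rw [← mul_assoc, hv.2.1 q hq, mul_assoc, hw.2.1 q hq, mul_assoc],
    by rw [mul_assoc, ← mul_assoc w, hv.2.1 w hw.1, mul_assoc, hw.2.2, mul_one, hv.2.2]⟩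

theorem Om.conj {v g : G} (hv : Om Q v) (hg : g ∈ 𝐍(Q)) : Om Q (MulAut.conj g v) := by
  refine ⟨(mem_normalizer_iff.1 hg v).1 hv.1, fun q hq => ?_, by rw [← map_mul, hv.2.2, map_one]⟩
  have := hv.2.1 _ ((mem_normalizer_iff''.1 hg q).1 hq)
  rw [MulAut.conj_apply]
  calc q * (g * v * g⁻¹) = g * (g⁻¹ * q * g * v) * g⁻¹ := by group
    _ = _ := by rw [this]; group

theorem Om.fix {v g : G} (hv : Om Q v) (hg : g ∈ Q) : MulAut.conj g v = v := by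
  rw [MulAut.conj_apply, hv.2.1 g hg, mul_inv_cancel_right]

theorem ex_om (hQ : IsPGroup 2 Q) (h1 : Q ≠ ⊥) : ∃ v, Om Q v ∧ v ≠ 1 := by
  haveI := (Subgroup.nontrivial_iff_ne_bot Q).2 h1
  haveI := hQ.center_nontrivial
  obtain ⟨n, hn, e⟩ := (hQ.to_subgroup (center Q)).nontrivial_iff_card.1 inferInstance
  obtain ⟨z, hz⟩ := exists_prime_orderOf_dvd_card' (G := center Q) 2 (e ▸ dvd_pow_self 2 hn.ne')
  refine ⟨z, ⟨z.1.2, fun q hq => congrArg Subtype.val (mem_center_iff.1 z.2 ⟨q, hq⟩), ?_⟩, fun k => ?_⟩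
  · have := pow_orderOf_eq_one z
    rw [hz, pow_two] at this
    exact congrArg (fun x : center Q => ((x : Q) : G)) this
  · rw [show z = 1 from Subtype.ext (Subtype.ext k), orderOf_one] at hz
    omega

theorem fp (hQ : IsPGroup 2 Q) (hf : Fpf Q) {g v : G} (hg : g ∈ 𝐍(Q)) (h3 : g ^ 3 ∈ Q) (hn : g ∉ Q)
    (hv : Om Q v) (e : MulAut.conj g v = v) : v = 1 := by
  obtain ⟨k, hk⟩ := hQ ⟨_, h3⟩
  have hk' : (g ^ 3) ^ 2 ^ k = 1 := congrArg Subtype.val hk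
  refine hf (g ^ 4 ^ k) (pow_mem hg _) (orderOf_eq_prime ?_ fun e1 => hn ?_) v hv.1
    (Commute.pow_left (mul_inv_eq_iff_eq_mul.1 e) _)
  · rw [← pow_mul, mul_comm, pow_mul, show 4 ^ k = 2 ^ k * 2 ^ k from (mul_pow 2 2 k), pow_mul, hk', one_pow]
  · have h4 : 4 ^ k % 3 = 1 := by simp [Nat.pow_mod]
    rw [← Nat.div_add_mod (4 ^ k) 3, h4, pow_succ, pow_mul] at e1
    rw [eq_inv_of_mul_eq_one_right e1]
    exact inv_mem (pow_mem h3 _)

theorem nm (hQ : IsPGroup 2 Q) (hf : Fpf Q) {g v : G} (hg : g ∈ 𝐍(Q)) (h3 : g ^ 3 ∈ Q) (hn : g ∉ Q)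
    (hv : Om Q v) : v * MulAut.conj g v * MulAut.conj g (MulAut.conj g v) = 1 := by
  have h1 := hv.conj hg
  have h2 := h1.conj hg
  refine fp hQ hf hg h3 hn ((hv.mul h1).mul h2) ?_
  have := hv.fix h3
  rw [pow_three, cm, cm] at this
  rw [map_mul, map_mul, this, hv.2.1 _ (h1.mul h2).1, mul_assoc]

theorem key (hQ : IsPGroup 2 Q) (hf : Fpf Q) {y u v : G} (hy : y ∈ 𝐍(Q)) (hu : u ∈ 𝐍(Q)) (h3 : y ^ 3 ∈ Q)
    (hn : y ∉ Q) (h3' : (y * u) ^ 3 ∈ Q) (hn' : y * u ∉ Q) (hv : Om Q v) (e : MulAut.conj u v = v) :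
    MulAut.conj u (MulAut.conj y v) = MulAut.conj y v := by
  have h1 := nm hQ hf hy h3 hn hv
  have h2 := nm hQ hf (mul_mem hy hu) h3' hn' hv
  rw [cm, cm, e] at h2
  exact (MulAut.conj y).injective (mul_left_cancel (h2.trans h1.symm))

theorem main (hQ : IsPGroup 2 Q) (h1 : Q ≠ ⊥) (hf : Fpf Q) {y z u : G} (hy : y ∈ 𝐍(Q)) (hz : z ∈ 𝐍(Q))
    (hu : u ∈ 𝐍(Q)) (y3 : y ^ 3 ∈ Q) (yn : y ∉ Q) (y3' : (y * u) ^ 3 ∈ Q) (yn' : y * u ∉ Q)
    (z3 : z ^ 3 ∈ Q) (zn : z ∉ Q) (z3' : (z * u) ^ 3 ∈ Q) (zn' : z * u ∉ Q) (u2 : u * u ∈ Q)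
    (r : z⁻¹ * u * z * u * y * (z⁻¹ * u * z * u * y) ∈ Q) : False := by
  obtain ⟨v, hv, e, v1⟩ : ∃ v, Om Q v ∧ MulAut.conj u v = v ∧ v ≠ 1 := by
    obtain ⟨v, hv, v1⟩ := ex_om hQ h1
    by_cases e : MulAut.conj u v = v
    · exact ⟨v, hv, e, v1⟩
    · refine ⟨v * MulAut.conj u v, hv.mul (hv.conj hu), ?_, fun k => e ?_⟩
      · rw [map_mul, ← cm, hv.fix u2, hv.2.1 _ (hv.conj hu).1]
      · exact mul_left_cancel (k.trans hv.2.2.symm)
  have s : ∀ w, Om Q w → MulAut.conj u w = w → MulAut.conj (z⁻¹ * u * z * u) w = w := fun w hw k => by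
    rw [cm, cm, cm, k, key hQ hf hz hu z3 zn z3' zn' hw k, ← cm, inv_mul_cancel, map_one, MulAut.one_apply]
  have e1 := key hQ hf hy hu y3 yn y3' yn' hv e
  have e2 := key hQ hf hy hu y3 yn y3' yn' (hv.conj hy) e1
  have h2 := hv.fix r
  rw [cm, cm _ y, cm _ y, s _ (hv.conj hy) e1, s _ ((hv.conj hy).conj hy) e2] at h2
  have h3 := hv.fix y3
  rw [pow_three, cm, cm, h2] at h3
  exact v1 (fp hQ hf hy y3 yn hv h3)

/-- the group of matrices -/
abbrev SL17 : Type := Matrix.SpecialLinearGroup (Fin 2) (ZMod 17)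

def mY : SL17 := ⟨!![3, 8; 9, 13], by rw [Matrix.det_fin_two_of]; decide⟩
def mZ : SL17 := ⟨!![6, 6; 7, 10], by rw [Matrix.det_fin_two_of]; decide⟩
def mU : SL17 := ⟨!![0, 16; 1, 0], by rw [Matrix.det_fin_two_of]; decide⟩

theorem cen {m : SL17} (h : m.1 = 1 ∨ m.1 = -1) : m ∈ center SL17 :=
  mem_center_iff.2 fun g => Subtype.ext (by
    rw [Matrix.SpecialLinearGroup.coe_mul, Matrix.SpecialLinearGroup.coe_mul]
    change g.1 * m.1 = m.1 * g.1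
    rcases h with h | h <;> simp [h])

theorem ncen {m : SL17} (h : mU.1 * m.1 ≠ m.1 * mU.1) : m ∉ center SL17 := fun k =>
  h (congrArg Subtype.val (mem_center_iff.1 k mU))

theorem rels : mY * (mY * mY) ∈ center SL17 ∧ mY ∉ center SL17 ∧
    mY * mU * (mY * mU * (mY * mU)) ∈ center SL17 ∧ mY * mU ∉ center SL17 ∧
    mZ * (mZ * mZ) ∈ center SL17 ∧ mZ ∉ center SL17 ∧
    mZ * mU * (mZ * mU * (mZ * mU)) ∈ center SL17 ∧ mZ * mU ∉ center SL17 ∧ mU * mU ∈ center SL17 ∧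
    mZ * mZ * mU * mZ * mU * mY * (mZ * mZ * mU * mZ * mU * mY) ∈ center SL17 ∧ mZ * mZ * mZ = 1 :=
  ⟨cen (by decide +kernel), ncen (by decide +kernel), cen (by decide +kernel), ncen (by decide +kernel),
    cen (by decide +kernel), ncen (by decide +kernel), cen (by decide +kernel), ncen (by decide +kernel),
    cen (by decide +kernel), cen (by decide +kernel), Subtype.ext (by decide +kernel)⟩

end L17_

open L17_ in
theorem not_l17 (hQ : IsPGroup 2 Q) (h1 : Q ≠ ⊥) (hK : K ≤ 𝐍(Q)) {L : Type*} [Group L] (hq : Quo Q K L)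
    (hL : L2 17 L) (hf : Fpf Q) : False := by
  obtain ⟨f, hs, hk⟩ := hq
  obtain ⟨F, _, _, hF, ⟨e⟩⟩ := hL
  let e' := e.trans (H10.pslCongr (ι := Fin 2) (ZMod.ringEquivOfPrime F (by norm_num) hF).symm)
  let φ : K →* SL17 ⧸ center SL17 := e'.toMonoidHom.comp f
  have hφ : Function.Surjective φ := e'.surjective.comp hs
  have kφ : ∀ (k : K) (m : SL17), φ k = QuotientGroup.mk' _ m → ((k : G) ∈ Q ↔ m ∈ center SL17) :=
    fun k m h => by
      rw [← hk, ← QuotientGroup.eq_one_iff m, ← e'.map_eq_one_iff]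
      exact h ▸ Iff.rfl
  obtain ⟨y, hy⟩ := hφ (QuotientGroup.mk' _ mY)
  obtain ⟨z, hz⟩ := hφ (QuotientGroup.mk' _ mZ)
  obtain ⟨u, hu⟩ := hφ (QuotientGroup.mk' _ mU)
  obtain ⟨r1, r2, r3, r4, r5, r6, r7, r8, r9, r10, r11⟩ := rels
  rw [eq_inv_of_mul_eq_one_left r11] at r10
  rw [← pow_three] at r1 r3 r5 r7
  exact main hQ h1 hf (hK y.2) (hK z.2) (hK u.2)
    ((kφ (y ^ 3) _ (by simp only [map_pow, hy])).2 r1) (fun k => r2 ((kφ y _ hy).1 k))
    ((kφ ((y * u) ^ 3) _ (by simp only [map_pow, map_mul, hy, hu])).2 r3)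
    (fun k => r4 ((kφ (y * u) _ (by simp only [map_mul, hy, hu])).1 k))
    ((kφ (z ^ 3) _ (by simp only [map_pow, hz])).2 r5) (fun k => r6 ((kφ z _ hz).1 k))
    ((kφ ((z * u) ^ 3) _ (by simp only [map_pow, map_mul, hz, hu])).2 r7)
    (fun k => r8 ((kφ (z * u) _ (by simp only [map_mul, hz, hu])).1 k))
    ((kφ (u * u) _ (by simp only [map_mul, hu])).2 r9)
    ((kφ (z⁻¹ * u * z * u * y * (z⁻¹ * u * z * u * y)) _
      (by simp only [map_mul, map_inv, hy, hz, hu])).2 r10)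

end K3P
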