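import Mathlib
import Cfsg.Agent.Lib.K3P.Defs
import Cfsg.Agent.Lib.K3P.AR2

/-! K3P package N1C, see `blueprint/K3P/README.md`. -/

set_option autoImplicit false
set_option linter.unusedSectionVars false
set_option linter.unusedVariables false

namespace K3P

open Cfsg Subgroup H71KM
open scoped commutatorElement

universe u

variable {G : Type u} [Group G] [Finite G] {p : ℕ} {Q K S Z X : Subgroup G} {h : G} {ψ : V3 → G}

namespace N1Ch

theorem card_modEq {L : Type*} [Group L] [Finite L] {r : ℕ} [Fact r.Prime] {A : Subgroup L} {y : L}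
    (hy : ∀ a ∈ A, y * a * y⁻¹ ∈ A) (hr : y ^ r = 1) :
    Nat.card A ≡ Nat.card ↥(A ⊓ Ce y) [MOD r] := by
  classical
  haveI := Fintype.ofFinite A
  let f : Function.End A := fun a => ⟨y * a * y⁻¹, hy a a.2⟩
  have hf : ∀ n : ℕ, ∀ a : A, ((f ^ n) a : L) = y ^ n * a * (y ^ n)⁻¹ := by
    intro n
    induction n with
    | zero => intro a; simp [Function.End.one_def]
    | succ n ih =>
      intro a
      rw [pow_succ', Function.End.mul_def]
      show y * ((f ^ n) a : L) * y⁻¹ = _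
      rw [ih, pow_succ']; group
  have h1 : f ^ r ^ 1 = 1 := by
    funext a
    apply Subtype.ext
    rw [hf, pow_one, hr]; simp [Function.End.one_def]
  have h2 := Equiv.Perm.card_fixedPoints_modEq h1
  rw [← Nat.card_eq_fintype_card, ← Nat.card_eq_fintype_card] at h2
  have e : f.fixedPoints ≃ ↥(A ⊓ Ce y) :=
    { toFun := fun a => ⟨a.1.1, a.1.2, by
        have := congrArg Subtype.val a.2
        have h3 : y * a.1.1 * y⁻¹ = a.1.1 := this
        exact mem_centralizer_singleton_iff.2 (mul_inv_eq_iff_eq_mul.1 h3).symm⟩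
      invFun := fun a => ⟨⟨a.1, a.2.1⟩, by
        apply Subtype.ext
        show y * a.1 * y⁻¹ = a.1
        have := mem_centralizer_singleton_iff.1 a.2.2
        rw [← this]; group⟩
      left_inv := fun a => rfl
      right_inv := fun a => rfl }
  rwa [Nat.card_congr e] at h2

theorem eight {L : Type*} [Group L] [Finite L] {D S : Subgroup L} {y : L} (hSD : S ≤ D)
    (cD : Nat.card D = 8) (cS : Nat.card S = 4) (sq : ∀ s ∈ S, s * s = 1) (hy : y ^ 3 = 1)
    (nD : ∀ a ∈ D, y * a * y⁻¹ ∈ D) (nS : ∀ a ∈ S, y * a * y⁻¹ ∈ S)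
    (hf : ∀ s ∈ S, s * y = y * s → s = 1) : ∀ d ∈ D, d * d = 1 := by
  haveI : Fact (Nat.Prime 3) := ⟨Nat.prime_three⟩
  haveI : Fact (Nat.Prime 2) := ⟨Nat.prime_two⟩
  have hidx : (S.subgroupOf D).index = 2 := by
    have h1 := (S.subgroupOf D).index_mul_card
    rw [Nat.card_congr (subgroupOfEquivOfLe hSD).toEquiv, cS, cD] at h1
    omega
  have mm : ∀ a ∈ D, ∀ b ∈ D, (a * b ∈ S ↔ (a ∈ S ↔ b ∈ S)) := fun a ha b hb =>
    mul_mem_iff_of_index_two hidx (a := ⟨a, ha⟩) (b := ⟨b, hb⟩)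
  obtain ⟨c, hc, hc1⟩ : ∃ c ∈ D ⊓ Ce y, c ≠ 1 := by
    by_contra hcon
    push Not at hcon
    have hb : D ⊓ Ce y = ⊥ := (eq_bot_iff_forall _).2 hcon
    have := card_modEq nD hy
    rw [hb, cD, card_bot] at this
    exact absurd this (by decide)
  have hcy : c * y = y * c := mem_centralizer_singleton_iff.1 hc.2
  have hcS : c ∉ S := fun h => hc1 (hf c h hcy)
  have hcc : c * c = 1 := by
    apply hf _ ((mm c hc.1 c hc.1).2 Iff.rfl)
    rw [mul_assoc, hcy, ← mul_assoc, hcy, mul_assoc]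
  have nc : ∀ a ∈ S, c * a * c⁻¹ ∈ S := by
    intro a ha
    rw [mm _ (D.mul_mem hc.1 (hSD ha)) _ (D.inv_mem hc.1), mm _ hc.1 _ (hSD ha), S.inv_mem_iff]
    tauto
  have m2 := card_modEq (r := 2) nc (by rw [pow_two, hcc])
  have nA : ∀ a ∈ S ⊓ Ce c, y * a * y⁻¹ ∈ S ⊓ Ce c := by
    intro a ha
    refine ⟨nS a ha.1, ?_⟩
    have h1 : a * c = c * a := mem_centralizer_singleton_iff.1 ha.2
    refine mem_centralizer_singleton_iff.2 ?_
    have h2 : y⁻¹ * c = c * y⁻¹ := by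
      rw [inv_mul_eq_iff_eq_mul, ← mul_assoc, ← hcy]; group
    calc y * a * y⁻¹ * c = y * a * (y⁻¹ * c) := by group
      _ = y * (a * c) * y⁻¹ := by rw [h2]; group
      _ = (y * c) * a * y⁻¹ := by rw [h1]; group
      _ = c * (y * a * y⁻¹) := by rw [← hcy]; group
  have m3 := card_modEq nA hy
  have hb : (S ⊓ Ce c) ⊓ Ce y = ⊥ :=
    (eq_bot_iff_forall _).2 fun a ha => hf a ha.1.1 (mem_centralizer_singleton_iff.1 ha.2)
  rw [hb, card_bot] at m3
  rw [cS] at m2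
  have hle : Nat.card ↥(S ⊓ Ce c) ≤ 4 := cS ▸ card_le_of_le inf_le_left
  have hA : Nat.card ↥(S ⊓ Ce c) = 4 := by
    unfold Nat.ModEq at m2 m3
    omega
  have hAS : S ⊓ Ce c = S := eq_of_le_of_card_ge inf_le_left (by rw [hA, cS])
  intro d hd
  by_cases hdS : d ∈ S
  · exact sq d hdS
  · have hs : d * c ∈ S := by rw [mm d hd c hc.1]; tauto
    have h1 : d * c * c = c * (d * c) := mem_centralizer_singleton_iff.1 (hAS.ge hs).2
    have h2 := sq _ hs
    have h3 : d * c * c = d := by rw [mul_assoc, hcc, mul_one]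
    calc d * d = (d * c * c) * (d * c * c) := by rw [h3]
      _ = (c * (d * c)) * (d * c * c) := by rw [← h1]
      _ = c * ((d * c) * (d * c)) * c := by group
      _ = 1 := by rw [h2, mul_one, hcc]

theorem stab2 {q : ℕ} (T : Th G p) (N : TN Q S h q q) {v : G} (hv : v ∈ Q) (h1 : v ≠ 1) :
    ∃ k, Nat.card ↥(𝐍(Q) ⊓ Ce v) = 2 ^ k := by
  refine ⟨_, Nat.eq_prime_pow_of_unique_prime_dvd Nat.card_pos.ne' ?_⟩
  intro r hr hd
  by_contra hne
  haveI := Fact.mk hr
  obtain ⟨x, hx⟩ := exists_prime_orderOf_dvd_card' r hd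
  have hx' : orderOf (x : G) = r := by rw [Subgroup.orderOf_coe, hx]
  have hc : (x : G) * v = v * x := mem_centralizer_singleton_iff.1 x.2.2
  by_cases h3 : r = 3
  · exact h1 (N.fpf x x.2.1 (h3 ▸ hx') v hv hc)
  · have h5 : 5 ≤ r := by
      have := hr.two_le
      by_contra hlt
      have h4 : r = 4 := by omega
      rw [h4] at hr
      exact absurd hr (by decide)
    have hp : r = p := T.toB0.eq_p hr h5 (hx' ▸ orderOf_dvd_natCard (x : G))
    have hz : v ∈ zpowers (x : G) := by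
      rw [← T.sc x (hp ▸ hx'), mem_centralizer_singleton_iff]
      exact hc.symm
    have hd2 := orderOf_dvd_of_mem_zpowers hz
    have ho : orderOf v = 2 := by
      haveI : Fact (Nat.Prime 2) := ⟨Nat.prime_two⟩
      exact orderOf_eq_prime (N.ea.2 v hv) h1
    rw [ho, hx'] at hd2
    exact hne ((Nat.prime_dvd_prime_iff_eq Nat.prime_two hr).1 hd2).symm

theorem card_map {H L : Type*} [Group H] [Finite H] [Group L] (f : H →* L) {X : Subgroup H}
    (hX : f.ker ≤ X) : Nat.card ↥(X.map f) * Nat.card f.ker = Nat.card X := by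
  rw [← relIndex_ker, ← Nat.card_congr (subgroupOfEquivOfLe hX).toEquiv]
  exact (f.ker.subgroupOf X).index_mul_card

end N1Ch

open N1Ch in
theorem ns_tr {q : ℕ} (T : Th G p) (N : TN Q S h q q) :
    ∀ v ∈ Q, v ≠ 1 → ∀ w ∈ Q, w ≠ 1 → ∃ g ∈ 𝐍(Q), g * v * g⁻¹ = w := by
  intro v hv h1 w hw hw1
  letI : MulAction ↥𝐍(Q) G := MulAction.compHom G ((MulAut.conj (G := G)).comp (𝐍(Q)).subtype)
  have sm : ∀ (g : ↥𝐍(Q)) (x : G), g • x = (g : G) * x * (g : G)⁻¹ := fun g x => rfl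
  obtain ⟨k, hk⟩ := stab2 T N hv h1
  have hst : Nat.card (MulAction.stabilizer ↥𝐍(Q) v) = 2 ^ k := by
    rw [← hk, ← Nat.card_congr (subgroupOfEquivOfLe (inf_le_left : 𝐍(Q) ⊓ Ce v ≤ 𝐍(Q))).toEquiv]
    congr 2
    ext g
    rw [MulAction.mem_stabilizer_iff, sm, mem_subgroupOf, mem_inf, mem_centralizer_singleton_iff,
      mul_inv_eq_iff_eq_mul]
    exact ⟨fun h => ⟨g.2, h⟩, fun h => h.2⟩
  have hio := (MulAction.stabilizer ↥𝐍(Q) v).index_mul_card
  rw [MulAction.index_stabilizer, hst] at hio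
  have hdv : q ^ 2 - 1 ∣ Nat.card ↥𝐍(Q) := by
    rcases N.ord with h | ⟨h4, h⟩
    · rw [h]; exact Dvd.dvd.mul_left (Dvd.intro_left _ rfl) _
    · rw [h, h4]; exact Dvd.dvd.mul_left (by decide) _
  have hcop : Nat.Coprime (q ^ 2 - 1) (2 ^ k) := by
    apply Nat.Coprime.pow_right
    rcases N.q48 with h | h <;> rw [h] <;> decide
  have hd2 : q ^ 2 - 1 ∣ (MulAction.orbit ↥𝐍(Q) v).ncard := by
    rw [← hio] at hdv
    exact hcop.dvd_of_dvd_mul_right hdv
  have hsub : MulAction.orbit ↥𝐍(Q) v ⊆ (Q : Set G) \ {1} := by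
    rintro x ⟨g, rfl⟩
    refine ⟨?_, ?_⟩
    · show g • v ∈ Q
      rw [sm]
      exact (mem_normalizer_iff.1 g.2 v).1 hv
    · show ¬ g • v = 1
      rw [sm]
      simpa using h1
  have hcq : ((Q : Set G) \ {1}).ncard = q ^ 2 - 1 := by
    rw [Set.ncard_diff_singleton_of_mem Q.one_mem, ← N.cardQ]
    rfl
  have hpos : 0 < (MulAction.orbit ↥𝐍(Q) v).ncard :=
    (Set.ncard_pos (Set.toFinite _)).2 ⟨v, MulAction.mem_orbit_self v⟩
  have heq : MulAction.orbit ↥𝐍(Q) v = (Q : Set G) \ {1} :=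
    Set.eq_of_subset_of_ncard_le hsub (hcq ▸ Nat.le_of_dvd hpos hd2) (Set.toFinite _)
  have hwo : w ∈ MulAction.orbit ↥𝐍(Q) v := by rw [heq]; exact ⟨hw, hw1⟩
  obtain ⟨g, hg⟩ := hwo
  exact ⟨g, g.2, hg⟩

open N1Ch in
theorem ns_cz {q : ℕ} (T : Th G p) (N : TN Q S h q q) : 𝐍(Q) ⊓ 𝐂(Q ⊓ 𝐂(S)) = S := by
  haveI : Fact (Nat.Prime 2) := ⟨Nat.prime_two⟩
  have hSD : S ≤ 𝐍(Q) ⊓ 𝐂(Q ⊓ 𝐂(S)) := fun s hs =>
    ⟨N.nS hs, mem_centralizer_iff.2 fun z hz => (mem_centralizer_iff.1 hz.2 s hs).symm⟩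
  have cS : Nat.card S = q * q ^ 2 := by rw [N.cardS, N.cardQ]
  have pS : IsPGroup 2 S := by
    rcases N.q48 with h | h
    · exact IsPGroup.of_card (n := 6) (by rw [cS, h]; rfl)
    · exact IsPGroup.of_card (n := 9) (by rw [cS, h]; rfl)
  obtain ⟨z, hzQ, hzS, hzo⟩ := H5.exists_mem_centralizer_orderOf_eq pS N.le N.nS N.ne
  have hz1 : z ≠ 1 := by rintro rfl; simp at hzo
  obtain ⟨k, hk⟩ := stab2 T N hzQ hz1
  set D := 𝐍(Q) ⊓ 𝐂(Q ⊓ 𝐂(S)) with hD
  have hDle : D ≤ 𝐍(Q) ⊓ Ce z := fun d hd =>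
    ⟨hd.1, mem_centralizer_singleton_iff.2 (mem_centralizer_iff.1 hd.2 z ⟨hzQ, hzS⟩).symm⟩
  have d1 : Nat.card D ∣ 2 ^ k := hk ▸ card_dvd_of_le hDle
  have d2 : Nat.card D ∣ Nat.card ↥𝐍(Q) := card_dvd_of_le inf_le_left
  have d3 : Nat.card S ∣ Nat.card D := card_dvd_of_le hSD
  have hcop : Nat.Coprime (Nat.card D) (q ^ 2 - 1) := by
    apply Nat.Coprime.coprime_dvd_left d1
    apply Nat.Coprime.pow_left
    rcases N.q48 with h | h <;> rw [h] <;> decide
  symm
  apply eq_of_le_of_card_ge hSD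
  rcases N.ord with ho | ⟨h4, ho⟩
  · rw [ho, ← mul_assoc] at d2
    have := hcop.dvd_of_dvd_mul_right d2
    rw [mul_comm, ← N.cardS] at this
    exact Nat.le_of_dvd Nat.card_pos this
  · by_contra hlt
    subst h4
    have cQ : Nat.card Q = 16 := N.cardQ
    have cS' : Nat.card S = 64 := cS
    have d4 : Nat.card D ∣ 128 := by
      rw [ho, cQ] at d2
      exact hcop.dvd_of_dvd_mul_right (by simpa using d2)
    have cD : Nat.card D = 128 := by
      rw [cS'] at d3 hlt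
      obtain ⟨m, hm⟩ := d3
      have := Nat.le_of_dvd (by norm_num) d4
      omega
    have hQD : Q ≤ D := N.le.trans hSD
    -- `h` normalizes `D`
    have nhD : ∀ a ∈ D, h * a * h⁻¹ ∈ D := by
      intro a ha
      refine ⟨(𝐍(Q)).mul_mem ((𝐍(Q)).mul_mem N.hQ ha.1) ((𝐍(Q)).inv_mem N.hQ), ?_⟩
      refine mem_centralizer_iff.2 fun w hw => ?_
      have hw1 : h⁻¹ * w * h ∈ Q := (mem_normalizer_iff''.1 N.hQ w).1 hw.1
      have hw2 : h⁻¹ * w * h ∈ 𝐂(S) := by
        refine mem_centralizer_iff.2 fun s hs => ?_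
        have h1 := mem_centralizer_iff.1 hw.2 _ ((mem_normalizer_iff.1 N.hS s).1 hs)
        calc s * (h⁻¹ * w * h) = h⁻¹ * (h * s * h⁻¹ * w) * h := by group
          _ = h⁻¹ * (w * (h * s * h⁻¹)) * h := by rw [h1]
          _ = h⁻¹ * w * h * s := by group
      have h2 := mem_centralizer_iff.1 ha.2 _ (show h⁻¹ * w * h ∈ Q ⊓ 𝐂(S) from ⟨hw1, hw2⟩)
      calc w * (h * a * h⁻¹) = h * (h⁻¹ * w * h * a) * h⁻¹ := by group
        _ = h * (a * (h⁻¹ * w * h)) * h⁻¹ := by rw [h2]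
        _ = h * a * h⁻¹ * w := by group
    let π := QuotientGroup.mk' (Q.subgroupOf 𝐍(Q))
    have hker : π.ker = Q.subgroupOf 𝐍(Q) := QuotientGroup.ker_mk' _
    have ck : Nat.card π.ker = 16 := by
      rw [hker, Nat.card_congr (subgroupOfEquivOfLe le_normalizer).toEquiv, cQ]
    have one : ∀ x : ↥𝐍(Q), π x = 1 ↔ (x : G) ∈ Q := fun x => by
      rw [← MonoidHom.mem_ker, hker, mem_subgroupOf]
    have c8 : Nat.card ↥((D.subgroupOf 𝐍(Q)).map π) = 8 := by
      have := card_map π (X := D.subgroupOf 𝐍(Q)) (fun x hx => hQD ((one x).1 hx))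
      rw [ck, Nat.card_congr (subgroupOfEquivOfLe (inf_le_left : D ≤ 𝐍(Q))).toEquiv, cD] at this
      omega
    have c4 : Nat.card ↥((S.subgroupOf 𝐍(Q)).map π) = 4 := by
      have := card_map π (X := S.subgroupOf 𝐍(Q)) (fun x hx => N.le ((one x).1 hx))
      rw [ck, Nat.card_congr (subgroupOfEquivOfLe N.nS).toEquiv, cS'] at this
      omega
    have key := eight (y := π ⟨h, N.hQ⟩) (map_mono (comap_mono hSD)) c8 c4 ?_ ?_ ?_ ?_ ?_
    · have hr := N.rank D inf_le_left fun e he => by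
        have := key (π ⟨e, he.1⟩) (mem_map_of_mem _ he)
        rw [← map_mul, one] at this
        exact this
      rw [inf_eq_right.2 hQD, cQ, cD] at hr
      omega
    · rintro _ ⟨s, hs, rfl⟩
      rw [← map_mul, one]
      exact N.sq s hs
    · rw [← map_pow]
      have : (⟨h, N.hQ⟩ : ↥𝐍(Q)) ^ 3 = 1 := by
        apply Subtype.ext
        have := pow_orderOf_eq_one h
        rw [N.ho] at this
        exact this
      rw [this, map_one]
    · rintro _ ⟨a, ha, rfl⟩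
      rw [← map_mul, ← map_inv, ← map_mul]
      exact mem_map_of_mem _ (nhD a ha)
    · rintro _ ⟨a, ha, rfl⟩
      rw [← map_mul, ← map_inv, ← map_mul]
      exact mem_map_of_mem _ ((mem_normalizer_iff.1 N.hS a).1 ha)
    · rintro _ ⟨s, hs, rfl⟩ hc
      rw [one]
      apply N.hf s hs
      have : π (⁅(⟨h, N.hQ⟩ : ↥𝐍(Q)), s⁆) = 1 := by
        rw [map_commutatorElement, commutatorElement_eq_one_iff_mul_comm]
        exact hc.symm
      exact (one _).1 this


end K3P
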