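import Mathlib
import Cfsg.Agent.Lib.K3P.Defs
import Cfsg.Agent.Lib.K3P.AR2
import Cfsg.Agent.Lib.K3P.N1C
import Cfsg.Agent.Lib.LocStruct.SylowIn

/-! K3P package N1B, see `blueprint/K3P/README.md`. -/

set_option autoImplicit false
set_option linter.unusedSectionVars false
set_option linter.unusedVariables false

namespace K3P

open Cfsg Subgroup H71KM
open scoped commutatorElement

universe u

variable {G : Type u} [Group G] [Finite G] {p : ℕ} {Q K S Z X : Subgroup G} {h : G} {ψ : V3 → G}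

namespace N1B_

theorem card_ge {r : ℕ} (hr : r.Prime) (ho : orderOf h = r) (hZ : h ∈ 𝐍(Z)) (hne : Z ≠ ⊥)
    (hf : ∀ z ∈ Z, h * z = z * h → z = 1) : r + 1 ≤ Nat.card Z := by
  obtain ⟨⟨z, hz⟩, z1⟩ := ne_bot_iff_exists_ne_one.1 hne
  have z1 : z ≠ 1 := fun e => z1 (Subtype.ext e)
  have hc : Nat.card (zpowers h) = r := by rw [Nat.card_zpowers, ho]
  have : Fact (Nat.card (zpowers h)).Prime := ⟨hc ▸ hr⟩
  have hb : (Ce z).subgroupOf (zpowers h) = ⊥ :=
    (eq_bot_or_eq_top_of_prime_card _).resolve_right fun e =>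
      z1 (hf z hz (mc.1 (subgroupOf_eq_top.1 e (mem_zpowers h))))
  let f : Option (zpowers h) → Z := fun o => match o with
    | none => 1
    | some k => ⟨k * z * (k : G)⁻¹, (mem_normalizer_iff.1 (zpowers_le.2 hZ k.2) z).1 hz⟩
  have hi : Function.Injective f := by
    rintro (_ | k) (_ | k') e
    · rfl
    · exact absurd (conj_eq_one_iff.1 (congrArg Subtype.val e).symm) z1
    · exact absurd (conj_eq_one_iff.1 (congrArg Subtype.val e)) z1
    · have e' : (k : G) * z * (k : G)⁻¹ = k' * z * (k' : G)⁻¹ := congrArg Subtype.val e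
      have : k'⁻¹ * k ∈ (Ce z).subgroupOf (zpowers h) := mc.2 (by
        show (k' : G)⁻¹ * k * z = z * ((k' : G)⁻¹ * k)
        calc _ = (k' : G)⁻¹ * (k * z * (k : G)⁻¹) * k := by group
          _ = _ := by rw [e']; group)
      rw [hb, mem_bot, inv_mul_eq_one] at this
      rw [this]
  have := Nat.card_le_card_of_injective f hi
  rwa [Finite.card_option, hc] at this

theorem inv_self {v : G} (e : v ^ 2 = 1) : v⁻¹ = v := inv_eq_of_mul_eq_one_right (by rw [← sq, e])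

end N1B_

theorem ns_of {q : ℕ} (T : Th G p) (N : TN Q S h q q) : NS Q S (Q ⊓ 𝐂(S)) h q := by
  have q2 : 2 ≤ q := by rcases N.q48 with e | e <;> omega
  have ab : ∀ {v w : G}, v ∈ Q → w ∈ Q → v * w = w * v := fun hv hw => N.ea.le_cent hw _ hv
  have nq : ∀ {u v : G}, u ∈ S → v ∈ Q → u * v * u⁻¹ ∈ Q := fun hu hv =>
    (mem_normalizer_iff.1 (N.nS hu) _).1 hv
  have hfQ : ∀ v ∈ Q, h * v = v * h → v = 1 := fun v hv e => by
    rcases N.q48 with rfl | rfl
    · exact N.fpf h N.hQ N.ho v hv e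
    · have ho : orderOf h = 7 := N.ho
      have hp : 7 = p := T.toB0.eq_p (by norm_num) (by norm_num) (ho ▸ orderOf_dvd_natCard h)
      have hm : v ∈ zpowers h := T.sc h (ho.trans hp) ▸ mc.2 e.symm
      have h7 : v ^ 7 = 1 := by
        obtain ⟨k, rfl⟩ := hm
        show (h ^ k) ^ 7 = 1
        rw [← ho, ← zpow_natCast, ← zpow_mul, mul_comm, zpow_mul, zpow_natCast, pow_orderOf_eq_one, one_zpow]
      have h2 := N.ea.2 v hv
      rw [show 7 = 2 * 3 + 1 from rfl, pow_succ, pow_mul, h2, one_pow, one_mul] at h7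
      exact h7
  have hfS : ∀ s ∈ S, h * s = s * h → s = 1 := fun s hs e =>
    hfQ s (N.hf s hs (by rw [commutatorElement_eq_one_iff_mul_comm.2 e]; exact one_mem _)) e
  have cS : Nat.card S = q * q ^ 2 := by rw [N.cardS, N.cardQ]
  have pS : IsPGroup 2 S := by
    rcases N.q48 with rfl | rfl
    · exact IsPGroup.of_card (n := 6) (cS.trans (by norm_num))
    · exact IsPGroup.of_card (n := 9) (cS.trans (by norm_num))
  have hne : Q ⊓ 𝐂(S) ≠ ⊥ := H69.inf_centralizer_ne_bot N.pg pS N.nS N.ne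
  have hZ : h ∈ 𝐍(Q ⊓ 𝐂(S)) := mem_normalizer_fintype fun z hz =>
    ⟨(mem_normalizer_iff.1 N.hQ z).1 hz.1, fun s hs => by
      have := hz.2 (h⁻¹ * s * h⁻¹⁻¹) ((mem_normalizer_iff.1 (inv_mem N.hS) s).1 hs)
      calc _ = h * (h⁻¹ * s * h⁻¹⁻¹ * z) * h⁻¹ := by group
        _ = _ := by rw [this]; group⟩
  have ge : q ≤ Nat.card ↥(Q ⊓ 𝐂(S)) := by
    have := N1B_.card_ge (r := q - 1) (by rcases N.q48 with rfl | rfl <;> norm_num) N.ho hZ hne
      fun z hz => hfQ z hz.1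
    omega
  have cu : ∀ u ∈ S, u ∉ Q → Q ⊓ Ce u = Q ⊓ 𝐂(S) := fun u hu hu' =>
    (eq_of_le_of_card_ge (inf_le_inf_left _ fun z hz => mc.2 (hz u hu).symm)
      ((N.free u (N.nS hu) hu' (N.sq u hu)).le.trans ge)).symm
  obtain ⟨u0, hu0, hu0'⟩ : ∃ u ∈ S, u ∉ Q := by
    by_contra k
    push Not at k
    have := card_le_of_le (show S ≤ Q from k)
    rw [cS, N.cardQ] at this
    nlinarith [Nat.pow_pos (n := 2) (show 0 < q by omega)]
  have cZ : Nat.card ↥(Q ⊓ 𝐂(S)) = q := by rw [← cu u0 hu0 hu0']; exact N.free u0 (N.nS hu0) hu0' (N.sq u0 hu0)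
  have inZ : ∀ E : Subgroup G, EA 2 E → E ≤ S → ¬ E ≤ Q → E ⊓ Q ≤ Q ⊓ 𝐂(S) := fun E hE hS hQ => by
    obtain ⟨u, hu, hu'⟩ := SetLike.not_le_iff_exists.1 hQ
    rw [← cu u (hS hu) hu']
    exact fun v hv => ⟨hv.2, mc.2 (hE.le_cent hu _ hv.1)⟩
  have rk : ∀ E : Subgroup G, E ≤ S → Nat.card E ≤ q * Nat.card ↥(E ⊓ Q) := fun E hS =>
    N.rank E (hS.trans N.nS) fun e he => N.sq e (hS he)
  refine ⟨N, rfl, cZ, cu, ?_, ?_, hfS, ns_tr T N, ns_cz T N, ?_, ?_⟩
  · intro u hu hu' z hz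
    let f : Q →* G := MonoidHom.mk' (fun v => ⁅(v : G), u⁆) fun v w => by
      have e := ab (mul_mem w.2 (nq hu (inv_mem w.2))) (nq hu (inv_mem v.2))
      show ⁅(v : G) * w, u⁆ = _
      simp only [commutatorElement_def]
      calc _ = v * ((w * (u * (w : G)⁻¹ * u⁻¹)) * (u * (v : G)⁻¹ * u⁻¹)) := by group
        _ = _ := by rw [e]; group
    have hk : f.ker = (Q ⊓ 𝐂(S)).subgroupOf Q := by
      rw [← cu u hu hu']
      ext v
      rw [MonoidHom.mem_ker, mem_subgroupOf]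
      exact commutatorElement_eq_one_iff_mul_comm.trans ⟨fun e => ⟨v.2, mc.2 e⟩, fun e => mc.1 e.2⟩
    have hr : f.range ≤ Q ⊓ 𝐂(S) := by
      rw [← cu u hu hu']
      rintro _ ⟨⟨v, hv⟩, rfl⟩
      show ⁅v, u⁆ ∈ _
      have iv := N1B_.inv_self (N.ea.2 v hv)
      have e1 := ab hv (nq hu hv)
      have e2 := ab hv (N.sq u hu)
      rw [commutatorElement_def, iv, mul_assoc v, mul_assoc v]
      refine ⟨mul_mem hv (nq hu hv), mc.2 ?_⟩
      calc _ = v * (u * v * u⁻¹) * (u * u) * u⁻¹ := by group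
        _ = u * v * u⁻¹ * (u * u * v) * u⁻¹ := by rw [e1, ← e2]; group
        _ = _ := by group
    have a1 := card_mul_index f.ker
    rw [index_ker, hk, Nat.card_congr (subgroupOfEquivOfLe (inf_le_left : Q ⊓ 𝐂(S) ≤ Q)).toEquiv, cZ, N.cardQ,
      sq] at a1
    rw [← eq_of_le_of_card_ge hr (by rw [cZ, Nat.eq_of_mul_eq_mul_left (by omega) a1])] at hz
    obtain ⟨v, hv⟩ := hz
    exact ⟨v, v.2, hv⟩
  · intro s hs
    by_cases k : s ∈ Q
    · rw [← sq, N.ea.2 s k]; exact one_mem _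
    · rw [← cu s hs k]; exact ⟨N.sq s hs, mc.2 (mul_assoc _ _ _)⟩
  · intro E hE hS
    by_cases k : E ≤ Q
    · exact N.cardQ ▸ card_le_of_le k
    · have := card_le_of_le (inZ E hE hS k)
      rw [cZ] at this
      exact (rk E hS).trans (by rw [sq]; exact Nat.mul_le_mul_left _ this)
  · intro E hE hS cE hEQ
    have k : ¬ E ≤ Q := fun k => hEQ (eq_of_le_of_card_ge k (by rw [cE, N.cardQ]))
    have e1 : E ⊓ Q = Q ⊓ 𝐂(S) := eq_of_le_of_card_ge (inZ E hE hS k) (by
      have := rk E hS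
      rw [cE, sq] at this
      rw [cZ]; exact Nat.le_of_mul_le_mul_left this (by omega))
    have e2 : E ⊔ Q = S := eq_of_le_of_card_ge (sup_le hS N.le) (by
      have a1 : Q.relIndex E ≤ Q.relIndex (E ⊔ Q) :=
        relIndex_le_of_le_right le_sup_left (index_ne_zero_of_finite)
      have a2 := card_mul_index (Q.subgroupOf E)
      have a3 := card_mul_index (Q.subgroupOf (E ⊔ Q))
      rw [Nat.card_congr (subgroupOfEquivOfLe (le_sup_right : Q ≤ E ⊔ Q)).toEquiv, N.cardQ] at a3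
      rw [← inf_subgroupOf_left, Nat.card_congr (subgroupOfEquivOfLe (inf_le_left : E ⊓ Q ≤ E)).toEquiv, e1, cZ,
        cE, sq] at a2
      have a4 : (Q.subgroupOf E).index = q := by
        rw [← inf_subgroupOf_left, e1]; exact Nat.eq_of_mul_eq_mul_left (Nat.zero_lt_of_lt q2) a2
      rw [relIndex, relIndex, a4] at a1
      rw [cS, ← a3, mul_comm]
      exact Nat.mul_le_mul_left _ a1)
    have e3 : ∀ s ∈ S, s * s = 1 → s ∈ Q ∨ s ∈ E := fun s hs s2 => by
      rw [← e2, ← SetLike.mem_coe, coe_mul_of_left_le_normalizer_right E Q (hS.trans N.nS)] at hs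
      obtain ⟨e, he, v, hv, rfl⟩ := hs
      by_cases k : e ∈ Q
      · exact .inl (mul_mem k hv)
      · refine .inr (mul_mem he ?_)
        have : v ∈ Q ⊓ Ce e := ⟨hv, mc.2 (by
          have := inv_eq_of_mul_eq_one_right s2
          rwa [mul_inv_rev, N1B_.inv_self (hE.2 e he), N1B_.inv_self (N.ea.2 v hv)] at this)⟩
        rw [cu e (hS he) k, ← e1] at this
        exact this.1
    refine ⟨e1, e2, e3, fun E' hE' hS' cE' => ?_⟩
    by_cases k' : E' ≤ Q
    · exact .inl (eq_of_le_of_card_ge k' (by rw [cE', N.cardQ]))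
    · obtain ⟨a, ha, ha'⟩ := SetLike.not_le_iff_exists.1 k'
      have s2 : ∀ b ∈ E', b ∈ Q ∨ b ∈ E := fun b hb => e3 b (hS' hb) (by rw [← sq, hE'.2 b hb])
      have aE := (s2 a ha).resolve_left ha'
      refine .inr (eq_of_le_of_card_ge (fun b hb => ?_) (by rw [cE', cE]))
      rcases s2 b hb with k1 | k1
      · rcases s2 _ (mul_mem ha hb) with k2 | k2
        · exact absurd ((mul_mem_cancel_right k1).1 k2) ha'
        · exact (mul_mem_cancel_left aE).1 k2
      · exact k1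


end K3P
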