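import Mathlib
import Cfsg.Agent.Lib.K3P.Defs
import Cfsg.Agent.Lib.K3P.AR2

/-! K3P package N4b, see `blueprint/K3P/README.md`. -/

set_option autoImplicit false
set_option linter.unusedSectionVars false
set_option linter.unusedVariables false

namespace K3P

open Cfsg Subgroup H71KM
open scoped commutatorElement

universe u

variable {G : Type u} [Group G] [Finite G] {p : ℕ} {Q K S Z X : Subgroup G} {h : G} {ψ : V3 → G}

namespace N4b_

/-- conjugate subgroup -/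
def cj (g : G) (A : Subgroup G) : Subgroup G := A.map (MulAut.conj g).toMonoidHom

theorem mem_cj {g x : G} {A : Subgroup G} : x ∈ cj g A ↔ g⁻¹ * x * g ∈ A := by
  constructor
  · rintro ⟨a, ha, rfl⟩
    simpa [mul_assoc] using ha
  · intro hx
    exact ⟨_, hx, by simp [mul_assoc]⟩

theorem cj_mem {g x : G} {A : Subgroup G} (hx : x ∈ A) : g * x * g⁻¹ ∈ cj g A :=
  mem_cj.2 (by simpa [mul_assoc] using hx)

theorem card_cj (g : G) (A : Subgroup G) : Nat.card (cj g A) = Nat.card A :=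
  card_map_of_injective (MulAut.conj g).injective

theorem ea_sq {A : Subgroup G} (hA : EA 2 A) {x : G} (hx : x ∈ A) : x * x = 1 := by
  rw [← pow_two]; exact hA.2 x hx

theorem ea_comm {A : Subgroup G} (hA : EA 2 A) {x y : G} (hx : x ∈ A) (hy : y ∈ A) : x * y = y * x :=
  (hA.le_cent hx y hy).symm

theorem ea_cj (g : G) {A : Subgroup G} (hA : EA 2 A) : EA 2 (cj g A) := by
  refine ⟨comm_iff.2 fun x hx y hy => ?_, fun x hx => ?_⟩
  · have := ea_comm hA (mem_cj.1 hy) (mem_cj.1 hx)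
    calc y * x = g * (g⁻¹ * y * g * (g⁻¹ * x * g)) * g⁻¹ := by group
      _ = x * y := by rw [this]; group
  · have := ea_sq hA (mem_cj.1 hx)
    calc x ^ 2 = g * (g⁻¹ * x * g * (g⁻¹ * x * g)) * g⁻¹ := by rw [pow_two]; group
      _ = 1 := by rw [this]; group

theorem nm {g x : G} {A : Subgroup G} (hg : g ∈ 𝐍(A)) (hx : x ∈ A) : g * x * g⁻¹ ∈ A :=
  (mem_normalizer_iff.1 hg x).1 hx

theorem nm' {g x : G} {A : Subgroup G} (hg : g ∈ 𝐍(A)) (hx : x ∈ A) : g⁻¹ * x * g ∈ A := by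
  simpa using nm (inv_mem hg) hx

theorem cj_le {g : G} {A B : Subgroup G} (hg : g ∈ 𝐍(B)) (hA : A ≤ B) : cj g A ≤ B := fun x hx => by
  simpa [mul_assoc] using nm hg (hA (mem_cj.1 hx))

theorem norm_of {g : G} {A : Subgroup G} (hg : ∀ x ∈ A, g * x * g⁻¹ ∈ A) : g ∈ 𝐍(A) :=
  mem_normalizer_fintype hg

/-- the centralizer of a four-group is a 2-group -/
theorem two_cent (T : Th G p) (hZ : EA 2 Z) (cZ : Nat.card Z = 4) : IsPGroup 2 𝐂(Z) := by
  have ex : ∃ s ∈ Z, ∃ t ∈ Z, s ≠ 1 ∧ t ≠ 1 ∧ s ≠ t := by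
    by_contra hc
    push Not at hc
    by_cases h1 : ∀ s ∈ Z, s = 1
    · have : Z = ⊥ := (eq_bot_iff_forall _).2 h1
      rw [this, card_bot] at cZ
      omega
    · push Not at h1
      obtain ⟨s, hs, s1⟩ := h1
      have hle : Z ≤ zpowers s := fun t ht => (mem_zp (ea_sq hZ hs)).2 (by
        by_cases t1 : t = 1
        · exact Or.inl t1
        · exact Or.inr (hc s hs t ht s1 t1).symm)
      have h2 := card_le_of_le hle
      rw [Nat.card_zpowers, cZ] at h2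
      have h3 : orderOf s ≤ 2 := orderOf_le_of_pow_eq_one (by norm_num) (hZ.2 s hs)
      omega
  obtain ⟨s, hs, t, ht, s1, t1, st⟩ := ex
  refine IsPGroup.of_card (Nat.eq_prime_pow_of_unique_prime_dvd Nat.card_pos.ne' fun {r} hr hd => ?_)
  have := Fact.mk hr
  obtain ⟨y, hy⟩ := exists_prime_orderOf_dvd_card' r hd
  have hy' : orderOf (y : G) = r := by rw [orderOf_coe, hy]
  by_contra h2
  by_cases h3 : r = 3
  · rcases T.r1 y s t (h3 ▸ hy') (ea_sq hZ hs) (ea_sq hZ ht) (ea_comm hZ hs ht) (y.2 s hs) (y.2 t ht)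
      with h | h | h
    exacts [s1 h, t1 h, st h]
  have h5 : 5 ≤ r := by
    have := hr.two_le
    by_contra h5
    have h4 : r = 4 := by omega
    subst h4
    exact absurd hr (by norm_num)
  have hp : r = p := T.toB0.eq_p hr h5 (hd.trans (card_subgroup_dvd_card _))
  have hs' : s ∈ zpowers (y : G) := by
    rw [← T.sc y (hp ▸ hy')]
    exact mc.2 (y.2 s hs)
  have h6 := orderOf_dvd_of_mem_zpowers hs'
  have := Fact.mk Nat.prime_two
  rw [hy', orderOf_eq_prime (hZ.2 s hs) s1] at h6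
  exact h2 ((Nat.prime_dvd_prime_iff_eq Nat.prime_two hr).1 h6).symm

end N4b_

open N4b_

theorem n4_e8 (T : Th G p) (N : NS Q S Z h 4) (hc : ¬ 𝐂(Z) ≤ S) :
    ∃ E : Subgroup G, EA 2 E ∧ Nat.card E = 8 ∧ 𝐂(E) ≤ E := by
  have := Fact.mk Nat.prime_two
  have hZQ : Z ≤ Q := N.defZ ▸ inf_le_left
  have hQS : Q ≤ S := N.toTH.le
  have hZ : EA 2 Z := N.ea.mono hZQ
  have hSD : S ≤ 𝐂(Z) := fun s hs z hz => by
    have hz' : z ∈ Q ⊓ 𝐂(S) := N.defZ ▸ hz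
    exact (hz'.2 s hs).symm
  have hD := two_cent T hZ N.cardZ
  obtain ⟨g0, g0D, g0S, -, g0N⟩ := H5.exists_mem_normalizer_of_lt hD (lt_of_le_not_ge hSD hc)
  have notQ : ∀ g ∈ 𝐂(Z), g ∉ S → cj g Q ≠ Q := fun g hg hgS e => by
    refine hgS ?_
    rw [← N.cz]
    exact ⟨norm_of fun x hx => e ▸ cj_mem hx, hg⟩
  obtain ⟨hEQ, hsup, -, uniq⟩ := N.two (cj g0 Q) (ea_cj g0 N.ea) (cj_le g0N hQS)
    ((card_cj g0 Q).trans N.cardQ) (notQ g0 g0D g0S)
  have hE : EA 2 (cj g0 Q) := ea_cj g0 N.ea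
  have cE : Nat.card (cj g0 Q) = 4 ^ 2 := (card_cj g0 Q).trans N.cardQ
  have hES : cj g0 Q ≤ S := cj_le g0N hQS
  generalize cj g0 Q = E at hEQ hsup uniq hE cE hES
  have hS1 : S ≤ 𝐂(Z) ⊓ 𝐍(S) := le_inf hSD le_normalizer
  have eqE : ∀ g ∈ 𝐂(Z) ⊓ 𝐍(S), g ∉ S → cj g Q = E := fun g hg hgS =>
    (uniq _ (ea_cj g N.ea) (cj_le hg.2 hQS) ((card_cj g Q).trans N.cardQ)).resolve_left (notQ g hg.1 hgS)
  have swQ : ∀ g ∈ 𝐂(Z) ⊓ 𝐍(S), g ∉ S → ∀ v ∈ Q, g * v * g⁻¹ ∈ E := fun g hg hgS v hv =>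
    eqE g hg hgS ▸ cj_mem hv
  have swE : ∀ g ∈ 𝐂(Z) ⊓ 𝐍(S), g ∉ S → ∀ w ∈ E, g * w * g⁻¹ ∈ Q := fun g hg hgS w hw => by
    rw [← eqE g⁻¹ (inv_mem hg) (fun h => hgS (inv_mem_iff.1 h)), mem_cj, inv_inv] at hw
    exact hw
  have idx : ∀ g ∈ 𝐂(Z) ⊓ 𝐍(S), g ∉ S → ∀ g' ∈ 𝐂(Z) ⊓ 𝐍(S), g' ∉ S → g⁻¹ * g' ∈ S :=
    fun g hg hgS g' hg' hgS' => by
      rw [← N.cz]
      refine ⟨norm_of fun x hx => ?_, 𝐂(Z).mul_mem (𝐂(Z).inv_mem hg.1) hg'.1⟩
      have := swE g⁻¹ (inv_mem hg) (fun h => hgS (inv_mem_iff.1 h)) _ (swQ g' hg' hgS' x hx)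
      simpa [mul_assoc] using this
  have dec : ∀ s ∈ S, ∃ w ∈ E, ∃ v ∈ Q, w * v = s := fun s hs => by
    have hs' : s ∈ ((E ⊔ Q : Subgroup G) : Set G) := by rw [hsup]; exact hs
    rw [coe_mul_of_left_le_normalizer_right _ _ (hES.trans N.nS)] at hs'
    exact hs'
  -- an involution outside `S` centralizes only `Z` in `S`
  have star : ∀ c ∈ 𝐂(Z) ⊓ 𝐍(S), c ∉ S → c * c = 1 → ∀ s ∈ S, s * c = c * s → s ∈ Z := by
    intro c hc1 hcS cc s hs hsc
    obtain ⟨w, hw, v, hv, rfl⟩ := dec s hs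
    have ci : c⁻¹ = c := inv_eq_of_mul_eq_one_right cc
    have hw' := swE c hc1 hcS w hw
    have hv' := swQ c hc1 hcS v hv
    have back : c * (c * v * c⁻¹) * c⁻¹ = v := by
      calc c * (c * v * c⁻¹) * c⁻¹ = (c * c) * v * (c * c)⁻¹ := by group
        _ = v := by rw [cc]; group
    have fixZ : ∀ z ∈ Z, c * z * c⁻¹ = z := fun z hz => by
      rw [← hc1.1 z hz]; group
    have e1 : w * v = c * w * c⁻¹ * (c * v * c⁻¹) := by
      calc w * v = c * (w * v) * c⁻¹ := by rw [← hsc]; group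
        _ = _ := by group
    generalize c * v * c⁻¹ = v' at hv' back e1
    generalize c * w * c⁻¹ = w' at hw' e1
    have hz := N.sqZ _ hs
    have e2 : w * v = w * v * (w * v) * v * w := by
      calc w * v = w * v * (w * (v * v) * w) := by rw [ea_sq N.ea hv, mul_one, ea_sq hE hw, mul_one]
        _ = _ := by group
    have e3 : v' * w⁻¹ = w'⁻¹ * (w * v * (w * v)) * v := by
      calc v' * w⁻¹ = w'⁻¹ * (w' * v') * w⁻¹ := by group
        _ = w'⁻¹ * (w * v * (w * v) * v * w) * w⁻¹ := by rw [← e1, ← e2]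
        _ = _ := by group
    have hz1 : v' * w⁻¹ ∈ Z := by
      rw [← hEQ]
      exact ⟨E.mul_mem hv' (E.inv_mem hw), e3 ▸ Q.mul_mem (Q.mul_mem (Q.inv_mem hw') (hZQ hz)) hv⟩
    have e4 : w = (v' * w⁻¹)⁻¹ * v' := by group
    generalize v' * w⁻¹ = z1 at hz1 e4
    subst e4
    have fw : c * v * c⁻¹ = v' := by
      rw [← back]
      calc c * (c * v' * c⁻¹) * c⁻¹ = (c * c) * v' * (c * c)⁻¹ := by group
        _ = v' := by rw [cc]; group
    have e5 : v' * v = v * v' := by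
      have e6 : z1⁻¹ * v' * v = z1⁻¹ * (v * v') := by
        calc z1⁻¹ * v' * v = c * (z1⁻¹ * v' * v) * c⁻¹ := by rw [← hsc]; group
          _ = (c * z1⁻¹ * c⁻¹) * ((c * v' * c⁻¹) * (c * v * c⁻¹)) := by group
          _ = _ := by rw [fixZ _ (inv_mem hz1), back, fw]
      rw [mul_assoc] at e6
      exact mul_left_cancel e6
    have hvZ : v ∈ Z := by
      by_cases hq : v' ∈ Q
      · have : v' ∈ Z := hEQ ▸ ⟨hv', hq⟩
        rw [← back, fixZ _ this]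
        exact this
      · rw [← N.cu v' (hES hv') hq]
        exact ⟨hv, mc.2 e5.symm⟩
    rw [← fw, fixZ _ hvZ]
    exact mul_mem (mul_mem (inv_mem hz1) hvZ) hvZ
  have cen : ∀ c ∈ 𝐂(Z) ⊓ 𝐍(S), c ∉ S → c * c = 1 → ∀ x ∈ 𝐂(Z) ⊓ 𝐍(S), x * c = c * x →
      x ∈ Z ⊔ zpowers c := by
    intro c hc1 hcS cc x hx hxc
    by_cases hxS : x ∈ S
    · exact mem_sup_left (star c hc1 hcS cc x hxS hxc)
    · have h1 := star c hc1 hcS cc _ (idx c hc1 hcS x hx hxS) (by rw [mul_assoc, hxc]; group)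
      have h2 : x = c * (c⁻¹ * x) := by group
      rw [h2]
      exact mul_mem (mem_sup_right (mem_zpowers c)) (mem_sup_left h1)
  have c8 : ∀ c ∈ 𝐂(Z), c ∉ S → c * c = 1 → Nat.card (Z ⊔ zpowers c : Subgroup G) = 8 :=
    fun c hc1 hcS cc => by
      rw [card_sup (p := 2) hc1 (by rw [pow_two, cc]) (fun h => hcS (hQS (hZQ h))), N.cardZ]
  have e16 : ∀ A : Subgroup G, EA 2 A → A ≤ 𝐂(Z) ⊓ 𝐍(S) → Nat.card A = 4 ^ 2 → A ≤ S := by
    intro A hA hle cA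
    by_contra hn
    obtain ⟨c, hcA, hcS⟩ := SetLike.not_le_iff_exists.1 hn
    have h1 : A ≤ Z ⊔ zpowers c := fun x hx =>
      cen c (hle hcA) hcS (ea_sq hA hcA) x (hle hx) (ea_comm hA hx hcA)
    have h2 := card_le_of_le h1
    rw [c8 c (hle hcA).1 hcS (ea_sq hA hcA), cA] at h2
    omega
  have hDS : 𝐂(Z) ≤ 𝐂(Z) ⊓ 𝐍(S) := by
    by_contra hn
    obtain ⟨g, gD, gS, -, gN⟩ := H5.exists_mem_normalizer_of_lt hD (lt_of_le_not_ge inf_le_left hn)
    have h1 := e16 _ (ea_cj g N.ea) (cj_le gN (hQS.trans hS1)) ((card_cj g Q).trans N.cardQ)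
    have h2 := e16 _ (ea_cj g hE) (cj_le gN (hES.trans hS1)) ((card_cj g E).trans cE)
    refine gS ⟨gD, norm_of fun s hs => ?_⟩
    obtain ⟨w, hw, v, hv, rfl⟩ := dec s hs
    have : g * (w * v) * g⁻¹ = g * w * g⁻¹ * (g * v * g⁻¹) := by group
    rw [this]
    exact mul_mem (h2 (cj_mem hw)) (h1 (cj_mem hv))
  -- the involution centralizing `h`
  have hZn : ∀ z ∈ Z, h⁻¹ * z * h ∈ Z := fun z hz => by
    have hz' : z ∈ Q ⊓ 𝐂(S) := N.defZ ▸ hz
    rw [N.defZ]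
    refine ⟨nm' N.hQ hz'.1, fun s hs => ?_⟩
    have := hz'.2 _ (nm N.hS hs)
    calc s * (h⁻¹ * z * h) = h⁻¹ * (h * s * h⁻¹ * z) * h := by group
      _ = h⁻¹ * z * h * s := by rw [this]; group
  have g1D : h * g0 * h⁻¹ ∈ 𝐂(Z) := fun z hz => by
    have := g0D _ (hZn z hz)
    calc z * (h * g0 * h⁻¹) = h * (h⁻¹ * z * h * g0) * h⁻¹ := by group
      _ = h * g0 * h⁻¹ * z := by rw [this]; group
  have g1S : h * g0 * h⁻¹ ∉ S := fun hh => g0S (by simpa [mul_assoc] using nm' N.hS hh)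
  have hs0 := idx g0 ⟨g0D, g0N⟩ g0S _ (hDS g1D) g1S
  let f : S → S := fun s => ⟨s * (h * s⁻¹ * h⁻¹), mul_mem s.2 (nm N.hS (inv_mem s.2))⟩
  have finj : Function.Injective f := fun s s' e => by
    have e' : (s : G) * (h * (s : G)⁻¹ * h⁻¹) = s' * (h * (s' : G)⁻¹ * h⁻¹) := congrArg Subtype.val e
    have := N.hfS ((s' : G)⁻¹ * s) (mul_mem (inv_mem s'.2) s.2) (by
      calc h * ((s' : G)⁻¹ * s) = (s' : G)⁻¹ * (s' * (h * (s' : G)⁻¹ * h⁻¹)) * h * s := by group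
        _ = (s' : G)⁻¹ * s * h := by rw [← e']; group)
    exact Subtype.ext (inv_mul_eq_one.1 this).symm
  obtain ⟨s, hs⟩ := Finite.surjective_of_injective finj ⟨_, hs0⟩
  have hs' : (s : G) * (h * (s : G)⁻¹ * h⁻¹) = g0⁻¹ * (h * g0 * h⁻¹) := congrArg Subtype.val hs
  have hcD : g0 * s ∈ 𝐂(Z) := mul_mem g0D (hSD s.2)
  have hcS : g0 * s ∉ S := fun hh => g0S ((mul_mem_cancel_right s.2).1 hh)
  have hch : h * (g0 * s) = g0 * s * h := by
    calc h * (g0 * s) = g0 * (g0⁻¹ * (h * g0 * h⁻¹)) * h * s := by group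
      _ = g0 * s * h := by rw [← hs']; group
  generalize g0 * (s : G) = c at hcD hcS hch
  have cc : c * c = 1 := by
    have h1 := idx c⁻¹ (inv_mem (hDS hcD)) (fun h => hcS (inv_mem_iff.1 h)) c (hDS hcD) hcS
    rw [inv_inv] at h1
    exact N.hfS _ h1 (by rw [← mul_assoc, hch, mul_assoc, hch, mul_assoc])
  refine ⟨Z ⊔ zpowers c, hZ.sup hcD (by rw [pow_two, cc]), c8 c hcD hcS cc, fun x hx => ?_⟩
  exact cen c (hDS hcD) hcS cc x (hDS fun z hz => hx z (mem_sup_left hz))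
    (hx c (mem_sup_right (mem_zpowers c))).symm

end K3P
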