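import Mathlib
import Cfsg.Agent.Lib.K3P.Defs
import Cfsg.Agent.Lib.LocStruct.SylowIn

/-! K3P package N4c, see `blueprint/K3P/README.md`. -/

set_option autoImplicit false
set_option linter.unusedSectionVars false
set_option linter.unusedVariables false

namespace K3P.N4c_

open Cfsg Subgroup H69
open H71KM (EA mem_zp)

universe u

variable {G : Type u} [Group G] [Finite G] {Q S Z : Subgroup G} {h : G}

theorem card_le2 {A S : Subgroup G} (k : ∀ f ∈ A, ∀ f' ∈ A, f ∉ S → f' ∉ S → f * f' ∈ S) :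
    Nat.card A ≤ 2 * Nat.card ↥(A ⊓ S) := by
  by_cases hA : A ≤ S
  · rw [inf_eq_left.2 hA]; omega
  obtain ⟨a, ha, haS⟩ := SetLike.not_le_iff_exists.1 hA
  have i2 : S.relIndex A = 2 := by
    rw [relIndex, index_eq_two_iff]
    refine ⟨⟨a, ha⟩, fun b => ?_⟩
    by_cases hb : (b : G) ∈ S
    · exact .inr ⟨hb, fun e => haS ((mul_mem_cancel_left hb).1 e)⟩
    · exact .inl ⟨k _ b.2 _ ha hb haS, hb⟩
  have := H1.card_inf_mul_relIndex S A
  rw [i2, inf_comm] at this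
  omega

theorem ea_cj {A : Subgroup G} (hA : EA 2 A) (g : G) : EA 2 (A ^ᶜ g) := by
  refine ⟨H71KM.comm_iff.2 ?_, fun b hb => ?_⟩
  · rw [← cj_centralizer]; exact cj_mono g hA.le_cent
  · obtain ⟨a, ha, rfl⟩ := mem_cj'.1 hb
    rw [conj_pow, hA.2 a ha]; group

variable (N : NS Q S Z h 4)
include N

theorem cQ : Nat.card Q = 16 := N.cardQ
theorem cS : Nat.card S = 64 := by rw [N.cardS, cQ N]
theorem pS : IsPGroup 2 S := IsPGroup.of_card (n := 6) (cS N)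
theorem ZQ' : Z ≤ Q := N.defZ ▸ inf_le_left
theorem ZC : Z ≤ 𝐂(S) := N.defZ ▸ inf_le_right
theorem Zeq : Z = S ⊓ 𝐂(S) := le_antisymm (le_inf ((ZQ' N).trans N.le) (ZC N))
  (N.defZ ▸ le_inf (inf_le_right.trans ((centralizer_anti N.le).trans N.cq)) inf_le_right)
theorem nZ : 𝐍(S) ≤ 𝐍(Z) := by
  rw [Zeq N]; exact le_normalizer_inf le_rfl (normalizer_le_normalizer_centralizer S)
theorem eaZ : EA 2 Z := N.ea.mono (ZQ' N)

theorem idx (hc : 𝐂(Z) ≤ S) {T : Subgroup G} (hT : IsPGroup 2 T) (hn : T ≤ 𝐍(S)) :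
    ∀ f ∈ T, ∀ f' ∈ T, f ∉ S → f' ∉ S → f * f' ∈ S := by
  have c4 : Nat.card Z = 4 := N.cardZ
  have sq : ∀ z ∈ Z, z * z = 1 := fun z hz => by rw [← sq]; exact (eaZ N).2 z hz
  have nb : Z ≠ ⊥ := fun e => by rw [e, card_bot] at c4; omega
  obtain ⟨⟨z0, hz0, cz0⟩, z01⟩ := ne_bot_iff_exists_ne_one.1
    (inf_centralizer_ne_bot (eaZ N).isPGroup hT (hn.trans (nZ N)) nb)
  have z01' : z0 ≠ 1 := fun e => z01 (Subtype.ext e)
  have c2 : Nat.card (zpowers z0) = 2 := by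
    rw [Nat.card_zpowers, orderOf_eq_prime (by rw [pow_two]; exact sq z0 hz0) z01']
  have l0 : zpowers z0 ≤ Z := zpowers_le.2 hz0
  obtain ⟨z1, hz1, n1⟩ : ∃ z1 ∈ Z, z1 ∉ zpowers z0 := by
    refine SetLike.not_le_iff_exists.1 fun k => ?_
    have := card_le_of_le k
    omega
  have cz : z1 ∈ 𝐂(zpowers z0) := centralizer_anti l0 ((eaZ N).le_cent hz1)
  have eZ : zpowers z0 ⊔ zpowers z1 = Z := by
    refine eq_of_le_of_card_ge (sup_le l0 (zpowers_le.2 hz1)) ?_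
    rw [H71KM.card_sup (p := 2) cz ((eaZ N).2 z1 hz1) n1, c2, c4]
  have mem : ∀ x ∈ Z, x = 1 ∨ x = z0 ∨ x = z1 ∨ x = z0 * z1 := fun x hx => by
    rw [← eZ, mem_sup_of_le_normalizer_left
      (le_normalizer_of_le_centralizer (zpowers_le.2 cz))] at hx
    obtain ⟨a, ha, b, hb, rfl⟩ := hx
    rcases (mem_zp (sq z0 hz0)).1 ha with rfl | rfl <;> rcases (mem_zp (sq z1 hz1)).1 hb with rfl | rfl <;> simp
  have f0 : ∀ f ∈ T, f * z0 * f⁻¹ = z0 := fun f hf => by rw [cz0 f hf, mul_inv_cancel_right]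
  have inS : ∀ f ∈ T, f * z1 * f⁻¹ = z1 → f ∈ S := fun f hf e => hc (by
    rw [← eZ, centralizer_sup, centralizer_zpowers, centralizer_zpowers]
    exact ⟨H71KM.mc_of_conj (f0 f hf), H71KM.mc_of_conj e⟩)
  have mv : ∀ f ∈ T, f ∉ S → f * z1 * f⁻¹ = z0 * z1 := fun f hf hS => by
    rcases mem _ (conj_mem_of_mem_normalizer (nZ N (hn hf)) hz1) with e | e | e | e
    · exact absurd (by rw [conj_eq_one_iff.1 e]; exact one_mem _) n1
    · rw [← f0 f hf, mul_left_inj, mul_right_inj] at e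
      exact absurd (e ▸ mem_zpowers _) n1
    · exact absurd (inS f hf e) hS
    · exact e
  intro f hf f' hf' h1 h2
  refine inS _ (mul_mem hf hf') ?_
  calc f * f' * z1 * (f * f')⁻¹ = f * (f' * z1 * f'⁻¹) * f⁻¹ := by group
    _ = (f * z0 * f⁻¹) * (f * z1 * f⁻¹) := by rw [mv f' hf' h2]; group
    _ = z1 := by rw [f0 f hf, mv f hf h1, ← mul_assoc, sq z0 hz0, one_mul]

/-- a conjugate of `Q` inside `S` -/
theorem e16 (hc : 𝐂(Z) ≤ S) {T : Subgroup G} (hT : IsPGroup 2 T) (hn : T ≤ 𝐍(S)) {A : Subgroup G}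
    (hA : EA 2 A) (c16 : Nat.card A = 16) (hAT : A ≤ T) : A ≤ S := by
  by_contra hS
  obtain ⟨f, hf, fS⟩ := SetLike.not_le_iff_exists.1 hS
  have c8 : 8 ≤ Nat.card ↥(A ⊓ S) := by
    have := card_le2 (A := A) (S := S) fun a ha b hb => idx N hc hT hn a (hAT ha) b (hAT hb)
    omega
  have nZA : ¬ Z ≤ A := fun k => fS (hc (centralizer_anti k (hA.le_cent hf)))
  obtain ⟨z, hz, zA⟩ := SetLike.not_le_iff_exists.1 nZA
  have zc : z ∈ 𝐂(A ⊓ S) := centralizer_anti inf_le_right (ZC N hz)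
  have z2 : z ^ 2 = 1 := (eaZ N).2 z hz
  have eE : EA 2 (A ⊓ S ⊔ zpowers z) := (hA.mono inf_le_left).sup zc z2
  have lE : A ⊓ S ⊔ zpowers z ≤ S := sup_le inf_le_right (zpowers_le.2 (N.le (ZQ' N hz)))
  have cE := H71KM.card_sup (p := 2) zc z2 fun k => zA k.1
  have bE := N.big _ eE lE
  have c16' : Nat.card ↥(A ⊓ S ⊔ zpowers z) = 4 ^ 2 := by omega
  have ff : f * f = 1 := by rw [← sq]; exact hA.2 f hf
  -- every element of `A` normalises `E`
  have ZE : Z ≤ A ⊓ S ⊔ zpowers z := by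
    by_cases e : A ⊓ S ⊔ zpowers z = Q
    · rw [e]; exact ZQ' N
    · rw [← (N.two _ eE lE c16' e).1]; exact inf_le_left
  have eZ : A ⊓ S ⊔ zpowers z = A ⊓ S ⊔ Z :=
    le_antisymm (sup_le_sup_left (zpowers_le.2 hz) _) (sup_le le_sup_left ZE)
  have nE : A ≤ 𝐍(A ⊓ S ⊔ zpowers z) := by
    rw [eZ]
    exact le_normalizer_sup (le_normalizer_inf le_normalizer (hAT.trans hn)) (hAT.trans (hn.trans (nZ N)))
  by_cases e : A ⊓ S ⊔ zpowers z = Q
  · have h4 := N.free f (e ▸ nE hf) (fun k => fS (N.le k)) (ff ▸ one_mem Q)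
    have l : A ⊓ S ≤ Q ⊓ Ce f := le_inf (e ▸ le_sup_left) fun a ha =>
      H71KM.mc_symm (H71KM.mc_of_mem (hA.le_cent hf) ha.1)
    have := card_le_of_le l
    omega
  · obtain ⟨e1, -, -, e4⟩ := N.two _ eE lE c16' e
    have nQ : A ≤ 𝐍(Q) := fun a ha => by
      rcases e4 (Q ^ᶜ a) (ea_cj N.ea a) (cj_le_of_mem_normalizer N.le (hn (hAT ha)))
        (by rw [card_cj, cQ N]; rfl) with k | k
      · exact cj_eq_self_iff.1 k
      · rw [← cj_eq_of_mem_normalizer (nE ha), cj_inj] at k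
        exact absurd k.symm e
    have r := N.rank A nQ fun a ha => by rw [← sq, hA.2 a ha]; exact one_mem Q
    have l : A ⊓ Q ≤ Z := by
      rw [← e1]
      exact le_inf ((inf_le_inf_left A N.le).trans le_sup_left) inf_le_right
    have c4 : Nat.card Z = 4 := N.cardZ
    have := eq_of_le_of_card_ge l (by omega)
    exact nZA (this ▸ inf_le_left)

theorem two_le {T : Subgroup G} (hT : IsPGroup 2 T) (hH : T ≤ 𝐍(Q)) : Nat.card T ≤ 128 := by
  obtain ⟨n, hn⟩ := hT.exists_card_eq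
  have d := card_dvd_of_le hH
  have o : Nat.card ↥𝐍(Q) = 16 * 60 ∨ Nat.card ↥𝐍(Q) = 16 * 120 := by
    have := N.ord
    rw [cQ N] at this
    exact this.imp id And.right
  rw [hn] at d ⊢
  by_contra k
  have h8 : 8 ≤ n := by
    by_contra k'
    exact k ((Nat.pow_le_pow_right (by norm_num) (by omega : n ≤ 7)))
  have := (pow_dvd_pow 2 h8).trans d
  rcases o with o | o <;> rw [o] at this <;> exact absurd this (by decide)

theorem main (hc : 𝐂(Z) ≤ S) {P : Subgroup G} (hP : IsPGroup 2 P) (hS : S ≤ P) :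
    P ≤ 𝐍(S) ∧ Nat.card P ≤ 128 := by
  have hT : IsPGroup 2 ↥(P ⊓ 𝐍(S)) := hP.to_inf_left
  have ST : S ≤ P ⊓ 𝐍(S) := le_inf hS le_normalizer
  have ix := idx N hc hT inf_le_right
  have cT : Nat.card ↥(P ⊓ 𝐍(S)) ≤ 128 := by
    have := card_le2 ix
    rw [inf_eq_right.2 ST, cS N] at this
    exact this
  have key : P ≤ 𝐍(S) := by
    by_contra k
    have lt : P ⊓ 𝐍(S) < P := lt_of_le_of_ne inf_le_left fun e => k (inf_eq_left.1 e)
    obtain ⟨g, hg, gT, gN⟩ := H70.exists_mem_normalizer_of_lt hP lt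
    have cj : ∀ x ∈ 𝐍(P ⊓ 𝐍(S)), Q ^ᶜ x ≤ S := fun x hx =>
      e16 N hc hT inf_le_right (ea_cj N.ea x) (by rw [card_cj, cQ N])
        (cj_le_of_mem_normalizer (N.le.trans ST) hx)
    refine gT ⟨hg, ?_⟩
    by_cases e : Q ^ᶜ g = Q
    · have gQ : g ∈ 𝐍(Q) := cj_eq_self_iff.1 e
      by_cases tq : P ⊓ 𝐍(S) ≤ 𝐍(Q)
      · by_cases ts : P ⊓ 𝐍(S) ≤ S
        · rwa [le_antisymm ts ST] at gN
        · have l : P ⊓ 𝐍(S) ≤ P ⊓ 𝐍(Q) := le_inf inf_le_left tq
          have c1 := two_le N (T := P ⊓ 𝐍(Q)) hP.to_inf_left inf_le_right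
          obtain ⟨m, hm⟩ := card_dvd_of_le ST
          have c2 : Nat.card S < Nat.card ↥(P ⊓ 𝐍(S)) := by
            by_contra k'
            exact ts (eq_of_le_of_card_ge ST (not_lt.1 k')).ge
          rw [cS N] at hm c2
          have := eq_of_le_of_card_ge l (by omega)
          exact ((this ▸ ⟨hg, gQ⟩ : g ∈ P ⊓ 𝐍(S))).2
      · obtain ⟨f, hf, fQ⟩ := SetLike.not_le_iff_exists.1 tq
        have eS : P ⊓ 𝐍(S) ⊓ 𝐍(Q) = S := by
          refine le_antisymm (fun x hx => ?_) (le_inf ST N.nS)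
          by_contra xS
          have := N.nS (ix x hx.1 f hf xS fun k => fQ (N.nS k))
          have xq : x ∈ 𝐍(Q) := hx.2
          exact fQ ((mul_mem_cancel_left xq).1 this)
        rw [← eS]
        exact le_normalizer_inf (L := zpowers g) (zpowers_le.2 gN)
          (le_normalizer_normalizer (zpowers_le.2 gQ)) (mem_zpowers g)
    · obtain ⟨-, e2, -, e4⟩ := N.two _ (ea_cj N.ea g) (cj g gN) (by rw [card_cj, cQ N]; rfl) e
      rcases e4 (Q ^ᶜ g⁻¹) (ea_cj N.ea _) (cj _ (inv_mem gN)) (by rw [card_cj, cQ N]; rfl) with k' | k'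
      · exact absurd (cj_eq_iff.2 k'.symm) e
      · refine cj_eq_self_iff.1 ?_
        have e5 : (Q ^ᶜ g) ^ᶜ g = Q := by
          conv_lhs => rw [← k']
          exact cj_inv_cj Q g
        conv_lhs => rw [← e2, cj_sup, e5]
        rw [sup_comm, e2]
  exact ⟨key, by rwa [inf_eq_left.2 key] at cT⟩

end K3P.N4c_

namespace K3P

open Cfsg Subgroup H71KM
open scoped commutatorElement

universe u

variable {G : Type u} [Group G] [Finite G] {p : ℕ} {Q K S Z X : Subgroup G} {h : G} {ψ : V3 → G}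

theorem n4_syl (N : NS Q S Z h 4) (hc : 𝐂(Z) ≤ S) :
    ∃ P : Sylow 2 G, S ≤ (P : Subgroup G) ∧ (P : Subgroup G) ≤ 𝐍(S) ∧ Nat.card ↥(P : Subgroup G) ≤ 128 := by
  obtain ⟨P, hP⟩ := (N4c_.pS N).exists_le_sylow
  exact ⟨P, hP, N4c_.main N hc P.isPGroup' hP⟩


end K3P
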