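import Mathlib
import Cfsg.Agent.Lib.K3P.Defs
import Cfsg.Agent.Lib.LocStruct.SylowIn
import Cfsg.Agent.Lib.Tech58.Harada

/-! K3P package N4d, see `blueprint/K3P/README.md`. -/

set_option autoImplicit false
set_option linter.unusedSectionVars false
set_option linter.unusedVariables false

namespace K3P.N4d_

open Cfsg Subgroup H69 H58.Har
open H71KM (EA)

universe u

variable {G : Type u} [Group G] [Finite G] {Q S Z : Subgroup G} {h : G}

theorem two {X Y : Subgroup G} (hXY : X ≤ Y) (hc : Nat.card Y ≤ 2 * Nat.card X) {a b : G} (ha : a ∈ Y) (hb : b ∈ Y)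
    (h : a ∈ X ↔ b ∈ X) : a * b ∈ X := by
  have e := H1.card_mul_relIndex_of_le hXY
  have p : 0 < Nat.card X := Nat.card_pos
  have p' : 0 < Nat.card Y := Nat.card_pos
  have i : X.relIndex Y = 1 ∨ X.relIndex Y = 2 := by
    have : X.relIndex Y ≤ 2 := by
      by_contra k
      have : Nat.card X * 3 ≤ Nat.card X * X.relIndex Y := Nat.mul_le_mul_left _ (by omega)
      omega
    have : X.relIndex Y ≠ 0 := fun k => by rw [k] at e; omega
    omega
  rcases i with i | i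
  · exact relIndex_eq_one.1 i (mul_mem ha hb)
  · exact (mul_mem_iff_of_index_two (H := X.subgroupOf Y) i (a := ⟨a, ha⟩) (b := ⟨b, hb⟩)).2 h

theorem ea_cj {A : Subgroup G} (hA : EA 2 A) (g : G) : EA 2 (A ^ᶜ g) := by
  refine ⟨H71KM.comm_iff.2 ?_, fun b hb => ?_⟩
  · rw [← cj_centralizer]; exact cj_mono g hA.le_cent
  · obtain ⟨a, ha, rfl⟩ := mem_cj'.1 hb
    rw [conj_pow, hA.2 a ha]; group

theorem ea_of {A : Subgroup G} (h : ∀ x ∈ A, x * x = 1) : EA 2 A :=
  ⟨⟨⟨fun a b => Subtype.ext (comm_of_sq h a.2 b.2)⟩⟩, fun b hb => by rw [sq, h b hb]⟩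

theorem dv {n : ℕ} (h : n ∣ 64) : n = 1 ∨ n = 2 ∨ n = 4 ∨ n = 8 ∨ n = 16 ∨ n = 32 ∨ n = 64 := by
  have := Nat.le_of_dvd (by decide) h
  interval_cases n <;> simp_all

variable (N : NS Q S Z h 4)
include N

theorem cQ : Nat.card Q = 16 := N.cardQ
theorem cS : Nat.card S = 64 := by rw [N.cardS, cQ N]
theorem ZQ' : Z ≤ Q := N.defZ ▸ inf_le_left
theorem ZC : Z ≤ 𝐂(S) := N.defZ ▸ inf_le_right
theorem Zeq : Z = S ⊓ 𝐂(S) := le_antisymm (le_inf ((ZQ' N).trans N.le) (ZC N))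
  (N.defZ ▸ le_inf (inf_le_right.trans ((centralizer_anti N.le).trans N.cq)) inf_le_right)
theorem nZ : 𝐍(S) ≤ 𝐍(Z) := by
  rw [Zeq N]; exact le_normalizer_inf le_rfl (normalizer_le_normalizer_centralizer S)

theorem Zle {B : Subgroup G} (hB : ∀ x ∈ S, x * x ∈ B) : Z ≤ B := fun z hz => by
  obtain ⟨u, hu, uQ⟩ : ∃ u ∈ S, u ∉ Q := SetLike.not_le_iff_exists.1 fun k => by
    have := card_le_of_le k
    rw [cQ N, cS N] at this
    omega
  obtain ⟨v, hv, rfl⟩ := N.comm u hu uQ z hz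
  exact comm_mem hB (N.le hv) hu

theorem inS {A B : Subgroup G} (hA : A ≤ S) (hB : B ≤ A) (hs : ∀ x ∈ A, x * x ∈ B) :
    Nat.card A ≤ 16 * Nat.card B := by
  by_cases b : B = ⊥
  · have := N.big A (ea_of fun x hx => by simpa [b] using hs x hx) hA
    rw [b, card_bot]
    omega
  have b2 := two_mul_le (bot_lt_iff_ne_bot.2 b)
  rw [card_bot] at b2
  by_cases a : A = S
  · have := card_le_of_le (Zle N (a ▸ hs))
    rw [N.cardZ] at this
    rw [a, cS N]
    omega
  · have := two_mul_le (lt_of_le_of_ne hA a)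
    rw [cS N] at this
    omega

theorem out (hc : 𝐂(Z) ≤ S) {P : Subgroup G} (h1 : S ≤ P) (h2 : P ≤ 𝐍(S)) (h3 : Nat.card P ≤ 128)
    {A B : Subgroup G} (hA : A ≤ P) (hB : B ≤ A) (hs : ∀ x ∈ A, x * x ∈ B) (hBS : B ≤ S) {f : G} (hf : f ∈ A)
    (fS : f ∉ S) : Nat.card A ≤ 16 * Nat.card B := by
  by_contra big
  have c64 := cS N
  have c16 := cQ N
  have c4 : Nat.card Z = 4 := N.cardZ
  have hP : Nat.card P ≤ 2 * Nat.card S := by omega
  have i1 := idx hA h1 hP
  have i2 : 2 * Nat.card ↥(S ⊓ A) ≤ Nat.card A :=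
    two_mul_le (lt_of_le_of_ne inf_le_right fun e => fS (e.ge hf).1)
  have d1 := dv (c64 ▸ card_dvd_of_le (inf_le_left : S ⊓ A ≤ S))
  have d2 := dv (c64 ▸ card_dvd_of_le hBS)
  have fZ : f ∈ 𝐍(Z) := nZ N (h2 (hA hf))
  obtain ⟨z0, hz0, nc⟩ : ∃ z ∈ Z, z * f ≠ f * z := by
    by_contra k
    push Not at k
    exact fS (hc k)
  by_cases b : B = ⊥
  · have eA : EA 2 A := ea_of fun x hx => by simpa [b] using hs x hx
    have e0 : EA 2 (S ⊓ A) := eA.mono inf_le_right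
    have l := N.big _ e0 inf_le_left
    rw [b, card_bot] at big
    have ZA : Z ≤ S ⊓ A := by
      by_cases e : S ⊓ A = Q
      · rw [e]; exact ZQ' N
      · rw [← (N.two _ e0 inf_le_left (by omega) e).1]; exact inf_le_left
    exact nc (eA.le_cent hf z0 (ZA hz0).2)
  have b2 := two_mul_le (bot_lt_iff_ne_bot.2 b)
  rw [card_bot] at b2
  have c32 : Nat.card S ≤ 2 * Nat.card ↥(S ⊓ A) := by omega
  have ZA : Z ≤ S ⊓ A := Zle N fun x hx => two inf_le_left c32 hx hx Iff.rfl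
  have BZ : B ≤ Z := by
    by_cases b4 : 4 ≤ Nat.card B
    · have e : S ⊓ A = S := eq_of_le_of_card_ge inf_le_left (by omega)
      exact (eq_of_le_of_card_ge (Zle N fun x hx => hs x (e.ge hx).2) (by omega)).ge
    · have m : f * z0 * f⁻¹ * z0⁻¹ ∈ B ⊓ Z :=
        ⟨comm_mem hs hf (ZA hz0).2, Z.mul_mem (conj_mem_of_mem_normalizer fZ hz0) (Z.inv_mem hz0)⟩
      have n : (⊥ : Subgroup G) < B ⊓ Z := bot_lt_iff_ne_bot.2 fun e => nc (by
        rw [e, mem_bot, mul_inv_eq_one, mul_inv_eq_iff_eq_mul] at m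
        exact m.symm)
      have := two_mul_le n
      rw [card_bot] at this
      exact inf_eq_left.1 (eq_of_le_of_card_ge inf_le_left (by omega))
  have BQ : B ≤ Q := BZ.trans (ZQ' N)
  by_cases fQ : f ∈ 𝐍(Q)
  · have PQ : P ≤ 𝐍(Q) := fun e he => by
      by_cases k : e ∈ S
      · exact N.nS k
      · exact (mul_mem_cancel_right fQ).1 (N.nS (two h1 hP he (hA hf) (iff_of_false k fS)))
    by_cases QA : Q ≤ A
    · have r := N.rank A (hA.trans PQ) fun e he => BQ (hs e he)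
      have r' : Nat.card ↥(A ⊓ Q) ≤ Nat.card Q := card_le_of_le inf_le_right
      have k := count Q B f fun n hn => comm_mem hs (QA hn) hf
      have k' := N.free f fQ (fun e => fS (N.le e)) (BQ (hs f hf))
      rw [inf_comm] at k'
      have k2 : Nat.card Q ≤ 4 * Nat.card B := k' ▸ k
      omega
    · obtain ⟨v, hv, vA⟩ := SetLike.not_le_iff_exists.1 QA
      have hPA : Nat.card P ≤ 2 * Nat.card A := by omega
      have r := N.rank P PQ fun e he => by
        by_cases k : e ∈ A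
        · exact BQ (hs e k)
        · have m := two hA hPA (h1 (N.le hv)) he (iff_of_false vA k)
          have : e * e = v⁻¹ * (v * e * (v * e)) * (e⁻¹ * v⁻¹ * e) := by group
          rw [this]
          exact mul_mem (mul_mem (inv_mem hv) (BQ (hs _ m))) (conj_mem_of_mem_normalizer' (PQ he) (inv_mem hv))
      have r' : Nat.card ↥(P ⊓ Q) ≤ Nat.card Q := card_le_of_le inf_le_right
      have := two_mul_le (lt_of_le_of_ne h1 fun e => fS (e.ge (hA hf)))
      omega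
  · have i3 := idx N.le inf_le_left c32
    obtain ⟨v, hv, vZ⟩ : ∃ v ∈ S ⊓ A ⊓ Q, v ∉ Z := SetLike.not_le_iff_exists.1 fun k => by
      have := card_le_of_le k
      omega
    have e := (N.two (Q ^ᶜ f) (ea_cj N.ea f) (cj_le_of_mem_normalizer N.le (h2 (hA hf))) (by rw [card_cj, c16]; rfl)
      fun e => fQ (cj_eq_self_iff.1 e)).1
    have m : f * v * f⁻¹ ∈ Q := (Q.mul_mem_cancel_right (Q.inv_mem hv.2)).1 (BQ (comm_mem hs hf hv.1.2))
    have m' : f * v * f⁻¹ ∈ Z := e ▸ ⟨cj_mem f hv.2, m⟩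
    exact vZ ((mem_normalizer_iff.1 fZ v).2 m')

end K3P.N4d_

namespace K3P

open Cfsg Subgroup H71KM
open scoped commutatorElement

universe u

variable {G : Type u} [Group G] [Finite G] {p : ℕ} {Q K S Z X : Subgroup G} {h : G} {ψ : V3 → G}

theorem n4_sr (N : NS Q S Z h 4) (hc : 𝐂(Z) ≤ S) (P : Sylow 2 G) (h1 : S ≤ (P : Subgroup G))
    (h2 : (P : Subgroup G) ≤ 𝐍(S)) (h3 : Nat.card ↥(P : Subgroup G) ≤ 128) : SectionalPRankLE 2 4 G := by
  refine H58.Har.sr_of_sylow (H69.isSylowIn_top P) fun A B hA hB hs => ?_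
  change Nat.card A ≤ 16 * Nat.card B
  by_cases a : A ≤ S
  · exact N4d_.inS N a hB hs
  obtain ⟨f, hf, fS⟩ := SetLike.not_le_iff_exists.1 a
  by_cases b : B ≤ S
  · exact N4d_.out N hc h1 h2 h3 hA hB hs b hf fS
  have c := N4d_.cS N
  have hP : Nat.card (P : Subgroup G) ≤ 2 * Nat.card S := by omega
  have i1 := H58.Har.idx hA h1 hP
  have i2 : 2 * Nat.card ↥(S ⊓ B) ≤ Nat.card B :=
    H58.Har.two_mul_le (lt_of_le_of_ne inf_le_right fun e => b (e.ge.trans inf_le_left))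
  have i3 := N4d_.inS N (A := S ⊓ A) (B := S ⊓ B) inf_le_left (inf_le_inf_left _ hB)
    fun x hx => ⟨mul_mem hx.1 hx.1, hs x hx.2⟩
  omega


end K3P
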