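import Mathlib
import Cfsg.Agent.Lib.K3P.Defs
import Cfsg.Agent.Lib.K3P.AR2

/-! K3P package N8a, see `blueprint/K3P/README.md`. -/

set_option autoImplicit false
set_option linter.unusedSectionVars false
set_option linter.unusedVariables false

namespace K3P

open Cfsg Subgroup H71KM
open scoped commutatorElement

universe u

variable {G : Type u} [Group G] [Finite G] {p : ℕ} {Q K S Z X : Subgroup G} {h : G} {ψ : V3 → G}

namespace N8a_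

/-- conjugation on an invariant set -/
def pm (x : G) (A : Set G) (hA : ∀ a, x * a * x⁻¹ ∈ A ↔ a ∈ A) : Equiv.Perm A :=
  Equiv.Perm.subtypePerm (MulAut.conj x).toEquiv hA

theorem pm_pow {x : G} {A : Set G} (hA : ∀ a, x * a * x⁻¹ ∈ A ↔ a ∈ A) {m : ℕ} (hx : x ^ m = 1) :
    pm x A hA ^ m = 1 := by
  have : ∀ (k : ℕ) (a : A), ((pm x A hA ^ k) a : G) = x ^ k * a * (x ^ k)⁻¹ := fun k => by
    induction k with
    | zero => simp
    | succ k ih =>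
      intro a
      rw [pow_succ, Equiv.Perm.mul_apply, ih]
      show x ^ k * (x * a * x⁻¹) * _ = _
      rw [pow_succ]; group
  exact Equiv.ext fun a => Subtype.ext (by rw [this, hx]; simp)

theorem fix {x : G} {r n : ℕ} [Fact r.Prime] (hx : x ^ r ^ n = 1) {A : Set G}
    (hA : ∀ a, x * a * x⁻¹ ∈ A ↔ a ∈ A) (hc : ¬ r ∣ Nat.card A) : ∃ a ∈ A, x * a = a * x := by
  classical
  have := Fintype.ofFinite A
  obtain ⟨a, e⟩ := Equiv.Perm.exists_fixed_point_of_prime (Nat.card_eq_fintype_card (α := A) ▸ hc) (pm_pow hA hx)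
  exact ⟨a, a.2, mul_inv_eq_iff_eq_mul.1 (congrArg Subtype.val e)⟩

theorem fix' {x : G} {r n : ℕ} [Fact r.Prime] (hx : x ^ r ^ n = 1) {A : Subgroup G} (hA : x ∈ 𝐍(A))
    (hc : r ∣ Nat.card A) : ∃ a ∈ A, a ≠ 1 ∧ x * a = a * x := by
  classical
  have := Fintype.ofFinite (A : Set G)
  have hA' : ∀ a, x * a * x⁻¹ ∈ (A : Set G) ↔ a ∈ (A : Set G) := fun a => (mem_normalizer_iff.1 hA a).symm
  obtain ⟨a, e, ne⟩ := Equiv.Perm.exists_fixed_point_of_prime' (α := (A : Set G))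
    (Nat.card_eq_fintype_card (α := (A : Set G)) ▸ hc) (pm_pow hA' hx) (a := ⟨1, one_mem A⟩)
    (Subtype.ext (by show x * 1 * x⁻¹ = 1; simp))
  exact ⟨a, a.2, fun e => ne (Subtype.ext e), mul_inv_eq_iff_eq_mul.1 (congrArg Subtype.val e)⟩

/-- the conjugate subgroup -/
def cj (g : G) (A : Subgroup G) : Subgroup G := A.map (MulAut.conj g).toMonoidHom

theorem mem_cj {g x : G} {A : Subgroup G} : x ∈ cj g A ↔ g⁻¹ * x * g ∈ A :=
  ⟨by rintro ⟨a, ha, rfl⟩; simpa [mul_assoc] using ha, fun h => ⟨_, h, by simp [mul_assoc]⟩⟩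

theorem card_cj (g : G) (A : Subgroup G) : Nat.card (cj g A) = Nat.card A :=
  card_map_of_injective (MulAut.conj g).injective

theorem ea_cj (g : G) {A : Subgroup G} (h : EA 2 A) : EA 2 (cj g A) := by
  refine ⟨comm_iff.2 ?_, ?_⟩
  · rintro _ ⟨a, ha, rfl⟩ _ ⟨b, hb, rfl⟩
    rw [← map_mul, ← map_mul, h.le_cent ha b hb]
  · rintro _ ⟨a, ha, rfl⟩
    rw [← map_pow, h.2 a ha, map_one]

theorem swap (N : NS Q S Z h 8) {g k : G} (hg : g ∈ 𝐍(S)) (hk : k ∈ 𝐍(S)) (ng : g ∉ 𝐍(Q)) (nk : k ∉ 𝐍(Q)) :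
    g⁻¹ * k ∈ 𝐍(Q) := by
  have le : ∀ g ∈ 𝐍(S), cj g Q ≤ S := by
    rintro g hg _ ⟨a, ha, rfl⟩
    exact (mem_normalizer_iff.1 hg a).1 (N.toTN.toTH.le ha)
  have ne : ∀ g ∉ 𝐍(Q), cj g Q ≠ Q := fun g ng e => ng (mem_normalizer_iff.2 fun a => by
    conv_rhs => rw [← e, mem_cj]
    simp [mul_assoc])
  have e := ((N.two _ (ea_cj g N.ea) (le g hg) ((card_cj _ _).trans N.cardQ) (ne g ng)).2.2.2 _ (ea_cj k N.ea)
    (le k hk) ((card_cj _ _).trans N.cardQ)).resolve_left (ne k nk)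
  refine mem_normalizer_iff.2 fun a => ?_
  have := Subgroup.ext_iff.1 e (k * a * k⁻¹)
  rw [mem_cj, mem_cj] at this
  simpa [mul_assoc] using this

theorem Z_eq (N : NS Q S Z h 8) : Z = 𝐂(S) :=
  N.defZ.trans (inf_eq_right.2 ((centralizer_le N.toTN.toTH.le).trans N.cq))

theorem nZ (N : NS Q S Z h 8) {g : G} (hg : g ∈ 𝐍(S)) : g ∈ 𝐍(Z) := by
  rw [Z_eq N]
  refine mem_normalizer_fintype fun z hz s hs => ?_
  have := hz _ ((mem_normalizer_iff.1 (inv_mem hg) s).1 hs)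
  calc _ = g * (g⁻¹ * s * g⁻¹⁻¹ * z) * g⁻¹ := by group
    _ = _ := by rw [this]; group

theorem sc7 (T : Th G p) (N : NS Q S Z h 8) {x : G} (hx : orderOf x = 7) : Ce x = zpowers x :=
  T.sc x (hx.trans (T.toB2.toB0.eq_p (by norm_num) (by norm_num) (hx ▸ orderOf_dvd_natCard x)))

theorem cz1 (T : Th G p) (N : NS Q S Z h 8) {z : G} (hz : z ∈ Z) (z1 : z ≠ 1) : 𝐍(Q) ⊓ Ce z ≤ S := by
  have zQ : z ∈ Q := (N.defZ.le hz).1
  have le : S ≤ 𝐍(Q) ⊓ Ce z := le_inf N.nS fun s hs => mc.2 ((N.defZ.le hz).2 s hs)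
  obtain ⟨m, hm⟩ := card_dvd_of_le le
  have d := card_dvd_of_le (inf_le_left : 𝐍(Q) ⊓ Ce z ≤ 𝐍(Q))
  have cS : Nat.card S = 512 := by rw [N.cardS, N.cardQ]; norm_num
  rw [N.ord.resolve_right (by norm_num), N.cardQ, hm, cS, show 8 ^ 2 * (8 * (8 ^ 2 - 1)) = 512 * 63 by norm_num,
    Nat.mul_dvd_mul_iff_left (by norm_num)] at d
  have n3 : ¬ 3 ∣ m := fun e => by
    obtain ⟨y, hy⟩ := exists_prime_orderOf_dvd_card' (G := ↥(𝐍(Q) ⊓ Ce z)) 3 (hm ▸ e.mul_left _)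
    exact z1 (N.fpf y y.2.1 ((orderOf_coe y).trans hy) z zQ (mc.1 y.2.2))
  have n7 : ¬ 7 ∣ m := fun e => by
    have : Fact (Nat.Prime 7) := ⟨by norm_num⟩
    obtain ⟨y, hy⟩ := exists_prime_orderOf_dvd_card' (G := ↥(𝐍(Q) ⊓ Ce z)) 7 (hm ▸ e.mul_left _)
    have hy' := (orderOf_coe y).trans hy
    have h1 := orderOf_dvd_of_mem_zpowers ((sc7 T N hy').le (mc_symm y.2.2))
    rw [hy', orderOf_eq_prime (N.ea.2 z zQ) z1] at h1
    exact absurd h1 (by norm_num)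
  have m1 : m = 1 := by
    have := Nat.le_of_dvd (by norm_num) d
    interval_cases m <;> simp_all
  exact (eq_of_le_of_card_ge le (by rw [hm, m1, mul_one])).ge

theorem idx (N : NS Q S Z h 8) {g : G} (hg : g ∈ 𝐍(S)) (h2 : g * g ∈ S) : ((Ce g).subgroupOf Z).index ≤ 2 := by
  have ea : EA 2 Z := N.ea.mono (N.defZ.le.trans inf_le_left)
  have cm : ∀ a ∈ Z, ∀ b ∈ Z, a * b = b * a := fun a ha b hb => (ea.le_cent ha b hb).symm
  have sq : ∀ a ∈ Z, a * a = 1 := fun a ha => by rw [← pow_two]; exact ea.2 a ha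
  have mm : ∀ a ∈ Z, g * a * g⁻¹ ∈ Z := fun a ha => (mem_normalizer_iff.1 (nZ N hg) a).1 ha
  let f : Z →* Z := MonoidHom.mk' (fun a => ⟨a * (g * a * g⁻¹), mul_mem a.2 (mm _ a.2)⟩) fun a b => Subtype.ext (by
    show (a * b : G) * (g * (a * b) * g⁻¹) = a * (g * a * g⁻¹) * (b * (g * b * g⁻¹))
    rw [mul_assoc (a : G) (g * a * g⁻¹), ← mul_assoc (g * a * g⁻¹), cm _ (mm _ a.2) _ b.2]; group)
  have hk : f.ker = (Ce g).subgroupOf Z := by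
    ext a
    rw [MonoidHom.mem_ker, mem_subgroupOf, mc, Subtype.ext_iff]
    show (a : G) * (g * a * g⁻¹) = 1 ↔ _
    rw [← sq _ a.2, mul_right_inj, mul_inv_eq_iff_eq_mul, eq_comm]
  have hr : f.range ≤ f.ker := by
    rintro _ ⟨a, rfl⟩
    rw [hk, mem_subgroupOf, mc]
    show (a : G) * (g * a * g⁻¹) * g = g * (a * (g * a * g⁻¹))
    have := (N.defZ.le a.2).2 _ h2
    symm
    calc _ = g * (g * a * g⁻¹ * a) := by rw [cm _ a.2 _ (mm _ a.2)]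
      _ = g * g * a * g⁻¹ * a := by group
      _ = _ := by rw [this]; group
  have h1 := f.ker.card_mul_index
  have h3 := card_le_of_le hr
  rw [← Subgroup.index_ker f] at h3
  rw [N.cardZ] at h1
  rw [← hk]
  nlinarith

end N8a_

open N8a_ in
theorem n8_norm (T : Th G p) (N : NS Q S Z h 8) : 𝐍(S) ≤ 𝐍(Q) := by
  intro g0 hg0
  by_contra n0
  have sq : ∀ g ∈ 𝐍(S), g ∉ 𝐍(Q) → g * g ∈ 𝐍(Q) := fun g hg ng => by
    simpa using swap N (inv_mem hg) hg (fun e => ng (inv_mem_iff.1 e)) ng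
  obtain ⟨k, m, hm, e⟩ := Nat.exists_eq_two_pow_mul_odd (orderOf_pos g0).ne'
  obtain ⟨j, rfl⟩ := hm
  obtain ⟨g, eg⟩ : ∃ g, g = g0 ^ (2 * j + 1) := ⟨_, rfl⟩
  have hg : g ∈ 𝐍(S) := eg ▸ pow_mem hg0 _
  have ng : g ∉ 𝐍(Q) := fun hq => by
    rw [eg, pow_succ, pow_mul, pow_two] at hq
    exact n0 ((mul_mem_cancel_left (pow_mem (sq _ hg0 n0) j)).1 hq)
  have g2 : g ^ 2 ^ k = 1 := by rw [eg, ← pow_mul, mul_comm, ← e, pow_orderOf_eq_one]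
  obtain ⟨z, hz, z1, cz⟩ := fix' g2 (nZ N hg) (by rw [N.cardZ]; norm_num)
  have gg : g * g ∈ S := cz1 T N hz z1 ⟨sq g hg ng, mul_mem (mc.2 cz) (mc.2 cz)⟩
  have hg' : h * g * h⁻¹ ∈ 𝐍(S) := mul_mem (mul_mem N.hS hg) (inv_mem N.hS)
  have ng' : h * g * h⁻¹ ∉ 𝐍(Q) := fun e =>
    ng ((mul_mem_cancel_left N.hQ).1 ((mul_mem_cancel_right (inv_mem N.hQ)).1 e))
  have gg' : h * g * h⁻¹ * (h * g * h⁻¹) ∈ S := by
    rw [conj_mul]; exact (mem_normalizer_iff.1 N.hS _).1 gg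
  have i := (index_inf_le (H := (Ce g).subgroupOf Z) (K := (Ce (h * g * h⁻¹)).subgroupOf Z)).trans
    (Nat.mul_le_mul (idx N hg gg) (idx N hg' gg'))
  have nb : (Ce g).subgroupOf Z ⊓ (Ce (h * g * h⁻¹)).subgroupOf Z ≠ ⊥ := fun e => by
    rw [e, index_bot, N.cardZ] at i; omega
  obtain ⟨⟨v, v1, v2⟩, vn⟩ := (ne_bot_iff_exists_ne_one.1 nb)
  have hs : g⁻¹ * (h * g * h⁻¹) ∈ S := cz1 T N v.2 (fun e => vn (Subtype.ext (Subtype.ext e)))
    ⟨swap N hg hg' ng ng', (Ce (v : G)).mul_mem ((Ce (v : G)).inv_mem (mc_symm v1)) (mc_symm v2)⟩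
  have h7 : orderOf h = 7 := N.ho
  have : Fact (Nat.Prime 7) := ⟨by norm_num⟩
  obtain ⟨c, hc, cc⟩ := fix (x := h) (r := 7) (n := 1) (by rw [pow_one, ← h7, pow_orderOf_eq_one])
    (A := {c | g⁻¹ * c ∈ S}) (fun a => by
      have e : g⁻¹ * (h * a * h⁻¹) = g⁻¹ * (h * g * h⁻¹) * (h * (g⁻¹ * a) * h⁻¹) := by group
      show g⁻¹ * _ ∈ S ↔ g⁻¹ * a ∈ S
      rw [e, mul_mem_cancel_left hs]
      exact (mem_normalizer_iff.1 N.hS _).symm) (by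
      have : Nat.card {c | g⁻¹ * c ∈ S} = Nat.card S :=
        Nat.card_congr ((Equiv.mulLeft g⁻¹).subtypeEquiv fun _ => Iff.rfl)
      rw [this, N.cardS, N.cardQ]; norm_num)
  have cQ : c ∈ 𝐍(Q) := zpowers_le.2 N.hQ ((sc7 T N h7).le (mc.2 cc.symm))
  exact ng (inv_mem_iff.1 ((mul_mem_cancel_right cQ).1 (N.nS hc)))

end K3P
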