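import Mathlib
import Cfsg.Agent.Lib.K3P.Defs
import Cfsg.Agent.Lib.K3P.AR2
import Cfsg.Agent.Lib.LocStruct.SylowIn

/-! K3P package N8b, see `blueprint/K3P/README.md`. -/

set_option autoImplicit false
set_option linter.unusedSectionVars false
set_option linter.unusedVariables false

namespace K3P

open Cfsg Subgroup H71KM
open scoped commutatorElement

universe u

variable {G : Type u} [Group G] [Finite G] {p : ℕ} {Q K S Z X : Subgroup G} {h : G} {ψ : V3 → G}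

namespace N8b_

theorem pg_of (B : B0 G p) {C : Subgroup G} (h3 : ∀ y ∈ C, orderOf y ≠ 3) {v : G} (v2 : v * v = 1) (v1 : v ≠ 1)
    (hv : C ≤ Ce v) : IsPGroup 2 C := by
  have : Fact (Nat.Prime 2) := ⟨Nat.prime_two⟩
  refine IsPGroup.iff_card.2 ⟨_, Nat.eq_prime_pow_of_unique_prime_dvd Nat.card_pos.ne' fun {r} hr hd => ?_⟩
  by_contra r2
  have : Fact r.Prime := ⟨hr⟩
  obtain ⟨x, hx⟩ := exists_prime_orderOf_dvd_card' (G := C) r hd
  rw [← Subgroup.orderOf_coe] at hx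
  have r3 : r ≠ 3 := fun e => h3 x x.2 (hx.trans e)
  have r5 : 5 ≤ r := by
    have := hr.two_le
    have : r ≠ 4 := fun e => absurd (e ▸ hr) (by decide)
    omega
  have e := B.eq_p hr r5 (hd.trans (card_subgroup_dvd_card C))
  have m : v ∈ zpowers (x : G) := B.sc x (hx.trans e) ▸ mc_symm (hv x.2)
  have d1 : orderOf v ∣ r := hx ▸ orderOf_dvd_of_mem_zpowers m
  have d2 : orderOf v = 2 := orderOf_eq_prime ((pow_two v).trans v2) v1
  rw [d2] at d1
  exact r2 ((Nat.prime_dvd_prime_iff_eq Nat.prime_two hr).1 d1).symm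

theorem norm_inf {A B : Subgroup G} : 𝐍(A) ⊓ 𝐍(B) ≤ 𝐍(A ⊓ B) := fun g hg =>
  mem_normalizer_iff.2 fun x => and_congr (mem_normalizer_iff.1 hg.1 x) (mem_normalizer_iff.1 hg.2 x)

end N8b_

open N8b_ in
theorem n8_cent (T : Th G p) (N : NS Q S Z h 8) (hN : 𝐍(S) ≤ 𝐍(Q)) :
    (∀ P : Subgroup G, IsPGroup 2 P → S ≤ P → P = S) ∧ ∀ v ∈ Z, v ≠ 1 → Ce v = S := by
  have : Fact (Nat.Prime 2) := ⟨Nat.prime_two⟩
  have cQ : Nat.card Q = 64 := N.cardQ
  have cS : Nat.card S = 512 := by rw [N.cardS, cQ]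
  have cH : Nat.card 𝐍(Q) = 512 * 63 := by rw [N.ord.resolve_right (by omega), cQ]; norm_num
  have pS : IsPGroup 2 S := IsPGroup.of_card (n := 9) cS
  have s1 : H69.IsSylowIn 2 S 𝐍(Q) := H69.isSylowIn_of_not_dvd_relIndex pS N.nS (by
    have := relIndex_mul_relIndex ⊥ S 𝐍(Q) bot_le N.nS
    rw [relIndex_bot_left, relIndex_bot_left, cS, cH] at this
    omega)
  have s2 : H69.IsSylowIn 2 S ⊤ := H69.isSylowIn_of_normalizer le_top
    (s1.mono (le_inf le_top le_normalizer) (inf_le_right.trans hN))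
  have hP : ∀ P : Subgroup G, IsPGroup 2 P → S ≤ P → P = S := fun P h1 h2 => s2.max P h2 le_top h1
  refine ⟨hP, fun v hv v1 => ?_⟩
  have ZQ : Z ≤ Q := N.defZ.le.trans inf_le_left
  have ZS : Z ≤ 𝐂(S) := N.defZ.le.trans inf_le_right
  have sq : ∀ z ∈ Z, z * z = 1 := fun z hz => (pow_two z).symm.trans (N.ea.2 z (ZQ hz))
  have SZ : S ≤ 𝐂(Z) := le_centralizer_iff.1 ZS
  obtain ⟨w, hw, w1, wv⟩ : ∃ w ∈ Z, w ≠ 1 ∧ w ≠ v := by
    by_contra k
    push Not at k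
    have h1 : Z ≤ zpowers v := fun w hw => (mem_zp (sq v hv)).2 ((em (w = 1)).imp_right (k w hw))
    have h2 := card_le_of_le h1
    rw [N.cardZ, Nat.card_zpowers, orderOf_eq_prime ((pow_two v).trans (sq v hv)) v1] at h2
    omega
  have CZ : 𝐂(Z) = S := hP _ (pg_of T.toB0 (fun y hy ho => by
    rcases T.r1 y w v ho (sq w hw) (sq v hv) (SZ (N.le (ZQ hv)) w hw) (hy w hw) (hy v hv) with e | e | e
    exacts [w1 e, v1 e, wv e]) (sq v hv) v1 fun y hy => mc_of_mem hy hv) SZ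
  have NZ : 𝐍(Z) ≤ 𝐍(Q) := ((H69.normalizer_le_normalizer_centralizer Z).trans (by rw [CZ])).trans hN
  obtain ⟨D, L⟩ := T.loc (zpowers v) (isPGroup_zp (sq v hv)) (by simpa using v1)
  have eC : 𝐂(zpowers v) = Ce v := by rw [zpowers_eq_closure, centralizer_closure]
  have SC : S ≤ Ce v := fun s hs => mc_of_mem (SZ hs) hv
  have DS : D ≤ S := s2.le_of_le_normalizer L.pg le_top ((eC ▸ SC).trans L.norm)
  have i1 := L.idx S pS (eC ▸ SC)
  have i2 := L.idx Q N.pg (eC ▸ N.le.trans SC)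
  rw [inf_eq_right.2 DS, cS] at i1
  have ZD : D ⊓ 𝐂(D) = Z := by
    refine le_antisymm (fun x hx => ?_) fun z hz => ?_
    · by_cases xQ : x ∈ Q
      · obtain ⟨u, uD, uQ⟩ : ∃ u ∈ D, u ∉ Q := by
          by_contra k
          push Not at k
          have := card_le_of_le (show D ≤ Q from k)
          omega
        exact N.cu u (DS uD) uQ ▸ (⟨xQ, mc_of_mem hx.2 uD⟩ : x ∈ Q ⊓ Ce u)
      · have h1 : Q ⊓ D ≤ Z := N.cu x (DS hx.1) xQ ▸ fun y hy => ⟨hy.1, mc_symm (mc_of_mem hx.2 hy.2)⟩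
        have := card_le_of_le h1
        rw [N.cardZ] at this
        omega
    · have h1 : z ∈ 𝐂(D) := centralizer_le DS (ZS hz)
      exact ⟨L.sc ⟨eC ▸ SC (N.le (ZQ hz)), h1⟩, h1⟩
  have CH : Ce v ≤ 𝐍(Q) := fun g hg => NZ (ZD ▸ norm_inf ⟨L.norm (eC ▸ hg),
    H69.normalizer_le_normalizer_centralizer D (L.norm (eC ▸ hg))⟩)
  exact hP _ (pg_of T.toB0 (fun y hy ho => v1 (N.fpf y (CH hy) ho v (ZQ hv) (mc.1 hy))) (sq v hv) v1 le_rfl) SC


end K3P
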