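import Mathlib
import Cfsg.Agent.Lib.K3P.Defs
import Cfsg.Agent.Lib.FGS.OrbitCong

/-! K3P package N8c, see `blueprint/K3P/README.md`. -/

set_option autoImplicit false
set_option linter.unusedSectionVars false
set_option linter.unusedVariables false

namespace K3P

open Cfsg Subgroup H71KM
open scoped commutatorElement

universe u

variable {G : Type u} [Group G] [Finite G] {p : ℕ} {Q K S Z X : Subgroup G} {h : G} {ψ : V3 → G}

namespace N8c_

theorem mod3 {A : Subgroup G} {y : G} (hy : y ^ 3 = 1) (hA : y ∈ 𝐍(A)) :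
    Nat.card A ≡ Nat.card ↥(A ⊓ Ce y) [MOD 3] := by
  haveI : Fact (Nat.Prime 3) := ⟨Nat.prime_three⟩
  have := H77.card_modEq_card_inf_centralizer_pow (q := 3) (k := 1) hA (by simpa using hy) 0
  simpa using this

theorem norm_of {A : Subgroup G} {y : G} (h : ∀ a ∈ A, y * a * y⁻¹ ∈ A) : y ∈ 𝐍(A) :=
  mem_normalizer_fintype h

/-- the central elements of order at most two -/
def Om (D : Subgroup G) : Subgroup G where
  carrier := {w | w ∈ D ∧ w ∈ 𝐂(D) ∧ w * w = 1}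
  one_mem' := ⟨D.one_mem, one_mem _, mul_one _⟩
  mul_mem' := by
    rintro a b ⟨a1, a2, a3⟩ ⟨b1, b2, b3⟩
    refine ⟨D.mul_mem a1 b1, mul_mem a2 b2, ?_⟩
    have : b * a = a * b := a2 b b1
    calc a * b * (a * b) = a * (b * a) * b := by group
      _ = (a * a) * (b * b) := by rw [this]; group
      _ = 1 := by rw [a3, b3, mul_one]
  inv_mem' := by
    rintro a ⟨a1, a2, a3⟩
    exact ⟨D.inv_mem a1, inv_mem a2, by rw [← mul_inv_rev, a3, inv_one]⟩

theorem key (r1 : R1 G) (N : NS Q S Z h 8) (hN : 𝐍(S) ≤ 𝐍(Q)) (hC : ∀ v ∈ Z, v ≠ 1 → Ce v = S)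
    {t y : G} (tt : t * t = 1) (t1 : t ≠ 1) (hy : orderOf y = 3) (c : t * y = y * t) {D : Subgroup G}
    (h1 : ∀ d ∈ D, d * t = t * d) (h2 : ∀ d ∈ D, y * d * y⁻¹ ∈ D)
    (h3 : ∀ x, x * t = t * x → x ∈ 𝐂(D) → x ∈ D) (hDS : D ≤ S) : False := by
  have y3 : y ^ 3 = 1 := hy ▸ pow_orderOf_eq_one y
  have tD : t ∈ D := h3 t rfl fun d hd => h1 d hd
  have ZQ' : Z ≤ Q := N.defZ ▸ inf_le_left
  have ZC : Z ≤ 𝐂(S) := N.defZ ▸ inf_le_right
  have cS : Nat.card S = 512 := by rw [N.cardS, N.cardQ]; norm_num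
  have yS : y ∉ S := fun hc => by
    have := orderOf_dvd_natCard S hc
    rw [hy, cS] at this
    omega
  have ZW : Z ≤ Om D := fun z hz => by
    have hc : z ∈ 𝐂(D) := fun d hd => ZC hz d (hDS hd)
    refine ⟨h3 z (ZC hz t (hDS tD)).symm hc, hc, ?_⟩
    rw [← pow_two]; exact N.ea.2 z (ZQ' hz)
  have yD : y ∈ 𝐍(D) := norm_of h2
  have yW : ∀ w ∈ Om D, y * w * y⁻¹ ∈ Om D := by
    rintro w ⟨a1, a2, a3⟩
    refine ⟨h2 w a1, fun d hd => ?_, ?_⟩
    · have hd' : y⁻¹ * d * y⁻¹⁻¹ ∈ D := (mem_normalizer_iff.1 (inv_mem yD) d).1 hd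
      have e := a2 _ hd'
      calc d * (y * w * y⁻¹) = y * (y⁻¹ * d * y⁻¹⁻¹ * w) * y⁻¹ := by group
        _ = _ := by rw [e]; group
    · calc y * w * y⁻¹ * (y * w * y⁻¹) = y * (w * w) * y⁻¹ := by group
        _ = 1 := by rw [a3]; group
  have hW : EA 2 (Om D) := ⟨comm_iff.2 fun a ha b hb => ha.2.1 b hb.1, fun b hb => by
    rw [pow_two]; exact hb.2.2⟩
  have big := N.big _ hW fun w hw => hDS hw.1
  by_cases hz : ∃ z ∈ Z, z ≠ 1 ∧ y * z * y⁻¹ ∈ Z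
  · obtain ⟨z, hz, z1, hz'⟩ := hz
    have z1' : y * z * y⁻¹ ≠ 1 := fun e => z1 (by simpa using e)
    have yN : y ∈ 𝐍(S) := by
      refine norm_of fun s hs => ?_
      rw [← hC _ hz' z1', mc]
      rw [← hC _ hz z1, mc] at hs
      calc y * s * y⁻¹ * (y * z * y⁻¹) = y * (s * z) * y⁻¹ := by group
        _ = _ := by rw [hs]; group
    have yZ : y ∈ 𝐍(Z) := by
      refine norm_of fun a ha => ?_
      rw [N.defZ]
      refine ⟨(mem_normalizer_iff.1 (hN yN) a).1 (ZQ' ha), fun d hd => ?_⟩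
      have hd' : y⁻¹ * d * y⁻¹⁻¹ ∈ S := (mem_normalizer_iff.1 (inv_mem yN) d).1 hd
      have e := ZC ha _ hd'
      calc d * (y * a * y⁻¹) = y * (y⁻¹ * d * y⁻¹⁻¹ * a) * y⁻¹ := by group
        _ = _ := by rw [e]; group
    have m := mod3 y3 yZ
    have hb : Z ⊓ Ce y = ⊥ := by
      rw [eq_bot_iff]
      rintro v ⟨v1, v2⟩
      by_contra hv
      exact yS (hC v v1 hv ▸ mc_symm v2)
    rw [hb, card_bot, N.cardZ] at m
    exact absurd m (by decide)
  · push Not at hz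
    let f : Z × Z → Om D := fun a => ⟨a.1 * (y * a.2 * y⁻¹), mul_mem (ZW a.1.2) (yW _ (ZW a.2.2))⟩
    have hf : Function.Injective f := by
      rintro ⟨a, b⟩ ⟨a', b'⟩ e
      have e' : (a : G) * (y * b * y⁻¹) = a' * (y * b' * y⁻¹) := congrArg Subtype.val e
      have e2 : y * ((b : G) * (b' : G)⁻¹) * y⁻¹ = (a : G)⁻¹ * a' := by
        calc _ = (a : G)⁻¹ * (a * (y * b * y⁻¹)) * (y * b' * y⁻¹)⁻¹ := by group
          _ = _ := by rw [e']; group
      have e3 : (b : G) * (b' : G)⁻¹ = 1 := by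
        by_contra hc
        exact hz _ (mul_mem b.2 (inv_mem b'.2)) hc (e2 ▸ mul_mem (inv_mem a.2) a'.2)
      rw [e3, mul_one, mul_inv_cancel] at e2
      exact Prod.ext (Subtype.ext (inv_mul_eq_one.1 e2.symm)) (Subtype.ext (mul_inv_eq_one.1 e3))
    have le := Nat.card_le_card_of_injective f hf
    rw [Nat.card_prod, N.cardZ] at le
    have m := mod3 y3 (norm_of yW)
    have tW : t ∈ Om D := ⟨tD, fun d hd => h1 d hd, tt⟩
    have e : Om D ⊓ Ce y = zpowers t := by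
      refine le_antisymm ?_ (zpowers_le.2 ⟨tW, mc.2 c⟩)
      rintro s ⟨s1, s2⟩
      rcases r1 y s t hy s1.2.2 tt (h1 s s1.1) (mc.1 s2) c with e | e | e
      · exact e ▸ one_mem _
      · exact absurd e t1
      · exact e ▸ mem_zpowers _
    haveI : Fact (Nat.Prime 2) := ⟨Nat.prime_two⟩
    rw [e, Nat.card_zpowers, orderOf_eq_prime (by rw [pow_two, tt]) t1,
      show Nat.card (Om D) = 64 by omega] at m
    exact absurd m (by decide)

end N8c_

theorem n8_no6 (T : Th G p) (N : NS Q S Z h 8) (hN : 𝐍(S) ≤ 𝐍(Q))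
    (hP : ∀ P : Subgroup G, IsPGroup 2 P → S ≤ P → P = S) (hC : ∀ v ∈ Z, v ≠ 1 → Ce v = S) (g : G) :
    orderOf g ≠ 6 := by
  intro h6
  haveI : Fact (Nat.Prime 2) := ⟨Nat.prime_two⟩
  have g6 : g ^ 6 = 1 := h6 ▸ pow_orderOf_eq_one g
  have tt : g ^ 3 * g ^ 3 = 1 := by rw [← pow_add]; exact g6
  have t1 : g ^ 3 ≠ 1 := pow_ne_one_of_lt_orderOf (by norm_num) (by omega)
  have hy : orderOf (g ^ 2) = 3 := by rw [orderOf_pow' _ (by norm_num), h6]; rfl
  have c : g ^ 3 * g ^ 2 = g ^ 2 * g ^ 3 := by rw [← pow_add, ← pow_add]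
  obtain ⟨D, L⟩ := T.loc (zpowers (g ^ 3)) (isPGroup_zp tt) (by simpa using t1)
  have mz : ∀ x, x ∈ 𝐂(zpowers (g ^ 3)) ↔ x * g ^ 3 = g ^ 3 * x := fun x => by
    constructor
    · exact fun hx => (hx _ (mem_zpowers _)).symm
    · intro hx a ha
      rcases (mem_zp tt).1 ha with rfl | rfl
      · simp
      · exact hx.symm
  have pS : IsPGroup 2 S := IsPGroup.of_card (n := 9) (by rw [N.cardS, N.cardQ]; norm_num)
  obtain ⟨P, hSP⟩ := pS.exists_le_sylow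
  have eP : (P : Subgroup G) = S := hP _ P.isPGroup' hSP
  obtain ⟨P', hDP⟩ := L.pg.exists_le_sylow
  obtain ⟨k, hk⟩ := MulAction.exists_smul_eq G P' P
  let φ : G ≃* G := MulAut.conj k
  have hφ : ∀ d ∈ D, φ d ∈ S := fun d hd => by
    rw [← eP, ← hk]
    exact Subgroup.smul_mem_pointwise_smul _ _ _ (hDP hd)
  refine N8c_.key T.r1 N hN hC (t := φ (g ^ 3)) (y := φ (g ^ 2)) (D := D.map φ.toMonoidHom)
    (by rw [← map_mul, tt, map_one]) (fun e => t1 (φ.map_eq_one_iff.1 e)) (by rw [MulEquiv.orderOf_eq, hy])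
    (by rw [← map_mul, c, map_mul]) ?_ ?_ ?_ ?_
  · rintro _ ⟨d, hd, rfl⟩
    show φ d * _ = _ * φ d
    rw [← map_mul, (mz d).1 (L.le hd), map_mul]
  · rintro _ ⟨d, hd, rfl⟩
    refine ⟨g ^ 2 * d * (g ^ 2)⁻¹, (mem_normalizer_iff.1 (L.norm ((mz _).2 c.symm)) d).1 hd, ?_⟩
    show φ _ = _ * φ d * _
    rw [map_mul, map_mul, map_inv]
  · intro x hx hc
    obtain ⟨x, rfl⟩ := φ.surjective x
    refine ⟨x, L.sc ⟨(mz x).2 (φ.injective (by rw [map_mul, map_mul, hx])), fun d hd => φ.injective ?_⟩, rfl⟩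
    rw [map_mul, map_mul]
    exact hc (φ d) ⟨d, hd, rfl⟩
  · rintro _ ⟨d, hd, rfl⟩
    exact hφ d hd


end K3P
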