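import Mathlib
import Cfsg.Agent.Lib.K3P.Defs

/-! K3P package NC3, see `blueprint/K3P/README.md`. -/

set_option autoImplicit false
set_option linter.unusedSectionVars false
set_option linter.unusedVariables false

namespace K3P

open Cfsg Subgroup H71KM
open scoped commutatorElement

universe u

variable {G : Type u} [Group G] [Finite G] {p : ℕ} {Q K S Z X : Subgroup G} {h : G} {ψ : V3 → G}

namespace NC3_
open Matrix

theorem e9 {L : Type*} [Group L] {a b : L} (ha : a ^ 3 = 1) (hb : b ^ 3 = 1) (hc : Commute a b)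
    (h : ∀ i < 3, ∀ j < 3, a ^ i * b ^ j = 1 → i = 0 ∧ j = 0) : ∃ E : Subgroup L, EA 3 E ∧ Nat.card E = 9 := by
  have k : ∀ {c : L}, c ^ 3 = 1 → ∀ x y : ZMod 3, c ^ (x + y).val = c ^ x.val * c ^ y.val := fun hc x y => by
    rw [ZMod.val_add, ← pow_eq_pow_mod _ hc, pow_add]
  let φ : Multiplicative (ZMod 3 × ZMod 3) →* L :=
    MonoidHom.mk' (fun x => a ^ x.toAdd.1.val * b ^ x.toAdd.2.val) fun x y => by
      rw [toAdd_mul, Prod.fst_add, Prod.snd_add, k ha, k hb]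
      exact (hc.pow_pow _ _).mul_mul_mul_comm _ _
  have inj : Function.Injective φ := (injective_iff_map_eq_one φ).2 fun x hx => by
    obtain ⟨h1, h2⟩ := h _ (ZMod.val_lt _) _ (ZMod.val_lt _) hx
    exact Prod.ext ((ZMod.val_eq_zero _).1 h1) ((ZMod.val_eq_zero _).1 h2)
  refine ⟨φ.range, ⟨⟨⟨?_⟩⟩, ?_⟩, ?_⟩
  · rintro ⟨_, x, rfl⟩ ⟨_, y, rfl⟩
    exact Subtype.ext (by rw [coe_mul, coe_mul, ← map_mul, ← map_mul, mul_comm])
  · rintro _ ⟨x, rfl⟩
    rw [← map_pow, (by decide : ∀ x : Multiplicative (ZMod 3 × ZMod 3), x ^ 3 = 1) x, map_one]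
  · rw [← Nat.card_congr (MonoidHom.ofInjective inj).toEquiv, Nat.card_eq_fintype_card]
    rfl

theorem e9q {L M : Type*} [Group L] [Group M] (e : L ≃* M ⧸ center M) {a b d : M} (ha : a ^ 3 = 1)
    (hb : b ^ 3 = 1) (hc : a * b = b * a)
    (h : ∀ i < 3, ∀ j < 3, d * (a ^ i * b ^ j) = a ^ i * b ^ j * d → i = 0 ∧ j = 0) :
    ∃ E : Subgroup L, EA 3 E ∧ Nat.card E = 9 := by
  let f : M →* L := e.symm.toMonoidHom.comp (QuotientGroup.mk' _)
  refine e9 (a := f a) (b := f b) (by rw [← map_pow, ha, map_one]) (by rw [← map_pow, hb, map_one])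
    (Commute.map hc f) fun i hi j hj q => h i hi j hj ?_
  rw [← map_pow, ← map_pow, ← map_mul] at q
  exact mem_center_iff.1 ((QuotientGroup.eq_one_iff _).1 (e.symm.map_eq_one_iff.1 q)) d

theorem e9m {L M R : Type*} [Group L] [Group M] [Monoid R] (e : L ≃* M ⧸ center M) (ρ : M →* R)
    (inj : Function.Injective ρ) (a b d : M) {A B D : R} (ea : ρ a = A) (eb : ρ b = B) (ed : ρ d = D)
    (ha : A * A * A = 1) (hb : B * B * B = 1) (hc : A * B = B * A)
    (h : ∀ x ∈ [1, A, A * A], ∀ y ∈ [1, B, B * B], D * (x * y) = x * y * D → x = 1 ∧ y = 1)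
    (h1 : A ≠ 1) (h2 : B ≠ 1) : ∃ E : Subgroup L, EA 3 E ∧ Nat.card E = 9 := by
  subst ea eb ed
  have k : ∀ {c : M} {i : ℕ}, i < 3 → ρ (c ^ i) ∈ [1, ρ c, ρ c * ρ c] := fun {c i} hi => by
    interval_cases i <;> simp [pow_succ]
  have k' : ∀ {c : M} {i : ℕ}, i < 3 → ρ c * ρ c * ρ c = 1 → ρ c ≠ 1 → ρ (c ^ i) = 1 → i = 0 :=
    fun {c i} hi h3 h1 q => by
      interval_cases i
      · rfl
      · exact absurd (by simpa using q) h1
      · rw [pow_two, map_mul] at q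
        rw [q, one_mul] at h3
        exact absurd h3 h1
  refine e9q e (a := a) (b := b) (d := d) (inj (by rw [pow_three', map_mul, map_mul, ha, map_one]))
    (inj (by rw [pow_three', map_mul, map_mul, hb, map_one])) (inj (by rw [map_mul, map_mul, hc]))
    fun i hi j hj q => ?_
  obtain ⟨x, y⟩ := h _ (k hi) _ (k hj) (by rw [← map_mul, ← map_mul, q, map_mul])
  exact ⟨k' hi ha h1 x, k' hj hb h2 y⟩

theorem char3 {F : Type} [Field F] [Fintype F] (h : Fintype.card F = 3 ∨ Fintype.card F = 9) : CharP F 3 := by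
  have h3 : ((3 : ℕ) : F) = 0 := by
    have := FiniteField.cast_card_eq_zero F
    rcases h with h | h <;> rw [h] at this
    · exact this
    · exact pow_eq_zero_iff (n := 2) two_ne_zero |>.1 (by rw [← this]; norm_num)
  exact (CharP.charP_iff_prime_eq_zero Nat.prime_three).2 h3

theorem slinj (n : ℕ) (F : Type) [Field F] : Function.Injective (slToMat n F) := fun _ _ h => Subtype.ext h

theorem psl {L : Type*} [Group L] {F : Type} [Field F] [Fintype F] (h : Fintype.card F = 3)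
    (e : L ≃* ProjectiveSpecialLinearGroup (Fin 3) F) : ∃ E : Subgroup L, EA 3 E ∧ Nat.card E = 9 := by
  have := char3 (Or.inl h)
  refine e9m e (slToMat 3 F) (slinj 3 F) ⟨!![1, 1, 0; 0, 1, 0; 0, 0, 1], by simp [det_fin_three]⟩
    ⟨!![1, 0, 1; 0, 1, 0; 0, 0, 1], by simp [det_fin_three]⟩ ⟨!![1, 0, 0; 0, -1, 0; 0, 0, -1], by simp [det_fin_three]⟩
    (A := !![1, 1, 0; 0, 1, 0; 0, 0, 1]) (B := !![1, 0, 1; 0, 1, 0; 0, 0, 1]) (D := !![1, 0, 0; 0, -1, 0; 0, 0, -1])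
    rfl rfl rfl ?_ ?_ ?_ ?_ ?_ ?_
  · simp [one_fin_three]; grind
  · simp [one_fin_three]; grind
  · simp
  · simp [one_fin_three]; grind
  · simp [one_fin_three]
  · simp [one_fin_three]

theorem psp {L : Type*} [Group L] {F : Type} [Field F] [Fintype F] (h : Fintype.card F = 3)
    (e : L ≃* PSp 2 F) : ∃ E : Subgroup L, EA 3 E ∧ Nat.card E = 9 := by
  have := char3 (Or.inl h)
  have m : ∀ S : Matrix (Fin 2) (Fin 2) F, Sᵀ = S → fromBlocks 1 S 0 1 ∈ symplecticGroup (Fin 2) F := fun S hS => by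
    rw [SymplecticGroup.mem_iff]
    simp [J, fromBlocks_transpose, fromBlocks_multiply, hS]
  refine e9m e (symplecticGroup (Fin 2) F).subtype Subtype.val_injective
    ⟨_, m !![1, 0; 0, 0] (by ext i j; fin_cases i <;> fin_cases j <;> rfl)⟩
    ⟨_, m !![0, 0; 0, 1] (by ext i j; fin_cases i <;> fin_cases j <;> rfl)⟩ ⟨_, SymplecticGroup.J_mem _ _⟩
    (A := fromBlocks 1 !![1, 0; 0, 0] 0 1) (B := fromBlocks 1 !![0, 0; 0, 1] 0 1) (D := fromBlocks 0 (-1) 1 0)
    rfl rfl rfl ?_ ?_ ?_ ?_ ?_ ?_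
  all_goals
    try rw [← fromBlocks_one]
    simp only [fromBlocks_multiply, List.forall_mem_cons, List.not_mem_nil, IsEmpty.forall_iff, implies_true,
      ne_eq, Matrix.mul_one, Matrix.one_mul, Matrix.mul_zero, Matrix.zero_mul, add_zero, zero_add,
      ← Matrix.ext_iff]
    simp
    try grind

theorem psu {L : Type*} [Group L] {F : Type} [Field F] [Fintype F] (h : Fintype.card F = 9)
    (e : L ≃* PSU 3 F 3) : ∃ E : Subgroup L, EA 3 E ∧ Nat.card E = 9 := by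
  have := char3 (Or.inr h)
  obtain ⟨c, hc⟩ : IsSquare (-1 : F) := FiniteField.isSquare_neg_one_iff.2 (by rw [h]; decide)
  have m : ∀ (A : Matrix (Fin 3) (Fin 3) F) (d : A.det = 1),
      (∀ u v, hermForm 3 F 3 (A *ᵥ u) (A *ᵥ v) = hermForm 3 F 3 u v) → (⟨A, d⟩ : SpecialLinearGroup (Fin 3) F) ∈ SU 3 F 3 :=
    fun A d h => h
  refine e9m e ((slToMat 3 F).comp (SU 3 F 3).subtype) ((slinj 3 F).comp Subtype.val_injective)
    ⟨_, m !![0, 1, 0; 0, 0, 1; 1, 0, 0] (by simp [det_fin_three]) fun u v => ?_⟩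
    ⟨_, m !![1 + c, c, c; c, 1 + c, c; c, c, 1 + c] (by simp [det_fin_three]; grind) fun u v => ?_⟩
    ⟨_, m !![-1, 0, 0; 0, -1, 0; 0, 0, 1] (by simp [det_fin_three]) fun u v => ?_⟩
    (A := !![0, 1, 0; 0, 0, 1; 1, 0, 0]) (B := !![1 + c, c, c; c, 1 + c, c; c, c, 1 + c])
    (D := !![-1, 0, 0; 0, -1, 0; 0, 0, 1]) rfl rfl rfl ?_ ?_ ?_ ?_ ?_ ?_
  · simp [hermForm, mulVec, dotProduct, Fin.sum_univ_succ]; ring
  · simp [hermForm, mulVec, dotProduct, Fin.sum_univ_succ]; grind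
  · simp [hermForm, mulVec, dotProduct, Fin.sum_univ_succ]; ring
  · simp [one_fin_three]
  · simp [one_fin_three]; grind
  · simp
  · simp only [List.forall_mem_cons, List.not_mem_nil, IsEmpty.forall_iff, implies_true, and_true]
    refine ⟨⟨trivial, ?_, ?_⟩, ⟨?_, ?_, ?_⟩, ?_, ?_, ?_⟩ <;> intro q
    all_goals
      exfalso
      have q1 := congrFun (congrFun q 0) 2
      have q2 := congrFun (congrFun q 1) 2
      clear q m
      simp [one_fin_three] at q1 q2 <;> grind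
  · simp [one_fin_three]
  · simp [one_fin_three]; grind

theorem alt6 {L : Type*} [Group L] (e : L ≃* alternatingGroup (Fin 6)) :
    ∃ E : Subgroup L, EA 3 E ∧ Nat.card E = 9 := by
  let a : alternatingGroup (Fin 6) := ⟨Equiv.swap 0 1 * Equiv.swap 1 2, Equiv.Perm.mem_alternatingGroup.2 (by decide)⟩
  let b : alternatingGroup (Fin 6) := ⟨Equiv.swap 3 4 * Equiv.swap 4 5, Equiv.Perm.mem_alternatingGroup.2 (by decide)⟩
  refine e9 (a := e.symm a) (b := e.symm b) (by rw [← map_pow, show a ^ 3 = 1 by decide, map_one])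
    (by rw [← map_pow, show b ^ 3 = 1 by decide, map_one])
    (Commute.map (show a * b = b * a by decide) e.symm) fun i hi j hj q => ?_
  rw [← map_pow, ← map_pow, ← map_mul, e.symm.map_eq_one_iff] at q
  revert q
  interval_cases i <;> interval_cases j <;> decide

end NC3_

theorem concl_split {L : Type*} [Group L] (hL : Concl L) :
    (∃ E : Subgroup L, EA 3 E ∧ Nat.card E = 9) ∨ Nonempty (L ≃* alternatingGroup (Fin 5)) ∨
      L2 7 L ∨ L2 8 L ∨ L2 17 L := by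
  rcases hL with h | ⟨⟨e⟩⟩ | ⟨F, _, _, h, ⟨e⟩⟩ | ⟨F, _, _, h | h | h, e⟩ | ⟨F, _, _, h, ⟨e⟩⟩ | ⟨F, _, _, h, ⟨e⟩⟩
  · exact Or.inr (Or.inl h)
  · exact Or.inl (NC3_.alt6 e)
  · exact Or.inl (NC3_.psp h e)
  · exact Or.inr (Or.inr (Or.inl ⟨F, _, _, h, e⟩))
  · exact Or.inr (Or.inr (Or.inr (Or.inl ⟨F, _, _, h, e⟩)))
  · exact Or.inr (Or.inr (Or.inr (Or.inr ⟨F, _, _, h, e⟩)))
  · exact Or.inl (NC3_.psu h e)
  · exact Or.inl (NC3_.psl h e)

end K3P
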