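import Mathlib
import Cfsg.Agent.Lib.K3P.Defs
import Cfsg.Agent.Lib.K3P.AR2
import Cfsg.Prelude.Def_LocalEven
import Cfsg.Agent.Lib.LocEven.CharP
import Cfsg.Agent.Lib.Core.Fitting
import Cfsg.Agent.Lib.Char.BurnsidePQ

/-! K3P package O3, see `blueprint/K3P/README.md`. -/

set_option autoImplicit false
set_option linter.unusedSectionVars false
set_option linter.unusedVariables false

namespace K3P

open Cfsg Subgroup H71KM
open scoped commutatorElement

universe u

variable {G : Type u} [Group G] [Finite G] {p : ℕ} {Q K S Z X : Subgroup G} {h : G} {ψ : V3 → G}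

theorem O3_.not_dvd (B : B0 G p) {y : G} (hy : orderOf y = 3) : ¬ p ∣ Nat.card (Ce y) := fun h => by
  haveI := Fact.mk B.prime
  obtain ⟨x, hx⟩ := exists_prime_orderOf_dvd_card' p h
  have hx' : orderOf (x : G) = p := by rw [Subgroup.orderOf_coe, hx]
  have h1 : y ∈ zpowers (x : G) := B.sc x hx' ▸
    mem_centralizer_singleton_iff.2 (mem_centralizer_singleton_iff.1 x.2).symm
  have h2 := orderOf_dvd_of_mem_zpowers h1
  rw [hy, hx'] at h2
  have := (Nat.prime_dvd_prime_iff_eq Nat.prime_three B.prime).1 h2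
  have := B.five
  omega

theorem O3_.charP (B : B0 G p) (h3 : C3 G) {y : G} (hy : orderOf y = 3) : H70.CharP 3 (Ce y) := by
  haveI := Fact.mk Nat.prime_three
  have h1 : y ≠ 1 := by rintro rfl; simp at hy
  haveI := B.solv_ce h1 (by
    rw [hy]; exact fun h => by have := Nat.le_of_dvd (by norm_num) h; have := B.five; omega)
  refine H70.charP_iff.2 (H1.centralizer_pCore_le_of_isSolvable
    (H1.pPrimeCore_eq_bot_iff.2 fun N hN hc => ?_))
  obtain ⟨a, b, e⟩ := B.ord
  have h2 : Nat.card N ∣ 2 ^ b := by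
    have h4 : Nat.card N ∣ p * 3 ^ a * 2 ^ b :=
      e ▸ (card_subgroup_dvd_card N).trans (card_subgroup_dvd_card _)
    refine Nat.Coprime.dvd_of_dvd_mul_left (Nat.Coprime.mul_right ?_ (hc.pow_right a)) h4
    exact ((Nat.Prime.coprime_iff_not_dvd B.prime).2 fun h5 =>
      O3_.not_dvd B hy (h5.trans (card_subgroup_dvd_card N))).symm
  obtain ⟨k, -, hk⟩ := (Nat.dvd_prime_pow Nat.prime_two).1 h2
  have h5 := h3 y h1 ⟨1, by rw [pow_one, ← hy, pow_orderOf_eq_one]⟩ (N.map (Ce y).subtype)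
    ((IsPGroup.of_card hk).map _) (map_subtype_le N) (by
      have := H70.map_normalizer_le (Ce y).subtype (A := ⊤) (B := N) (normalizer_eq_top N).ge
      rwa [← MonoidHom.range_eq_map, range_subtype] at this)
  exact (map_eq_bot_iff_of_injective N (Ce y).subtype_injective).1 h5

theorem exists_o3 (B : B0 G p) (h3 : C3 G) {y : G} (hy : orderOf y = 3) :
    ∃ R : Subgroup G, IsPGroup 3 R ∧ R ≤ Ce y ∧ Ce y ≤ 𝐍(R) ∧ Ce y ⊓ 𝐂(R) ≤ R :=
  ⟨pCoreOf 3 (Ce y), H70.isPGroup_pCoreOf 3 _, H70.pCoreOf_le 3 _, H70.le_normalizer_pCoreOf 3 _,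
    O3_.charP B h3 hy⟩

theorem loc3 (B : B0 G p) (h3 : C3 G) : IsOfLocalCharacteristic 3 G := by
  haveI := Fact.mk Nat.prime_three
  refine ⟨?_, fun T hT h0 => H70.charP_iff.1 ?_⟩
  · obtain ⟨a, b, e⟩ := B.ord
    rcases a with _ | a
    · haveI := B.simple
      haveI := H8.isSolvable_of_card_dvd (G := G) (a := 1) (b := b) B.prime Nat.prime_two
        (by rw [e]; simp)
      exact absurd ⟨⟨IsSimpleGroup.comm_iff_isSolvable.2 this⟩⟩ B.nab
    · exact e ▸ ((dvd_pow_self 3 a.succ_ne_zero).mul_left p).mul_right _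
  · haveI : Nontrivial T := (nontrivial_iff_ne_bot T).2 h0
    haveI := hT.center_nontrivial
    obtain ⟨k, hk0, hk⟩ := (hT.to_subgroup (center T)).nontrivial_iff_card.1 this
    obtain ⟨z, hz⟩ := exists_prime_orderOf_dvd_card' (G := center T) 3
      (hk ▸ dvd_pow_self 3 hk0.ne')
    have hy : orderOf ((z : T) : G) = 3 := by rw [Subgroup.orderOf_coe, Subgroup.orderOf_coe, hz]
    have h1 : T ≤ Ce ((z : T) : G) := fun t ht => mem_centralizer_singleton_iff.2
      (congrArg Subtype.val (mem_center_iff.1 z.2 ⟨t, ht⟩))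
    have h2 := (O3_.charP B h3 hy).inf_centralizer hT h1
    rw [inf_of_le_right (centralizer_le (Set.singleton_subset_iff.2 (z : T).2)), ← top_inf_eq
      (centralizer (T : Set G))] at h2
    exact H70.CharP.of_centralizer hT h2 le_normalizer
      (inf_le_right.trans (centralizer_le_normalizer _)) (le_inf le_top le_rfl)

end K3P
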