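import Mathlib
import Cfsg.Agent.Lib.K3P.Defs
import Cfsg.Agent.Lib.K3P.O3

/-! K3P package R2, see `blueprint/K3P/README.md`. -/

set_option autoImplicit false
set_option linter.unusedSectionVars false
set_option linter.unusedVariables false

namespace K3P

open Cfsg Subgroup H71KM
open scoped commutatorElement

universe u

variable {G : Type u} [Group G] [Finite G] {p : ℕ} {Q K S Z X : Subgroup G} {h : G} {ψ : V3 → G}

namespace R2_

theorem n_ce {c s : G} (h : s * c = c * s) : s ∈ 𝐍(Ce c) :=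
  le_normalizer (mc.2 h)

theorem cz {y s : G} (h : s * y = y * s) : s ∈ 𝐂(zpowers y) := by
  rw [H70.centralizer_zpowers]; exact mc.2 h

theorem pair (hr : PRankLE 3 2 G) {y c s : G} {N : Subgroup G} (hy : orderOf y = 3) (hN : IsPGroup 3 N)
    (hNy : N ≤ Ce y) (hc : c * c = 1) (hs : s * s = 1) (hcs : s * c = c * s) (hcN : c ∈ 𝐍(N)) (hsN : s ∈ 𝐍(N))
    (hcy : c * y = y * c) (hsy : s * y = y * s) (h1 : ⁅N, N⁆ ≤ Ce c) (h2 : ¬ N ≤ Ce c) : N ⊓ Ce c ≤ Ce s := by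
  have : Fact (Nat.Prime 3) := ⟨Nat.prime_three⟩
  by_contra h3
  obtain ⟨x', hx', hx1', hp', e3⟩ := exists_inverted hN hc hcN h2
  have hsI : s ∈ 𝐍(N ⊓ Ce c) :=
    H2.le_normalizer_inf (zpowers_le_of_mem hsN) (zpowers_le_of_mem (n_ce hcs)) (mem_zpowers s)
  obtain ⟨x, hx, hx1, hp, e1⟩ := exists_inverted (hN.to_le inf_le_left) hs hsI h3
  have e2 : c * x * c⁻¹ = x := conj_of_mc (mc_symm hx.2)
  have hcomm := comm_of_fix (p := 3) (by norm_num) hx.1 hx' hp' h1 e2 e3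
  have hy3 : y ^ 3 = 1 := by rw [← hy, pow_orderOf_eq_one]
  have hD : EA 3 (zpowers y) := by
    simpa using EA.sup (p := 3) (D := ⊥) ⟨inferInstance, fun b hb => by rw [mem_bot.1 hb, one_pow]⟩ (x := y)
      (fun d hd => by rw [mem_bot.1 hd, one_mul, mul_one]) hy3
  obtain ⟨hE, hcard⟩ := two (p := 3) (by norm_num) hD (cz (mc.1 (hNy hx.1))) (cz (mc.1 (hNy hx'))) hp hp' hx1 hx1'
    hcomm (cz hsy) (cz hcy) e1 e2 e3
  have := hr _ hE.1 hE.2
  rw [hcard, Nat.card_zpowers, hy] at this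
  norm_num at this

theorem key (hr : PRankLE 3 2 G) {y a b : G} {N : Subgroup G} (hy : orderOf y = 3) (hN : IsPGroup 3 N)
    (hNy : N ≤ Ce y) (ha : a * a = 1) (hb : b * b = 1) (ha1 : a ≠ 1) (hb1 : b ≠ 1) (hne : a ≠ b)
    (hab : a * b = b * a) (haN : a ∈ 𝐍(N)) (hbN : b ∈ 𝐍(N))
    (hay : a * y = y * a) (hby : b * y = y * b) (h1 : ⁅N, N⁆ ≤ Ce a) (h2 : ¬ N ≤ Ce a) (h3 : ¬ N ≤ Ce b)
    (h4 : ¬ N ≤ Ce (a * b)) : False := by
  have : Fact (Nat.Prime 3) := ⟨Nat.prime_three⟩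
  have p1 := pair hr hy hN hNy ha hb hab.symm haN hbN hay hby h1 h2
  have hNN : ⁅N, N⁆ ≤ N := commutator_le.2 fun g hg k hk => by
    rw [commutatorElement_def]
    exact mul_mem (mul_mem (mul_mem hg hk) (inv_mem hg)) (inv_mem hk)
  have p2 := pair hr hy hN hNy hb ha hab hbN haN hby hay ((le_inf hNN h1).trans p1) h3
  have hm : ∀ x : G, x ∈ Ce a → x ∈ Ce b → x ∈ Ce (a * b) := fun x e1 e2 =>
    mc_symm (mul_mem (mc_symm e1) (mc_symm e2))
  exact h4 (le_of_four (p := 3) (by norm_num) ha hb ha1 hb1 hab hne hN haN hbN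
    (fun x hx => hm x hx.2 (p1 hx)) (fun x hx => hm x (p2 hx) hx.2) inf_le_right)

end R2_

theorem r1_of_rank (B : B0 G p) (h3 : C3 G) (hr : PRankLE 3 2 G) : R1 G := by
  have : Fact (Nat.Prime 3) := ⟨Nat.prime_three⟩
  intro y s t hy hs ht hst hsy hty
  by_contra hcon
  push Not at hcon
  obtain ⟨hs1, ht1, hne⟩ := hcon
  obtain ⟨R, hR, hRy, hn, hc⟩ := exists_o3 B h3 hy
  have nc : ∀ u : G, u * u = 1 → u ≠ 1 → u * y = y * u → ¬ R ≤ Ce u := fun u hu hu1 huy hle =>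
    hu1 (eq_one_of_mem (p := 2) (q := 3) (by norm_num) (isPGroup_zp hu) hR (mem_zpowers u)
      (hc ⟨mc.2 huy, fun g hg => mc.1 (hle hg)⟩))
  have hst2 : s * t * (s * t) = 1 := by
    calc s * t * (s * t) = s * (t * s) * t := by group
      _ = (s * s) * (t * t) := by rw [← hst]; group
      _ = 1 := by rw [hs, ht, one_mul]
  have hst1 : s * t ≠ 1 := fun e => hne (by
    calc s = s * (t * t) := by rw [ht, mul_one]
      _ = t := by rw [← mul_assoc, e, one_mul])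
  have hsty : s * t * y = y * (s * t) := by rw [mul_assoc, hty, ← mul_assoc, hsy, mul_assoc]
  obtain ⟨N, ⟨h1, h2, c1, c2, c3⟩, hmin⟩ := (wellFounded_lt (α := Subgroup G)).has_min
    {N : Subgroup G | N ≤ R ∧ 𝐍(R) ≤ 𝐍(N) ∧ ¬ N ≤ Ce s ∧ ¬ N ≤ Ce t ∧ ¬ N ≤ Ce (s * t)}
    ⟨R, le_rfl, le_rfl, nc s hs hs1 hsy, nc t ht ht1 hty, nc _ hst2 hst1 hsty⟩
  have hN := hR.to_le h1
  have hlt := H1.commutator_self_lt_of_isSolvable (H1.isSolvable_of_isPGroup hN)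
    (N := N) (by rintro rfl; exact c1 bot_le)
  have hsN : s ∈ 𝐍(N) := h2 (hn (mc.2 hsy))
  have htN : t ∈ 𝐍(N) := h2 (hn (mc.2 hty))
  have hNy := h1.trans hRy
  by_cases d1 : ⁅N, N⁆ ≤ Ce s
  · exact R2_.key hr hy hN hNy hs ht hs1 ht1 hne hst hsN htN hsy hty d1 c1 c2 c3
  by_cases d2 : ⁅N, N⁆ ≤ Ce t
  · exact R2_.key hr hy hN hNy ht hs ht1 hs1 hne.symm hst.symm htN hsN hty hsy d2 c2 c1 (hst ▸ c3)
  by_cases d3 : ⁅N, N⁆ ≤ Ce (s * t)
  · have e : s * t * t = s := by rw [mul_assoc, ht, mul_one]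
    refine R2_.key hr hy hN hNy hst2 ht hst1 ht1 (fun e' => hs1 ?_) ?_ (mul_mem hsN htN) htN hsty hty d3 c3 c2
      (by rw [e]; exact c1)
    · exact mul_eq_right.1 e'
    · rw [e, ← mul_assoc, ← hst, e]
  exact hmin _ ⟨hlt.le.trans h1, H2.le_normalizer_commutator h2 h2, d1, d2, d3⟩ hlt

end K3P
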