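import Mathlib
import Cfsg.Agent.Lib.K3P.Defs

/-! K3P package SEC1, see `blueprint/K3P/README.md`. -/

set_option autoImplicit false
set_option linter.unusedSectionVars false
set_option linter.unusedVariables false

namespace K3P

open Cfsg Subgroup H71KM
open scoped commutatorElement

universe u

variable {G : Type u} [Group G] [Finite G] {p : ℕ} {Q K S Z X : Subgroup G} {h : G} {ψ : V3 → G}

theorem exists_mq (B : B2 G p) (hns : NS2 G) : ∃ Q : Subgroup G, MQ Q ∧ ¬ Group.IsSolvable 𝐍(Q) := by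
  obtain ⟨N, hN, hs⟩ := hns
  obtain ⟨M, hNM, hM⟩ := Finite.exists_le_maximal (p := fun M : Subgroup G => IsTwoLocal M) hN
  obtain ⟨T, hT, T1, eT⟩ := hM.prop
  have hTQ : T ≤ pCoreOf 2 M := H70.le_pCoreOf hT (eT ▸ le_normalizer) eT.le
  have Q1 : pCoreOf 2 M ≠ ⊥ := fun e => T1 (le_bot_iff.1 (e ▸ hTQ))
  have hQ := H70.isPGroup_pCoreOf 2 M
  have mx : ∀ R : Subgroup G, IsPGroup 2 R → R ≠ ⊥ → M ≤ 𝐍(R) → 𝐍(R) ≤ M := fun R h1 h2 h3 =>
    hM.le_of_ge ⟨R, h1, h2, rfl⟩ h3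
  have e : 𝐍(pCoreOf 2 M) = M :=
    le_antisymm (mx _ hQ Q1 (H70.le_normalizer_pCoreOf 2 M)) (H70.le_normalizer_pCoreOf 2 M)
  have hc : H70.CharP 2 M := by
    rw [eT]
    exact H70.charP_iff.2 (B.c2.2 T hT T1)
  refine ⟨pCoreOf 2 M, ⟨hQ, Q1, fun x hx => hc ⟨e ▸ centralizer_le_normalizer _ hx, hx⟩, ?_, ?_⟩, ?_⟩
  · rw [e]
    exact fun R h1 h2 h3 => H70.le_pCoreOf h1 h2 h3
  · rw [e]
    exact mx
  · rw [e]
    exact fun k => hs (H1.isSolvable_of_le k hNM)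

theorem n9_of_quo (hQ : IsPGroup 2 Q) (h1 : Q ≠ ⊥) (hK : K ≤ 𝐍(Q)) {L : Type*} [Group L] (hq : Quo Q K L)
    (E : Subgroup L) (hE : EA 3 E) (h9 : Nat.card E = 9) : N9 G := by
  obtain ⟨f, hf, hk⟩ := hq
  haveI : Fact (Nat.Prime 3) := ⟨by norm_num⟩
  haveI : Finite L := Finite.of_surjective f hf
  let g : E.comap f →* E := (f.comp (E.comap f).subtype).codRestrict E fun x => x.2
  have gs : Function.Surjective g := fun e => by
    obtain ⟨k, hk⟩ := hf e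
    exact ⟨⟨k, by rw [mem_comap, hk]; exact e.2⟩, Subtype.ext hk⟩
  obtain ⟨P⟩ : Nonempty (Sylow 3 (E.comap f)) := inferInstance
  have hE3 : IsPGroup 3 E := IsPGroup.of_card (n := 2) h9
  have hm : (P : Subgroup (E.comap f)).map g = ⊤ := by
    have := (P.mapSurjective gs).is_maximal' (Q := ⊤) (hE3.to_subgroup ⊤) le_top
    exact this.symm
  have inj : ∀ x ∈ (P : Subgroup (E.comap f)), g x = 1 → x = 1 := fun x hx e => by
    have k1 : ((x : K) : G) ∈ Q := (hk x).1 (congrArg Subtype.val e)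
    obtain ⟨a, ha⟩ := hQ ⟨_, k1⟩
    obtain ⟨b, hb⟩ := P.isPGroup' ⟨x, hx⟩
    have ha0 : ((x : K) : G) ^ 2 ^ a = 1 := congrArg Subtype.val ha
    have ha' : x ^ 2 ^ a = 1 := Subtype.ext (Subtype.ext ha0)
    have hb' : x ^ 3 ^ b = 1 := congrArg Subtype.val hb
    exact (pow_eq_one_iff_of_coprime (Nat.Coprime.pow a b (by norm_num))).1 ⟨ha', hb'⟩
  have cP : Nat.card (P : Subgroup (E.comap f)) = 9 := by
    rw [← h9]
    refine Nat.card_eq_of_bijective (g.comp (P : Subgroup (E.comap f)).subtype) ⟨?_, fun e => ?_⟩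
    · exact (injective_iff_map_eq_one _).2 fun x e => Subtype.ext (inj x x.2 e)
    · obtain ⟨x, hx, e'⟩ : e ∈ (P : Subgroup (E.comap f)).map g := hm ▸ mem_top e
      exact ⟨⟨x, hx⟩, e'⟩
  refine ⟨Q, ((P : Subgroup (E.comap f)).map (E.comap f).subtype).map K.subtype, hQ, h1,
    (map_subtype_le _).trans hK, ⟨⟨⟨?_⟩⟩, ?_⟩, by rw [card_subtype, card_subtype, cP]⟩
  · rintro ⟨_, _, ⟨x, hx, rfl⟩, rfl⟩ ⟨_, _, ⟨y, hy, rfl⟩, rfl⟩
    have : x * y * (y * x)⁻¹ = 1 := inj _ (mul_mem (mul_mem hx hy) (inv_mem (mul_mem hy hx))) (by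
      rw [map_mul, map_inv, map_mul, map_mul, hE.1.1.1 (g x) (g y), mul_inv_cancel])
    exact Subtype.ext (congrArg (fun z : E.comap f => ((z : K) : G)) (mul_inv_eq_one.1 this))
  · rintro _ ⟨_, ⟨x, hx, rfl⟩, rfl⟩
    have : x ^ 3 = 1 := inj _ (pow_mem hx 3) (by
      rw [map_pow]; exact Subtype.ext (hE.2 _ (g x).2))
    exact congrArg (fun z : E.comap f => ((z : K) : G)) this


end K3P
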