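import Mathlib
import Cfsg.Agent.Lib.K3P.Defs
import Cfsg.Agent.Lib.K3P.AR2
import Cfsg.Agent.Lib.K3P.SEC1
import Cfsg.Agent.S0144
import Cfsg.Agent.Lib.Core.Coprime
import Cfsg.Agent.Lib.Core.PCore

/-! K3P package SEC2, see `blueprint/K3P/README.md`. -/

set_option autoImplicit false
set_option linter.unusedSectionVars false
set_option linter.unusedVariables false

namespace K3P

open Cfsg Subgroup H71KM
open scoped commutatorElement

universe u

variable {G : Type u} [Group G] [Finite G] {p : ℕ} {Q K S Z X : Subgroup G} {h : G} {ψ : V3 → G}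

namespace SEC2_

theorem form32 {n a b : ℕ} (hd : n ∣ 3 ^ a * 2 ^ b) : ∃ c d : ℕ, n = 3 ^ c * 2 ^ d := by
  obtain ⟨y, z, hy, hz, e⟩ := (Nat.dvd_mul).1 hd
  obtain ⟨c, -, rfl⟩ := (Nat.dvd_prime_pow Nat.prime_three).1 hy
  obtain ⟨d, -, rfl⟩ := (Nat.dvd_prime_pow Nat.prime_two).1 hz
  exact ⟨c, d, e.symm⟩

theorem form {n p a b : ℕ} (hp : p.Prime) (hd : n ∣ p * 3 ^ a * 2 ^ b) (hpn : p ∣ n) :
    ∃ c d : ℕ, n = p * 3 ^ c * 2 ^ d := by
  obtain ⟨m, rfl⟩ := hpn
  rw [mul_assoc] at hd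
  obtain ⟨c, d, e⟩ := form32 (Nat.dvd_of_mul_dvd_mul_left hp.pos hd)
  exact ⟨c, d, by rw [e, mul_assoc]⟩

theorem dvd32 {n p a b : ℕ} (hp : p.Prime) (hd : n ∣ p * 3 ^ a * 2 ^ b) (hn : ¬ p ∣ n) :
    n ∣ 3 ^ a * 2 ^ b := by
  rw [mul_assoc] at hd
  exact ((hp.coprime_iff_not_dvd.2 hn).symm).dvd_of_dvd_mul_left hd

theorem solv23 {Y : Type*} [Group Y] [Finite Y] {p a b : ℕ} (hp : p.Prime)
    (hd : Nat.card Y ∣ p * 3 ^ a * 2 ^ b) (hn : ¬ p ∣ Nat.card Y) : Group.IsSolvable Y := by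
  obtain ⟨c, d, e⟩ := form32 (dvd32 hp hd hn)
  exact Cfsg.Agent.S0144.result 3 2 c d Nat.prime_three Nat.prime_two e

theorem nsq {p a b : ℕ} (hp : p.Prime) (h5 : 5 ≤ p) : ¬ p * p ∣ p * 3 ^ a * 2 ^ b := by
  intro hd
  rw [mul_assoc] at hd
  rcases (hp.dvd_mul).1 (Nat.dvd_of_mul_dvd_mul_left hp.pos hd) with h | h
  · have := Nat.le_of_dvd (by norm_num) (hp.dvd_of_dvd_pow h)
    omega
  · have := Nat.le_of_dvd (by norm_num) (hp.dvd_of_dvd_pow h)
    omega

theorem mem_of_sq {Y : Type*} [Group Y] [Finite Y] {p : ℕ} (hp : p.Prime) (hs : ¬ p * p ∣ Nat.card Y)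
    (N : Subgroup Y) [N.Normal] (hN : p ∣ Nat.card N) {z : Y} (hz : z ^ p = 1) : z ∈ N := by
  haveI : Fact p.Prime := ⟨hp⟩
  by_contra hzN
  have h1 : (QuotientGroup.mk z : Y ⧸ N) ≠ 1 := fun e => hzN ((QuotientGroup.eq_one_iff z).1 e)
  have h2 : (QuotientGroup.mk z : Y ⧸ N) ^ p = 1 := by
    rw [← QuotientGroup.mk_pow, hz, QuotientGroup.mk_one]
  have h3 : p ∣ Nat.card (Y ⧸ N) := by
    have := orderOf_dvd_natCard (QuotientGroup.mk z : Y ⧸ N)
    rwa [orderOf_eq_prime h2 h1] at this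
  apply hs
  rw [card_eq_card_quotient_mul_card_subgroup N]
  exact Nat.mul_dvd_mul h3 hN

theorem dvd_normal {Y : Type*} [Group Y] [Finite Y] {p a b : ℕ} (hp : p.Prime) (h5 : 5 ≤ p)
    (hd : Nat.card Y ∣ p * 3 ^ a * 2 ^ b) (x : Y) (hx : orderOf x = p)
    (hc : ∀ y, y * x = x * y → y ∈ zpowers x)
    (h2 : ∀ N : Subgroup Y, N.Normal → IsPGroup 2 N → N = ⊥)
    (h9 : ∀ E : Subgroup Y, EA 3 E → Nat.card E ≠ 9)
    (N : Subgroup Y) [N.Normal] (h1 : N ≠ ⊥) : p ∣ Nat.card N := by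
  by_contra hn
  have hdN : Nat.card N ∣ p * 3 ^ a * 2 ^ b := (card_subgroup_dvd_card N).trans hd
  obtain ⟨M, r, hr, hM, M1, hMN, hab, hex, hpg, -⟩ :=
    H1.exists_elementary_abelian_normal_le N h1 (solv23 hp hdN hn)
  haveI : Fact r.Prime := ⟨hr⟩
  obtain ⟨k, hk⟩ := IsPGroup.iff_card.1 hpg
  have k0 : k ≠ 0 := by
    rintro rfl
    exact M1 (card_eq_one.1 (by simpa using hk))
  have hrM : r ∣ Nat.card M := hk ▸ dvd_pow_self r k0
  have hr32 : r ∣ 3 ^ a * 2 ^ b := (hrM.trans (card_dvd_of_le hMN)).trans (dvd32 hp hdN hn)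
  rcases (hr.dvd_mul).1 hr32 with h | h
  · have e : r = 3 := (Nat.prime_dvd_prime_iff_eq hr Nat.prime_three).1 (hr.dvd_of_dvd_pow h)
    subst e
    by_cases k1 : k = 1
    · subst k1
      have c3 : Nat.card M = 3 := by simpa using hk
      haveI : IsCyclic M := isCyclic_of_prime_card c3
      have ca : Nat.card (MulAut M) = 2 := by
        rw [IsCyclic.card_mulAut, c3]; decide
      have o1 : orderOf (MulAut.conjNormal (H := M) x) ∣ 2 := ca ▸ orderOf_dvd_natCard _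
      have o2 : orderOf (MulAut.conjNormal (H := M) x) ∣ p := hx ▸ orderOf_map_dvd _ x
      have o3 : MulAut.conjNormal (H := M) x = 1 := by
        rw [← orderOf_eq_one_iff]
        have cp : Nat.Coprime 2 p := (Nat.coprime_primes Nat.prime_two hp).2 (by omega)
        exact Nat.eq_one_of_dvd_coprimes cp o1 o2
      have le : M ≤ zpowers x := fun m hm => by
        apply hc
        have := congrArg Subtype.val (DFunLike.congr_fun o3 ⟨m, hm⟩)
        rw [MulAut.conjNormal_apply] at this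
        have e : x * m * x⁻¹ = m := this
        rw [mul_inv_eq_iff_eq_mul] at e
        exact e.symm
      have := card_dvd_of_le le
      rw [c3, Nat.card_zpowers, hx] at this
      have := (Nat.prime_dvd_prime_iff_eq Nat.prime_three hp).1 this
      omega
    · obtain ⟨E, hE⟩ := Sylow.exists_subgroup_card_pow_prime (G := M) 3 (n := 2)
        (hk ▸ pow_dvd_pow 3 (by omega))
      refine h9 (E.map M.subtype) ⟨?_, fun b hb => hex b (map_subtype_le E hb)⟩ ?_
      · rw [comm_iff] at hab ⊢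
        exact (map_subtype_le E).trans (hab.trans (centralizer_le (map_subtype_le E)))
      · rw [card_map_of_injective M.subtype_injective, hE]; norm_num
  · have e : r = 2 := (Nat.prime_dvd_prime_iff_eq hr Nat.prime_two).1 (hr.dvd_of_dvd_pow h)
    subst e
    exact M1 (h2 M hM hpg)

theorem core {Y : Type*} [Group Y] [Finite Y] {p a b : ℕ} (hp : p.Prime) (h5 : 5 ≤ p)
    (hd : Nat.card Y ∣ p * 3 ^ a * 2 ^ b) (hns : ¬ Group.IsSolvable Y) (x : Y) (hx : orderOf x = p)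
    (hc : ∀ y, y * x = x * y → y ∈ zpowers x)
    (h2 : ∀ N : Subgroup Y, N.Normal → IsPGroup 2 N → N = ⊥)
    (h9 : ∀ E : Subgroup Y, EA 3 E → Nat.card E ≠ 9) :
    ∃ N : Subgroup Y, N.Normal ∧ IsSimpleGroup N ∧ ¬ IsMulCommutative N ∧ p ∣ Nat.card N ∧
      ∀ g : Y, (∀ n ∈ N, g * n = n * g) → g = 1 := by
  haveI : Fact p.Prime := ⟨hp⟩
  have A : ∀ (N : Subgroup Y) [N.Normal], N ≠ ⊥ → p ∣ Nat.card N := fun N _ h1 =>
    dvd_normal hp h5 hd x hx hc h2 h9 N h1
  have hs : ¬ p * p ∣ Nat.card Y := fun h => nsq hp h5 (h.trans hd)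
  have xp : x ^ p = 1 := hx ▸ pow_orderOf_eq_one x
  have x1 : x ≠ 1 := by
    rintro rfl
    rw [orderOf_one] at hx
    omega
  have B : ∀ (N : Subgroup Y) [N.Normal], N ≠ ⊥ → x ∈ N := fun N _ h1 =>
    mem_of_sq hp hs N (A N h1) xp
  have t1 : (⊤ : Subgroup Y) ≠ ⊥ := fun e => x1 (mem_bot.1 (e ▸ mem_top x))
  obtain ⟨N, hN, N1, -, hmin⟩ := H1.exists_minimal_normal_le (⊤ : Subgroup Y) t1
  have xN : x ∈ N := B N N1
  have C : 𝐂(N) = ⊥ := by
    by_contra C1
    have xC : x ∈ 𝐂(N) := B _ C1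
    have le : N ≤ zpowers x := fun n hn => hc n ((mem_centralizer_iff.1 xC) n hn)
    haveI : IsCyclic N := Subgroup.isCyclic_of_le le
    haveI : Group.IsSolvable (MulAut N) :=
      Group.isSolvable_of_isSolvable_injective (f := (IsCyclic.mulAutMulEquiv N).toMonoidHom)
        (IsCyclic.mulAutMulEquiv N).injective
    haveI : Group.IsSolvable (zpowers x) := Group.isSolvable_of_comm fun a b => mul_comm' a b
    refine hns (Group.isSolvable_of_ker_le_range (zpowers x).subtype (MulAut.conjNormal (H := N)) ?_)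
    intro y hy
    rw [range_subtype]
    apply hc
    have := congrArg Subtype.val (DFunLike.congr_fun (MonoidHom.mem_ker.1 hy) ⟨x, xN⟩)
    rw [MulAut.conjNormal_apply] at this
    have e : y * x * y⁻¹ = x := this
    rwa [mul_inv_eq_iff_eq_mul] at e
  refine ⟨N, hN, ?_, ?_, A N N1, fun g hg => ?_⟩
  · haveI : Nontrivial N := (nontrivial_iff_ne_bot N).2 N1
    refine ⟨fun N₁ hN₁ => ?_⟩
    by_cases d1 : p ∣ Nat.card N₁
    · right
      have hsN : ¬ p * p ∣ Nat.card N := fun h => hs (h.trans (card_subgroup_dvd_card N))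
      have l1 : normalClosure ({x} : Set Y) ≤ N := normalClosure_le_normal (by simpa using xN)
      have e1 : normalClosure ({x} : Set Y) = N := by
        refine (hmin _ inferInstance l1).resolve_left fun e => x1 ?_
        have : x ∈ normalClosure ({x} : Set Y) := subset_normalClosure rfl
        rwa [e, mem_bot] at this
      have l2 : normalClosure ({x} : Set Y) ≤ N₁.map N.subtype := by
        refine (closure_le _).2 fun z hz => ?_
        obtain ⟨w, hw, hz'⟩ := Group.mem_conjugatesOfSet_iff.1 hz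
        have hw' : x = w := (Set.mem_singleton_iff.1 hw).symm
        subst hw'
        obtain ⟨c, rfl⟩ := isConj_iff.1 hz'
        have m : c * x * c⁻¹ ∈ N := hN.conj_mem _ xN c
        refine ⟨⟨_, m⟩, mem_of_sq hp hsN N₁ d1 (Subtype.ext ?_), rfl⟩
        show (c * x * c⁻¹) ^ p = 1
        rw [conj_pow, xp, mul_one, mul_inv_cancel]
      rw [e1] at l2
      rw [eq_top_iff]
      intro n _
      obtain ⟨m, hm, e⟩ := l2 n.2
      have : m = n := Subtype.ext e
      exact this ▸ hm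
    · left
      have l1 : N₁ ≤ pPrimeCore p N := H1.le_pPrimeCore_of_not_dvd d1
      have e : (pPrimeCore p N).map N.subtype = ⊥ := by
        by_contra e
        have := A _ e
        rw [card_map_of_injective N.subtype_injective] at this
        exact H1.not_dvd_card_pPrimeCore this
      rw [map_eq_bot_iff_of_injective _ N.subtype_injective] at e
      exact le_bot_iff.1 (e ▸ l1)
  · intro hab
    rw [comm_iff, C] at hab
    exact N1 (le_bot_iff.1 hab)
  · have : g ∈ 𝐂(N) := mem_centralizer_iff.2 fun n hn => (hg n hn).symm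
    rwa [C, mem_bot] at this

theorem le_norm {G : Type*} [Group G] (H : Subgroup G) (N : Subgroup H) [N.Normal] :
    H ≤ 𝐍(N.map H.subtype) := by
  have := le_normalizer_map (H := N) H.subtype
  rwa [normalizer_eq_top, ← MonoidHom.range_eq_map, range_subtype] at this

end SEC2_

theorem exists_sec (T : Th G p) (M : MQ Q) (hns : ¬ Group.IsSolvable 𝐍(Q)) :
    ∃ K : Subgroup G, Sec Q K ∧ ∃ (L : Type u) (_ : Group L) (_ : Finite L), IsSimpleGroup L ∧
      ¬ IsMulCommutative L ∧ Quo Q K L ∧ Nat.card L < Nat.card G ∧ ∃ a b : ℕ, Nat.card L = p * 3 ^ a * 2 ^ b := by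
  have B := T.toB2.toB0
  have hp := B.prime
  have h5 := B.five
  haveI : Fact p.Prime := ⟨hp⟩
  haveI : Fact (Nat.Prime 2) := ⟨Nat.prime_two⟩
  obtain ⟨a, b, hG⟩ := B.ord
  let Qh : Subgroup 𝐍(Q) := Q.subgroupOf 𝐍(Q)
  haveI : Qh.Normal := normal_in_normalizer
  let π : 𝐍(Q) →* 𝐍(Q) ⧸ Qh := QuotientGroup.mk' Qh
  have πs : Function.Surjective π := QuotientGroup.mk'_surjective Qh
  have πk : ∀ k : 𝐍(Q), π k = 1 ↔ (k : G) ∈ Q := fun k => QuotientGroup.eq_one_iff k
  have ker : π.ker = Qh := QuotientGroup.ker_mk' Qh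
  have hQh : IsPGroup 2 Qh := M.pg.comap_subtype
  have sQ : Group.IsSolvable Qh := by
    haveI := hQh.isNilpotent
    infer_instance
  have dH : Nat.card 𝐍(Q) ∣ p * 3 ^ a * 2 ^ b := hG ▸ card_subgroup_dvd_card _
  have dY : Nat.card (𝐍(Q) ⧸ Qh) ∣ p * 3 ^ a * 2 ^ b := (card_quotient_dvd_card Qh).trans dH
  have nY : ¬ Group.IsSolvable (𝐍(Q) ⧸ Qh) := fun h =>
    hns ((Group.isSolvable_iff_subgroup_quotient Qh).2 ⟨sQ, h⟩)
  have pH : p ∣ Nat.card 𝐍(Q) := by
    by_contra hn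
    exact hns (SEC2_.solv23 hp dH hn)
  obtain ⟨x, hx⟩ := exists_prime_orderOf_dvd_card' p pH
  obtain ⟨k, hk⟩ := IsPGroup.iff_card.1 hQh
  have cop : Nat.Coprime p (Nat.card Qh) := by
    rw [hk]
    exact ((Nat.coprime_primes hp Nat.prime_two).2 (by omega)).pow_right k
  have ox : orderOf (π x) = p := by
    refine orderOf_eq_prime (by rw [← map_pow, ← hx, pow_orderOf_eq_one, map_one]) fun e => ?_
    have m : x ∈ Qh := ker ▸ e
    have := Subgroup.orderOf_dvd_natCard Qh m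
    rw [hx] at this
    exact hp.one_lt.ne' (Nat.eq_one_of_dvd_coprimes cop dvd_rfl this)
  have hc : ∀ y, y * π x = π x * y → y ∈ zpowers (π x) := by
    intro y hy
    have e := H2.map_centralizer_of_surjective (A := zpowers x) π πs
      (by rw [Nat.card_zpowers, hx, ker]; exact cop) (Or.inr (by rw [ker]; exact sQ))
    have m : y ∈ centralizer ((zpowers x).map π : Set (𝐍(Q) ⧸ Qh)) := by
      rw [MonoidHom.map_zpowers]
      refine mem_centralizer_iff.2 ?_
      rintro _ ⟨n, rfl⟩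
      exact ((Commute.zpow_right (show Commute y (π x) from hy) n).eq).symm
    rw [← e] at m
    obtain ⟨c, hc, rfl⟩ := m
    have c1 : x * c = c * x := mem_centralizer_iff.1 hc x (mem_zpowers x)
    have c2 : (c : G) ∈ Ce (x : G) := mem_centralizer_singleton_iff.2 (congrArg Subtype.val c1).symm
    rw [B.sc x (by rw [orderOf_coe, hx])] at c2
    obtain ⟨n, hn⟩ := c2
    have : x ^ n = c := Subtype.ext hn
    exact ⟨n, by rw [← this, map_zpow]⟩
  have h2 : ∀ N : Subgroup (𝐍(Q) ⧸ Qh), N.Normal → IsPGroup 2 N → N = ⊥ := by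
    intro N hN hpN
    have l := M.o2 ((N.comap π).map 𝐍(Q).subtype)
      ((hpN.comap_of_ker_isPGroup π (by rw [ker]; exact hQh)).map _) (map_subtype_le _) (SEC2_.le_norm _ _)
    rw [eq_bot_iff]
    intro n hn
    obtain ⟨m, rfl⟩ := πs n
    exact (πk m).2 (l ⟨m, hn, rfl⟩)
  have h9 : ∀ E : Subgroup (𝐍(Q) ⧸ Qh), EA 3 E → Nat.card E ≠ 9 := fun E hE h9 =>
    T.n9 (n9_of_quo M.pg M.ne le_rfl ⟨π, πs, πk⟩ E hE h9)
  obtain ⟨N, hN, hs, hab, pN, hcN⟩ := SEC2_.core hp h5 dY nY (π x) ox hc h2 h9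
  have kle : (N.comap π).map 𝐍(Q).subtype ≤ 𝐍(Q) := map_subtype_le _
  have mem : ∀ k : 𝐍(Q), (k : G) ∈ (N.comap π).map 𝐍(Q).subtype ↔ π k ∈ N := fun k =>
    ⟨fun ⟨m, hm, e⟩ => (Subtype.ext e : m = k) ▸ hm, fun h => ⟨k, h, rfl⟩⟩
  refine ⟨(N.comap π).map 𝐍(Q).subtype, ⟨M, fun q hq => ?_, kle, SEC2_.le_norm _ _, fun g hg h => ?_⟩,
    N, inferInstance, inferInstance, hs, hab, ?_, ?_,
    SEC2_.form hp ((card_subgroup_dvd_card N).trans dY) pN⟩
  · refine (mem ⟨q, le_normalizer hq⟩).2 ?_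
    rw [(πk ⟨q, le_normalizer hq⟩).2 hq]
    exact N.one_mem
  · refine (πk ⟨g, hg⟩).1 (hcN _ fun n hn => ?_)
    obtain ⟨m, rfl⟩ := πs n
    have := (πk ⁅(⟨g, hg⟩ : 𝐍(Q)), m⁆).2 (h m ((mem m).2 hn))
    rwa [map_commutatorElement, commutatorElement_eq_one_iff_mul_comm] at this
  · refine ⟨(π.comp (inclusion kle)).codRestrict N fun k => (mem (inclusion kle k)).1 k.2, fun n => ?_,
      fun k => ?_⟩
    · obtain ⟨m, hm⟩ := πs n
      exact ⟨⟨m, (mem m).2 (hm ▸ n.2)⟩, Subtype.ext hm⟩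
    · exact ⟨fun e => (πk (inclusion kle k)).1 (congrArg Subtype.val e),
        fun e => Subtype.ext ((πk (inclusion kle k)).2 e)⟩
  · have l1 : Nat.card N ≤ Nat.card (𝐍(Q) ⧸ Qh) := card_le_card_group N
    have l2 : Nat.card 𝐍(Q) ≤ Nat.card G := card_le_card_group _
    have l3 := card_eq_card_quotient_mul_card_subgroup Qh
    have l4 : 1 < Nat.card Qh := by
      rw [one_lt_card_iff_ne_bot]
      intro e
      apply M.ne
      rw [eq_bot_iff]
      intro q hq
      have : (⟨q, le_normalizer hq⟩ : 𝐍(Q)) ∈ Qh := hq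
      rw [e, mem_bot] at this
      exact congrArg Subtype.val this
    have l5 : 0 < Nat.card (𝐍(Q) ⧸ Qh) := Nat.card_pos
    nlinarith


end K3P
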