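import Mathlib
import Cfsg.Agent.Lib.K3P.Defs
import Cfsg.Agent.Lib.K3P.O3

/-! K3P package T0, see `blueprint/K3P/README.md`. -/

set_option autoImplicit false
set_option linter.unusedSectionVars false
set_option linter.unusedVariables false

namespace K3P

open Cfsg Subgroup H71KM
open scoped commutatorElement

universe u

variable {G : Type u} [Group G] [Finite G] {p : ℕ} {Q K S Z X : Subgroup G} {h : G} {ψ : V3 → G}

namespace T0_

theorem step (h9 : ¬ N9 G) {R : Subgroup G} {y s u : G} (hy : orderOf y = 3) (hR : IsPGroup 3 R)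
    (hRy : R ≤ Ce y) (hs : s * s = 1) (hu : u * u = 1) (u1 : u ≠ 1) (sR : s ∈ 𝐍(R)) (sy : s * y = y * s)
    (su : s * u = u * s) (uy : u * y = y * u) : R ⊓ centralizer {u} ≤ centralizer {s} := by
  haveI : Fact (Nat.Prime 3) := ⟨by decide⟩
  by_contra hn
  have sC : s ∈ 𝐍((centralizer {u} : Subgroup G)) := le_normalizer (mc.2 su)
  obtain ⟨x, ⟨hx, hxu⟩, x1, x3, e⟩ := exists_inverted (p := 3) (P := R ⊓ centralizer {u}) hR.to_inf_left hs
    (H2.le_normalizer_inf (zpowers_le_of_mem sR) (zpowers_le_of_mem sC) (mem_zpowers s)) hn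
  have y3 : y ^ 3 = 1 := hy ▸ pow_orderOf_eq_one y
  have eY : EA 3 (zpowers y) := ⟨inferInstance, fun b ⟨k, hk⟩ => by
    rw [← hk]; simp only; rw [← zpow_natCast, ← zpow_mul, mul_comm, zpow_mul, zpow_natCast, y3, one_zpow]⟩
  have xc : x ∈ 𝐂(zpowers y) := by rw [H70.centralizer_zpowers]; exact hRy hx
  have sc : s ∈ 𝐂(zpowers y) := by rw [H70.centralizer_zpowers]; exact mc.2 sy
  refine h9 ⟨zpowers u, zpowers y ⊔ zpowers x, isPGroup_zp hu, by simpa using u1, ?_, eY.sup xc x3, ?_⟩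
  · refine le_trans ?_ (centralizer_le_normalizer _)
    rw [H70.centralizer_zpowers]
    exact sup_le (zpowers_le_of_mem (mc.2 uy.symm)) (zpowers_le_of_mem hxu)
  · rw [card_sup xc x3 (not_mem_of_inverted (by decide) sc x3 x1 e), Nat.card_zpowers, hy]

end T0_

theorem r1_of_thin (B : B0 G p) (h3 : C3 G) (h9 : ¬ N9 G) : R1 G := by
  haveI : Fact (Nat.Prime 3) := ⟨by decide⟩
  intro y s t hy hs ht st sy ty
  by_contra hn
  simp only [not_or] at hn
  obtain ⟨s1, t1, ne⟩ := hn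
  obtain ⟨R, hR, hRy, hN, hC⟩ := exists_o3 B h3 hy
  have sR := hN (mc.2 sy)
  have cst : Commute s t := st
  have uu : s * t * (s * t) = 1 := by rw [cst.symm.mul_mul_mul_comm, hs, ht, one_mul]
  have u1 : s * t ≠ 1 := fun e => ne (mul_right_cancel (e.trans ht.symm))
  have k : R ≤ centralizer {s} := le_of_four (p := 3) (by decide) hs ht s1 t1 st ne hR sR (hN (mc.2 ty))
    inf_le_right (T0_.step h9 hy hR hRy hs ht t1 sR sy st ty)
    (T0_.step h9 hy hR hRy hs uu u1 sR sy ((Commute.refl s).mul_right cst).eq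
      (Commute.mul_left (a := s) sy ty).eq)
  have m : s ∈ R := hC ⟨mc.2 sy, fun r hr => mc.1 (k hr)⟩
  exact s1 (eq_one_of_mem (p := 2) (q := 3) (by decide) (isPGroup_zp hs) hR (mem_zpowers s) m)

theorem cent9 (hR : R1 G) (h9 : N9 G) :
    ∃ (t : G) (E : Subgroup G), orderOf t = 2 ∧ EA 3 E ∧ Nat.card E = 9 ∧ E ≤ Ce t := by
  haveI : Fact (Nat.Prime 3) := ⟨by decide⟩
  obtain ⟨T, E, hT, T1, hE, eE, c9⟩ := h9
  have nZ : E ≤ 𝐍((T ⊓ 𝐂(T) : Subgroup G)) := H2.le_normalizer_inf hE (H2.le_normalizer_centralizer hE)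
  have Z1 : (T ⊓ 𝐂(T) : Subgroup G) ≠ ⊥ := by
    haveI : Nontrivial T := (nontrivial_iff_ne_bot T).2 T1
    haveI := hT.center_nontrivial
    obtain ⟨⟨z, hz⟩, z1⟩ := exists_ne (1 : center T)
    intro e
    have : (z : G) ∈ (T ⊓ 𝐂(T) : Subgroup G) :=
      ⟨z.2, fun g hg => congrArg Subtype.val (mem_center_iff.1 hz ⟨g, hg⟩)⟩
    rw [e, mem_bot] at this
    exact z1 (Subtype.ext (Subtype.ext this))
  have nc : ¬ IsCyclic E := fun hc => by
    have h6 := IsCyclic.exponent_eq_card (α := E)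
    have h7 : Monoid.exponent E ∣ 3 :=
      Monoid.exponent_dvd_of_forall_pow_eq_one fun g => Subtype.ext (eE.2 g g.2)
    rw [h6, c9] at h7
    exact absurd h7 (by decide)
  have pZ : IsPGroup 2 (T ⊓ 𝐂(T) : Subgroup G) := hT.to_inf_left
  obtain ⟨y, hy, y1, hne⟩ := H2.exists_inf_centralizer_ne_bot eE.1 nc nZ
    (cop (p := 3) (q := 2) (by decide) eE.isPGroup pZ) Z1
  obtain ⟨t, ⟨ht, ty⟩, tp⟩ := H2.exists_mem_prime_orderOf hne
  have o2 : orderOf t = 2 := by
    obtain ⟨k, hk⟩ := H70.isPGroup_iff_mem.1 pZ t ht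
    exact (Nat.prime_dvd_prime_iff_eq tp Nat.prime_two).1 (tp.dvd_of_dvd_pow (orderOf_dvd_of_pow_eq_one hk))
  have tt : t * t = 1 := by rw [← pow_two, ← o2, pow_orderOf_eq_one]
  have t1 : t ≠ 1 := fun e => by rw [e, orderOf_one] at o2; exact absurd o2 (by decide)
  refine ⟨t, E, o2, eE, c9, fun e he => mc_of_conj ?_⟩
  have m : e * t * e⁻¹ ∈ (T ⊓ 𝐂(T) : Subgroup G) := (mem_normalizer_iff.1 (nZ he) t).1 ht
  have ey : Commute e y := (eE.le_cent hy e he)
  have ty' : Commute t y := mc.1 ty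
  rcases hR y (e * t * e⁻¹) t (orderOf_eq_prime (eE.2 y hy) y1) (by rw [conj_mul, tt, mul_one, mul_inv_cancel]) tt
    (ht.2 _ m.1) ((ey.mul_left ty').mul_left ey.inv_left).eq ty'.eq with k | k | k
  · exact absurd (by simpa [mul_assoc] using congrArg (fun x => e⁻¹ * x * e) k) t1
  · exact absurd k t1
  · exact k


end K3P
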