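import Mathlib
import Cfsg.Agent.Lib.K3P.Defs
import Cfsg.Agent.Lib.K3P.AR2

/-! K3P package T1, see `blueprint/K3P/README.md`. -/

set_option autoImplicit false
set_option linter.unusedSectionVars false
set_option linter.unusedVariables false

namespace K3P

open Cfsg Subgroup H71KM
open scoped commutatorElement

universe u

variable {G : Type u} [Group G] [Finite G] {p : ℕ} {Q K S Z X : Subgroup G} {h : G} {ψ : V3 → G}

namespace T1_

/-- no elementary abelian subgroup of order nine -/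
def H9 (Y : Type*) [Group Y] : Prop :=
  ∀ w y : Y, w ^ 3 = 1 → y ^ 3 = 1 → w ≠ 1 → y * w = w * y → y ∈ zpowers w

variable {Y Y' : Type*} [Group Y] [Finite Y] [Group Y']

theorem ea3 {w : Y} (h : w ^ 3 = 1) : EA 3 (zpowers w) :=
  ⟨inferInstance, by rintro _ ⟨k, rfl⟩; rw [← zpow_natCast, ← zpow_mul, mul_comm, zpow_mul, zpow_natCast, h, one_zpow]⟩

theorem cz {w y : Y} (h : y * w = w * y) : y ∈ 𝐂(zpowers w) := by
  rw [H70.centralizer_zpowers]; exact mc.2 h

theorem zp3 {w x : Y} (h : w ^ 3 = 1) (hx : x ∈ zpowers w) : x = 1 ∨ x = w ∨ x = w⁻¹ := by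
  obtain ⟨k, rfl⟩ := (mem_powers_iff_mem_zpowers).2 hx
  have : k % 3 = 0 ∨ k % 3 = 1 ∨ k % 3 = 2 := by omega
  simp only [pow_eq_pow_mod k h]
  rcases this with e | e | e <;> rw [e]
  · simp
  · simp
  · exact .inr (.inr (eq_inv_of_mul_eq_one_left (by rw [← pow_succ, h])))

theorem H9.quot (h : H9 Y) {f : Y →* Y'} (hf : Function.Surjective f) (hk : IsPGroup 2 f.ker) : H9 Y' :=
  fun w y hw hy h1 c => by
  have : Finite Y' := Finite.of_surjective f hf
  obtain ⟨P, hP⟩ := ((ea3 hw).sup (cz c) hy).isPGroup.exists_le_sylow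
  obtain ⟨S, rfl⟩ := Sylow.mapSurjective_surjective hf 3 P
  obtain ⟨t, ht, rfl⟩ := hP (mem_sup_left (mem_zpowers w))
  obtain ⟨s, hs, rfl⟩ := hP (mem_sup_right (mem_zpowers y))
  have k : ∀ x ∈ (S : Subgroup Y), f x = 1 → x = 1 := fun x hx e =>
    eq_one_of_mem (p := 3) (q := 2) (by decide) S.2 hk hx e
  obtain ⟨i, rfl⟩ := h t s (k _ (pow_mem ht 3) (by rw [map_pow, hw])) (k _ (pow_mem hs 3) (by rw [map_pow, hy]))
    (fun e => h1 (by rw [e, map_one]))
    (mul_inv_eq_one.1 (k _ (mul_mem (mul_mem hs ht) (inv_mem (mul_mem ht hs))) (by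
      rw [map_mul, map_inv, map_mul, map_mul, c, mul_inv_cancel])))
  exact ⟨i, (map_zpow f t i).symm⟩

theorem core [Group.IsSolvable Y] (h2 : pCore 2 Y = ⊥) (hr : ∀ r, r.Prime → r ∣ Nat.card Y → r = 2 ∨ r = 3)
    (h9 : H9 Y) : ∃ w : Y, w ^ 3 = 1 ∧ (w = 1 → ∀ g : Y, g = 1) ∧ (∀ g, g * w * g⁻¹ = w ∨ g * w * g⁻¹ = w⁻¹) ∧
      ∀ a : Y, (∃ k, a ^ 2 ^ k = 1) → a * w = w * a → a = 1 := by
  have hF := H70.isPGroup_pCore 3 Y
  have le : fittingSubgroup Y ≤ pCore 3 Y := by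
    rw [H1.fitting_eq_iSup_pCore]
    refine iSup_le fun q => ?_
    have := Fact.mk q.2
    rcases (H70.isPGroup_pCore q Y).card_eq_or_dvd with e | e
    · exact (card_eq_one.1 e).le.trans bot_le
    · rcases hr q q.2 (e.trans (card_subgroup_dvd_card _)) with e | e <;> rw [e]
      exact h2.le.trans bot_le
  have sc : 𝐂(pCore 3 Y) ≤ pCore 3 Y := (centralizer_le le).trans (H1.centralizer_fitting_le.trans le)
  have nF : (pCore 3 Y).Normal := inferInstance
  generalize pCore 3 Y = F at *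
  by_cases h0 : F = ⊥
  · have k : ∀ g : Y, g = 1 := fun g => by
      rw [h0] at sc
      exact sc fun x hx => by rw [mem_bot.1 hx, one_mul, mul_one]
    exact ⟨1, one_pow _, fun _ => k, fun g => .inl (k _), fun a _ _ => k a⟩
  have := (nontrivial_iff_ne_bot F).2 h0
  have := hF.center_nontrivial
  obtain ⟨⟨⟨w, hw⟩, hc⟩, ho⟩ := exists_prime_orderOf_dvd_card' (G := center F) 3
    ((hF.to_subgroup _).card_eq_or_dvd.resolve_left Finite.one_lt_card.ne')
  rw [← orderOf_coe, ← orderOf_coe] at ho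
  have w3 : w ^ 3 = 1 := ho ▸ pow_orderOf_eq_one w
  have w1 : w ≠ 1 := fun e => by simp [e] at ho
  have m : ∀ x ∈ F, x ^ 3 = 1 → x ∈ zpowers w := fun x hx e =>
    h9 w x w3 e w1 (congrArg Subtype.val (mem_center_iff.1 hc ⟨x, hx⟩))
  refine ⟨w, w3, fun e => (w1 e).elim, fun g => (zp3 w3 (m _ (nF.conj_mem _ hw g) (by
    rw [conj_pow, w3, mul_one, mul_inv_cancel]))).resolve_left (by simpa using w1), fun a ⟨k, hk⟩ c => ?_⟩
  by_contra a1
  obtain ⟨j, h2, h3⟩ := H5.exists_pow_not_mem_pow_mem (K := ⊥) a1 (k := k) (p := 2) hk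
  have c' : _ * w = w * _ := (show Commute a w from c).pow_left (2 ^ j)
  generalize a ^ 2 ^ j = b at *
  have b2 : b * b = 1 := by rw [← sq]; exact h3
  obtain ⟨x, hx, x1, x3, e⟩ := exists_inverted hF b2 (by rw [normalizer_eq_top]; trivial) fun hle =>
    h2 (eq_one_of_mem (p := 3) (q := 2) (by decide) hF (isPGroup_zp b2)
      (sc (H70.le_centralizer_singleton_iff.1 hle)) (mem_zpowers b))
  exact not_mem_of_inverted (p := 3) (by decide) (cz c') x3 x1 e (m x hx x3)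

theorem main [Group.IsSolvable Y] (h2 : pCore 2 Y = ⊥) (hr : ∀ r, r.Prime → r ∣ Nat.card Y → r = 2 ∨ r = 3)
    (h9 : H9 Y) {E : Subgroup Y} (hE : IsPGroup 2 E) :
    Nat.card E ≤ 2 ∧ ∀ y : Y, y ^ 3 = 1 → y ≠ 1 → y ∈ 𝐍(E) → E = ⊥ := by
  obtain ⟨w, w3, w1, hg, ha⟩ := core h2 hr h9
  have k : ∀ e ∈ E, e * w * e⁻¹ = w → e = 1 := fun e he c =>
    ha e (H70.isPGroup_iff_mem.1 hE e he) (mul_inv_eq_iff_eq_mul.1 c)
  refine ⟨?_, fun y y3 y1 hy => eq_bot_iff.2 fun e he => (hg e).elim (k e he) fun c => ?_⟩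
  · refine (Nat.card_le_card_of_injective (fun e : E => (e : Y) * w * (e : Y)⁻¹ = w) fun a b e => ?_).trans
      (by simp)
    have : (a : Y) * w * (a : Y)⁻¹ = b * w * (b : Y)⁻¹ := by
      by_cases c : (a : Y) * w * (a : Y)⁻¹ = w
      · exact c.trans (e.mp c).symm
      · exact ((hg a).resolve_left c).trans ((hg b).resolve_left fun c' => c (e.mpr c')).symm
    refine Subtype.ext (inv_mul_eq_one.1 (k _ (mul_mem (inv_mem b.2) a.2) ?_)).symm
    calc _ = (b : Y)⁻¹ * (a * w * (a : Y)⁻¹) * b := by group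
      _ = w := by rw [this]; group
  · have w1' : w ≠ 1 := fun e => y1 (w1 e y)
    have c1 : y * w = w * y := (hg y).elim mul_inv_eq_iff_eq_mul.1 fun c => by
      have c2 : Commute (y * y) w := mul_inv_eq_iff_eq_mul.1 (by
        calc _ = y * (y * w * y⁻¹) * y⁻¹ := by group
          _ = w := by rw [c, ← conj_inv, c, inv_inv])
      have := c2.mul_left c2
      rwa [show y * y * (y * y) = y ^ 3 * y by simp only [pow_succ, pow_zero, one_mul, mul_assoc], y3,
        one_mul] at this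
    have wN : w ∈ 𝐍(E) := by
      rcases (zp3 w3 (h9 w y w3 y3 w1' c1)).resolve_left y1 with rfl | rfl
      exacts [hy, inv_mem_iff.1 hy]
    have m : w * w ∈ E := by
      have := mul_mem ((mem_normalizer_iff.1 wN e).1 he) (inv_mem he)
      rwa [show w * e * w⁻¹ * e⁻¹ = w * (e * w * e⁻¹)⁻¹ by group, c, inv_inv] at this
    have := mul_mem m m
    rw [show w * w * (w * w) = w ^ 3 * w by simp only [pow_succ, pow_zero, one_mul, mul_assoc], w3, one_mul] at this
    exact (w1' (k w this (mul_inv_cancel_right w w))).elim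

end T1_

open T1_ in
theorem loc_of (B : B2 G p) (h9 : ¬ N9 G) (A : Subgroup G) (hA : IsPGroup 2 A) (h1 : A ≠ ⊥) :
    ∃ D, Loc A D := by
  obtain ⟨⟨a, ha⟩, a1⟩ := ne_bot_iff_exists_ne_one.1 h1
  replace a1 : a ≠ 1 := fun e => a1 (Subtype.ext e)
  have np : ¬ p ∣ orderOf a := fun d => by
    obtain ⟨k, hk⟩ := H70.isPGroup_iff_mem.1 hA a ha
    have := Nat.le_of_dvd two_pos (B.prime.dvd_of_dvd_pow (d.trans (orderOf_dvd_of_pow_eq_one hk)))
    have := B.five
    omega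
  have hs : Group.IsSolvable 𝐂(A) := H1.isSolvable_of_le (B.solv_ce a1 np) fun x hx => mc_of_mem hx ha
  have hr : ∀ r, r.Prime → r ∣ Nat.card 𝐂(A) → r = 2 ∨ r = 3 := fun r hr d => by
    by_contra n
    have := Fact.mk hr
    have h5 : 5 ≤ r := hr.five_le_of_ne_two_of_ne_three (fun e => n (.inl e)) fun e => n (.inr e)
    obtain rfl := B.eq_p hr h5 (d.trans (card_subgroup_dvd_card _))
    obtain ⟨⟨x, hx⟩, ho⟩ := exists_prime_orderOf_dvd_card' r d
    rw [← orderOf_coe] at ho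
    have m : a ∈ zpowers x := B.sc x ho ▸ mc_symm (mc_of_mem hx ha)
    rcases (Nat.dvd_prime hr).1 (ho ▸ orderOf_dvd_of_mem_zpowers m) with e | e
    exacts [a1 (orderOf_eq_one_iff.1 e), np (e ▸ dvd_rfl)]
  have n9 : H9 𝐂(A) := fun w y hw hy w1 c => by
    by_contra n
    have hw' : (w : G) ^ 3 = 1 := congrArg Subtype.val hw
    have hy' : (y : G) ^ 3 = 1 := congrArg Subtype.val hy
    have c' := cz (congrArg Subtype.val c : (y : G) * w = w * y)
    refine h9 ⟨A, _, hA, h1, (sup_le (zpowers_le.2 w.2) (zpowers_le.2 y.2)).trans (centralizer_le_normalizer _),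
      (ea3 hw').sup c' hy', ?_⟩
    rw [card_sup c' hy' fun ⟨i, e⟩ => n ⟨i, Subtype.ext e⟩, Nat.card_zpowers,
      orderOf_eq_prime hw' fun e => w1 (Subtype.ext e)]
  have sj := QuotientGroup.mk'_surjective (pCore 2 𝐂(A))
  have M := fun (E : Subgroup G) (hE : IsPGroup 2 E) => main (Y := 𝐂(A) ⧸ pCore 2 𝐂(A)) H1.pCore_quotient_pCore
    (fun r h d => hr r h (d.trans (card_quotient_dvd_card _)))
    (n9.quot sj (by rw [QuotientGroup.ker_mk']; exact H70.isPGroup_pCore _ _))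
    ((hE.comap_subtype (K := 𝐂(A))).map (QuotientGroup.mk' _))
  refine ⟨pCoreOf 2 𝐂(A), H70.isPGroup_pCoreOf _ _, H70.pCoreOf_le _ _, H70.le_normalizer_pCoreOf _ _,
    (H70.charP_iff.2 (B.c2.2 A hA h1)).of_normal (centralizer_le_normalizer _)
      (H70.normalizer_le_normalizer_centralizer A), fun E hE le => ?_, fun E hE le y hy ho hn e he => ?_⟩
  · have := (M E hE).1
    rw [← relIndex_ker, QuotientGroup.ker_mk', ← H70.pCoreOf_subgroupOf, ← subgroupOf, relIndex_subgroupOf le] at this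
    rw [← ((pCoreOf 2 𝐂(A)).subgroupOf E).index_mul_card, ← inf_subgroupOf_left,
      Nat.card_congr (subgroupOfEquivOfLe inf_le_left).toEquiv, inf_subgroupOf_left]
    exact Nat.mul_le_mul_right _ this
  · have := (M E hE).2 (QuotientGroup.mk' _ ⟨y, hy⟩)
      (by rw [← map_pow, show (⟨y, hy⟩ : 𝐂(A)) ^ 3 = 1 from Subtype.ext (ho ▸ pow_orderOf_eq_one y), map_one])
      (fun e => by
        have := H70.eq_one_of_mem_isPGroup (H70.isPGroup_pCoreOf 2 𝐂(A))
          (H70.mem_pCoreOf.2 ((QuotientGroup.eq_one_iff _).1 e)) (by rw [ho]; decide)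
        simp [show y = 1 from this] at ho)
      (le_normalizer_map _ ⟨_, le_normalizer_comap _ hn, rfl⟩)
    rw [Subgroup.map_eq_bot_iff, QuotientGroup.ker_mk'] at this
    exact H70.mem_pCoreOf.2 (this (x := ⟨e, le he⟩) he)

end K3P
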