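import Mathlib
import Cfsg.Agent.Lib.K3P.Defs
import Cfsg.Agent.Lib.K3P.AR2
import Cfsg.Agent.Lib.Perm29.AutAlt

/-! K3P package TH4, see `blueprint/K3P/README.md`. -/

set_option autoImplicit false
set_option linter.unusedSectionVars false
set_option linter.unusedVariables false

namespace K3P

open Cfsg Subgroup H71KM
open scoped commutatorElement

universe u

variable {G : Type u} [Group G] [Finite G] {p : ℕ} {Q K S Z X : Subgroup G} {h : G} {ψ : V3 → G}

namespace TH4_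

open Equiv

theorem card_le_four (W : Subgroup (Perm (Fin 5))) (hW : ∀ w ∈ W, w * w = 1) : Nat.card W ≤ 4 := by
  have hp : IsPGroup 2 W := fun ⟨w, hw⟩ => ⟨1, Subtype.ext (by simpa [sq] using hW w hw)⟩
  obtain ⟨P, hP⟩ := hp.exists_le_sylow
  have hc : Nat.card P = 8 := by
    rw [P.card_eq_multiplicity, Nat.card_perm, Nat.card_fin]
    have : Nat.factorial 5 = 2 ^ 3 * 15 := by decide
    rw [this, Nat.factorization_mul (by decide) (by decide), Nat.prime_two.factorization_pow]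
    simp [Nat.factorization_eq_zero_of_not_dvd (n := 15) (p := 2) (by decide)]
  by_contra hlt
  have hd : Nat.card W ∣ 8 := hc ▸ card_dvd_of_le hP
  have h8 : Nat.card W = 8 := by
    have := Nat.le_of_dvd (by decide) hd
    interval_cases h : Nat.card W <;> omega
  have hWP : W = P := eq_of_le_of_card_ge hP (by rw [hc, h8])
  let r : Perm (Fin 5) := swap 0 1 * swap 1 2 * swap 2 3
  have hr : IsPGroup 2 (zpowers r) := IsPGroup.of_card (n := 2) (by
    rw [Nat.card_zpowers]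
    exact orderOf_eq_prime_pow (p := 2) (n := 1) (by decide) (by decide))
  obtain ⟨P', hP'⟩ := hr.exists_le_sylow
  obtain ⟨g, rfl⟩ := MulAction.exists_smul_eq (Perm (Fin 5)) P P'
  have hm := hP' (mem_zpowers r)
  rw [Sylow.coe_subgroup_smul, mem_pointwise_smul_iff_inv_smul_mem, ← hWP] at hm
  have := hW _ hm
  rw [← smul_mul', ← smul_one (MulAut.conj g)⁻¹, smul_left_cancel_iff] at this
  exact absurd this (by decide)

/-- the action on `K/Q` -/
theorem exists_hom (C : Sec Q K) (hq : Quo Q K (alternatingGroup (Fin 5))) :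
    ∃ θ : 𝐍(Q) →* Perm (Fin 5), (∀ g, θ g = 1 ↔ (g : G) ∈ Q) ∧ alternatingGroup (Fin 5) ≤ θ.range := by
  obtain ⟨f, hf, hk⟩ := hq
  let c : 𝐍(Q) →* MulAut K := (normalizerMonoidHom K).comp (inclusion C.nk)
  have hc : ∀ g k, ((c g k : K) : G) = g * k * (g : G)⁻¹ := fun _ _ => rfl
  have hbij := H29.conjNormal_alt_bijective (α := Fin 5) (by simp) (by simp)
  have ex : ∀ g : 𝐍(Q), ∃ π : Perm (Fin 5), ∀ k, (f (c g k)).1 = π * (f k).1 * π⁻¹ := fun g => by
    let φ : alternatingGroup (Fin 5) →* alternatingGroup (Fin 5) :=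
      f.liftOfSurjective hf ⟨f.comp (c g).toMonoidHom, fun k h => (hk _).2 (by
        have := (hk k).1 h
        exact (mem_normalizer_iff.1 g.2 k).1 this)⟩
    have hφ : ∀ k, φ (f k) = f (c g k) := fun k => f.liftOfRightInverse_comp_apply _ _ _ k
    have hs : Function.Surjective φ := fun y => by
      obtain ⟨k, rfl⟩ := hf y
      exact ⟨f ((c g).symm k), by rw [hφ, MulEquiv.apply_symm_apply]⟩
    obtain ⟨π, hπ⟩ := hbij.2 (MulEquiv.ofBijective φ ⟨Finite.injective_iff_surjective.2 hs, hs⟩)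
    refine ⟨π, fun k => ?_⟩
    rw [← hφ]
    exact (congrArg (fun e : MulAut (alternatingGroup (Fin 5)) => (e (f k)).1) hπ).symm
  have un : ∀ π π' : Perm (Fin 5), (∀ k, π * (f k).1 * π⁻¹ = π' * (f k).1 * π'⁻¹) → π = π' :=
    fun π π' h => hbij.1 (MulEquiv.ext fun y => by
      obtain ⟨k, rfl⟩ := hf y
      exact Subtype.ext (h k))
  choose t ht using ex
  let θ : 𝐍(Q) →* Perm (Fin 5) := MonoidHom.mk' t fun a b => un _ _ fun k => by
    rw [← ht, map_mul, MulAut.mul_apply, ht, ht]; simp only [mul_assoc, mul_inv_rev]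
  have hθ : ∀ g k, (f (c g k)).1 = θ g * (f k).1 * (θ g)⁻¹ := ht
  have hK : ∀ k : K, θ ⟨k, C.kle k.2⟩ = (f k).1 := fun k => un _ _ fun k' => by
    rw [← hθ]
    have : c ⟨k, C.kle k.2⟩ k' = k * k' * k⁻¹ := Subtype.ext rfl
    rw [this, map_mul, map_mul, map_inv]; rfl
  refine ⟨θ, fun g => ⟨fun h => C.cent g g.2 fun k hk' => ?_, fun h => ?_⟩, fun y hy => ?_⟩
  · have h1 := hθ g ⟨k, hk'⟩
    rw [h, one_mul, inv_one, mul_one] at h1
    exact (hk (c g ⟨k, hk'⟩ * (⟨k, hk'⟩ : K)⁻¹)).1 (by rw [map_mul, map_inv, Subtype.ext h1, mul_inv_cancel])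
  · have := hK ⟨g, C.le h⟩
    rw [(hk ⟨g, C.le h⟩).2 h] at this
    exact this
  · obtain ⟨k, hk⟩ := hf ⟨y, hy⟩
    exact ⟨_, (hK k).trans (congrArg Subtype.val hk)⟩

theorem card_map {H : Subgroup G} (θ : H →* Perm (Fin 5)) (hθ : ∀ g, θ g = 1 ↔ (g : G) ∈ Q)
    {E : Subgroup G} (hE : E ≤ H) :
    Nat.card E = Nat.card ((E.subgroupOf H).map θ) * Nat.card ↥(E ⊓ Q) := by
  let τ : E →* Perm (Fin 5) := θ.comp (inclusion hE)
  have h1 : τ.range = (E.subgroupOf H).map θ := by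
    rw [MonoidHom.range_comp, inclusion_range]
  have h2 : τ.ker = (E ⊓ Q).subgroupOf E := by
    ext x; rw [MonoidHom.mem_ker, mem_subgroupOf, mem_inf]
    exact (hθ _).trans ⟨fun h => ⟨x.2, h⟩, fun h => h.2⟩
  rw [← τ.ker.index_mul_card, index_ker, h1, h2, Nat.card_congr (subgroupOfEquivOfLe inf_le_left).toEquiv]

/-- a Klein four-group -/
def V4 : Subgroup (Perm (Fin 5)) where
  carrier := {x | x = 1 ∨ x = swap 0 1 * swap 2 3 ∨ x = swap 0 2 * swap 1 3 ∨ x = swap 0 3 * swap 1 2}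
  mul_mem' := by
    rintro a b (rfl | rfl | rfl | rfl) (rfl | rfl | rfl | rfl) <;> simp only [Set.mem_ofPred_eq] <;> decide
  one_mem' := .inl rfl
  inv_mem' := by rintro a (rfl | rfl | rfl | rfl) <;> simp only [Set.mem_ofPred_eq] <;> decide

theorem auto_v4 : True := by
  have := @V4.eq_1
  trivial

theorem mem_V4 {x : Perm (Fin 5)} : x ∈ V4 ↔
    x = 1 ∨ x = swap 0 1 * swap 2 3 ∨ x = swap 0 2 * swap 1 3 ∨ x = swap 0 3 * swap 1 2 := Iff.rfl

theorem card_V4 : Nat.card V4 = 4 := by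
  have : (V4 : Set (Perm (Fin 5))) = ({1, swap 0 1 * swap 2 3, swap 0 2 * swap 1 3, swap 0 3 * swap 1 2} :
      Finset (Perm (Fin 5))) := by
    ext x; simp [mem_V4]
  rw [← SetLike.coe_sort_coe, this, Finset.coe_sort_coe, Nat.card_eq_finsetCard]
  decide

theorem V4_le : V4 ≤ alternatingGroup (Fin 5) := by
  rintro a (rfl | rfl | rfl | rfl) <;> rw [Perm.mem_alternatingGroup] <;> decide

end TH4_

open TH4_ Equiv in
theorem th4 (T : Th G p) (C : Sec Q K) (hq : Quo Q K (alternatingGroup (Fin 5))) :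
    ∃ (S : Subgroup G) (h : G), TH Q S h 4 := by
  obtain ⟨θ, hθ, hA⟩ := exists_hom C hq
  let c : Perm (Fin 5) := swap 0 1 * swap 1 2
  have c3 : c ^ 3 = 1 := by decide
  obtain ⟨g, hg⟩ := hA (show c ∈ alternatingGroup (Fin 5) by rw [Perm.mem_alternatingGroup]; decide)
  obtain ⟨k, hk⟩ := C.pg ⟨(g ^ 3 : 𝐍(Q)), (hθ _).1 (by rw [map_pow, hg, c3])⟩
  have hk' : (g ^ 3) ^ 2 ^ k = 1 := Subtype.ext (congrArg (fun x : Q => (x : G)) hk)
  let h : 𝐍(Q) := g ^ 4 ^ k
  have hh : θ h = c := by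
    rw [map_pow, hg, pow_eq_pow_mod _ c3, Nat.pow_mod, show 4 % 3 = 1 from rfl, one_pow]; rfl
  have h3 : h ^ 3 = 1 := by
    rw [← pow_mul, mul_comm, pow_mul, show (4 : ℕ) = 2 * 2 from rfl, mul_pow, pow_mul, hk', one_pow]
  let S : Subgroup G := (V4.comap θ).map (𝐍(Q)).subtype
  have hSH : S ≤ 𝐍(Q) := map_subtype_le _
  have mS : ∀ x : 𝐍(Q), (x : G) ∈ S ↔ θ x ∈ V4 := fun x =>
    mem_map_iff_mem (f := (𝐍(Q)).subtype) Subtype.val_injective
  have hQS : Q ≤ S := fun x hx => (mS ⟨x, le_normalizer hx⟩).2 (by rw [(hθ _).2 hx]; exact one_mem _)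
  refine ⟨S, h, .inl rfl, hQS, hSH, ?_, fun s hs => ?_, h.2, ?_, ?_, fun s hs e => ?_, fun E hE e => ?_, ?_⟩
  · have : S.subgroupOf 𝐍(Q) = V4.comap θ := Subgroup.ext mS
    rw [card_map θ hθ hSH, inf_eq_right.2 hQS, this, map_comap_eq, inf_eq_right.2 (V4_le.trans hA), card_V4]
  · refine (hθ (⟨s, hSH hs⟩ * ⟨s, hSH hs⟩)).1 ?_
    rw [map_mul]
    rcases (mS ⟨s, hSH hs⟩).1 hs with e | e | e | e <;> rw [e] <;> decide
  · refine mem_normalizer_fintype fun s hs => (mS (h * ⟨s, hSH hs⟩ * h⁻¹)).2 ?_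
    rw [map_mul, map_mul, map_inv, hh]
    rcases (mS ⟨s, hSH hs⟩).1 hs with e | e | e | e <;> rw [e, mem_V4] <;> decide
  · rw [orderOf_coe]
    exact orderOf_eq_prime (p := 3) h3 fun e => absurd (hh.symm.trans (by rw [e, map_one])) (by decide)
  · have e1 := (hθ ⁅h, ⟨s, hSH hs⟩⁆).2 e
    rw [map_commutatorElement, hh] at e1
    refine (hθ ⟨s, hSH hs⟩).1 ?_
    rcases (mS ⟨s, hSH hs⟩).1 hs with e | e | e | e
    · exact e
    all_goals rw [e] at e1; exact absurd e1 (by decide)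
  · rw [card_map θ hθ hE]
    refine Nat.mul_le_mul_right _ (card_le_four _ ?_)
    rintro _ ⟨x, hx, rfl⟩
    rw [← map_mul]; exact (hθ _).2 (e x hx)
  · have h1 := card_map θ hθ (le_refl 𝐍(Q))
    rw [inf_eq_right.2 le_normalizer, subgroupOf_self, ← MonoidHom.range_eq_map, mul_comm] at h1
    have hi : (alternatingGroup (Fin 5)).index = 2 := alternatingGroup.index_eq_two
    have h120 : Nat.card (Perm (Fin 5)) = 120 := by rw [Nat.card_perm, Nat.card_fin]; rfl
    have h2 := θ.range.index_mul_card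
    rcases (Nat.dvd_prime Nat.prime_two).1 (hi ▸ index_dvd_of_le hA) with e | e
    · rw [e, h120] at h2
      exact .inr ⟨rfl, by rw [h1]; congr 1; omega⟩
    · rw [e, h120] at h2
      exact .inl (by rw [h1]; congr 1; omega)

end K3P
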