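import Mathlib
import Cfsg.Agent.Lib.K3P.Defs
import Cfsg.Agent.Lib.K3P.AR2
import Cfsg.Agent.Lib.GL.Basic
import Cfsg.Agent.Lib.LocStruct.SylowIn

/-! K3P package TH8, see `blueprint/K3P/README.md`. -/

set_option autoImplicit false
set_option linter.unusedSectionVars false
set_option linter.unusedVariables false

namespace K3P

open Cfsg Subgroup H71KM
open scoped commutatorElement

universe u

variable {G : Type u} [Group G] [Finite G] {p : ℕ} {Q K S Z X : Subgroup G} {h : G} {ψ : V3 → G}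

namespace TH8_

open Matrix MatrixGroups

/-- the facts on `SL₂(8)` that are used -/
structure Md {M : Type*} [Group M] (U : Subgroup M) (d w : M) : Prop where
  card : Nat.card M = 504
  cU : Nat.card U = 8
  sq : ∀ u ∈ U, u * u = 1
  d7 : d ^ 7 = 1
  d1 : d ≠ 1
  dU : ∀ u ∈ U, d * u * d⁻¹ ∈ U
  fp : ∀ u ∈ U, d * u = u * d → u = 1
  wd : w * d * w⁻¹ = d⁻¹

theorem model (F : Type) [Field F] [Fintype F] [DecidableEq F] (hF : Fintype.card F = 8) :
    center SL(2, F) = ⊥ ∧ ∃ (U : Subgroup SL(2, F)) (d w : SL(2, F)), Md U d w := by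
  have hN : Nat.card F = 8 := by rw [Nat.card_eq_fintype_card, hF]
  have h2 : (2 : F) = 0 := by
    have h8 : ((8 : ℕ) : F) = 0 := hF ▸ FiniteField.cast_card_eq_zero F
    have : (2 : F) ^ 3 = 0 := by rw [← h8]; norm_num
    exact pow_eq_zero_iff (by norm_num) |>.1 this
  refine ⟨card_eq_one.1 (by rw [H10.card_center_SL, hN]; decide), ?_⟩
  obtain ⟨a, ha0, ha1⟩ : ∃ a : F, a ≠ 0 ∧ a ≠ 1 := by
    by_contra hc
    have : (Finset.univ : Finset F) ⊆ {0, 1} := fun x _ => by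
      by_contra hx
      simp only [Finset.mem_insert, Finset.mem_singleton, not_or] at hx
      exact hc ⟨x, hx⟩
    have h3 := Finset.card_le_card this
    have h4 : ({0, 1} : Finset F).card ≤ 2 := Finset.card_le_two
    rw [Finset.card_univ, hF] at h3
    omega
  have a7 : a ^ 7 = 1 := by
    have := FiniteField.pow_card_sub_one_eq_one a ha0
    rwa [hF] at this
  have ex : ∀ A B C : SL(2, F), A.1 = B.1 * C.1 → A = B * C := fun A B C e => Subtype.ext e
  have ex2 : ∀ A B C D : SL(2, F), A.1 * B.1 = C.1 * D.1 → A * B = C * D :=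
    fun A B C D e => Subtype.ext e
  obtain ⟨up0, hup⟩ : ∃ up0 : F → SL(2, F), ∀ c, (up0 c : Matrix (Fin 2) (Fin 2) F) = !![1, c; 0, 1] :=
    ⟨fun c => ⟨!![1, c; 0, 1], by simp [det_fin_two]⟩, fun _ => rfl⟩
  obtain ⟨dg, hdg⟩ : ∃ dg : Fˣ → SL(2, F), ∀ c, (dg c : Matrix (Fin 2) (Fin 2) F) =
      !![(c : F), 0; 0, (c : F)⁻¹] :=
    ⟨fun c => ⟨!![(c : F), 0; 0, (c : F)⁻¹], by simp [det_fin_two]⟩, fun _ => rfl⟩
  obtain ⟨w, hw⟩ : ∃ w : SL(2, F), (w : Matrix (Fin 2) (Fin 2) F) = !![0, 1; -1, 0] :=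
    ⟨⟨!![0, 1; -1, 0], by simp [det_fin_two]⟩, rfl⟩
  let up : Multiplicative F →* SL(2, F) := MonoidHom.mk' (fun c => up0 c.toAdd) fun c c' =>
    ex _ _ _ (by
      rw [hup, hup, hup]
      simp [add_comm])
  have hup' : ∀ c, (up c : Matrix (Fin 2) (Fin 2) F) = !![1, c.toAdd; 0, 1] := fun c => hup _
  have upi : Function.Injective up := fun c c' e => by
    have := congrArg (fun A : SL(2, F) => (A : Matrix (Fin 2) (Fin 2) F) 0 1) e
    simpa [hup'] using this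
  let dh : Fˣ →* SL(2, F) := MonoidHom.mk' dg fun c c' => ex _ _ _ (by
    rw [hdg, hdg, hdg]
    simp [mul_comm])
  have hdh : ∀ c, (dh c : Matrix (Fin 2) (Fin 2) F) = !![(c : F), 0; 0, (c : F)⁻¹] := hdg
  have du : ∀ c : Multiplicative F, dh (Units.mk0 a ha0) * up c =
      up (Multiplicative.ofAdd (a ^ 2 * c.toAdd)) * dh (Units.mk0 a ha0) := fun c => ex2 _ _ _ _ (by
    rw [hdh, hup', hup']
    ext i j
    fin_cases i <;> fin_cases j <;> simp
    field_simp)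
  refine ⟨up.range, dh (Units.mk0 a ha0), w, ?_, ?_, ?_, ?_, ?_, ?_, ?_, ?_⟩
  · rw [H10.card_SL_two, hN]
  · rw [← Nat.card_congr (MonoidHom.ofInjective upi).toEquiv]
    exact hN
  · rintro _ ⟨c, rfl⟩
    rw [← map_mul, ← map_one up]
    congr 1
    apply Multiplicative.toAdd.injective
    rw [toAdd_mul, toAdd_one, ← two_mul, h2, zero_mul]
  · rw [← map_pow, show Units.mk0 a ha0 ^ 7 = 1 from Units.ext a7, map_one]
  · intro e
    have := congrArg (fun A : SL(2, F) => (A : Matrix (Fin 2) (Fin 2) F) 0 0) e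
    exact ha1 (by simpa [hdh] using this)
  · rintro _ ⟨c, rfl⟩
    exact ⟨_, (mul_inv_eq_iff_eq_mul.2 (du c)).symm⟩
  · rintro _ ⟨c, rfl⟩ e
    have e1 := upi (mul_right_cancel ((du c).symm.trans e))
    have e2 : a ^ 2 * c.toAdd = c.toAdd := congrArg Multiplicative.toAdd e1
    have e3 : c.toAdd = 0 := by
      by_contra h0
      have e4 : a ^ 2 = 1 := mul_right_cancel₀ h0 (by rw [e2, one_mul])
      apply ha1
      calc a = a * (a ^ 2) ^ 3 := by rw [e4, one_pow, mul_one]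
        _ = 1 := by rw [← a7]; ring
    rw [show c = 1 from Multiplicative.toAdd.injective e3, map_one]
  · refine mul_inv_eq_iff_eq_mul.2 ?_
    rw [← map_inv]
    refine ex2 _ _ _ _ ?_
    rw [hdh, hdh, hw]
    simp

theorem cardf {M : Type*} [Group M] (f : K →* M) (hf : ∀ k : K, f k = 1 ↔ (k : G) ∈ Q)
    {E : Subgroup G} (hE : E ≤ K) :
    Nat.card E = Nat.card ((E.subgroupOf K).map f) * Nat.card ↥(E ⊓ Q) := by
  have e1 : (f.comp (inclusion hE)).range = (E.subgroupOf K).map f := by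
    rw [MonoidHom.range_comp, inclusion_range]
  have e2 : (f.comp (inclusion hE)).ker = Q.subgroupOf E := by
    ext x
    rw [MonoidHom.mem_ker, MonoidHom.comp_apply, hf, mem_subgroupOf]
    rfl
  have e3 : Nat.card (Q.subgroupOf E) = Nat.card ↥(E ⊓ Q) := by
    rw [← card_map_of_injective E.subtype_injective, subgroupOf_map_subtype, inf_comm]
  rw [← e1, ← e3, ← e2, ← index_ker, index_mul_card]

theorem three (T : Th G p) (C : Sec Q K) (h3 : 3 ∣ Nat.card K) {m : G} (hm : m ∈ 𝐍(Q))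
    (m3 : m ^ 3 = 1) : m ∈ K := by
  haveI : Fact (Nat.Prime 3) := ⟨Nat.prime_three⟩
  by_contra mK
  have em : EA 3 (zpowers m) := by
    simpa using EA.sup (p := 3) (D := ⊥) ⟨inferInstance, fun b hb => by rw [mem_bot.1 hb, one_pow]⟩
      (x := m) (fun d hd => by rw [mem_bot.1 hd, one_mul, mul_one]) m3
  obtain ⟨P, hP, hle⟩ := H69.exists_isSylowIn_le em.isPGroup (zpowers_le.2 hm)
  have hS := hP.inf_normal C.kle C.nk
  have hne := H69.inf_centralizer_ne_bot hS.isP em.isPGroup (zpowers_le.2 (mem_normalizer_fintype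
    fun x hx => ⟨P.mul_mem (P.mul_mem (hle (mem_zpowers m)) hx.1) (P.inv_mem (hle (mem_zpowers m))),
      (mem_normalizer_iff.1 (C.nk hm) x).1 hx.2⟩)) (hS.dvd_card_iff.1 h3)
  obtain ⟨⟨y, hy⟩, oy⟩ := exists_prime_orderOf_dvd_card' 3
    (H69.dvd_card_of_ne_bot hS.isP.to_inf_left hne)
  have oy' : orderOf y = 3 := by rw [← oy]; exact orderOf_coe (⟨y, hy⟩ : ↥(P ⊓ K ⊓ 𝐂(zpowers m)))
  have y3 : y ^ 3 = 1 := by rw [← oy', pow_orderOf_eq_one]
  have ey : EA 3 (zpowers y) := by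
    simpa using EA.sup (p := 3) (D := ⊥) ⟨inferInstance, fun b hb => by rw [mem_bot.1 hb, one_pow]⟩
      (x := y) (fun d hd => by rw [mem_bot.1 hd, one_mul, mul_one]) y3
  have hc : m ∈ 𝐂(zpowers y) := by
    rintro _ ⟨k, rfl⟩
    exact ((show Commute m y from hy.2 m (mem_zpowers m)).zpow_right k).symm.eq
  refine T.n9 ⟨Q, zpowers y ⊔ zpowers m, C.pg, C.ne,
    sup_le (zpowers_le.2 (C.kle hy.1.2)) (zpowers_le.2 hm), ey.sup hc m3, ?_⟩
  rw [card_sup hc m3 fun e => mK (zpowers_le.2 hy.1.2 e), Nat.card_zpowers, oy']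

theorem coset (hQ : IsPGroup 2 Q) {x : G} (ox : orderOf x = 7) (sc : Ce x = zpowers x)
    (xQ : x ∈ 𝐍(Q)) {g : G} (e : x⁻¹ * (g * x * g⁻¹) ∈ Q) : ∃ q ∈ Q, q⁻¹ * g ∈ zpowers x := by
  let φ : Q → Q := fun q => ⟨x⁻¹ * q * x * (q : G)⁻¹,
    mul_mem ((mem_normalizer_iff''.1 xQ _).1 q.2) (inv_mem q.2)⟩
  have inj : Function.Injective φ := fun a b e => by
    have e1 : x⁻¹ * a * x * (a : G)⁻¹ = x⁻¹ * b * x * (b : G)⁻¹ := congrArg Subtype.val e
    have e2 : ((b⁻¹ * a : Q) : G) ∈ zpowers x := by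
      rw [← sc, mem_centralizer_singleton_iff, coe_mul, coe_inv]
      calc (b : G)⁻¹ * a * x = (b : G)⁻¹ * x * (x⁻¹ * a * x * (a : G)⁻¹) * a := by group
        _ = _ := by rw [e1]; group
    obtain ⟨k, hk⟩ := hQ (b⁻¹ * a)
    have d1 : orderOf ((b⁻¹ * a : Q) : G) ∣ 7 := ox ▸ orderOf_dvd_of_mem_zpowers e2
    rw [orderOf_coe] at d1
    have := orderOf_eq_one_iff.1 (Nat.eq_one_of_dvd_coprimes
      (Nat.Coprime.pow_right k (by norm_num : Nat.Coprime 7 2)) d1 (orderOf_dvd_of_pow_eq_one hk))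
    exact (inv_mul_eq_one.1 this).symm
  obtain ⟨q, hq⟩ := Finite.injective_iff_surjective.1 inj ⟨_, e⟩
  have e1 : x⁻¹ * q * x * (q : G)⁻¹ = x⁻¹ * (g * x * g⁻¹) := congrArg Subtype.val hq
  refine ⟨q, q.2, ?_⟩
  rw [← sc, mem_centralizer_singleton_iff]
  calc (q : G)⁻¹ * g * x = (q : G)⁻¹ * x * (x⁻¹ * (g * x * g⁻¹)) * g := by group
    _ = _ := by rw [← e1]; group

theorem core (T : Th G p) (C : Sec Q K) {M : Type*} [Group M] (f : K →* M)
    (hs : Function.Surjective f) (hf : ∀ k : K, f k = 1 ↔ (k : G) ∈ Q) {U : Subgroup M} {d w : M}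
    (m : Md U d w) : ∃ (S : Subgroup G) (h : G), TH Q S h 8 := by
  classical
  haveI : Fact (Nat.Prime 7) := ⟨by norm_num⟩
  haveI : Finite M := Finite.of_surjective f hs
  have cK : Nat.card K = 504 * Nat.card Q := by
    rw [cardf f hf le_rfl, subgroupOf_self, ← MonoidHom.range_eq_map,
      MonoidHom.range_eq_top.2 hs, card_top, m.card, inf_eq_right.2 C.le]
  have p7 : 7 = p := T.eq_p (by norm_num) (by norm_num)
    (Dvd.dvd.trans (by rw [cK]; exact Dvd.dvd.mul_right (by norm_num) _) (card_subgroup_dvd_card K))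
  subst p7
  obtain ⟨g, hg⟩ := hs d
  obtain ⟨k, hk⟩ := C.pg ⟨_, (hf (g ^ 7)).1 (by rw [map_pow, hg, m.d7])⟩
  have hk' : ((g : G) ^ 7) ^ 2 ^ k = 1 := congrArg Subtype.val hk
  obtain ⟨x, fx, x7⟩ : ∃ x : K, f x = d ∧ (x : G) ^ 7 = 1 := by
    refine ⟨g ^ 8 ^ k, ?_, ?_⟩
    · rw [map_pow, hg, pow_eq_pow_mod _ m.d7, Nat.pow_mod]
      simp
    · rw [coe_pow, ← pow_mul, mul_comm, pow_mul, show 8 ^ k = 2 ^ k * 4 ^ k by rw [← mul_pow]; norm_num,
        pow_mul, hk', one_pow]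
  have ox : orderOf (x : G) = 7 := orderOf_eq_prime x7 fun e =>
    m.d1 (by rw [← fx, show x = 1 from Subtype.ext e, map_one])
  have sc := T.sc _ ox
  have zK : zpowers (x : G) ≤ K := zpowers_le.2 x.2
  obtain ⟨v, hv⟩ := hs w
  have syl : H69.IsSylowIn 7 (zpowers (x : G)) K := by
    refine ⟨zK, IsPGroup.of_card (n := 1) (by rw [Nat.card_zpowers, ox, pow_one]), fun R h1 _ h3 => ?_⟩
    obtain ⟨n, hn⟩ := IsPGroup.iff_card.1 h3
    refine (eq_of_le_of_card_ge h1 ?_).symm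
    rw [Nat.card_zpowers, ox, hn]
    by_contra hlt
    have h2 : 2 ≤ n := by
      by_contra hn2
      interval_cases n <;> omega
    exact T.not_sq (r := 7) (by norm_num) (by norm_num)
      ((pow_dvd_pow 7 h2).trans (hn ▸ card_subgroup_dvd_card R))
  have HK : 𝐍(Q) ≤ K := fun g hg => by
    obtain ⟨k, hk, n, hn, rfl⟩ := syl.frattini (C.nk hg)
    have nQ : n ∈ 𝐍(Q) := (mul_mem_cancel_left (C.kle hk)).1 hg
    refine mul_mem hk ?_
    have hm := (mem_normalizer_iff.1 hn x).1 (mem_zpowers _)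
    rw [mem_zpowers_iff_mem_range_orderOf, ox] at hm
    obtain ⟨j, hj, e⟩ := Finset.mem_image.1 hm
    rw [Finset.mem_range] at hj
    have e3 : n ^ 3 * x * (n ^ 3)⁻¹ = (x : G) ^ (j ^ 3 % 7) := by
      rw [← pow_eq_pow_mod _ x7]
      calc n ^ 3 * x * (n ^ 3)⁻¹ = n * (n * (n * x * n⁻¹) * n⁻¹) * n⁻¹ := by
            simp only [pow_succ, pow_zero, one_mul, _root_.mul_inv_rev, mul_assoc]
        _ = _ := by
          rw [← e, ← conj_pow, ← e, ← conj_pow, ← conj_pow, ← e, ← pow_mul, ← pow_mul]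
          congr 1
          ring
    have j0 : j ≠ 0 := by
      rintro rfl
      rw [pow_zero, eq_comm, conj_eq_one_iff] at e
      rw [e, orderOf_one] at ox
      omega
    have x6 : (x : G) ^ 6 = (x : G)⁻¹ := eq_inv_of_mul_eq_one_left (by rw [← pow_succ, x7])
    have hj3 : n ^ 3 * x * (n ^ 3)⁻¹ = x ∨ n ^ 3 * x * (n ^ 3)⁻¹ = (x : G)⁻¹ := by
      have : j ^ 3 % 7 = 1 ∨ j ^ 3 % 7 = 6 := by
        clear e e3
        interval_cases j <;> omega
      rcases this with e' | e'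
      · exact Or.inl (by rw [e3, e', pow_one])
      · exact Or.inr (by rw [e3, e', x6])
    have n6 : n ^ 3 * n ^ 3 ∈ zpowers (x : G) := by
      rw [← sc, mem_centralizer_singleton_iff, ← mul_inv_eq_iff_eq_mul]
      rw [show n ^ 3 * n ^ 3 * x * (n ^ 3 * n ^ 3)⁻¹ = n ^ 3 * (n ^ 3 * x * (n ^ 3)⁻¹) * (n ^ 3)⁻¹ by group]
      rcases hj3 with e' | e'
      · rw [e', e']
      · rw [e', ← conj_inv, e', inv_inv]
    have n42 : (n ^ 14) ^ 3 = 1 := by
      have : (n ^ 3 * n ^ 3) ^ 7 = 1 :=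
        orderOf_dvd_iff_pow_eq_one.1 (ox ▸ orderOf_dvd_of_mem_zpowers n6)
      rwa [← pow_add, ← pow_mul, show (3 + 3) * 7 = 14 * 3 by norm_num, pow_mul] at this
    have n14 : n ^ 14 ∈ K := three T C (by rw [cK]; exact Dvd.dvd.mul_right (by norm_num) _)
      (pow_mem nQ _) n42
    have n3 : n ^ 3 ∈ K := by
      rcases hj3 with e' | e'
      · exact zK (sc ▸ mem_centralizer_singleton_iff.2 (mul_inv_eq_iff_eq_mul.1 e'))
      · have q0 : (x : G) * (v * x * (v : G)⁻¹) ∈ Q := (hf (x * (v * x * v⁻¹))).1 (by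
          rw [map_mul, map_mul, map_mul, map_inv, fx, hv, m.wd, mul_inv_cancel])
        obtain ⟨q, hq, hz⟩ := coset C.pg ox sc (C.kle x.2) (g := n ^ 3 * v) (by
          have := (mem_normalizer_iff.1 (pow_mem nQ 3) _).1 q0
          rw [← conj_mul, e'] at this
          rwa [show n ^ 3 * v * x * (n ^ 3 * v)⁻¹ = n ^ 3 * (v * x * (v : G)⁻¹) * (n ^ 3)⁻¹ by group])
        exact (mul_mem_cancel_right v.2).1 ((mul_mem_cancel_left (inv_mem (C.le hq))).1 (zK hz))
    have := mul_mem (pow_mem n3 5) (inv_mem n14)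
    rwa [← pow_mul, show 3 * 5 = 1 + 14 by norm_num, pow_add, pow_one, mul_inv_cancel_right] at this
  have HK' : 𝐍(Q) = K := le_antisymm HK C.kle
  have QS : Q ≤ (U.comap f).map K.subtype := fun q hq =>
    ⟨⟨q, C.le hq⟩, mem_comap.2 (((hf ⟨q, C.le hq⟩).2 hq).symm ▸ one_mem U), rfl⟩
  refine ⟨(U.comap f).map K.subtype, x, Or.inr rfl, QS, (map_subtype_le _).trans C.kle, ?_, ?_,
    C.kle x.2, ?_, ox, ?_, fun E hE h2 => ?_, Or.inl ?_⟩
  · rw [cardf f hf (map_subtype_le (U.comap f)), inf_eq_right.2 QS, subgroupOf,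
      comap_map_eq_self_of_injective K.subtype_injective, map_comap_eq_self_of_surjective hs, m.cU]
  · rintro _ ⟨s, hs', rfl⟩
    exact (hf (s * s)).1 (by rw [map_mul, m.sq _ hs'])
  · refine mem_normalizer_fintype ?_
    rintro _ ⟨s, hs', rfl⟩
    exact ⟨x * s * x⁻¹, mem_comap.2 (by
      rw [map_mul, map_mul, map_inv, fx]; exact m.dU _ hs'), rfl⟩
  · rintro _ ⟨s, hs', rfl⟩ e
    have := (hf ⁅x, s⁆).2 e
    rw [map_commutatorElement, commutatorElement_eq_one_iff_mul_comm, fx] at this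
    exact (hf s).1 (m.fp _ hs' this)
  · rw [cardf f hf (hE.trans HK)]
    refine Nat.mul_le_mul_right _ ?_
    have hp : IsPGroup 2 ((E.subgroupOf K).map f) := H70.isPGroup_iff_mem.2 (by
      rintro _ ⟨s, hs', rfl⟩
      exact ⟨1, by rw [pow_one, sq, ← map_mul]; exact (hf (s * s)).2 (h2 _ hs')⟩)
    obtain ⟨n, hn⟩ := IsPGroup.iff_card.1 hp
    have hd := card_subgroup_dvd_card ((E.subgroupOf K).map f)
    rw [m.card, hn] at hd
    rw [hn]
    by_contra hlt
    have h4 : 4 ≤ n := by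
      by_contra hn4
      interval_cases n <;> omega
    exact absurd ((pow_dvd_pow 2 h4).trans hd) (by norm_num)
  · rw [HK', cK, mul_comm]
    norm_num

end TH8_

theorem th8 (T : Th G p) (C : Sec Q K) {L : Type*} [Group L] (hq : Quo Q K L) (hL : L2 8 L) :
    ∃ (S : Subgroup G) (h : G), TH Q S h 8 := by
  classical
  obtain ⟨f, hs, hf⟩ := hq
  obtain ⟨F, _, _, hF, ⟨e⟩⟩ := hL
  obtain ⟨hc, U, d, w, m⟩ := TH8_.model F hF
  let e' := e.trans ((QuotientGroup.quotientMulEquivOfEq (by convert hc)).trans QuotientGroup.quotientBot)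
  exact TH8_.core T C (e'.toMonoidHom.comp f) (e'.surjective.comp hs)
    (fun k => by rw [← hf k]; exact e'.map_eq_one_iff) (by convert m)


end K3P
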