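import Mathlib
import Cfsg.Agent.Lib.K3P.Defs
import Cfsg.Agent.Lib.LocStruct.SylowIn

/-! K3P package TI, see `blueprint/K3P/README.md`. -/

set_option autoImplicit false
set_option linter.unusedSectionVars false
set_option linter.unusedVariables false

namespace K3P

open Cfsg Subgroup H71KM
open scoped commutatorElement

universe u

variable {G : Type u} [Group G] [Finite G] {p : ℕ} {Q K S Z X : Subgroup G} {h : G} {ψ : V3 → G}

namespace TI_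

/-- conjugate subgroup -/
abbrev cj (A : Subgroup G) (g : G) : Subgroup G := A.map (MulEquiv.toMonoidHom (MulAut.conj g))

theorem cle {A B : Subgroup G} (e : A ≤ B) : Nat.card A ≤ Nat.card B := card_le_of_le e

theorem big {q n : ℕ} (N : TN Q S h q n) {E : Subgroup G} (hE : E ≤ 𝐍(Q)) (h2 : ∀ e ∈ E, e * e = 1)
    (hc : q * n < Nat.card E) : E ≤ Q := fun u hu => by
  by_contra uQ
  have c1 := N.rank E hE fun e he => h2 e he ▸ one_mem _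
  have c2 := N.free u (hE hu) uQ (h2 u hu ▸ one_mem _)
  have c3 : Nat.card ↥(E ⊓ Q) ≤ Nat.card ↥(Q ⊓ Ce u) := cle fun x hx => ⟨hx.2, mc.2 (by
    have e1 := h2 _ (mul_mem hx.1 hu)
    have e2 := inv_eq_of_mul_eq_one_left e1
    rw [mul_inv_rev, inv_eq_of_mul_eq_one_left (h2 u hu), inv_eq_of_mul_eq_one_left (h2 x hx.1)] at e2
    exact e2.symm)⟩
  rw [c2] at c3
  exact absurd (c1.trans (Nat.mul_le_mul_left q c3)) (not_le.2 hc)

theorem sq {q n : ℕ} (N : TN Q S h q n) (g : G) : ∀ e ∈ cj Q g, e * e = 1 := fun e he => by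
  obtain ⟨a, ha, rfl⟩ := H69.mem_cj'.1 he
  rw [conj_mul, ← pow_two, N.ea.2 a ha, mul_one, mul_inv_cancel]

theorem cjn {q n : ℕ} (N : TN Q S h q n) (hn : 2 * q < n) {g : G} (hg : cj Q g ≤ 𝐍(Q)) : g ∈ 𝐍(Q) :=
  H69.mem_normalizer_of_cj_le (big N hg (sq N g) (by
    rw [H69.card_cj, N.cardQ]
    nlinarith))

end TI_

open TI_

theorem tn_le {q n : ℕ} (N : TN Q S h q n) (hn : 2 * q < n) (P : Subgroup G) (hP : IsPGroup 2 P)
    (hle : Q ≤ P) : P ≤ 𝐍(Q) := by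
  by_contra hc
  have lt : P ⊓ 𝐍(Q) < P := lt_of_le_of_ne inf_le_left fun e => hc (inf_eq_left.1 e)
  obtain ⟨g, hg, hg'⟩ := SetLike.exists_of_lt (H69.lt_inf_normalizer_of_lt hP lt)
  refine hg' ⟨hg.1, cjn N hn fun x hx => ?_⟩
  obtain ⟨a, ha, rfl⟩ := H69.mem_cj'.1 hx
  exact (H69.conj_mem_of_mem_normalizer hg.2 (⟨hle ha, le_normalizer ha⟩ : a ∈ P ⊓ 𝐍(Q))).2

theorem tn_ti {q n : ℕ} (T : Th G p) (N : TN Q S h q n) (hn : 2 * q < n) (g b : G) (h1 : b ≠ 1) (hb : b ∈ Q)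
    (hg : g * b * g⁻¹ ∈ Q) : g ∈ 𝐍(Q) := by
  have hb' : b ∈ cj Q g⁻¹ := H69.mem_cj.2 (by rwa [inv_inv])
  have c1 : ∀ B ≤ Q, Q ≤ 𝐂(B) := fun B hB => N.ea.le_cent.trans (centralizer_le hB)
  have c2 : ∀ B ≤ cj Q g⁻¹, cj Q g⁻¹ ≤ 𝐂(B) := fun B hB x hx y hy => by
    obtain ⟨a, ha, rfl⟩ := H69.mem_cj'.1 hx
    obtain ⟨c, hc, rfl⟩ := H69.mem_cj'.1 (hB hy)
    rw [conj_mul, conj_mul, N.ea.le_cent ha c hc]
  have dn : ∀ {B D : Subgroup G}, B ≤ Q → Loc B D → D ≤ 𝐍(Q) := fun {B D} hB L =>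
    le_sup_right.trans (tn_le N hn (Q ⊔ D)
      (H69.isPGroup_sup_of_le_normalizer_right N.pg L.pg ((c1 B hB).trans L.norm)) le_sup_left)
  have q4 : 1 ≤ q := by rcases N.q48 with e | e <;> omega
  obtain ⟨D, L⟩ := T.loc (zpowers b) (N.pg.to_le (zpowers_le.2 hb)) (zpowers_ne_bot.2 h1)
  have i1 := L.idx (cj Q g⁻¹) (N.pg.map _) (c2 _ (zpowers_le.2 hb'))
  rw [H69.card_cj, N.cardQ] at i1
  have i2 : q * n < Nat.card ↥(cj Q g⁻¹ ⊓ D) := by nlinarith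
  have i3 : cj Q g⁻¹ ⊓ D ≤ Q := big N (inf_le_right.trans (dn (zpowers_le.2 hb) L))
    (fun e he => sq N g⁻¹ e he.1) i2
  have i4 : n < Nat.card ↥(Q ⊓ cj Q g⁻¹) :=
    lt_of_lt_of_le (lt_of_le_of_lt (Nat.le_mul_of_pos_left n q4) i2) (cle (le_inf i3 inf_le_left))
  obtain ⟨D0, L0⟩ := T.loc (Q ⊓ cj Q g⁻¹) (N.pg.to_le inf_le_left) fun e => h1 (by
    have : b ∈ Q ⊓ cj Q g⁻¹ := ⟨hb, hb'⟩
    rwa [e, mem_bot] at this)
  have d0 := dn inf_le_left L0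
  have s1 : ∀ u ∈ D0, u * u ∈ Q → u ∈ Q := fun u hu uu => by
    by_contra uQ
    have e := N.free u (d0 hu) uQ uu
    have : Nat.card ↥(Q ⊓ cj Q g⁻¹) ≤ Nat.card ↥(Q ⊓ Ce u) := cle fun x hx => ⟨hx.1, mc.2 (L0.le hu x hx)⟩
    omega
  have s2 : ∀ j : ℕ, ∀ d ∈ D0, d ^ 2 ^ j ∈ Q → d ∈ Q := fun j d hd => by
    induction j with
    | zero => simp
    | succ j ih =>
      intro e
      rw [pow_succ, pow_mul, pow_two] at e
      exact ih (s1 _ (pow_mem hd _) e)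
  have s3 : D0 ≤ Q := fun d hd => by
    obtain ⟨j, hj⟩ := L0.pg ⟨d, hd⟩
    exact s2 j d hd (by rw [show d ^ 2 ^ j = 1 from congrArg Subtype.val hj]; exact one_mem _)
  have s4 : D0 = Q := le_antisymm s3 ((le_inf (c1 _ inf_le_left) (c1 _ s3)).trans L0.sc)
  have := L0.norm
  rw [s4] at this
  exact (inv_mem_iff.1 (cjn N hn ((c2 _ inf_le_right).trans this)))

end K3P
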